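import Mathlib
import Cfsg.Agent.Lib.Char.CliffordCorr
import Cfsg.Agent.Lib.Char.DegDvd

/-!
# Counting characters lying over a character, ambient form

`ci` is the inner product without a chosen `Fintype` instance, `Over j χ θ` says that `θ` is a
constituent of `χ ∘ j`.  `compare_card` is the double counting which compares two sets of characters
through their constituents on normal subgroups.
-/

set_option autoImplicit false
set_option linter.style.haveILetI false
set_option linter.unusedSectionVars false

namespace Cfsg.Agent.Lib.RelMcKay.Basic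

open Cfsg Module
open Cfsg.Agent.Lib.Char.Basic Cfsg.Agent.Lib.Char.Ortho Cfsg.Agent.Lib.Char.Complete
open Cfsg.Agent.Lib.Char.Conj Cfsg.Agent.Lib.Char.Clifford Cfsg.Agent.Lib.Char.CliffordCorr
open scoped ComplexConjugate

universe u

/-- The inner product of two functions on a finite group, instance free. -/
noncomputable def ci {K : Type u} [Group K] [Finite K] (φ ψ : K → ℂ) : ℂ :=
  @classInner K _ (Fintype.ofFinite K) φ ψ

theorem ci_eq {K : Type u} [Group K] [inst : Fintype K] (φ ψ : K → ℂ) : ci φ ψ = classInner φ ψ := by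
  unfold ci
  have : Fintype.ofFinite K = inst := Subsingleton.elim _ _
  rw [this]

/-- `θ` is a constituent of `χ ∘ j`. -/
def Over {Y K : Type u} [Group Y] [Group K] [Finite K] (j : K →* Y) (χ : Y → ℂ) (θ : K → ℂ) : Prop :=
  ci (χ ∘ j) θ ≠ 0

section Compare

variable {C X : Type*} [Finite C] [Finite X]

open Classical in
/-- The double counting formula. -/
theorem count_formula [Fintype C] [Fintype X] (R : C → X → Prop) (r : X → X → Prop)
    (h1 : ∀ c, ∃ x, R c x) (h2 : ∀ c x₀ x, R c x₀ → (R c x ↔ r x₀ x)) :
    (Fintype.card C : ℚ) = ∑ x : X, ((Finset.univ.filter (fun c => R c x)).card : ℚ) /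
      ((Finset.univ.filter (fun y => r x y)).card : ℚ) := by
  have h3 : ∀ x : X, ((Finset.univ.filter (fun c => R c x)).card : ℚ) /
      ((Finset.univ.filter (fun y => r x y)).card : ℚ) =
      ∑ c ∈ Finset.univ.filter (fun c => R c x),
        (1 / ((Finset.univ.filter (fun y => r x y)).card : ℚ)) := by
    intro x
    rw [Finset.sum_const, nsmul_eq_mul]
    ring
  simp_rw [h3, Finset.sum_filter]
  rw [Finset.sum_comm]
  have h4 : ∀ c : C, (∑ x : X, if R c x then
      (1 / ((Finset.univ.filter (fun y => r x y)).card : ℚ)) else 0) = 1 := by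
    intro c
    obtain ⟨x₀, hx₀⟩ := h1 c
    have hset : ∀ x, R c x → Finset.univ.filter (fun y => r x y) =
        Finset.univ.filter (fun y => R c y) := by
      intro x hx
      ext y
      simp only [Finset.mem_filter, Finset.mem_univ, true_and]
      exact (h2 c x y hx).symm
    rw [← Finset.sum_filter]
    rw [Finset.sum_congr rfl (fun x hx => by
      rw [hset x (Finset.mem_filter.mp hx).2])]
    rw [Finset.sum_const, nsmul_eq_mul]
    have hpos : 0 < (Finset.univ.filter (fun y => R c y)).card :=
      Finset.card_pos.mpr ⟨x₀, by simp [hx₀]⟩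
    have : ((Finset.univ.filter (fun y => R c y)).card : ℚ) ≠ 0 := by
      exact_mod_cast hpos.ne'
    field_simp
  simp_rw [h4]
  simp

open Classical in
/-- Two sets of characters compared through constituents. -/
theorem compare_card {C' X' : Type*} [Finite C'] [Finite X']
    (R : C → X → Prop) (R' : C' → X' → Prop) (r : X → X → Prop) (r' : X' → X' → Prop)
    (Φ : X ≃ X') (h1 : ∀ c, ∃ x, R c x) (h1' : ∀ c, ∃ x, R' c x)
    (h2 : ∀ c x₀ x, R c x₀ → (R c x ↔ r x₀ x)) (h2' : ∀ c x₀ x, R' c x₀ → (R' c x ↔ r' x₀ x))
    (h3 : ∀ x y, r x y ↔ r' (Φ x) (Φ y))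
    (h4 : ∀ x, Nat.card {c // R c x} = Nat.card {c // R' c (Φ x)}) :
    Nat.card C = Nat.card C' := by
  letI := Fintype.ofFinite C
  letI := Fintype.ofFinite C'
  letI := Fintype.ofFinite X
  letI := Fintype.ofFinite X'
  have e1 := count_formula R r h1 h2
  have e2 := count_formula R' r' h1' h2'
  have e3 : (Fintype.card C : ℚ) = (Fintype.card C' : ℚ) := by
    rw [e1, e2]
    refine Fintype.sum_equiv Φ _ _ fun x => ?_
    congr 2
    · have h5 := h4 x
      rw [Nat.card_eq_fintype_card, Nat.card_eq_fintype_card, Fintype.card_subtype,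
        Fintype.card_subtype] at h5
      exact h5
    · have : (Finset.univ.filter (fun y => r x y)).map Φ.toEmbedding =
          Finset.univ.filter (fun y => r' (Φ x) y) := by
        ext y
        simp only [Finset.mem_map, Finset.mem_filter, Finset.mem_univ, true_and,
          Equiv.coe_toEmbedding]
        constructor
        · rintro ⟨a, ha, rfl⟩
          exact (h3 x a).mp ha
        · intro h
          refine ⟨Φ.symm y, ?_, Φ.apply_symm_apply y⟩
          rw [h3, Φ.apply_symm_apply]
          exact h
      rw [← this, Finset.card_map]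
  rw [Nat.card_eq_fintype_card, Nat.card_eq_fintype_card]
  exact_mod_cast e3

end Compare

end Cfsg.Agent.Lib.RelMcKay.Basic
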