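import Mathlib
import Cfsg.Agent.Lib.RelMcKay.Basic
import Cfsg.Agent.Lib.Char.Induced
import Cfsg.Agent.Lib.Char.Degree
import Cfsg.Prelude.Def_BlockLocal

/-!
# Clifford theory for subgroups of an ambient group
-/

set_option autoImplicit false
set_option linter.style.haveILetI false
set_option linter.unusedSectionVars false

namespace Cfsg.Agent.Lib.RelMcKay.Cliff

open Cfsg Module
open Cfsg.Agent.Lib.Char.Basic Cfsg.Agent.Lib.Char.Ortho Cfsg.Agent.Lib.Char.Complete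
open Cfsg.Agent.Lib.Char.Conj Cfsg.Agent.Lib.Char.Clifford Cfsg.Agent.Lib.Char.CliffordCorr
open Cfsg.Agent.Lib.RelMcKay.Basic Cfsg.Agent.Lib.Char.Degree
open scoped ComplexConjugate

universe u

variable {Γ : Type u} [Group Γ] {Y K : Subgroup Γ}

/-- The copy of `K` in `Y`. -/
abbrev ee (h : K ≤ Y) : ↥(K.subgroupOf Y) ≃* K := Subgroup.subgroupOfEquivOfLe h

theorem normal_of_le (h : K ≤ Y) (hn : Y ≤ Subgroup.normalizer (K : Set Γ)) :
    (K.subgroupOf Y).Normal :=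
  (Subgroup.normal_subgroupOf_iff_le_normalizer h).mpr hn

theorem ee_comp (h : K ≤ Y) (χ : Y → ℂ) :
    (χ ∘ Subgroup.inclusion h) ∘ ee h = fun n : ↥(K.subgroupOf Y) => χ n := by
  funext n
  rfl

variable [Finite Γ]

theorem over_iff [Fintype Y] [Fintype ↥(K.subgroupOf Y)] (h : K ≤ Y) (χ : Y → ℂ) (θ : K → ℂ) :
    Over (Subgroup.inclusion h) χ θ ↔
      classInner (fun n : ↥(K.subgroupOf Y) => χ n) (θ ∘ ee h) ≠ 0 := by
  letI : Fintype K := Fintype.ofFinite K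
  unfold Over
  rw [ci_eq, ← ee_comp h χ, classInner_comp_mulEquiv]

theorem isIrr_ee (h : K ≤ Y) {θ : K → ℂ} (hθ : IsIrrCharacter K θ) :
    IsIrrCharacter ↥(K.subgroupOf Y) (θ ∘ ee h) := isIrrCharacter_comp_mulEquiv (ee h) hθ

omit [Finite Γ] in
theorem cj_iff (h : K ≤ Y) (hN : (K.subgroupOf Y).Normal) (y : Y) (θ₀ θ₁ : K → ℂ) :
    IsConjCharOf K (y : Γ) θ₀ θ₁ ↔ conjOn hN y⁻¹ (θ₀ ∘ ee h) = θ₁ ∘ ee h := by
  constructor
  · intro hc
    funext n
    simp only [conjOn_apply, Function.comp]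
    symm
    apply hc
    show ((n : Y) : Γ) = y * ((y⁻¹ * n * y⁻¹⁻¹ : Y) : Γ) * (y : Γ)⁻¹
    simp [mul_assoc]
  · intro hc k k' hk
    have hmem : (⟨k', h k'.2⟩ : Y) ∈ K.subgroupOf Y := k'.2
    have h1 := congrFun hc ⟨⟨k', h k'.2⟩, hmem⟩
    simp only [conjOn_apply, Function.comp] at h1
    have h2 : (ee h) ⟨⟨k', h k'.2⟩, hmem⟩ = k' := Subtype.ext rfl
    rw [h2] at h1
    rw [← h1]
    congr 1
    apply Subtype.ext
    show y⁻¹.1 * (k' : Γ) * (y : Γ)⁻¹⁻¹ = k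
    rw [hk]
    simp [mul_assoc]

theorem over_iff_conj (h : K ≤ Y) (hn : Y ≤ Subgroup.normalizer (K : Set Γ)) {χ : Y → ℂ}
    (hχ : IsIrrCharacter Y χ) {θ₀ θ₁ : K → ℂ} (hθ₀ : IsIrrCharacter K θ₀)
    (hθ₁ : IsIrrCharacter K θ₁) (h₀ : Over (Subgroup.inclusion h) χ θ₀) :
    Over (Subgroup.inclusion h) χ θ₁ ↔ ∃ y ∈ Y, IsConjCharOf K y θ₀ θ₁ := by
  classical
  letI : Fintype Y := Fintype.ofFinite Y
  letI : Fintype ↥(K.subgroupOf Y) := Fintype.ofFinite _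
  have hN := normal_of_le h hn
  rw [over_iff] at h₀ ⊢
  constructor
  · intro h₁
    by_contra hcon
    push Not at hcon
    apply h₁
    refine classInner_restrict_eq_zero_of_not_conj hN hχ (isIrr_ee h hθ₀) (isIrr_ee h hθ₁) h₀ ?_
    intro g hg
    apply hcon (g⁻¹ : Y) (g⁻¹ : Y).2
    rw [cj_iff h hN (g⁻¹ : Y), inv_inv]
    exact hg
  · rintro ⟨y, hy, hc⟩
    rw [cj_iff h hN ⟨y, hy⟩] at hc
    rw [← hc, classInner_restrict_conjOn hN (isClassFunction_of_isIrrCharacter hχ)]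
    exact h₀

/-- A constituent exists. -/
theorem exists_over (h : K ≤ Y) {χ : Y → ℂ} (hχ : IsIrrCharacter Y χ) :
    ∃ θ : K → ℂ, IsIrrCharacter K θ ∧ Over (Subgroup.inclusion h) χ θ := by
  classical
  letI : Fintype K := Fintype.ofFinite K
  have hc : IsCharacter K (χ ∘ Subgroup.inclusion h) :=
    isCharacter_comp _ (isCharacter_of_isIrrCharacter hχ)
  have hne : χ ∘ Subgroup.inclusion h ≠ 0 := by
    intro h0
    have h1 := congrFun h0 1
    simp only [Function.comp, map_one, Pi.zero_apply] at h1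
    exact irr_one_ne_zero hχ h1
  obtain ⟨θ, hθ, hθc⟩ := exists_irr_constituent (isClassFunction_of_isCharacter hc) hne
  refine ⟨θ, hθ, ?_⟩
  unfold Over
  rw [ci_eq]
  exact hθc

/-- Transitivity of lying over. -/
theorem over_trans {K₀ K₁ : Subgroup Γ} (h₁ : K₁ ≤ Y) (h₀ : K₀ ≤ K₁) {χ : Y → ℂ}
    (hχ : IsCharacter Y χ) {θ₁ : K₁ → ℂ} (hθ₁ : IsIrrCharacter K₁ θ₁) {θ₀ : K₀ → ℂ}
    (hθ₀ : IsCharacter K₀ θ₀) (h : Over (Subgroup.inclusion h₁) χ θ₁)
    (h' : Over (Subgroup.inclusion h₀) θ₁ θ₀) : Over (Subgroup.inclusion (h₀.trans h₁)) χ θ₀ := by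
  letI : Fintype K₁ := Fintype.ofFinite K₁
  letI : Fintype K₀ := Fintype.ofFinite K₀
  unfold Over at *
  rw [ci_eq] at *
  exact classInner_ne_zero_mono (Subgroup.inclusion h₀)
    (isCharacter_comp (Subgroup.inclusion h₁) hχ) hθ₁ h hθ₀ h'

/-- Intermediate constituents. -/
theorem exists_over_between {K₀ K₁ : Subgroup Γ} (h₁ : K₁ ≤ Y) (h₀ : K₀ ≤ K₁) {χ : Y → ℂ}
    (hχ : IsCharacter Y χ) {θ₀ : K₀ → ℂ} (h : Over (Subgroup.inclusion (h₀.trans h₁)) χ θ₀) :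
    ∃ θ₁ : K₁ → ℂ, IsIrrCharacter K₁ θ₁ ∧ Over (Subgroup.inclusion h₁) χ θ₁ ∧
      Over (Subgroup.inclusion h₀) θ₁ θ₀ := by
  classical
  letI : Fintype K₁ := Fintype.ofFinite K₁
  letI : Fintype K₀ := Fintype.ofFinite K₀
  letI : Fintype ↥(K₀.subgroupOf K₁) := Fintype.ofFinite _
  haveI := finite_irrCharacter (G := K₁)
  letI := Fintype.ofFinite (IrrCharacter K₁)
  have hc : IsCharacter K₁ (χ ∘ Subgroup.inclusion h₁) := isCharacter_comp _ hχ
  have hcf := isClassFunction_of_isCharacter hc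
  have h2 := classFunction_eq_sum hcf
  have h3 : (χ ∘ Subgroup.inclusion (h₀.trans h₁)) =
      ∑ ξ : IrrCharacter K₁, classInner (χ ∘ Subgroup.inclusion h₁) (ξ : K₁ → ℂ) •
        ((ξ : K₁ → ℂ) ∘ Subgroup.inclusion h₀) := by
    funext d
    have := congrFun h2 (Subgroup.inclusion h₀ d)
    simp only [Finset.sum_apply, Pi.smul_apply, smul_eq_mul, Function.comp] at this ⊢
    exact this
  unfold Over at h
  rw [ci_eq, h3, classInner_sum_left] at h
  obtain ⟨ξ, -, hξ⟩ := Finset.exists_ne_zero_of_sum_ne_zero h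
  rw [classInner_smul_left] at hξ
  refine ⟨ξ, ξ.2, ?_, ?_⟩
  · unfold Over
    rw [ci_eq]
    exact left_ne_zero_of_mul hξ
  · unfold Over
    rw [ci_eq]
    exact right_ne_zero_of_mul hξ

/-- A character of degree prime to `p` has a constituent invariant under a `p`-subgroup. -/
theorem exists_fixed_over {p : ℕ} [Fact p.Prime] (h : K ≤ Y) (hn : Y ≤ Subgroup.normalizer (K : Set Γ))
    {χ : Y → ℂ} (hχ : IsIrrCharacter Y χ) (hp : ¬ p ∣ charDegree χ) {θ₀ : K → ℂ}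
    (hθ₀ : IsIrrCharacter K θ₀) (h₀ : Over (Subgroup.inclusion h) χ θ₀) {S : Subgroup Γ}
    (hSY : S ≤ Y) (hS : IsPGroup p S) :
    ∃ y ∈ Y, ∃ θ₁ : K → ℂ, IsIrrCharacter K θ₁ ∧ IsConjCharOf K y θ₀ θ₁ ∧
      ∀ s ∈ S, IsConjCharOf K s θ₁ θ₁ := by
  classical
  letI : Fintype Y := Fintype.ofFinite Y
  letI : Fintype ↥(K.subgroupOf Y) := Fintype.ofFinite _
  have hN := normal_of_le h hn
  rw [over_iff] at h₀
  have hcl := clifford_restrict hN hχ (isIrr_ee h hθ₀) h₀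
  set O := orbitFinset hN (θ₀ ∘ ee h) with hO
  have hO1 : ∀ ψ ∈ O, ψ 1 = (θ₀ ∘ ee h) 1 := by
    intro ψ hψ
    obtain ⟨g, rfl⟩ := (mem_orbitFinset hN _ _).mp hψ
    show (θ₀ ∘ ee h) _ = (θ₀ ∘ ee h) 1
    congr 1
    apply Subtype.ext
    simp
  have hχ1 : χ 1 = classInner (fun n : ↥(K.subgroupOf Y) => χ n) (θ₀ ∘ ee h) * (O.card * θ₀ 1) := by
    have h1 := congrFun hcl 1
    simp only [Pi.smul_apply, smul_eq_mul, Finset.sum_apply] at h1
    have h2 : ∑ ψ ∈ O, ψ 1 = O.card * θ₀ 1 := by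
      rw [Finset.sum_congr rfl hO1, Finset.sum_const, nsmul_eq_mul]
      simp
    rw [h2] at h1
    simpa using h1
  -- the multiplicity and the degree are natural numbers
  have hY' := isCharacter_of_isIrrCharacter hχ
  obtain ⟨m, hm⟩ := exists_nat_classInner
    (isCharacter_comp (K.subgroupOf Y).subtype hY') (isCharacter_of_isIrrCharacter (isIrr_ee h hθ₀))
  have hm' : classInner (fun n : ↥(K.subgroupOf Y) => χ n) (θ₀ ∘ ee h) = m := hm
  obtain ⟨d, hd⟩ := exists_deg_of_isCharacter (isCharacter_of_isIrrCharacter hθ₀)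
  have hdeg : (charDegree χ : ℂ) = χ 1 := charDegree_natCast hY'
  have hdvd : O.card ∣ charDegree χ := by
    rw [hχ1, hm', hd] at hdeg
    have : charDegree χ = m * (O.card * d) := by exact_mod_cast hdeg
    rw [this]
    exact ⟨m * d, by ring⟩
  have hpO : ¬ p ∣ O.card := fun hc => hp (hc.trans hdvd)
  -- the action
  let S' : Subgroup Y := S.subgroupOf Y
  haveI : Finite S' := inferInstance
  have hS' : IsPGroup p S' := by
    have : IsPGroup p ↥(S.subgroupOf Y) :=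
      hS.of_equiv (Subgroup.subgroupOfEquivOfLe hSY).symm
    exact this
  letI : MulAction S' O :=
    { smul := fun s ψ => ⟨conjOn hN ((s : Y)⁻¹) ψ.1, by
        obtain ⟨g, hg⟩ := (mem_orbitFinset hN _ _).mp ψ.2
        refine (mem_orbitFinset hN _ _).mpr ⟨g * (s : Y)⁻¹, ?_⟩
        rw [conjOn_mul, hg]⟩
      one_smul := fun ψ => by
        apply Subtype.ext
        show conjOn hN ((1 : S') : Y)⁻¹ ψ.1 = ψ.1
        simp [conjOn_one]
      mul_smul := fun a b ψ => by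
        apply Subtype.ext
        show conjOn hN ((a * b : S') : Y)⁻¹ ψ.1 = conjOn hN (a : Y)⁻¹ (conjOn hN (b : Y)⁻¹ ψ.1)
        rw [← conjOn_mul]
        congr 1
        simp }
  have hcardO : ¬ p ∣ Nat.card O := by
    rw [Nat.card_eq_fintype_card, Fintype.card_coe]
    exact hpO
  obtain ⟨ψ, hψ⟩ := hS'.nonempty_fixed_point_of_prime_not_dvd_card (α := O) hcardO
  obtain ⟨g, hg⟩ := (mem_orbitFinset hN _ _).mp ψ.2
  have hirr : IsIrrCharacter ↥(K.subgroupOf Y) ψ.1 := by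
    rw [← hg]
    exact isIrrCharacter_conjOn hN g (isIrr_ee h hθ₀)
  refine ⟨((g⁻¹ : Y) : Γ), (g⁻¹ : Y).2, ψ.1 ∘ (ee h).symm, ?_, ?_, ?_⟩
  · exact isIrrCharacter_comp_mulEquiv (ee h).symm hirr
  · rw [cj_iff h hN (g⁻¹ : Y), inv_inv, hg]
    funext n
    simp
  · intro s hs
    have hsY := hSY hs
    rw [cj_iff h hN ⟨s, hsY⟩]
    have h3 := hψ ⟨⟨s, hsY⟩, hs⟩
    have h4 : conjOn hN ((⟨s, hsY⟩ : Y))⁻¹ ψ.1 = ψ.1 := congrArg Subtype.val h3
    have h5 : ψ.1 ∘ (ee h).symm ∘ ee h = ψ.1 := by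
      funext n
      simp
    have h6 : (ψ.1 ∘ ⇑(ee h).symm) ∘ ee h = ψ.1 := h5
    rw [h6, h4]

end Cfsg.Agent.Lib.RelMcKay.Cliff
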