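import Mathlib
import Cfsg.Agent.Lib.RelMcKay.Cliff

/-!
# The Clifford correspondence for subgroups of an ambient group
-/

set_option autoImplicit false
set_option linter.style.haveILetI false
set_option linter.unusedSectionVars false

namespace Cfsg.Agent.Lib.RelMcKay.Stab

open Cfsg Module
open Cfsg.Agent.Lib.Char.Basic Cfsg.Agent.Lib.Char.Ortho Cfsg.Agent.Lib.Char.Complete
open Cfsg.Agent.Lib.Char.Conj Cfsg.Agent.Lib.Char.Clifford Cfsg.Agent.Lib.Char.CliffordCorr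
open Cfsg.Agent.Lib.Char.Induced
open Cfsg.Agent.Lib.RelMcKay.Basic Cfsg.Agent.Lib.RelMcKay.Cliff
open scoped ComplexConjugate

universe u

variable {Γ : Type u} [Group Γ] {Y K : Subgroup Γ}

/-- The stabilizer of a function on a subgroup. -/
def stabSub (K : Subgroup Γ) (θ : K → ℂ) : Subgroup Γ where
  carrier := {g | g ∈ Subgroup.normalizer (K : Set Γ) ∧ IsConjCharOf K g θ θ}
  one_mem' := ⟨Subgroup.one_mem _, fun k k' h => by
    congr 1
    apply Subtype.ext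
    rw [h]
    simp⟩
  mul_mem' := by
    rintro a b ⟨ha, ha'⟩ ⟨hb, hb'⟩
    refine ⟨Subgroup.mul_mem _ ha hb, fun k k' h => ?_⟩
    have hk1 : (b * k * b⁻¹ : Γ) ∈ K := (Subgroup.mem_normalizer_iff.mp hb k).mp k.2
    rw [ha' ⟨_, hk1⟩ k' (by rw [h]; simp [mul_assoc]), hb' k ⟨_, hk1⟩ rfl]
  inv_mem' := by
    rintro a ⟨ha, ha'⟩
    refine ⟨Subgroup.inv_mem _ ha, fun k k' h => ?_⟩
    exact (ha' k' k (by rw [h]; group)).symm

omit [Group Γ] in
theorem mem_stabSub [Group Γ] {K : Subgroup Γ} {θ : K → ℂ} {g : Γ} :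
    g ∈ stabSub K θ ↔ g ∈ Subgroup.normalizer (K : Set Γ) ∧ IsConjCharOf K g θ θ := Iff.rfl

/-- `K` is in the stabilizer of a class function. -/
theorem le_stabSub {θ : K → ℂ} (hθ : IsClassFunction K θ) : K ≤ stabSub K θ := by
  intro g hg
  refine ⟨K.le_normalizer hg, fun k k' h => ?_⟩
  have := hθ k ⟨g, hg⟩
  rw [← this]
  congr 1
  exact Subtype.ext (by rw [h]; rfl)

variable [Finite Γ]

/-- Injectivity of induction from the inertia group. -/
theorem ind_inj {G : Type u} [Group G] [Fintype G] {N : Subgroup G} [Fintype N] (hN : N.Normal)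
    {T : Subgroup G} [Fintype T] (hNT : N ≤ T) {ϑ : N → ℂ}
    (hϑ : IsIrrCharacter N ϑ) (hT : T = inertia hN ϑ) {ψ₁ ψ₂ : T → ℂ}
    (h₁ : IsIrrCharacter T ψ₁) (h₂ : IsIrrCharacter T ψ₂)
    (hc₁ : classInner (res hNT ψ₁) ϑ ≠ 0) (hc₂ : classInner (res hNT ψ₂) ϑ ≠ 0)
    (heq : indFun T ψ₁ = indFun T ψ₂) : ψ₁ = ψ₂ := by
  classical
  by_contra hne
  obtain ⟨hχ, he₁⟩ := isIrrCharacter_indFun_of_lies_over hN hNT hϑ hT h₁ hc₁
  obtain ⟨-, he₂⟩ := isIrrCharacter_indFun_of_lies_over hN hNT hϑ hT h₂ hc₂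
  set χ := indFun T ψ₁ with hχdef
  rw [← heq] at he₂
  have hχc := isCharacter_of_isIrrCharacter hχ
  have hχcf := isClassFunction_of_isCharacter hχc
  have hT' : IsCharacter T (fun t : T => χ t) := isCharacter_restrict T hχc
  haveI := finite_irrCharacter (G := T)
  letI := Fintype.ofFinite (IrrCharacter T)
  have hsum := classInner_res_eq_sum (N := N) (T := T) hNT hχcf ϑ
  have hf₁ : classInner (fun t : T => χ t) ψ₁ = 1 := by
    have h1 := classInner_indFun_left T ψ₁ χ hχcf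
    rw [← hχdef, classInner_self_of_isIrr hχ] at h1
    rw [← classInner_conj, ← h1]
    simp
  have hf₂ : classInner (fun t : T => χ t) ψ₂ = 1 := by
    have h1 := classInner_indFun_left T ψ₂ χ hχcf
    rw [← heq, classInner_self_of_isIrr hχ] at h1
    rw [← classInner_conj, ← h1]
    simp
  -- naturals
  have hm : ∀ ψ : IrrCharacter T, ∃ m : ℕ, classInner (fun t : T => χ t) (ψ : T → ℂ) = m := fun ψ =>
    exists_nat_classInner hT' (isCharacter_of_isIrrCharacter ψ.2)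
  have hn : ∀ ψ : IrrCharacter T, ∃ m : ℕ, classInner (res hNT (ψ : T → ℂ)) ϑ = m := fun ψ =>
    exists_nat_classInner (isCharacter_comp (Subgroup.inclusion hNT)
      (isCharacter_of_isIrrCharacter ψ.2)) (isCharacter_of_isIrrCharacter hϑ)
  choose m hm using hm
  choose n hn using hn
  have hsum' : classInner (fun x : N => χ x) ϑ = ((∑ ψ : IrrCharacter T, m ψ * n ψ : ℕ) : ℂ) := by
    rw [hsum]
    push_cast
    exact Finset.sum_congr rfl fun ψ _ => by rw [hm, hn]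
  let a₁ : IrrCharacter T := ⟨ψ₁, h₁⟩
  let a₂ : IrrCharacter T := ⟨ψ₂, h₂⟩
  have hne' : a₁ ≠ a₂ := fun h => hne (congrArg Subtype.val h)
  have hle : m a₁ * n a₁ + m a₂ * n a₂ ≤ ∑ ψ : IrrCharacter T, m ψ * n ψ := by
    rw [← Finset.sum_pair (f := fun ψ => m ψ * n ψ) hne']
    exact Finset.sum_le_sum_of_subset (Finset.subset_univ _)
  have hm₁ : m a₁ = 1 := by
    have h3 := hm a₁
    rw [show ((a₁ : IrrCharacter T) : T → ℂ) = ψ₁ from rfl, hf₁] at h3
    exact_mod_cast h3.symm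
  have hm₂ : m a₂ = 1 := by
    have h3 := hm a₂
    rw [show ((a₂ : IrrCharacter T) : T → ℂ) = ψ₂ from rfl, hf₂] at h3
    exact_mod_cast h3.symm
  have hn₁ : ((n a₁ : ℕ) : ℂ) = classInner (fun x : N => χ x) ϑ := by
    rw [← hn a₁]
    exact he₁.symm
  have hn₂ : ((n a₂ : ℕ) : ℂ) = classInner (fun x : N => χ x) ϑ := by
    rw [← hn a₂]
    exact he₂.symm
  rw [hm₁, hm₂, one_mul, one_mul] at hle
  have h4 : ((∑ ψ : IrrCharacter T, m ψ * n ψ : ℕ) : ℂ) = (n a₁ : ℂ) := by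
    rw [hn₁, hsum']
  have h5 : (∑ ψ : IrrCharacter T, m ψ * n ψ : ℕ) = n a₁ := by exact_mod_cast h4
  have h6 : n a₁ = n a₂ := by
    have : ((n a₁ : ℕ) : ℂ) = (n a₂ : ℂ) := by rw [hn₁, hn₂]
    exact_mod_cast this
  have h7 : n a₁ = 0 := by omega
  apply hc₁
  have h8 := hn a₁
  rw [h7] at h8
  simpa using h8

/-- The Clifford correspondence, ambient form. -/
theorem clifford_equiv (h : K ≤ Y) (hn : Y ≤ Subgroup.normalizer (K : Set Γ)) {θ : K → ℂ}
    (hθ : IsIrrCharacter K θ) {T : Subgroup Γ} (hT : T = Y ⊓ stabSub K θ) (hKT : K ≤ T) :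
    ∃ f : {ψ : IrrCharacter T // Over (Subgroup.inclusion hKT) (ψ : T → ℂ) θ} ≃
        {χ : IrrCharacter Y // Over (Subgroup.inclusion h) (χ : Y → ℂ) θ},
      ∀ ψ, ((f ψ).1 : Y → ℂ) 1 = (T.relIndex Y : ℂ) * (ψ.1 : T → ℂ) 1 := by
  classical
  letI : Fintype Y := Fintype.ofFinite Y
  letI : Fintype ↥(K.subgroupOf Y) := Fintype.ofFinite _
  letI : Fintype K := Fintype.ofFinite K
  have hN := normal_of_le h hn
  have hTY : T ≤ Y := by
    rw [hT]
    exact inf_le_left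
  set θ' : ↥(K.subgroupOf Y) → ℂ := θ ∘ ee h with hθ'
  have hθ'irr : IsIrrCharacter _ θ' := isIrr_ee h hθ
  let T₀ : Subgroup Y := inertia hN θ'
  letI : Fintype T₀ := Fintype.ofFinite _
  letI : Fintype T := Fintype.ofFinite _
  have hNT₀ : K.subgroupOf Y ≤ T₀ := le_inertia hN (isClassFunction_of_isIrrCharacter hθ'irr)
  have hmemT₀ : ∀ y : Y, y ∈ T₀ ↔ (y : Γ) ∈ T := by
    intro y
    have h1 : y ∈ T₀ ↔ conjOn hN y θ' = θ' := Iff.rfl
    have h2 := cj_iff h hN y⁻¹ θ θ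
    rw [inv_inv] at h2
    rw [h1, ← h2, hT]
    constructor
    · intro h3
      refine ⟨y.2, ?_⟩
      have h4 : ((y⁻¹ : Y) : Γ) ∈ stabSub K θ := ⟨Subgroup.inv_mem _ (hn y.2), h3⟩
      have h5 := (stabSub K θ).inv_mem h4
      simpa using h5
    · rintro ⟨-, h3⟩
      have h5 := (stabSub K θ).inv_mem h3
      exact h5.2
  let E : T₀ ≃* T :=
    { toFun := fun x => ⟨x.1.1, (hmemT₀ x.1).mp x.2⟩
      invFun := fun x => ⟨⟨x.1, hTY x.2⟩, (hmemT₀ _).mpr x.2⟩
      left_inv := fun x => rfl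
      right_inv := fun x => rfl
      map_mul' := fun a b => rfl }
  -- translation of lying over
  have hres : ∀ ψ : T → ℂ, classInner (res hNT₀ (ψ ∘ E)) θ' =
      ci (ψ ∘ Subgroup.inclusion hKT) θ := by
    intro ψ
    rw [ci_eq]
    have h1 : res hNT₀ (ψ ∘ E) = (ψ ∘ Subgroup.inclusion hKT) ∘ ee h := by
      funext n
      rfl
    rw [h1, hθ', classInner_comp_mulEquiv]
  have hirrE : ∀ ψ : T → ℂ, IsIrrCharacter T ψ → IsIrrCharacter T₀ (ψ ∘ E) :=
    fun ψ hψ => isIrrCharacter_comp_mulEquiv E hψ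
  let F : {ψ : IrrCharacter T // Over (Subgroup.inclusion hKT) (ψ : T → ℂ) θ} →
      {χ : IrrCharacter Y // Over (Subgroup.inclusion h) (χ : Y → ℂ) θ} := fun ψ =>
    ⟨⟨indFun T₀ ((ψ.1 : T → ℂ) ∘ E), (isIrrCharacter_indFun_of_lies_over hN hNT₀ hθ'irr rfl
      (hirrE _ ψ.1.2) (by rw [hres]; exact ψ.2)).1⟩, by
      rw [over_iff]
      rw [(isIrrCharacter_indFun_of_lies_over hN hNT₀ hθ'irr rfl
        (hirrE _ ψ.1.2) (by rw [hres]; exact ψ.2)).2, hres]
      exact ψ.2⟩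
  have hF : Function.Bijective F := by
    constructor
    · intro a b hab
      have h1 : indFun T₀ ((a.1 : T → ℂ) ∘ E) = indFun T₀ ((b.1 : T → ℂ) ∘ E) :=
        congrArg (fun x => ((x : {χ : IrrCharacter Y // _}).1 : Y → ℂ)) hab
      have h2 := ind_inj hN hNT₀ hθ'irr rfl (hirrE _ a.1.2) (hirrE _ b.1.2)
        (by rw [hres]; exact a.2) (by rw [hres]; exact b.2) h1
      apply Subtype.ext
      apply Subtype.ext
      funext t
      have h3 := congrFun h2 (E.symm t)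
      simpa using h3
    · rintro ⟨⟨χ, hχ⟩, hover⟩
      have hover' := (over_iff h χ θ).mp hover
      obtain ⟨ψ₀, hψ₀, hind, hval⟩ := exists_irr_inertia_of_lies_over hN hNT₀ hθ'irr rfl hχ hover'
      have hcomp : (ψ₀ ∘ E.symm) ∘ E = ψ₀ := by
        funext x
        simp
      refine ⟨⟨⟨ψ₀ ∘ E.symm, isIrrCharacter_comp_mulEquiv E.symm hψ₀⟩, ?_⟩, ?_⟩
      · unfold Over
        rw [← hres, hcomp, hval]
        exact hover'
      · apply Subtype.ext
        apply Subtype.ext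
        show indFun T₀ ((ψ₀ ∘ E.symm) ∘ E) = χ
        rw [hcomp, hind]
  refine ⟨Equiv.ofBijective F hF, fun ψ => ?_⟩
  show indFun T₀ ((ψ.1 : T → ℂ) ∘ E) 1 = _
  rw [indFun_one]
  have h1 : T₀.index = T.relIndex Y := by
    have h2 : T₀ = T.subgroupOf Y := by
      ext y
      rw [hmemT₀, Subgroup.mem_subgroupOf]
    rw [h2]
    rfl
  rw [h1]
  show (T.relIndex Y : ℂ) * ((ψ.1 : T → ℂ) (E 1)) = _
  rw [map_one]

end Cfsg.Agent.Lib.RelMcKay.Stab
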