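import Mathlib
import Cfsg.Agent.Lib.RelMcKay.Stab
import Cfsg.Agent.Lib.Coprime.Action
import Cfsg.Agent.Lib.Core.PSolvable

/-!
# The main induction for the relative McKay count
-/

set_option autoImplicit false
set_option linter.style.haveILetI false
set_option linter.unusedSectionVars false

namespace Cfsg.Agent.Lib.RelMcKay.Induct

open Cfsg Module Pointwise
open Cfsg.Agent.Lib.Char.Basic Cfsg.Agent.Lib.Char.Ortho Cfsg.Agent.Lib.Char.Complete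
open Cfsg.Agent.Lib.Char.Conj Cfsg.Agent.Lib.Char.Clifford Cfsg.Agent.Lib.Char.CliffordCorr
open Cfsg.Agent.Lib.Char.Degree
open Cfsg.Agent.Lib.RelMcKay.Basic Cfsg.Agent.Lib.RelMcKay.Cliff Cfsg.Agent.Lib.RelMcKay.Stab
open Cfsg.Agent.Lib.Coprime.Action Cfsg.Agent.Lib.Coprime.SchurZassenhaus
open Cfsg.Agent.Lib.Core.PSolvable
open scoped ComplexConjugate

universe u

variable {Γ : Type u} [Group Γ]

/-- Conjugation by a normalizing element, as an automorphism. -/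
def cjEquiv {K : Subgroup Γ} {g : Γ} (hg : g ∈ Subgroup.normalizer (K : Set Γ)) : K ≃* K where
  toFun k := ⟨g * k * g⁻¹, (Subgroup.mem_normalizer_iff.mp hg k).mp k.2⟩
  invFun k := ⟨g⁻¹ * k * g, by
    have h := (Subgroup.mem_normalizer_iff.mp (Subgroup.inv_mem _ hg) k).mp k.2
    simpa using h⟩
  left_inv k := by
    apply Subtype.ext
    simp [mul_assoc]
  right_inv k := by
    apply Subtype.ext
    simp [mul_assoc]
  map_mul' a b := by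
    apply Subtype.ext
    simp [mul_assoc]

theorem cj_comp_cjEquiv {K : Subgroup Γ} {g : Γ} (hg : g ∈ Subgroup.normalizer (K : Set Γ))
    {θ θ' : K → ℂ} (h : IsConjCharOf K g θ θ') : θ' ∘ cjEquiv hg = θ := by
  funext k
  exact h k _ rfl

theorem isConj_of_comp {K : Subgroup Γ} {g : Γ} (hg : g ∈ Subgroup.normalizer (K : Set Γ))
    {θ θ' : K → ℂ} (h : θ' ∘ cjEquiv hg = θ) : IsConjCharOf K g θ θ' := by
  intro k k' hk
  rw [← h]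
  show θ' k' = θ' (cjEquiv hg k)
  congr 1
  exact Subtype.ext hk

theorem exists_conj_fun {K : Subgroup Γ} {g : Γ} (hg : g ∈ Subgroup.normalizer (K : Set Γ))
    (θ : K → ℂ) : IsConjCharOf K g θ (θ ∘ (cjEquiv hg).symm) := by
  apply isConj_of_comp hg
  funext k
  simp

theorem cj_mul {K : Subgroup Γ} {a b : Γ} (hb : b ∈ Subgroup.normalizer (K : Set Γ))
    {θ₁ θ₂ θ₃ : K → ℂ} (h₁ : IsConjCharOf K b θ₁ θ₂) (h₂ : IsConjCharOf K a θ₂ θ₃) :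
    IsConjCharOf K (a * b) θ₁ θ₃ := by
  intro k k' hk
  have h := (Subgroup.mem_normalizer_iff.mp hb k).mp k.2
  rw [h₂ ⟨b * k * b⁻¹, h⟩ k' (by rw [hk]; simp [mul_assoc]), h₁ k ⟨b * k * b⁻¹, h⟩ rfl]

theorem cj_inv {K : Subgroup Γ} {a : Γ} {θ₁ θ₂ : K → ℂ} (h : IsConjCharOf K a θ₁ θ₂) :
    IsConjCharOf K a⁻¹ θ₂ θ₁ := by
  intro k k' hk
  exact (h k' k (by rw [hk]; group)).symm

theorem normalizer_sup_mem {A B : Subgroup Γ} {g : Γ} (hA : g ∈ Subgroup.normalizer (A : Set Γ))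
    (hB : g ∈ Subgroup.normalizer (B : Set Γ)) : g ∈ Subgroup.normalizer ((A ⊔ B : Subgroup Γ) : Set Γ) := by
  apply mem_normalizer_of_conj_smul_eq
  rw [Subgroup.smul_sup, conj_smul_self_of_mem_normalizer hA, conj_smul_self_of_mem_normalizer hB]

variable [Finite Γ]

/-- The number of characters of degree prime to `p` over `θ`. -/
noncomputable def Cnt (p : ℕ) (Y K : Subgroup Γ) (h : K ≤ Y) (θ : K → ℂ) : ℕ :=
  Nat.card {χ : IrrCharacter Y // ¬ p ∣ charDegree (χ : Y → ℂ) ∧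
    Over (Subgroup.inclusion h) (χ : Y → ℂ) θ}

theorem Cnt_congr {p : ℕ} {Y Y' K : Subgroup Γ} (e : Y = Y') (h : K ≤ Y) (h' : K ≤ Y') (θ : K → ℂ) :
    Cnt p Y K h θ = Cnt p Y' K h' θ := by
  subst e
  rfl

/-- Conjugating a pair of characters. -/
theorem over_conj {K₀ K₁ : Subgroup Γ} (h₀ : K₀ ≤ K₁) {g : Γ}
    (hg₀ : g ∈ Subgroup.normalizer (K₀ : Set Γ)) {θ₁ θ₂ : K₁ → ℂ} {θ θ' : K₀ → ℂ}
    (h₁ : IsConjCharOf K₁ g θ₁ θ₂) (h₂ : IsConjCharOf K₀ g θ θ')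
    (hov : Over (Subgroup.inclusion h₀) θ₁ θ) : Over (Subgroup.inclusion h₀) θ₂ θ' := by
  letI : Fintype K₀ := Fintype.ofFinite K₀
  unfold Over at *
  rw [ci_eq] at *
  have e1 : (θ₂ ∘ Subgroup.inclusion h₀) ∘ cjEquiv hg₀ = θ₁ ∘ Subgroup.inclusion h₀ := by
    funext k
    exact h₁ (Subgroup.inclusion h₀ k) _ rfl
  have e2 : θ' ∘ cjEquiv hg₀ = θ := cj_comp_cjEquiv hg₀ h₂
  rw [← e1, ← e2, classInner_comp_mulEquiv] at hov
  exact hov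

/-- The Sylow argument: conjugate invariant characters are conjugate in the normalizer. -/
theorem conj_in_normalizer {p : ℕ} [Fact p.Prime] {Y K₁ S : Subgroup Γ}
    (hn₁ : Y ≤ Subgroup.normalizer (K₁ : Set Γ)) (hSY : S ≤ Y) (hSp : IsPGroup p S)
    (hSi : ¬ p ∣ S.relIndex Y) {θ₁ θ₂ : K₁ → ℂ}
    (hinv₁ : ∀ s ∈ S, IsConjCharOf K₁ s θ₁ θ₁) (hinv₂ : ∀ s ∈ S, IsConjCharOf K₁ s θ₂ θ₂) {g : Γ}
    (hg : g ∈ Y) (hc : IsConjCharOf K₁ g θ₁ θ₂) :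
    ∃ g' ∈ Y ⊓ Subgroup.normalizer ((K₁ ⊔ S : Subgroup Γ) : Set Γ), IsConjCharOf K₁ g' θ₁ θ₂ := by
  let T : Subgroup Γ := Y ⊓ stabSub K₁ θ₂
  have hTY : T ≤ Y := inf_le_left
  have hST : S ≤ T := fun s hs => ⟨hSY hs, hn₁ (hSY hs), hinv₂ s hs⟩
  have hndvd : ¬ p ∣ S.relIndex T := by
    intro hd
    apply hSi
    have := Subgroup.relIndex_mul_relIndex S T Y hST hTY
    rw [← this]
    exact hd.mul_right _
  have hS₁ : IsSylowIn p S T := ⟨hST, hSp, hndvd⟩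
  have hle : MulAut.conj g • S ≤ T := by
    intro x hx
    rw [mem_conj_smul_iff] at hx
    have hx' : x = g * (g⁻¹ * x * g) * g⁻¹ := by group
    set s := g⁻¹ * x * g with hs
    have hsY := hSY hx
    have hgn := hn₁ hg
    refine ⟨?_, ?_, ?_⟩
    · rw [hx']
      exact Y.mul_mem (Y.mul_mem hg hsY) (Y.inv_mem hg)
    · rw [hx']
      exact Subgroup.mul_mem _ (Subgroup.mul_mem _ hgn (hn₁ hsY)) (Subgroup.inv_mem _ hgn)
    · have h1 := cj_mul (Subgroup.inv_mem _ hgn) (cj_inv hc) (hinv₁ s hx)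
      have h2 := cj_mul (Subgroup.mul_mem _ (hn₁ hsY) (Subgroup.inv_mem _ hgn)) h1 hc
      rw [hx']
      simpa [mul_assoc] using h2
  have hS₂ : IsSylowIn p (MulAut.conj g • S) T := by
    refine ⟨hle, hSp.map _, ?_⟩
    rw [relIndex_eq_of_card_eq hle hST (card_conj_smul g S)]
    exact hndvd
  obtain ⟨t, ht, hts⟩ := hS₂.exists_conj hS₁
  refine ⟨t * g, ⟨Y.mul_mem (hTY ht) hg, ?_⟩, cj_mul (hn₁ hg) hc ht.2.2⟩
  apply normalizer_sup_mem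
  · exact hn₁ (Y.mul_mem (hTY ht) hg)
  · apply mem_normalizer_of_conj_smul_eq
    rw [map_mul, mul_smul]
    exact hts

/-- Summation over a normal subgroup. -/
theorem sum_step {p : ℕ} [Fact p.Prime] {Y K₀ K₁ S : Subgroup Γ} (h₀ : K₀ ≤ K₁) (h₁ : K₁ ≤ Y)
    (hn₀ : Y ≤ Subgroup.normalizer (K₀ : Set Γ)) (hn₁ : Y ≤ Subgroup.normalizer (K₁ : Set Γ))
    (hSY : S ≤ Y) (hSp : IsPGroup p S) (hSi : ¬ p ∣ S.relIndex Y) {θ : K₀ → ℂ}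
    (hθ : IsIrrCharacter K₀ θ) (hinv : ∀ y ∈ Y, IsConjCharOf K₀ y θ θ)
    (hk₁ : K₁ ≤ Y ⊓ Subgroup.normalizer ((K₁ ⊔ S : Subgroup Γ) : Set Γ))
    (hrec : ∀ θ₁ : K₁ → ℂ, IsIrrCharacter K₁ θ₁ → (∀ s ∈ S, IsConjCharOf K₁ s θ₁ θ₁) →
      Cnt p Y K₁ h₁ θ₁ = Cnt p (Y ⊓ Subgroup.normalizer ((K₁ ⊔ S : Subgroup Γ) : Set Γ)) K₁ hk₁ θ₁) :
    Cnt p Y K₀ (h₀.trans h₁) θ =
      Cnt p (Y ⊓ Subgroup.normalizer ((K₁ ⊔ S : Subgroup Γ) : Set Γ)) K₀ (h₀.trans hk₁) θ := by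
  classical
  set Y₂ := Y ⊓ Subgroup.normalizer ((K₁ ⊔ S : Subgroup Γ) : Set Γ) with hY₂
  have hY₂Y : Y₂ ≤ Y := inf_le_left
  have hSY₂ : S ≤ Y₂ := by
    refine le_inf hSY (le_trans ?_ (Subgroup.le_normalizer))
    exact le_sup_right
  -- the common argument for `Y` and `Y₂`
  have key : ∀ (W : Subgroup Γ) (hWY : W ≤ Y) (hSW : S ≤ W) (hK₁W : K₁ ≤ W) (χ : IrrCharacter W),
      ¬ p ∣ charDegree (χ : W → ℂ) → Over (Subgroup.inclusion (h₀.trans hK₁W)) (χ : W → ℂ) θ →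
      ∃ θ₁ : K₁ → ℂ, IsIrrCharacter K₁ θ₁ ∧ (∀ s ∈ S, IsConjCharOf K₁ s θ₁ θ₁) ∧
        Over (Subgroup.inclusion h₀) θ₁ θ ∧ Over (Subgroup.inclusion hK₁W) (χ : W → ℂ) θ₁ := by
    intro W hWY hSW hK₁W χ hp hov
    have hχc := isCharacter_of_isIrrCharacter χ.2
    obtain ⟨a, ha, ha1, ha2⟩ := exists_over_between hK₁W h₀ hχc hov
    obtain ⟨y, hy, b, hb, hab, hbS⟩ := exists_fixed_over hK₁W (hWY.trans hn₁) χ.2 hp ha ha1 hSW hSp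
    refine ⟨b, hb, hbS, ?_, ?_⟩
    · exact over_conj h₀ (hn₀ (hWY hy)) hab (hinv y (hWY hy)) ha2
    · exact (over_iff_conj hK₁W (hWY.trans hn₁) χ.2 ha hb ha1).mpr ⟨y, hy, hab⟩
  let C := {χ : IrrCharacter Y // ¬ p ∣ charDegree (χ : Y → ℂ) ∧
    Over (Subgroup.inclusion (h₀.trans h₁)) (χ : Y → ℂ) θ}
  let C' := {χ : IrrCharacter Y₂ // ¬ p ∣ charDegree (χ : Y₂ → ℂ) ∧
    Over (Subgroup.inclusion (h₀.trans hk₁)) (χ : Y₂ → ℂ) θ}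
  let X := {θ₁ : IrrCharacter K₁ // (∀ s ∈ S, IsConjCharOf K₁ s (θ₁ : K₁ → ℂ) (θ₁ : K₁ → ℂ)) ∧
    Over (Subgroup.inclusion h₀) (θ₁ : K₁ → ℂ) θ}
  haveI := finite_irrCharacter (G := Y)
  haveI := finite_irrCharacter (G := Y₂)
  haveI := finite_irrCharacter (G := K₁)
  have hfib : ∀ (W : Subgroup Γ) (hK₁W : K₁ ≤ W) (x : X),
      Nat.card {c : {χ : IrrCharacter W // ¬ p ∣ charDegree (χ : W → ℂ) ∧
        Over (Subgroup.inclusion (h₀.trans hK₁W)) (χ : W → ℂ) θ} //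
        Over (Subgroup.inclusion hK₁W) (c.1 : W → ℂ) (x.1 : K₁ → ℂ)} =
      Cnt p W K₁ hK₁W (x.1 : K₁ → ℂ) := by
    intro W hK₁W x
    unfold Cnt
    apply Nat.card_congr
    refine ⟨fun c => ⟨c.1.1, c.1.2.1, c.2⟩, fun c => ⟨⟨c.1, c.2.1, ?_⟩, c.2.2⟩, fun c => rfl,
      fun c => rfl⟩
    exact over_trans hK₁W h₀ (isCharacter_of_isIrrCharacter c.1.2) x.1.2
      (isCharacter_of_isIrrCharacter hθ) c.2.2 x.2.2
  have hmain := compare_card (C := C) (C' := C') (X := X) (X' := X)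
    (fun c x => Over (Subgroup.inclusion h₁) (c.1 : Y → ℂ) (x.1 : K₁ → ℂ))
    (fun c x => Over (Subgroup.inclusion hk₁) (c.1 : Y₂ → ℂ) (x.1 : K₁ → ℂ))
    (fun x y => ∃ g ∈ Y, IsConjCharOf K₁ g (x.1 : K₁ → ℂ) (y.1 : K₁ → ℂ))
    (fun x y => ∃ g ∈ Y₂, IsConjCharOf K₁ g (x.1 : K₁ → ℂ) (y.1 : K₁ → ℂ))
    (Equiv.refl X)
    (fun c => by
      obtain ⟨b, hb, h2, h3, h4⟩ := key Y le_rfl hSY h₁ c.1 c.2.1 c.2.2
      exact ⟨⟨⟨b, hb⟩, h2, h3⟩, h4⟩)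
    (fun c => by
      obtain ⟨b, hb, h2, h3, h4⟩ := key Y₂ hY₂Y hSY₂ hk₁ c.1 c.2.1 c.2.2
      exact ⟨⟨⟨b, hb⟩, h2, h3⟩, h4⟩)
    (fun c x₀ x h => over_iff_conj h₁ hn₁ c.1.2 x₀.1.2 x.1.2 h)
    (fun c x₀ x h => over_iff_conj hk₁ (hY₂Y.trans hn₁) c.1.2 x₀.1.2 x.1.2 h)
    (fun x y => by
      constructor
      · rintro ⟨g, hg, hc⟩
        exact conj_in_normalizer hn₁ hSY hSp hSi x.2.1 y.2.1 hg hc
      · rintro ⟨g, hg, hc⟩
        exact ⟨g, hY₂Y hg, hc⟩)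
    (fun x => by
      rw [hfib Y h₁ x]
      exact (hrec _ x.1.2 x.2.1).trans (hfib Y₂ hk₁ x).symm)
  exact hmain

end Cfsg.Agent.Lib.RelMcKay.Induct
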