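import Mathlib
import Cfsg.Agent.Lib.RelMcKay.Induct
import Cfsg.Agent.Lib.Glauberman.Conj

/-!
# The Glauberman correspondence in an ambient group
-/

set_option autoImplicit false
set_option linter.style.haveILetI false
set_option linter.unusedSectionVars false

namespace Cfsg.Agent.Lib.RelMcKay.Glaub

open Cfsg Module Pointwise
open Cfsg.Agent.Lib.Char.Basic Cfsg.Agent.Lib.Char.Ortho Cfsg.Agent.Lib.Char.Complete
open Cfsg.Agent.Lib.Char.Conj Cfsg.Agent.Lib.Char.Clifford Cfsg.Agent.Lib.Char.CliffordCorr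
open Cfsg.Agent.Lib.Char.Degree
open Cfsg.Agent.Lib.RelMcKay.Basic Cfsg.Agent.Lib.RelMcKay.Cliff Cfsg.Agent.Lib.RelMcKay.Stab
open Cfsg.Agent.Lib.RelMcKay.Induct
open Cfsg.Agent.Lib.Glauberman.PGroup Cfsg.Agent.Lib.Glauberman.ConjAct
open scoped ComplexConjugate

universe u

variable {Γ : Type u} [Group Γ] [Finite Γ]

/-- The hypotheses of the Glauberman correspondence. -/
structure GSetup (p : ℕ) (A S C : Subgroup Γ) : Prop where
  hnorm : ∀ s ∈ S, ∀ g ∈ A, s * g * s⁻¹ ∈ A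
  hC : C = A ⊓ Subgroup.centralizer (S : Set Γ)
  hS : IsPGroup p S
  hcop : Nat.Coprime p (Nat.card A)

/-- The multiplicity of `γ` in `η` is prime to `p`. -/
def Cor (p : ℕ) {A C : Subgroup Γ} (hCA : C ≤ A) (η : A → ℂ) (γ : C → ℂ) : Prop :=
  ∃ m : ℤ, ci (η ∘ Subgroup.inclusion hCA) γ = m ∧ ¬ (p : ℤ) ∣ m

theorem GSetup.le {p : ℕ} {A S C : Subgroup Γ} (G : GSetup p A S C) : C ≤ A := by
  rw [G.hC]
  exact inf_le_left

theorem inv_iff' {A S : Subgroup Γ} (hnorm : ∀ s ∈ S, ∀ g ∈ A, s * g * s⁻¹ ∈ A) (χ : A → ℂ) :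
    (∀ s ∈ S, IsConjCharOf A s χ χ) ↔ ∀ s : S, χ ∘ conjHom A S hnorm s = χ := by
  rw [← inv_iff A S hnorm χ]
  constructor
  · intro h s hs g g' hg
    exact h s hs g g' hg
  · intro h s hs g g' hg
    exact h s hs g g' hg

section Main

variable {p : ℕ} [hp : Fact p.Prime] {A S C : Subgroup Γ}

/-- The correspondence as a package. -/
theorem GSetup.main (G : GSetup p A S C) :
    ∃ π : {χ : IrrCharacter A // ∀ s ∈ S, IsConjCharOf A s (χ : A → ℂ) (χ : A → ℂ)} ≃ IrrCharacter C,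
      ∀ χ, (∃ m : ℤ, ci ((χ.1 : A → ℂ) ∘ Subgroup.inclusion G.le) ((π χ : IrrCharacter C) : C → ℂ) = m ∧
          ¬ (p : ℤ) ∣ m) ∧
        ∀ γ : IrrCharacter C, γ ≠ π χ →
          ∃ k : ℤ, ci ((χ.1 : A → ℂ) ∘ Subgroup.inclusion G.le) (γ : C → ℂ) = (p : ℂ) * k := by
  classical
  letI : Fintype A := Fintype.ofFinite A
  letI : Fintype C := Fintype.ofFinite C
  have hrange : ∀ g, g ∈ (Subgroup.inclusion G.le).range ↔ ∀ s, conjHom A S G.hnorm s g = g :=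
    mem_range_iff G.hnorm G.hC G.le
  have hinj : Function.Injective (Subgroup.inclusion G.le) := Subgroup.inclusion_injective _
  obtain ⟨π, hπ⟩ := mainP hp.out G.hS _ A C (conjHom A S G.hnorm) (Subgroup.inclusion G.le) rfl hinj
    G.hcop hrange
  let e : {χ : IrrCharacter A // ∀ s ∈ S, IsConjCharOf A s (χ : A → ℂ) (χ : A → ℂ)} ≃
      {χ : IrrCharacter A // ∀ s, (χ : A → ℂ) ∘ conjHom A S G.hnorm s = χ} :=
    Equiv.subtypeEquivRight fun χ => inv_iff' G.hnorm _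
  refine ⟨e.trans π, fun χ => ?_⟩
  obtain ⟨ε, hε, k, hk⟩ := hπ (e χ)
  constructor
  · refine ⟨p * k (π (e χ)) + ε, ?_, ?_⟩
    · rw [ci_eq]
      have h1 := hk (π (e χ))
      rw [if_pos rfl] at h1
      exact h1
    · intro hd
      have h2 : (p : ℤ) ∣ ε := (Int.dvd_add_right (dvd_mul_right _ _)).mp hd
      have h3 : (p : ℤ) ∣ 1 := by
        rcases hε with rfl | rfl
        · exact h2
        · simpa using h2
      have h4 : p ∣ 1 := by exact_mod_cast h3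
      exact hp.out.one_lt.ne' (Nat.dvd_one.mp h4)
  · intro γ hγ
    refine ⟨k γ, ?_⟩
    rw [ci_eq]
    have h1 := hk γ
    have hγ' : γ ≠ π (e χ) := hγ
    rw [if_neg hγ'] at h1
    rw [show ((χ.1 : A → ℂ) ∘ Subgroup.inclusion G.le) =
      (fun c : C => ((e χ).1 : A → ℂ) (Subgroup.inclusion G.le c)) from rfl, h1]
    push_cast
    ring

/-- Existence. -/
theorem GSetup.exists_cor (G : GSetup p A S C) {η : A → ℂ} (hη : IsIrrCharacter A η)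
    (hinv : ∀ s ∈ S, IsConjCharOf A s η η) :
    ∃ γ : C → ℂ, IsIrrCharacter C γ ∧ Cor p G.le η γ ∧
      ∀ γ' : C → ℂ, IsIrrCharacter C γ' → γ' ≠ γ →
        ∃ k : ℤ, ci (η ∘ Subgroup.inclusion G.le) γ' = (p : ℂ) * k := by
  obtain ⟨π, hπ⟩ := G.main
  obtain ⟨h1, h2⟩ := hπ ⟨⟨η, hη⟩, hinv⟩
  refine ⟨_, (π ⟨⟨η, hη⟩, hinv⟩).2, h1, fun γ' hγ' hne => ?_⟩
  exact h2 ⟨γ', hγ'⟩ (fun h => hne (congrArg Subtype.val h))

/-- Uniqueness. -/
theorem GSetup.cor_unique (G : GSetup p A S C) {η : A → ℂ} (hη : IsIrrCharacter A η)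
    (hinv : ∀ s ∈ S, IsConjCharOf A s η η) {γ₁ γ₂ : C → ℂ} (h₁ : IsIrrCharacter C γ₁)
    (h₂ : IsIrrCharacter C γ₂) (hc₁ : Cor p G.le η γ₁) (hc₂ : Cor p G.le η γ₂) : γ₁ = γ₂ := by
  obtain ⟨γ, -, -, h3⟩ := G.exists_cor hη hinv
  have key : ∀ γ' : C → ℂ, IsIrrCharacter C γ' → Cor p G.le η γ' → γ' = γ := by
    intro γ' hγ' hc
    by_contra hne
    obtain ⟨k, hk⟩ := h3 γ' hγ' hne
    obtain ⟨m, hm, hnd⟩ := hc
    apply hnd
    refine ⟨k, ?_⟩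
    rw [hm] at hk
    exact_mod_cast hk
  rw [key _ h₁ hc₁, key _ h₂ hc₂]

/-- Injectivity. -/
theorem GSetup.cor_inj (G : GSetup p A S C) {η₁ η₂ : A → ℂ} (h₁ : IsIrrCharacter A η₁)
    (h₂ : IsIrrCharacter A η₂) (hinv₁ : ∀ s ∈ S, IsConjCharOf A s η₁ η₁)
    (hinv₂ : ∀ s ∈ S, IsConjCharOf A s η₂ η₂) {γ : C → ℂ} (hγ : IsIrrCharacter C γ)
    (hc₁ : Cor p G.le η₁ γ) (hc₂ : Cor p G.le η₂ γ) : η₁ = η₂ := by
  obtain ⟨π, hπ⟩ := G.main
  have key : ∀ (η : A → ℂ) (h : IsIrrCharacter A η) (hinv : ∀ s ∈ S, IsConjCharOf A s η η),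
      Cor p G.le η γ → π ⟨⟨η, h⟩, hinv⟩ = ⟨γ, hγ⟩ := by
    intro η h hinv hc
    have h3 := G.cor_unique h hinv (π ⟨⟨η, h⟩, hinv⟩).2 hγ (hπ ⟨⟨η, h⟩, hinv⟩).1 hc
    exact Subtype.ext h3
  have h4 : π ⟨⟨η₁, h₁⟩, hinv₁⟩ = π ⟨⟨η₂, h₂⟩, hinv₂⟩ := by
    rw [key η₁ h₁ hinv₁ hc₁, key η₂ h₂ hinv₂ hc₂]
  have h5 := π.injective h4
  exact congrArg (fun x => (x.1.1 : A → ℂ)) h5

/-- Surjectivity. -/
theorem GSetup.exists_of_cor (G : GSetup p A S C) {γ : C → ℂ} (hγ : IsIrrCharacter C γ) :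
    ∃ η : A → ℂ, IsIrrCharacter A η ∧ (∀ s ∈ S, IsConjCharOf A s η η) ∧ Cor p G.le η γ := by
  obtain ⟨π, hπ⟩ := G.main
  obtain ⟨χ, hχ⟩ := π.surjective ⟨γ, hγ⟩
  refine ⟨χ.1, χ.1.2, χ.2, ?_⟩
  have h := (hπ χ).1
  rw [hχ] at h
  exact h

/-- Conjugation. -/
theorem cor_conj {A C : Subgroup Γ} (hCA : C ≤ A) {x : Γ}
    (hxC : x ∈ Subgroup.normalizer (C : Set Γ)) {η η' : A → ℂ} {γ γ' : C → ℂ}
    (h₁ : IsConjCharOf A x η η') (h₂ : IsConjCharOf C x γ γ') (hc : Cor p hCA η γ) :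
    Cor p hCA η' γ' := by
  letI : Fintype C := Fintype.ofFinite C
  obtain ⟨m, hm, hnd⟩ := hc
  refine ⟨m, ?_, hnd⟩
  rw [ci_eq] at *
  have e1 : (η' ∘ Subgroup.inclusion hCA) ∘ cjEquiv hxC = η ∘ Subgroup.inclusion hCA := by
    funext k
    exact h₁ (Subgroup.inclusion hCA k) _ rfl
  have e2 : γ' ∘ cjEquiv hxC = γ := cj_comp_cjEquiv hxC h₂
  rw [← e1, ← e2, classInner_comp_mulEquiv] at hm
  exact hm

end Main

/-- The multiplicities along a chain modulo `p`. -/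
theorem mult_chain {p : ℕ} {A B C : Subgroup Γ} (hBA : B ≤ A) (hCB : C ≤ B) {ψ : A → ℂ}
    (hψ : IsCharacter A ψ) {β : B → ℂ} (hβ : IsIrrCharacter B β) {δ : C → ℂ}
    (hδ : IsCharacter C δ)
    (h : ∀ β' : B → ℂ, IsIrrCharacter B β' → β' ≠ β →
      ∃ k : ℤ, ci (ψ ∘ Subgroup.inclusion hBA) β' = (p : ℂ) * k) :
    ∃ k : ℤ, ci (ψ ∘ Subgroup.inclusion (hCB.trans hBA)) δ =
      ci (ψ ∘ Subgroup.inclusion hBA) β * ci (β ∘ Subgroup.inclusion hCB) δ + (p : ℂ) * k := by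
  classical
  letI : Fintype B := Fintype.ofFinite B
  letI : Fintype C := Fintype.ofFinite C
  haveI := finite_irrCharacter (G := B)
  letI := Fintype.ofFinite (IrrCharacter B)
  have hc : IsCharacter B (ψ ∘ Subgroup.inclusion hBA) := isCharacter_comp _ hψ
  have hcf := isClassFunction_of_isCharacter hc
  have h2 := classFunction_eq_sum hcf
  have h3 : (ψ ∘ Subgroup.inclusion (hCB.trans hBA)) =
      ∑ ξ : IrrCharacter B, classInner (ψ ∘ Subgroup.inclusion hBA) (ξ : B → ℂ) •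
        ((ξ : B → ℂ) ∘ Subgroup.inclusion hCB) := by
    funext d
    have := congrFun h2 (Subgroup.inclusion hCB d)
    simp only [Finset.sum_apply, Pi.smul_apply, smul_eq_mul, Function.comp] at this ⊢
    exact this
  simp only [ci_eq]
  rw [h3, classInner_sum_left]
  simp only [classInner_smul_left]
  -- integers
  have hk : ∀ ξ : IrrCharacter B, ∃ k : ℤ, (ξ : B → ℂ) ≠ β →
      classInner (ψ ∘ Subgroup.inclusion hBA) (ξ : B → ℂ) * classInner ((ξ : B → ℂ) ∘ Subgroup.inclusion hCB) δ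
        = (p : ℂ) * k := by
    intro ξ
    obtain ⟨n, hn⟩ := exists_nat_classInner (isCharacter_comp (Subgroup.inclusion hCB)
      (isCharacter_of_isIrrCharacter ξ.2)) hδ
    by_cases hne : (ξ : B → ℂ) = β
    · exact ⟨0, fun h => absurd hne h⟩
    · obtain ⟨k, hk⟩ := h ξ ξ.2 hne
      rw [ci_eq] at hk
      refine ⟨k * n, fun _ => ?_⟩
      rw [hk, hn]
      push_cast
      ring
  choose k hk using hk
  let a₀ : IrrCharacter B := ⟨β, hβ⟩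
  refine ⟨∑ ξ ∈ Finset.univ.erase a₀, k ξ, ?_⟩
  rw [← Finset.add_sum_erase _ _ (Finset.mem_univ a₀)]
  congr 1
  push_cast
  rw [Finset.mul_sum]
  refine Finset.sum_congr rfl fun ξ hξ => ?_
  apply hk
  intro he
  exact (Finset.ne_of_mem_erase hξ) (Subtype.ext he)

end Cfsg.Agent.Lib.RelMcKay.Glaub
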