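import Mathlib
import Cfsg.Agent.Lib.Char.Complete
import Cfsg.Agent.Lib.Char.Eigen

/-!
# The number of irreducible characters over an invariant linear character of a normal subgroup
-/

set_option autoImplicit false
set_option linter.style.haveILetI false
set_option linter.unusedSectionVars false

namespace Cfsg.Agent.Lib.RelMcKay.Count

open Cfsg Module
open Cfsg.Agent.Lib.Char.Basic Cfsg.Agent.Lib.Char.Ortho Cfsg.Agent.Lib.Char.Complete
open scoped ComplexConjugate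

universe u

variable {Y : Type u} [Group Y] [Fintype Y] (M : Subgroup Y) [hM : M.Normal] [Fintype M]
  (κ : M →* ℂˣ)

/-- The invariance of `κ`. -/
def KInv : Prop := ∀ (g : Y) (m : M), κ ⟨g * m * g⁻¹, hM.conj_mem m m.2 g⟩ = κ m

/-- `τ` lies over `κ`. -/
def IsOverK (τ : Y → ℂ) : Prop := ∀ m : M, τ m = κ m * τ 1

theorem conj_kappa (m : M) : conj ((κ m : ℂˣ) : ℂ) = ((κ m)⁻¹ : ℂˣ) := by
  have h1 : (κ m) ^ orderOf m = 1 := by
    rw [← map_pow, pow_orderOf_eq_one, map_one]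
  have h2 : ((κ m : ℂˣ) : ℂ) ^ orderOf m = 1 := by
    rw [← Units.val_pow_eq_pow_val, h1, Units.val_one]
  have h3 := Cfsg.Agent.Lib.Char.Eigen.norm_eq_one_of_pow_eq_one (orderOf_pos m).ne' h2
  rw [Units.val_inv_eq_inv_val, Complex.inv_eq_conj h3]

theorem conj_mul_self (m : M) : conj ((κ m : ℂˣ) : ℂ) * ((κ m : ℂˣ) : ℂ) = 1 := by
  rw [conj_kappa, Units.val_inv_eq_inv_val]
  exact inv_mul_cancel₀ (Units.ne_zero _)

variable {M κ}

/-- The averaging formula. -/
theorem avg_eq (hκ : KInv M κ) {τ : Y → ℂ} (hτ : IsIrrCharacter Y τ) (g : Y) [Decidable (IsOverK M κ τ)] :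
    ∑ m : M, conj ((κ m : ℂˣ) : ℂ) * τ ((m : Y) * g) =
      if IsOverK M κ τ then (Nat.card M : ℂ) * τ g else 0 := by
  classical
  obtain ⟨n, T, hT, rfl⟩ := hτ
  let E : Module.End ℂ (Fin n → ℂ) := ∑ m : M, conj ((κ m : ℂˣ) : ℂ) • T (m : Y)
  have hcomm : ∀ y : Y, E ∘ₗ T y = T y ∘ₗ E := by
    intro y
    have e1 : E ∘ₗ T y = ∑ m : M, conj ((κ m : ℂˣ) : ℂ) • T ((m : Y) * y) := by
      simp only [E, map_mul]
      rw [← Module.End.mul_eq_comp, Finset.sum_mul]
      simp [Module.End.mul_eq_comp, smul_mul_assoc]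
    have e2 : T y ∘ₗ E = ∑ m : M, conj ((κ m : ℂˣ) : ℂ) • T (y * (m : Y)) := by
      simp only [E, map_mul]
      rw [← Module.End.mul_eq_comp, Finset.mul_sum]
      simp [Module.End.mul_eq_comp, mul_smul_comm]
    rw [e1, e2]
    rw [← Equiv.sum_comp (MulAut.conjNormal y).toEquiv]
    refine Finset.sum_congr rfl fun m _ => ?_
    have h1 : κ ((MulAut.conjNormal y).toEquiv m) = κ m := hκ y m
    have h2 : (((MulAut.conjNormal y).toEquiv m : M) : Y) = y * m * y⁻¹ := rfl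
    rw [h1, h2]
    simp only [mul_assoc, inv_mul_cancel, mul_one]
  obtain ⟨c, hc⟩ := schur_scalar T hT E hcomm
  have hmul : ∀ m₀ : M, T (m₀ : Y) ∘ₗ E = ((κ m₀ : ℂˣ) : ℂ) • E := by
    intro m₀
    have e2 : T (m₀ : Y) ∘ₗ E = ∑ m : M, conj ((κ m : ℂˣ) : ℂ) • T (((m₀ * m : M)) : Y) := by
      simp only [E, Subgroup.coe_mul, map_mul]
      rw [← Module.End.mul_eq_comp, Finset.mul_sum]
      simp [Module.End.mul_eq_comp, mul_smul_comm]
    rw [e2]
    rw [← Equiv.sum_comp (Equiv.mulLeft m₀⁻¹)]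
    simp only [E, Finset.smul_sum]
    refine Finset.sum_congr rfl fun m _ => ?_
    have h1 : m₀ * (Equiv.mulLeft m₀⁻¹) m = m := by simp
    rw [h1, smul_smul]
    congr 1
    have h2 : κ ((Equiv.mulLeft m₀⁻¹) m) = (κ m₀)⁻¹ * κ m := by simp
    have h3 : conj (((κ m₀)⁻¹ : ℂˣ) : ℂ) = ((κ m₀ : ℂˣ) : ℂ) := by
      rw [Units.val_inv_eq_inv_val, map_inv₀, conj_kappa, Units.val_inv_eq_inv_val, inv_inv]
    rw [h2, Units.val_mul, map_mul, h3]
  have hdeg : T.character 1 = (n : ℂ) := by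
    rw [Representation.char_one]
    simp
  have hn0 : (n : ℂ) ≠ 0 := by
    have h1 := irr_one_ne_zero ⟨n, T, hT, rfl⟩
    rwa [hdeg] at h1
  have hover : c ≠ 0 → IsOverK M κ T.character := by
    intro hc0 m₀
    have h1 := hmul m₀
    rw [hc] at h1
    have h2 : T (m₀ : Y) = ((κ m₀ : ℂˣ) : ℂ) • LinearMap.id := by
      have h3 : c • T (m₀ : Y) = c • (((κ m₀ : ℂˣ) : ℂ) • LinearMap.id) := by
        have h4 : T (m₀ : Y) ∘ₗ (c • LinearMap.id) = c • T (m₀ : Y) := by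
          ext
          simp
        rw [← h4, h1, smul_comm]
      exact smul_right_injective _ hc0 h3
    show LinearMap.trace ℂ _ (T (m₀ : Y)) = _ * T.character 1
    rw [h2, map_smul, smul_eq_mul, hdeg]
    simp
  have hval : IsOverK M κ T.character → c = Nat.card M := by
    intro ho
    have h1 : LinearMap.trace ℂ _ E = c * n := by
      rw [hc, map_smul, smul_eq_mul]
      simp
    have h2 : LinearMap.trace ℂ _ E = ∑ m : M, conj ((κ m : ℂˣ) : ℂ) * T.character (m : Y) := by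
      simp only [E, map_sum, map_smul, smul_eq_mul]
      rfl
    rw [h2] at h1
    have h3 : ∀ m : M, conj ((κ m : ℂˣ) : ℂ) * T.character (m : Y) = (n : ℂ) := by
      intro m
      rw [ho m, ← mul_assoc, conj_mul_self, one_mul, hdeg]
    simp only [h3, Finset.sum_const, Finset.card_univ, nsmul_eq_mul] at h1
    rw [Nat.card_eq_fintype_card]
    exact (mul_right_cancel₀ hn0 h1).symm
  have hsum : ∑ m : M, conj ((κ m : ℂˣ) : ℂ) * T.character ((m : Y) * g) = c * T.character g := by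
    have h1 : LinearMap.trace ℂ _ (E ∘ₗ T g) = c * T.character g := by
      rw [hc]
      have h2 : (c • LinearMap.id) ∘ₗ T g = c • T g := by
        ext
        simp
      rw [h2, map_smul, smul_eq_mul]
      rfl
    rw [← h1]
    simp only [E]
    rw [← Module.End.mul_eq_comp, Finset.sum_mul, map_sum]
    refine Finset.sum_congr rfl fun m _ => ?_
    rw [smul_mul_assoc, map_smul, smul_eq_mul, Module.End.mul_eq_comp]
    congr 1
    show LinearMap.trace ℂ _ (T ((m : Y) * g)) = _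
    rw [map_mul]
    rfl
  rw [hsum]
  split_ifs with h
  · rw [hval h]
  · have : c = 0 := by
      by_contra h0
      exact h (hover h0)
    rw [this, zero_mul]

open Classical in
/-- The size of a fiber of the commutator map. -/
theorem card_comm_fiber (g x : Y) [Fintype (Subgroup.centralizer ({g} : Set Y))] :
    (Finset.univ.filter (fun h : Y => h * g * h⁻¹ * g⁻¹ = x)).card =
      if IsConj (x * g) g then Nat.card (Subgroup.centralizer ({g} : Set Y)) else 0 := by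
  split_ifs with hc
  · obtain ⟨c, hc⟩ := isConj_iff.mp hc
    have hc' : c⁻¹ * g * c⁻¹⁻¹ = x * g := by
      calc c⁻¹ * g * c⁻¹⁻¹ = c⁻¹ * (c * (x * g) * c⁻¹) * c⁻¹⁻¹ := by rw [hc]
        _ = x * g := by group
    rw [Nat.card_eq_fintype_card, ← Finset.card_univ]
    symm
    apply Finset.card_bij (fun (z : Subgroup.centralizer ({g} : Set Y)) _ => c⁻¹ * (z : Y))
    · intro z _
      simp only [Finset.mem_filter, Finset.mem_univ, true_and]
      have hz : (z : Y) * g = g * z := by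
        have := Subgroup.mem_centralizer_iff.mp z.2 g rfl
        exact this.symm
      calc c⁻¹ * (z : Y) * g * (c⁻¹ * (z : Y))⁻¹ * g⁻¹
          = c⁻¹ * ((z : Y) * g) * (z : Y)⁻¹ * c * g⁻¹ := by group
        _ = c⁻¹ * (g * z) * (z : Y)⁻¹ * c * g⁻¹ := by rw [hz]
        _ = (c⁻¹ * g * c⁻¹⁻¹) * g⁻¹ := by group
        _ = x := by rw [hc']; group
    · intro a _ b _ hab
      apply Subtype.ext
      exact mul_left_cancel hab
    · intro h hh
      simp only [Finset.mem_filter, Finset.mem_univ, true_and] at hh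
      refine ⟨⟨c * h, ?_⟩, Finset.mem_univ _, by simp⟩
      rw [Subgroup.mem_centralizer_iff]
      intro y hy
      have hy' : y = g := hy
      rw [hy']
      have h1 : h * g * h⁻¹ = c⁻¹ * g * c⁻¹⁻¹ := by
        rw [hc', ← hh]
        group
      have h2 : c * (h * g * h⁻¹) * c⁻¹ = g := by
        rw [h1]
        group
      calc g * (c * h) = c * (h * g * h⁻¹) * c⁻¹ * (c * h) := by rw [h2]
        _ = c * h * g := by group
  · rw [Finset.card_eq_zero, Finset.filter_eq_empty_iff]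
    intro h _ hh
    apply hc
    rw [isConj_iff]
    refine ⟨h⁻¹, ?_⟩
    rw [← hh]
    group

open Classical in
/-- **The count, as a double sum.** -/
theorem count_eq (hκ : KInv M κ) :
    (Nat.card {τ : IrrCharacter Y // IsOverK M κ (τ : Y → ℂ)} : ℂ) * Nat.card Y * Nat.card M =
      ∑ g : Y, ∑ h : Y, if hh : h * g * h⁻¹ * g⁻¹ ∈ M then conj ((κ ⟨_, hh⟩ : ℂˣ) : ℂ) else 0 := by
  haveI := finite_irrCharacter (G := Y)
  letI : Fintype (IrrCharacter Y) := Fintype.ofFinite _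
  have hsq : ∀ τ : IrrCharacter Y, ∑ g : Y, (τ : Y → ℂ) g * conj ((τ : Y → ℂ) g) = Nat.card Y := by
    intro τ
    have h1 := classInner_self_of_isIrr τ.2
    rw [classInner_def] at h1
    have h2 : (Nat.card Y : ℂ) ≠ 0 := Nat.cast_ne_zero.mpr Nat.card_pos.ne'
    field_simp at h1
    exact h1
  have hcard : (Nat.card {τ : IrrCharacter Y // IsOverK M κ (τ : Y → ℂ)} : ℂ) =
      ∑ τ : IrrCharacter Y, if IsOverK M κ (τ : Y → ℂ) then 1 else 0 := by
    rw [Nat.card_eq_fintype_card, Fintype.card_subtype]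
    simp
  have hL : (Nat.card {τ : IrrCharacter Y // IsOverK M κ (τ : Y → ℂ)} : ℂ) * Nat.card Y * Nat.card M =
      ∑ g : Y, ∑ m : M, conj ((κ m : ℂˣ) : ℂ) * ∑ τ : IrrCharacter Y,
        (τ : Y → ℂ) ((m : Y) * g) * conj ((τ : Y → ℂ) g) := by
    have h1 : ∀ (g : Y), ∑ m : M, conj ((κ m : ℂˣ) : ℂ) * ∑ τ : IrrCharacter Y,
        (τ : Y → ℂ) ((m : Y) * g) * conj ((τ : Y → ℂ) g) =
        ∑ τ : IrrCharacter Y, (if IsOverK M κ (τ : Y → ℂ) then (Nat.card M : ℂ) * (τ : Y → ℂ) g else 0) *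
          conj ((τ : Y → ℂ) g) := by
      intro g
      simp only [Finset.mul_sum]
      rw [Finset.sum_comm]
      refine Finset.sum_congr rfl fun τ _ => ?_
      rw [← avg_eq hκ τ.2 g, Finset.sum_mul]
      refine Finset.sum_congr rfl fun m _ => ?_
      ring
    simp only [h1]
    rw [Finset.sum_comm, hcard, Finset.sum_mul, Finset.sum_mul]
    refine Finset.sum_congr rfl fun τ _ => ?_
    split_ifs with h
    · have h2 := hsq τ
      simp only [mul_assoc, ← Finset.mul_sum]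
      rw [h2]
      ring
    · simp
  rw [hL]
  refine Finset.sum_congr rfl fun g _ => ?_
  letI : Fintype (Subgroup.centralizer ({g} : Set Y)) := Fintype.ofFinite _
  have h2 : ∀ m : M, conj ((κ m : ℂˣ) : ℂ) * ∑ τ : IrrCharacter Y,
      (τ : Y → ℂ) ((m : Y) * g) * conj ((τ : Y → ℂ) g) =
      ∑ h : Y, if hh : h * g * h⁻¹ * g⁻¹ = m then conj ((κ m : ℂˣ) : ℂ) else 0 := by
    intro m
    rw [sum_irr_mul_conj]
    have h3 := card_comm_fiber g (m : Y)
    simp only [dite_eq_ite]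
    rw [Finset.sum_ite, Finset.sum_const_zero, add_zero, Finset.sum_const, h3, nsmul_eq_mul]
    split_ifs with hc
    · ring
    · simp
  simp only [h2]
  rw [Finset.sum_comm]
  refine Finset.sum_congr rfl fun h _ => ?_
  split_ifs with hh
  · rw [Finset.sum_eq_single ⟨_, hh⟩]
    · rw [dif_pos rfl]
    · intro b _ hb
      rw [dif_neg]
      intro he
      exact hb (Subtype.ext he.symm)
    · simp
  · apply Finset.sum_eq_zero
    intro m _
    rw [dif_neg]
    intro he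
    apply hh
    rw [he]
    exact m.2

variable (M) in
/-- The preimage of the centralizer of `g` modulo `M`. -/
def DG (g : Y) : Subgroup Y where
  carrier := {h | h * g * h⁻¹ * g⁻¹ ∈ M}
  one_mem' := by simp
  mul_mem' := by
    intro a b ha hb
    have h1 := hM.conj_mem _ hb a
    have h2 : a * b * g * (a * b)⁻¹ * g⁻¹ = a * (b * g * b⁻¹ * g⁻¹) * a⁻¹ * (a * g * a⁻¹ * g⁻¹) := by
      group
    simp only [Set.mem_setOf_eq]
    rw [h2]
    exact M.mul_mem h1 ha
  inv_mem' := by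
    intro a ha
    have h1 := hM.conj_mem _ (M.inv_mem ha) a⁻¹
    have h2 : a⁻¹ * (a * g * a⁻¹ * g⁻¹)⁻¹ * a⁻¹⁻¹ = a⁻¹ * g * a⁻¹⁻¹ * g⁻¹ := by
      group
    rw [h2] at h1
    exact h1

omit [Fintype Y] [Fintype M] in
theorem mem_DG {g h : Y} : h ∈ DG M g ↔ h * g * h⁻¹ * g⁻¹ ∈ M := Iff.rfl

/-- The commutator with `g` as a homomorphism on `DG`. -/
noncomputable def fG (hκ : KInv M κ) (g : Y) : DG M g →* ℂ where
  toFun h := ((κ ⟨_, h.2⟩)⁻¹ : ℂˣ)
  map_one' := by
    have h1 : (⟨(1 : Y) * g * (1 : Y)⁻¹ * g⁻¹, (DG M g).one_mem⟩ : M) = 1 := by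
      apply Subtype.ext
      simp
    show (((κ ⟨(1 : Y) * g * (1 : Y)⁻¹ * g⁻¹, (DG M g).one_mem⟩)⁻¹ : ℂˣ) : ℂ) = 1
    rw [h1, map_one, inv_one, Units.val_one]
  map_mul' a b := by
    have h1 : (⟨((a * b : DG M g) : Y) * g * ((a * b : DG M g) : Y)⁻¹ * g⁻¹, (a * b : DG M g).2⟩ : M) =
        ⟨(a : Y) * ((b : Y) * g * (b : Y)⁻¹ * g⁻¹) * (a : Y)⁻¹, hM.conj_mem _ b.2 a⟩ *
          ⟨(a : Y) * g * (a : Y)⁻¹ * g⁻¹, a.2⟩ := by
      apply Subtype.ext
      simp only [Subgroup.coe_mul]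
      group
    show (((κ _)⁻¹ : ℂˣ) : ℂ) = (((κ _)⁻¹ : ℂˣ) : ℂ) * (((κ _)⁻¹ : ℂˣ) : ℂ)
    rw [h1, map_mul, hκ (a : Y) ⟨(b : Y) * g * (b : Y)⁻¹ * g⁻¹, b.2⟩, mul_inv, Units.val_mul, mul_comm]

open Classical in
/-- The inner sum. -/
theorem sum_inner (hκ : KInv M κ) (g : Y) :
    (∑ h : Y, if hh : h * g * h⁻¹ * g⁻¹ ∈ M then conj ((κ ⟨_, hh⟩ : ℂˣ) : ℂ) else 0) =
      ∑ h : Y, if (h * g * h⁻¹ * g⁻¹ ∈ M ∧ ∀ (h' : Y) (hh : h' * g * h'⁻¹ * g⁻¹ ∈ M), κ ⟨_, hh⟩ = 1)
        then 1 else 0 := by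
  letI : Fintype (DG M g) := Fintype.ofFinite _
  have h1 : (∑ h : Y, if hh : h * g * h⁻¹ * g⁻¹ ∈ M then conj ((κ ⟨_, hh⟩ : ℂˣ) : ℂ) else 0) =
      ∑ h : DG M g, fG hκ g h := by
    symm
    apply Fintype.sum_of_injective (Subtype.val : DG M g → Y) Subtype.val_injective
    · intro i hi
      rw [dif_neg]
      intro h
      exact hi ⟨⟨i, h⟩, rfl⟩
    · intro i
      have h2 : (i : Y) * g * (i : Y)⁻¹ * g⁻¹ ∈ M := i.2
      rw [dif_pos h2, conj_kappa]
      rfl
  rw [h1, sum_hom_units]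
  by_cases hgood : ∀ (h' : Y) (hh : h' * g * h'⁻¹ * g⁻¹ ∈ M), κ ⟨_, hh⟩ = 1
  · have h2 : fG hκ g = 1 := by
      ext h
      show (((κ _)⁻¹ : ℂˣ) : ℂ) = 1
      rw [hgood _ h.2]
      simp
    rw [if_pos h2]
    simp only [hgood, implies_true, and_true]
    rw [Finset.sum_ite, Finset.sum_const_zero, add_zero, Finset.sum_const, nsmul_eq_mul, mul_one]
    congr 1
    exact Fintype.card_of_subtype _ (fun x => by simp [mem_DG])
  · have h2 : fG hκ g ≠ 1 := by
      intro he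
      apply hgood
      intro h' hh
      have h3 := DFunLike.congr_fun he ⟨h', hh⟩
      have h4 : (((κ ⟨_, hh⟩)⁻¹ : ℂˣ) : ℂ) = 1 := h3
      have h5 : (κ ⟨_, hh⟩)⁻¹ = 1 := Units.ext h4
      exact inv_eq_one.mp h5
    rw [if_neg h2, Nat.cast_zero]
    symm
    apply Finset.sum_eq_zero
    intro h _
    rw [if_neg]
    exact fun hc => hgood hc.2

open Classical in
/-- **The count, by pairs.** -/
theorem count_pairs (hκ : KInv M κ) :
    (Nat.card {τ : IrrCharacter Y // IsOverK M κ (τ : Y → ℂ)} : ℂ) * Nat.card Y * Nat.card M =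
      ∑ g : Y, ∑ h : Y, if (h * g * h⁻¹ * g⁻¹ ∈ M ∧
        ∀ (h' : Y) (hh : h' * g * h'⁻¹ * g⁻¹ ∈ M), κ ⟨_, hh⟩ = 1) then 1 else 0 := by
  rw [count_eq hκ]
  exact Finset.sum_congr rfl fun g _ => sum_inner hκ g

end Cfsg.Agent.Lib.RelMcKay.Count
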