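import Mathlib

/-!
# Two commuting automorphisms acting irreducibly on an abelian group

Their images are powers of one automorphism, so a unimodular integer combination acts trivially.
-/

set_option autoImplicit false
set_option linter.style.haveILetI false

namespace Cfsg.Agent.Lib.RelMcKay.CycImage

universe u

variable {V : Type u} [CommGroup V] [Finite V]

/-- An automorphism as an additive endomorphism. -/
def toE : MulAut V →* AddMonoid.End (Additive V) where
  toFun σ := (σ.toMonoidHom : V →* V).toAdditive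
  map_one' := rfl
  map_mul' _ _ := rfl

theorem toE_apply (σ : MulAut V) (w : V) : toE σ (Additive.ofMul w) = Additive.ofMul (σ w) := rfl

theorem toE_injective : Function.Injective (toE (V := V)) := by
  intro a b h
  ext w
  have h1 := congrArg (fun f : AddMonoid.End (Additive V) => f (Additive.ofMul w)) h
  exact Additive.ofMul.injective h1

/-- The main statement. -/
theorem cyc_image (a b : MulAut V) (hab : a * b = b * a)
    (hirr : ∀ W : Subgroup V, (∀ w ∈ W, a w ∈ W) → (∀ w ∈ W, b w ∈ W) → W = ⊥ ∨ W = ⊤) :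
    ∃ s t u v : ℤ, u * t - v * s = 1 ∧ a ^ s * b ^ t = 1 := by
  classical
  by_cases hV : Subsingleton V
  · refine ⟨1, 0, 0, -1, by norm_num, ?_⟩
    ext w
    exact Subsingleton.elim _ _
  rw [not_subsingleton_iff_nontrivial] at hV
  haveI : Finite (MulAut V) := inferInstance
  let E := AddMonoid.End (Additive V)
  have hcomm : ∀ x ∈ ({toE a, toE b} : Set E), ∀ y ∈ ({toE a, toE b} : Set E), x * y = y * x := by
    have h1 : toE a * toE b = toE b * toE a := by rw [← map_mul, ← map_mul, hab]
    rintro x (rfl | rfl) y (rfl | rfl)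
    · rfl
    · exact h1
    · exact h1.symm
    · rfl
  let R := Subring.closure ({toE a, toE b} : Set E)
  letI : CommRing R := Subring.closureCommRingOfComm hcomm
  have hRcomm : ∀ r ∈ R, ∀ x ∈ ({toE a, toE b} : Set E), (r : E) * x = x * r := by
    intro r hr x hx
    have hxR : x ∈ R := Subring.subset_closure hx
    have := mul_comm (⟨r, hr⟩ : R) ⟨x, hxR⟩
    exact congrArg Subtype.val this
  haveI hnt : Nontrivial E := by
    refine ⟨1, 0, fun h => ?_⟩
    obtain ⟨w, hw⟩ := exists_ne (1 : V)
    have h1 := congrArg (fun f : E => f (Additive.ofMul w)) h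
    exact hw (Additive.ofMul.injective h1)
  haveI : Nontrivial R := ⟨⟨1, 0, fun h => one_ne_zero (congrArg Subtype.val h)⟩⟩
  haveI : NoZeroDivisors R := by
    refine ⟨fun {r₁ r₂} h => ?_⟩
    by_contra hne
    push Not at hne
    obtain ⟨h₁, h₂⟩ := hne
    -- the kernel of `r₁`
    let W : Subgroup V :=
      { carrier := {w | (r₁ : E) (Additive.ofMul w) = 0}
        mul_mem' := fun {x y} hx hy => by
          show (r₁ : E) (Additive.ofMul x + Additive.ofMul y) = 0
          rw [map_add, show (r₁ : E) (Additive.ofMul x) = 0 from hx,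
            show (r₁ : E) (Additive.ofMul y) = 0 from hy, add_zero]
        one_mem' := map_zero _
        inv_mem' := fun {x} hx => by
          show (r₁ : E) (-Additive.ofMul x) = 0
          rw [map_neg, show (r₁ : E) (Additive.ofMul x) = 0 from hx, neg_zero] }
    have hinvW : ∀ σ ∈ ({toE a, toE b} : Set E), ∀ w ∈ W, ∀ w' : V,
        Additive.ofMul w' = σ (Additive.ofMul w) → w' ∈ W := by
      intro σ hσ w hw w' he
      show (r₁ : E) (Additive.ofMul w') = 0
      rw [he]
      have h3 := hRcomm r₁ r₁.2 σ hσ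
      have h4 := congrArg (fun f : E => f (Additive.ofMul w)) h3
      have h5 : (r₁ : E) (σ (Additive.ofMul w)) = σ ((r₁ : E) (Additive.ofMul w)) := h4
      rw [h5, show (r₁ : E) (Additive.ofMul w) = 0 from hw, map_zero]
    rcases hirr W (fun w hw => hinvW (toE a) (Set.mem_insert _ _) w hw _ rfl)
      (fun w hw => hinvW (toE b) (Set.mem_insert_of_mem _ rfl) w hw _ rfl) with hW | hW
    · apply h₂
      apply Subtype.ext
      show (r₂ : E) = 0
      ext w
      have h6 := congrArg (fun f : R => (f : E) (Additive.ofMul (Additive.toMul w))) h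
      have h7 : (r₁ : E) ((r₂ : E) w) = 0 := h6
      have h8 : Additive.toMul ((r₂ : E) w) ∈ W := h7
      rw [hW, Subgroup.mem_bot] at h8
      have h9 : (r₂ : E) w = 0 := h8
      exact h9
    · apply h₁
      apply Subtype.ext
      show (r₁ : E) = 0
      ext w
      have h6 : Additive.toMul w ∈ W := by
        rw [hW]
        trivial
      exact h6
  haveI : IsDomain R := NoZeroDivisors.to_isDomain R
  -- the group generated
  let H : Subgroup (MulAut V) := Subgroup.closure {a, b}
  have hmem : ∀ σ ∈ H, toE σ ∈ R := by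
    intro σ hσ
    induction hσ using Subgroup.closure_induction with
    | mem x hx =>
      rcases hx with rfl | rfl
      · exact Subring.subset_closure (Set.mem_insert _ _)
      · exact Subring.subset_closure (Set.mem_insert_of_mem _ rfl)
    | one => rw [map_one]; exact R.one_mem
    | mul x y _ _ hx hy => rw [map_mul]; exact R.mul_mem hx hy
    | inv x _ hx =>
      have h1 : x⁻¹ = x ^ (orderOf x - 1) := by
        rw [eq_comm, pow_sub _ (orderOf_pos x), pow_orderOf_eq_one]
        simp
      rw [h1, map_pow]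
      exact R.pow_mem hx _
  let g : H →* R :=
    { toFun := fun σ => ⟨toE (σ : MulAut V), hmem σ σ.2⟩
      map_one' := by
        apply Subtype.ext
        show toE (1 : MulAut V) = 1
        exact map_one _
      map_mul' := fun x y => by
        apply Subtype.ext
        show toE ((x * y : H) : MulAut V) = toE (x : MulAut V) * toE (y : MulAut V)
        rw [Subgroup.coe_mul, map_mul] }
  have hg : Function.Injective g := by
    intro x y hxy
    apply Subtype.ext
    exact toE_injective (congrArg Subtype.val hxy)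
  haveI : IsCyclic H := isCyclic_of_subgroup_isDomain g hg
  obtain ⟨g₀, hg₀⟩ := IsCyclic.exists_generator (α := H)
  have ha : a ∈ H := Subgroup.subset_closure (Set.mem_insert _ _)
  have hb : b ∈ H := Subgroup.subset_closure (Set.mem_insert_of_mem _ rfl)
  obtain ⟨i, hi⟩ := Subgroup.mem_zpowers_iff.mp (hg₀ ⟨a, ha⟩)
  obtain ⟨j, hj⟩ := Subgroup.mem_zpowers_iff.mp (hg₀ ⟨b, hb⟩)
  have hi' : (g₀ : MulAut V) ^ i = a := congrArg Subtype.val hi
  have hj' : (g₀ : MulAut V) ^ j = b := congrArg Subtype.val hj
  by_cases h0 : Int.gcd i j = 0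
  · have hi0 : i = 0 := Int.gcd_eq_zero_iff.mp h0 |>.1
    have hj0 : j = 0 := Int.gcd_eq_zero_iff.mp h0 |>.2
    refine ⟨1, 0, 0, -1, by norm_num, ?_⟩
    rw [← hi', hi0]
    simp
  have hd : (Int.gcd i j : ℤ) ≠ 0 := by exact_mod_cast h0
  obtain ⟨i', hi''⟩ := Int.gcd_dvd_left (a := i) (b := j)
  obtain ⟨j', hj''⟩ := Int.gcd_dvd_right (a := i) (b := j)
  have hcop : Int.gcd j' i' = 1 := by
    have key : ∀ (d : ℕ), d ≠ 0 → ∀ i₁ j₁ : ℤ, Int.gcd ((d : ℤ) * i₁) ((d : ℤ) * j₁) = d →
        Int.gcd i₁ j₁ = 1 := by
      intro d hd i₁ j₁ h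
      rw [Int.gcd_mul_left] at h
      have h3 : d * Int.gcd i₁ j₁ = d * 1 := by
        rw [mul_one]
        simpa using h
      exact Nat.eq_of_mul_eq_mul_left (Nat.pos_of_ne_zero hd) h3
    rw [Int.gcd_comm]
    apply key _ h0
    rw [← hi'', ← hj'']
  have hbez := Int.gcd_eq_gcd_ab j' i'
  rw [hcop] at hbez
  refine ⟨-j', i', Int.gcdB j' i', Int.gcdA j' i', by
    push_cast at hbez
    linarith, ?_⟩
  rw [← hi', ← hj', ← zpow_mul, ← zpow_mul, ← zpow_add]
  have h5 : i * -j' + j * i' = 0 := by
    generalize (Int.gcd i j : ℤ) = d at hi'' hj''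
    rw [hi'', hj'']
    ring
  rw [h5, zpow_zero]

end Cfsg.Agent.Lib.RelMcKay.CycImage
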