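import Mathlib
import Cfsg.Agent.Lib.RelMcKay.Glaub
import Cfsg.Agent.Lib.RelMcKay.CycImage
import Cfsg.Agent.Lib.Char.Extend
import Cfsg.Agent.Lib.Glauberman.Above
import Cfsg.Agent.Lib.CharDeep.GallagherExt
import Cfsg.Agent.Lib.CharDeep.LinearChar
import Cfsg.Agent.Lib.CharZeros.Gallagher
import Cfsg.Agent.Lib.CharTriple.FongCore

/-!
# Extending characters over cyclic layers, ambient form
-/

set_option autoImplicit false
set_option linter.style.haveILetI false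
set_option linter.unusedSectionVars false

namespace Cfsg.Agent.Lib.RelMcKay.Ext

open Cfsg Module Pointwise
open Cfsg.Agent.Lib.Char.Basic Cfsg.Agent.Lib.Char.Ortho Cfsg.Agent.Lib.Char.Complete
open Cfsg.Agent.Lib.Char.Conj Cfsg.Agent.Lib.Char.Clifford Cfsg.Agent.Lib.Char.CliffordCorr
open Cfsg.Agent.Lib.Char.Degree
open Cfsg.Agent.Lib.RelMcKay.Basic Cfsg.Agent.Lib.RelMcKay.Cliff Cfsg.Agent.Lib.RelMcKay.Stab
open Cfsg.Agent.Lib.RelMcKay.Induct Cfsg.Agent.Lib.RelMcKay.Glaub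
open Cfsg.Agent.Lib.Coprime.Action
open scoped ComplexConjugate

universe u

variable {Γ : Type u} [Group Γ] [Finite Γ]

/-- `θ` extends to a character of `U`. -/
def ExtA {N U : Subgroup Γ} (h : N ≤ U) (θ : N → ℂ) : Prop :=
  ∃ ζ : U → ℂ, IsCharacter U ζ ∧ ζ ∘ Subgroup.inclusion h = θ

omit [Finite Γ] in
theorem stab_le {A B : Subgroup Γ} {θ : A → ℂ} (hθ : IsClassFunction A θ) {z : Γ}
    (hz : z ∈ Subgroup.normalizer (A : Set Γ)) (hinv : IsConjCharOf A z θ θ)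
    (hB : B = A ⊔ Subgroup.zpowers z) : B ≤ stabSub A θ := by
  rw [hB]
  exact sup_le (le_stabSub hθ) ((Subgroup.zpowers_le).mpr ⟨hz, hinv⟩)

omit [Finite Γ] in
theorem le_normalizer_of_eq {A B : Subgroup Γ} {z : Γ}
    (hz : z ∈ Subgroup.normalizer (A : Set Γ)) (hB : B = A ⊔ Subgroup.zpowers z) :
    B ≤ Subgroup.normalizer (A : Set Γ) := by
  rw [hB]
  exact sup_le Subgroup.le_normalizer ((Subgroup.zpowers_le).mpr hz)

omit [Finite Γ] in
theorem isCyclic_quot {A B : Subgroup Γ} (h : A ≤ B) {z : Γ}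
    (hz : z ∈ Subgroup.normalizer (A : Set Γ)) (hB : B = A ⊔ Subgroup.zpowers z)
    (hN : (A.subgroupOf B).Normal) : IsCyclic (B ⧸ A.subgroupOf B) := by
  have hzB : Subgroup.zpowers z ≤ B := by
    rw [hB]
    exact le_sup_right
  have hn := le_normalizer_of_eq hz hB
  let f : Subgroup.zpowers z →* B ⧸ A.subgroupOf B :=
    (QuotientGroup.mk' (A.subgroupOf B)).comp (Subgroup.inclusion hzB)
  refine isCyclic_of_surjective f ?_
  intro q
  obtain ⟨b, rfl⟩ := QuotientGroup.mk_surjective q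
  have hb : (b : Γ) ∈ A ⊔ Subgroup.zpowers z := by
    rw [← hB]
    exact b.2
  obtain ⟨a, ha, w, hw, hbe⟩ := exists_mul_of_mem_sup (K := A) (A := Subgroup.zpowers z)
    ((Subgroup.zpowers_le).mpr hz) hb
  refine ⟨⟨w, hw⟩, ?_⟩
  show ((⟨w, hzB hw⟩ : B) : B ⧸ A.subgroupOf B) = (b : B ⧸ A.subgroupOf B)
  rw [QuotientGroup.eq]
  show (((⟨w, hzB hw⟩ : B)⁻¹ * b : B) : Γ) ∈ A
  have h1 : (((⟨w, hzB hw⟩ : B)⁻¹ * b : B) : Γ) = w⁻¹ * b := rfl
  rw [h1, hbe]
  have h2 := (Subgroup.mem_normalizer_iff.mp (Subgroup.inv_mem _ (hn (hzB hw))) a).mp ha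
  have h3 : w⁻¹ * (a * w) = w⁻¹ * a * w⁻¹⁻¹ := by group
  rw [h3]
  exact h2

theorem ci_eq_classInner_self {A : Subgroup Γ} {θ : A → ℂ} (hθ : IsIrrCharacter A θ) :
    ci θ θ = 1 := by
  classical
  letI : Fintype A := Fintype.ofFinite A
  rw [ci_eq]
  exact classInner_self_of_isIrr hθ

/-- Extension over a cyclic layer. -/
theorem cyc_ext {A B : Subgroup Γ} (h : A ≤ B) {z : Γ}
    (hz : z ∈ Subgroup.normalizer (A : Set Γ)) {θ : A → ℂ} (hθ : IsIrrCharacter A θ)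
    (hinv : IsConjCharOf A z θ θ) (hB : B = A ⊔ Subgroup.zpowers z) :
    ∃ ζ : B → ℂ, IsIrrCharacter B ζ ∧ ζ ∘ Subgroup.inclusion h = θ := by
  have hle := stab_le (isClassFunction_of_isIrrCharacter hθ) hz hinv hB
  have hn := le_normalizer_of_eq hz hB
  have hN := normal_of_le h hn
  have hcj : ∀ g : B, conjOn hN g (θ ∘ ee h) = θ ∘ ee h := by
    intro g
    have h1 := (cj_iff h hN g⁻¹ θ θ).mp (hle (B.inv_mem g.2)).2
    simpa using h1
  obtain ⟨χ, hχ, hχe⟩ := Cfsg.Agent.Lib.Char.Extend.exists_irr_ext_of_cyclic hN (isIrr_ee h hθ) hcj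
    (isCyclic_quot h hz hB hN)
  refine ⟨χ, hχ, ?_⟩
  funext a
  have h2 := hχe ((ee h).symm a)
  have h3 : (((ee h).symm a : ↥(A.subgroupOf B)) : B) = Subgroup.inclusion h a := by
    apply Subtype.ext
    exact Subgroup.subgroupOfEquivOfLe_symm_apply_coe_coe h a
  rw [h3] at h2
  simp only [Function.comp] at h2 ⊢
  rw [h2]
  simp

/-- Gallagher's theorem in an ambient group. -/
theorem gal_amb {A B : Subgroup Γ} (h : A ≤ B) (hn : B ≤ Subgroup.normalizer (A : Set Γ))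
    {η χ : B → ℂ} (hη : IsCharacter B η) (hres : IsIrrCharacter A (η ∘ Subgroup.inclusion h))
    (hχ : IsIrrCharacter B χ) (hover : Over (Subgroup.inclusion h) χ (η ∘ Subgroup.inclusion h)) :
    ∃ β : B → ℂ, IsIrrCharacter B β ∧ (∀ a : A, β (Subgroup.inclusion h a) = β 1) ∧
      (∀ g, χ g = η g * β g) ∧
      ((∀ x y : B, ((x * y * x⁻¹ * y⁻¹ : B) : Γ) ∈ A) → β 1 = 1) := by
  classical
  letI : Fintype B := Fintype.ofFinite B
  letI : Fintype ↥(A.subgroupOf B) := Fintype.ofFinite _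
  haveI hN := normal_of_le h hn
  have e1 : (fun n : ↥(A.subgroupOf B) => η n) = (η ∘ Subgroup.inclusion h) ∘ ee h :=
    (ee_comp h η).symm
  have hres' : IsIrrCharacter ↥(A.subgroupOf B) (fun n : ↥(A.subgroupOf B) => η n) := by
    rw [e1]
    exact isIrr_ee h hres
  have hne : classInner (fun n : ↥(A.subgroupOf B) => χ n)
      (fun n : ↥(A.subgroupOf B) => η n) ≠ 0 := by
    rw [e1]
    exact (over_iff h χ _).mp hover
  obtain ⟨φ, hφ, he⟩ := Cfsg.Agent.Lib.CharDeep.GallagherExt.exists_eq_mul_of_classInner_ne_zero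
    (A.subgroupOf B) hη hres' hχ hne
  refine ⟨φ ∘ QuotientGroup.mk' _, Cfsg.Agent.Lib.Char.Linear.isIrrCharacter_comp _
    (QuotientGroup.mk'_surjective _) hφ, ?_, ?_, ?_⟩
  · intro a
    have h1 : (QuotientGroup.mk' (A.subgroupOf B)) (Subgroup.inclusion h a) = 1 := by
      rw [QuotientGroup.mk'_apply, QuotientGroup.eq_one_iff]
      exact a.2
    simp only [Function.comp, h1, map_one]
  · intro g
    rw [he]
    rfl
  · intro hc
    have hcomm : ∀ a b : B ⧸ A.subgroupOf B, a * b = b * a := by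
      intro a b
      obtain ⟨x, rfl⟩ := QuotientGroup.mk_surjective a
      obtain ⟨y, rfl⟩ := QuotientGroup.mk_surjective b
      rw [← QuotientGroup.mk_mul, ← QuotientGroup.mk_mul, eq_comm, QuotientGroup.eq]
      have h3 := hc x⁻¹ y⁻¹
      have h4 : (y * x)⁻¹ * (x * y) = x⁻¹ * y⁻¹ * x⁻¹⁻¹ * y⁻¹⁻¹ := by group
      rw [h4]
      exact h3
    have h5 := Cfsg.Agent.Lib.Char.Linear.isIrr_deg_one_of_comm hcomm hφ
    simp only [Function.comp, map_one]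
    exact h5

omit [Finite Γ] in
/-- Commutators modulo `A` in `A ⊔ ⟨z⟩`. -/
theorem comm_of_cyc {A B : Subgroup Γ} (h : A ≤ B) {z : Γ}
    (hz : z ∈ Subgroup.normalizer (A : Set Γ)) (hB : B = A ⊔ Subgroup.zpowers z) (x y : B) :
    ((x * y * x⁻¹ * y⁻¹ : B) : Γ) ∈ A := by
  have hn := le_normalizer_of_eq hz hB
  haveI hN := normal_of_le h hn
  haveI := isCyclic_quot h hz hB hN
  letI := IsCyclic.commGroup (α := B ⧸ A.subgroupOf B)
  have h1 : ((x⁻¹ : B) : B ⧸ A.subgroupOf B) * (y⁻¹ : B) = (y⁻¹ : B) * (x⁻¹ : B) := mul_comm _ _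
  rw [← QuotientGroup.mk_mul, ← QuotientGroup.mk_mul, eq_comm, QuotientGroup.eq] at h1
  have h4 : x * y * x⁻¹ * y⁻¹ = (y⁻¹ * x⁻¹)⁻¹ * (x⁻¹ * y⁻¹) := by
    group
  rw [h4]
  exact h1

/-- A character over `θ` in a cyclic layer extends `θ`. -/
theorem eq_of_over_cyc {A B : Subgroup Γ} (h : A ≤ B) {z : Γ}
    (hz : z ∈ Subgroup.normalizer (A : Set Γ)) {θ : A → ℂ} (hθ : IsIrrCharacter A θ)
    (hinv : IsConjCharOf A z θ θ) (hB : B = A ⊔ Subgroup.zpowers z) {χ : B → ℂ}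
    (hχ : IsIrrCharacter B χ) (hover : Over (Subgroup.inclusion h) χ θ) :
    χ ∘ Subgroup.inclusion h = θ := by
  obtain ⟨ζ, hζ, hζe⟩ := cyc_ext h hz hθ hinv hB
  have hn := le_normalizer_of_eq hz hB
  obtain ⟨β, hβ, hβ1, hχe, hβc⟩ := gal_amb h hn (isCharacter_of_isIrrCharacter hζ)
    (by rw [hζe]; exact hθ) hχ (by rw [hζe]; exact hover)
  have h1 : β 1 = 1 := hβc (comm_of_cyc h hz hB)
  funext a
  have h2 := hβ1 a
  rw [h1] at h2
  simp only [Function.comp]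
  rw [hχe, h2, mul_one]
  exact congrFun hζe a

/-- Extensions differ by linear characters. -/
theorem ext_diff {A B : Subgroup Γ} (h : A ≤ B) (hn : B ≤ Subgroup.normalizer (A : Set Γ))
    {η χ : B → ℂ} (hη : IsCharacter B η) (hχ : IsCharacter B χ) {θ : A → ℂ}
    (hθ : IsIrrCharacter A θ) (he₁ : η ∘ Subgroup.inclusion h = θ)
    (he₂ : χ ∘ Subgroup.inclusion h = θ) :
    ∃ ν : B →* ℂˣ, (∀ a : A, ν (Subgroup.inclusion h a) = 1) ∧ ∀ g, χ g = η g * (ν g : ℂ) := by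
  classical
  have hχirr : IsIrrCharacter B χ := by
    apply Cfsg.Agent.Lib.Char.Extend.isIrrCharacter_of_comp_isIrr (Subgroup.inclusion h) hχ
    rw [he₂]
    exact hθ
  have hover : Over (Subgroup.inclusion h) χ (η ∘ Subgroup.inclusion h) := by
    unfold Over
    rw [he₁, he₂, ci_eq_classInner_self hθ]
    exact one_ne_zero
  obtain ⟨β, hβ, hβ1, hχe, -⟩ := gal_amb h hn hη (by rw [he₁]; exact hθ) hχirr hover
  have hdeg : χ 1 = η 1 := by
    have h1 := congrFun he₁ 1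
    have h2 := congrFun he₂ 1
    simp only [Function.comp, map_one] at h1 h2
    rw [h1, h2]
  have hη0 : η 1 ≠ 0 := by
    have h1 := congrFun he₁ 1
    simp only [Function.comp, map_one] at h1
    rw [h1]
    exact irr_one_ne_zero hθ
  have hβone : β 1 = 1 := by
    have h3 := hχe 1
    rw [hdeg] at h3
    exact (mul_left_cancel₀ hη0 (by rw [← h3, mul_one])).symm
  have hβc := isCharacter_of_isIrrCharacter hβ
  obtain ⟨ν, hν⟩ := Cfsg.Agent.Lib.Char.Linear.exists_hom_of_deg_one hβc hβone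
  refine ⟨ν, fun a => ?_, fun g => ?_⟩
  · apply Units.ext
    have h4 := hβ1 a
    rw [hβone, hν] at h4
    simpa using h4
  · rw [hχe, hν]

omit [Finite Γ] in
/-- Membership in a normalizer from the conjugation closure of a subgroup. -/
theorem le_norm_of_forall {S A : Subgroup Γ} (h : ∀ s ∈ S, ∀ g ∈ A, s * g * s⁻¹ ∈ A) :
    S ≤ Subgroup.normalizer (A : Set Γ) := by
  intro s hs
  rw [Subgroup.mem_normalizer_iff]
  intro g
  refine ⟨h s hs g, fun hg => ?_⟩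
  have h1 := h s⁻¹ (S.inv_mem hs) _ hg
  simpa [mul_assoc] using h1

theorem mem_norm_of_forall {A : Subgroup Γ} {y : Γ} (h : ∀ g ∈ A, y * g * y⁻¹ ∈ A) :
    y ∈ Subgroup.normalizer (A : Set Γ) := by
  have hpow : ∀ n : ℕ, ∀ g ∈ A, y ^ n * g * (y ^ n)⁻¹ ∈ A := by
    intro n
    induction n with
    | zero =>
      intro g hg
      simpa using hg
    | succ n ih =>
      intro g hg
      have h1 := ih _ (h g hg)
      have h2 : y ^ (n + 1) * g * (y ^ (n + 1))⁻¹ = y ^ n * (y * g * y⁻¹) * (y ^ n)⁻¹ := by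
        rw [pow_succ]
        group
      rw [h2]
      exact h1
  rw [Subgroup.mem_normalizer_iff]
  intro g
  refine ⟨h g, fun hg => ?_⟩
  have h1 := hpow (orderOf y - 1) _ hg
  have h2 : y ^ (orderOf y - 1) = y⁻¹ := by
    rw [eq_inv_iff_mul_eq_one, ← pow_succ, Nat.sub_add_cancel (orderOf_pos y), pow_orderOf_eq_one]
  rw [h2] at h1
  simpa [mul_assoc] using h1

omit [Finite Γ] in
/-- An element commuting with `z` normalizes the powers of `z`. -/
theorem mem_norm_zpowers {s z : Γ} (h : s * z = z * s) :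
    s ∈ Subgroup.normalizer ((Subgroup.zpowers z : Subgroup Γ) : Set Γ) := by
  have hc : ∀ i : ℤ, s * z ^ i * s⁻¹ = z ^ i := by
    intro i
    have h1 : Commute s (z ^ i) := Commute.zpow_right h i
    rw [h1.eq]
    group
  rw [Subgroup.mem_normalizer_iff]
  intro g
  constructor
  · rintro ⟨i, rfl⟩
    exact ⟨i, (hc i).symm⟩
  · rintro ⟨i, hi⟩
    refine ⟨i, ?_⟩
    have hi' : z ^ i = s * g * s⁻¹ := hi
    have h1 : Commute s (z ^ i) := Commute.zpow_right h i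
    have h3 : g = s⁻¹ * (s * g * s⁻¹) * s := by group
    show z ^ i = g
    rw [h3, ← hi', mul_assoc, h1.eq.symm]
    group

section CommMod

variable {Γ' : Type u} [Group Γ']

/-- Elements commuting with `h` modulo `C`. -/
def CM (C : Subgroup Γ') (h : Γ') : Subgroup Γ' where
  carrier := {g | g ∈ Subgroup.normalizer (C : Set Γ') ∧ g * h * g⁻¹ * h⁻¹ ∈ C}
  one_mem' := ⟨Subgroup.one_mem _, by simp⟩
  mul_mem' := by
    rintro a b ⟨ha, ha'⟩ ⟨hb, hb'⟩
    refine ⟨Subgroup.mul_mem _ ha hb, ?_⟩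
    have h1 := (Subgroup.mem_normalizer_iff.mp ha _).mp hb'
    have h2 : a * b * h * (a * b)⁻¹ * h⁻¹ = a * (b * h * b⁻¹ * h⁻¹) * a⁻¹ * (a * h * a⁻¹ * h⁻¹) := by
      group
    rw [h2]
    exact C.mul_mem h1 ha'
  inv_mem' := by
    rintro a ⟨ha, ha'⟩
    refine ⟨Subgroup.inv_mem _ ha, ?_⟩
    have h1 := (Subgroup.mem_normalizer_iff.mp (Subgroup.inv_mem _ ha) _).mp (C.inv_mem ha')
    have h2 : a⁻¹ * h * a⁻¹⁻¹ * h⁻¹ = a⁻¹ * (a * h * a⁻¹ * h⁻¹)⁻¹ * a⁻¹⁻¹ := by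
      group
    rw [h2]
    exact h1

/-- Two elements generating a group which is abelian modulo `C`. -/
theorem comm_mod_closure {C : Subgroup Γ'} {X : Set Γ'}
    (hX : X ⊆ Subgroup.normalizer (C : Set Γ'))
    (hc : ∀ x ∈ X, ∀ y ∈ X, x * y * x⁻¹ * y⁻¹ ∈ C) :
    ∀ g ∈ Subgroup.closure X, ∀ h ∈ Subgroup.closure X, g * h * g⁻¹ * h⁻¹ ∈ C := by
  have hcl : Subgroup.closure X ≤ Subgroup.normalizer (C : Set Γ') :=
    (Subgroup.closure_le _).mpr hX
  have h1 : ∀ h ∈ X, Subgroup.closure X ≤ CM C h := by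
    intro h hh
    rw [Subgroup.closure_le]
    intro x hx
    exact ⟨hX hx, hc x hx h hh⟩
  have h2 : ∀ g ∈ Subgroup.closure X, Subgroup.closure X ≤ CM C g := by
    intro g hg
    rw [Subgroup.closure_le]
    intro x hx
    refine ⟨hX hx, ?_⟩
    have h3 := (h1 x hx hg).2
    have h4 : x * g * x⁻¹ * g⁻¹ = (g * x * g⁻¹ * x⁻¹)⁻¹ := by group
    rw [h4]
    exact C.inv_mem h3
  intro g hg h hh
  exact (h2 h hh hg).2

/-- The version for two generators. -/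
theorem comm_mod_two {C : Subgroup Γ'} {x y : Γ'} (hx : x ∈ Subgroup.normalizer (C : Set Γ'))
    (hy : y ∈ Subgroup.normalizer (C : Set Γ')) (hxy : x * y * x⁻¹ * y⁻¹ ∈ C) :
    ∀ g ∈ Subgroup.closure ({x, y} : Set Γ'), ∀ h ∈ Subgroup.closure ({x, y} : Set Γ'),
      g * h * g⁻¹ * h⁻¹ ∈ C := by
  apply comm_mod_closure
  · rintro a (rfl | rfl)
    · exact hx
    · exact hy
  · have hyx : y * x * y⁻¹ * x⁻¹ ∈ C := by
      have h4 : y * x * y⁻¹ * x⁻¹ = (x * y * x⁻¹ * y⁻¹)⁻¹ := by group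
      rw [h4]
      exact C.inv_mem hxy
    rintro a (rfl | rfl) b (rfl | rfl)
    · simp
    · exact hxy
    · exact hyx
    · simp

end CommMod

/-- The criterion for extending over the next cyclic layer. -/
theorem ext_crit {A A₂ U : Subgroup Γ} (h₁ : A ≤ A₂) (h₂ : A₂ ≤ U) {y : Γ}
    (hn : A₂ ≤ Subgroup.normalizer (A : Set Γ)) (hy₂ : y ∈ Subgroup.normalizer (A₂ : Set Γ))
    (hU : U = A₂ ⊔ Subgroup.zpowers y)
    (hcomm : ∀ a ∈ A₂, y * a * y⁻¹ * a⁻¹ ∈ A)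
    {η₂ : A₂ → ℂ} (hη₂ : IsIrrCharacter A₂ η₂) {η : A → ℂ} (hη : IsIrrCharacter A η)
    (he : η₂ ∘ Subgroup.inclusion h₁ = η) :
    ExtA (h₁.trans h₂) η ↔ IsConjCharOf A₂ y η₂ η₂ := by
  constructor
  · rintro ⟨ζ, hζ, hζe⟩
    have hc : IsCharacter A₂ (ζ ∘ Subgroup.inclusion h₂) := isCharacter_comp _ hζ
    obtain ⟨ν, hν1, hν⟩ := ext_diff h₁ hn (isCharacter_of_isIrrCharacter hη₂) hc hη he hζe
    intro a a' haa
    have hyU : y ∈ U := by
      rw [hU]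
      exact Subgroup.mem_sup_right (Subgroup.mem_zpowers y)
    have h3 : ζ (Subgroup.inclusion h₂ a') = ζ (Subgroup.inclusion h₂ a) := by
      have h4 := isClassFunction_of_isCharacter hζ (Subgroup.inclusion h₂ a) ⟨y, hyU⟩
      rw [← h4]
      congr 1
      apply Subtype.ext
      exact haa
    have h5 := hν a
    have h6 := hν a'
    simp only [Function.comp] at h5 h6
    have h7 : ν a' = ν a := by
      have h9 : ((a' * a⁻¹ : A₂) : Γ) ∈ A := by
        show (a' : Γ) * (a : Γ)⁻¹ ∈ A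
        rw [haa]
        exact hcomm a a.2
      have h10 := hν1 ⟨_, h9⟩
      have h11 : Subgroup.inclusion h₁ ⟨_, h9⟩ = a' * a⁻¹ := Subtype.ext rfl
      rw [h11, map_mul, map_inv, mul_inv_eq_one] at h10
      exact h10
    rw [h3, h5, h7] at h6
    have h12 : ((ν a : ℂˣ) : ℂ) ≠ 0 := Units.ne_zero _
    exact (mul_right_cancel₀ h12 h6).symm
  · intro hinv
    obtain ⟨ζ, hζ, hζe⟩ := cyc_ext h₂ hy₂ hη₂ hinv hU
    refine ⟨ζ, isCharacter_of_isIrrCharacter hζ, ?_⟩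
    rw [← he, ← hζe]
    rfl

omit [Finite Γ] in
theorem sup_closure_two (A : Subgroup Γ) (y z : Γ) :
    A ⊔ Subgroup.closure ({y, z} : Set Γ) = (A ⊔ Subgroup.zpowers z) ⊔ Subgroup.zpowers y := by
  apply le_antisymm
  · refine sup_le (le_sup_left.trans le_sup_left) ?_
    rw [Subgroup.closure_le]
    rintro a (rfl | rfl)
    · exact Subgroup.mem_sup_right (Subgroup.mem_zpowers _)
    · exact Subgroup.mem_sup_left (Subgroup.mem_sup_right (Subgroup.mem_zpowers _))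
  · refine sup_le (sup_le le_sup_left ?_) ?_
    · rw [Subgroup.zpowers_le]
      exact Subgroup.mem_sup_right (Subgroup.subset_closure (Set.mem_insert_of_mem _ rfl))
    · rw [Subgroup.zpowers_le]
      exact Subgroup.mem_sup_right (Subgroup.subset_closure (Set.mem_insert _ _))

omit [Finite Γ] in
theorem norm_step {C C₂ : Subgroup Γ} {y z : Γ} (hy : y ∈ Subgroup.normalizer (C : Set Γ))
    (hz : z ∈ Subgroup.normalizer (C : Set Γ)) (hyz : y * z * y⁻¹ * z⁻¹ ∈ C)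
    (hC₂ : C₂ = C ⊔ Subgroup.zpowers z) (a : Γ) (ha : a ∈ C₂) : y * a * y⁻¹ * a⁻¹ ∈ C := by
  rw [hC₂] at ha
  obtain ⟨c, hc, w, hw, rfl⟩ := exists_mul_of_mem_sup (K := C) (A := Subgroup.zpowers z)
    ((Subgroup.zpowers_le).mpr hz) ha
  have hle : Subgroup.zpowers z ≤ Subgroup.closure ({y, z} : Set Γ) :=
    Subgroup.zpowers_le.mpr (Subgroup.subset_closure (Set.mem_insert_of_mem _ rfl))
  have hwcl : w ∈ Subgroup.closure ({y, z} : Set Γ) := hle hw
  have h1 := comm_mod_two hy hz hyz y (Subgroup.subset_closure (Set.mem_insert _ _)) w hwcl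
  have h2 := (Subgroup.mem_normalizer_iff.mp hy c).mp hc
  have h3 : y * (c * w) * y⁻¹ * (c * w)⁻¹ = (y * c * y⁻¹) * (y * w * y⁻¹ * w⁻¹) * c⁻¹ := by
    group
  rw [h3]
  exact C.mul_mem (C.mul_mem h2 h1) (C.inv_mem hc)

theorem norm_step' {C C₂ : Subgroup Γ} {y z : Γ} (hy : y ∈ Subgroup.normalizer (C : Set Γ))
    (hz : z ∈ Subgroup.normalizer (C : Set Γ)) (hyz : y * z * y⁻¹ * z⁻¹ ∈ C)
    (hC₂ : C₂ = C ⊔ Subgroup.zpowers z) : y ∈ Subgroup.normalizer (C₂ : Set Γ) := by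
  apply mem_norm_of_forall
  intro a ha
  have h1 := norm_step hy hz hyz hC₂ a ha
  have hCC₂ : C ≤ C₂ := by
    rw [hC₂]
    exact le_sup_left
  have h2 : y * a * y⁻¹ = (y * a * y⁻¹ * a⁻¹) * a := by group
  rw [h2]
  exact C₂.mul_mem (hCC₂ h1) ha

theorem gs_hnormMem {p : ℕ} {A S C : Subgroup Γ} (G : GSetup p A S C) {s : Γ} (hs : s ∈ S) :
    s ∈ Subgroup.normalizer (A : Set Γ) := le_norm_of_forall G.hnorm hs

/-- The next Glauberman setup. -/
theorem gs_step {p : ℕ} {A S C : Subgroup Γ} (G : GSetup p A S C) {z : Γ}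
    (hzS : ∀ s ∈ S, z * s = s * z) (hzA : z ∈ Subgroup.normalizer (A : Set Γ))
    (hcop : Nat.Coprime p (Nat.card (A ⊔ Subgroup.zpowers z : Subgroup Γ))) {A₂ C₂ : Subgroup Γ}
    (hA₂ : A₂ = A ⊔ Subgroup.zpowers z) (hC₂ : C₂ = C ⊔ Subgroup.zpowers z) :
    GSetup p A₂ S C₂ := by
  subst hA₂ hC₂
  refine ⟨?_, ?_, G.hS, hcop⟩
  · intro s hs g hg
    have h1 : s ∈ Subgroup.normalizer ((A ⊔ Subgroup.zpowers z : Subgroup Γ) : Set Γ) :=
      normalizer_sup_mem (le_norm_of_forall G.hnorm hs) (mem_norm_zpowers (hzS s hs).symm)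
    exact (Subgroup.mem_normalizer_iff.mp h1 g).mp hg
  · have hzc : z ∈ Subgroup.centralizer (S : Set Γ) := by
      rw [Subgroup.mem_centralizer_iff]
      intro s hs
      exact (hzS s hs).symm
    apply le_antisymm
    · refine sup_le ?_ ?_
      · rw [G.hC]
        exact inf_le_inf_right _ le_sup_left
      · rw [Subgroup.zpowers_le]
        exact ⟨Subgroup.mem_sup_right (Subgroup.mem_zpowers z), hzc⟩
    · rintro g ⟨hg, hgc⟩
      obtain ⟨a, ha, w, hw, rfl⟩ := exists_mul_of_mem_sup (K := A) (A := Subgroup.zpowers z)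
        ((Subgroup.zpowers_le).mpr hzA) hg
      have hwc : w ∈ Subgroup.centralizer (S : Set Γ) := (Subgroup.zpowers_le.mpr hzc) hw
      have hac : a ∈ Subgroup.centralizer (S : Set Γ) := by
        have h1 := Subgroup.mul_mem _ hgc (Subgroup.inv_mem _ hwc)
        simpa using h1
      have haC : a ∈ C := by
        rw [G.hC]
        exact ⟨ha, hac⟩
      exact Subgroup.mul_mem _ (Subgroup.mem_sup_left haC) (Subgroup.mem_sup_right hw)

/-- Invariant extensions. -/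
theorem exists_inv_ext {p : ℕ} [hp : Fact p.Prime] {A A₂ S : Subgroup Γ} (h₁ : A ≤ A₂) {z : Γ}
    (hz : z ∈ Subgroup.normalizer (A : Set Γ)) (hA₂ : A₂ = A ⊔ Subgroup.zpowers z)
    (hS : IsPGroup p S) (hcop : Nat.Coprime p (Nat.card A₂))
    (hnA : ∀ s ∈ S, ∀ g ∈ A, s * g * s⁻¹ ∈ A) (hnA₂ : ∀ s ∈ S, ∀ g ∈ A₂, s * g * s⁻¹ ∈ A₂)
    {η : A → ℂ} (hη : IsIrrCharacter A η) (hηS : ∀ s ∈ S, IsConjCharOf A s η η)
    (hηz : IsConjCharOf A z η η) :
    ∃ η₂ : A₂ → ℂ, IsIrrCharacter A₂ η₂ ∧ (∀ s ∈ S, IsConjCharOf A₂ s η₂ η₂) ∧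
      η₂ ∘ Subgroup.inclusion h₁ = η := by
  classical
  letI : Fintype A₂ := Fintype.ofFinite A₂
  letI : Fintype A := Fintype.ofFinite A
  haveI : Finite S := inferInstance
  haveI : Group.IsSolvable S := by
    haveI := hS.isNilpotent
    exact IsNilpotent.to_isSolvable
  have hnormal : (Subgroup.inclusion h₁).range.Normal := by
    have h2 := normal_of_le h₁ (le_normalizer_of_eq hz hA₂)
    rwa [Subgroup.inclusion_range]
  have hcop' : Nat.Coprime (Nat.card A₂) (Nat.card S) := by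
    obtain ⟨n, hn⟩ := IsPGroup.iff_card.mp hS
    rw [hn]
    exact (hcop.symm).pow_right n
  obtain ⟨χ, hχ, hne⟩ := Cfsg.Agent.Lib.Glauberman.Above.above_main (S := S) _ A₂ A
    (Cfsg.Agent.Lib.Glauberman.ConjAct.conjHom A₂ S hnA₂)
    (Cfsg.Agent.Lib.Glauberman.ConjAct.conjHom A S hnA) (Subgroup.inclusion h₁) rfl
    (Subgroup.inclusion_injective h₁) hnormal (fun s x => rfl) hcop' ⟨η, hη⟩
    ((inv_iff' hnA η).mp hηS)
  refine ⟨χ, χ.2, (inv_iff' hnA₂ _).mpr hχ, ?_⟩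
  apply eq_of_over_cyc h₁ hz hη hηz hA₂ χ.2
  unfold Over
  rw [ci_eq]
  exact hne

/-- **One step.** -/
theorem one_step {p : ℕ} [hp : Fact p.Prime] {A S C : Subgroup Γ} (G : GSetup p A S C) {y z : Γ}
    (hzS : ∀ s ∈ S, z * s = s * z) (hyS : y ∈ Subgroup.normalizer (S : Set Γ))
    (hyA : y ∈ Subgroup.normalizer (A : Set Γ)) (hzA : z ∈ Subgroup.normalizer (A : Set Γ))
    (hyC : y ∈ Subgroup.normalizer (C : Set Γ)) (hzC : z ∈ Subgroup.normalizer (C : Set Γ))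
    (hyz : y * z * y⁻¹ * z⁻¹ ∈ C)
    (hcop : Nat.Coprime p (Nat.card (A ⊔ Subgroup.zpowers z : Subgroup Γ)))
    {η : A → ℂ} {γ : C → ℂ} (hη : IsIrrCharacter A η) (hγ : IsIrrCharacter C γ)
    (hηS : ∀ s ∈ S, IsConjCharOf A s η η) (hηz : IsConjCharOf A z η η)
    (hγz : IsConjCharOf C z γ γ) (hcor : Cor p G.le η γ)
    {U V : Subgroup Γ} (hAU : A ≤ U) (hCV : C ≤ V)
    (hU : U = A ⊔ Subgroup.closure ({y, z} : Set Γ))
    (hV : V = C ⊔ Subgroup.closure ({y, z} : Set Γ)) :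
    ExtA hAU η ↔ ExtA hCV γ := by
  classical
  obtain ⟨A₂, hA₂⟩ : ∃ A₂, A₂ = A ⊔ Subgroup.zpowers z := ⟨_, rfl⟩
  obtain ⟨C₂, hC₂⟩ : ∃ C₂, C₂ = C ⊔ Subgroup.zpowers z := ⟨_, rfl⟩
  have hAA₂ : A ≤ A₂ := by
    rw [hA₂]
    exact le_sup_left
  have hCC₂ : C ≤ C₂ := by
    rw [hC₂]
    exact le_sup_left
  have hU' : U = A₂ ⊔ Subgroup.zpowers y := by
    rw [hU, sup_closure_two, hA₂]
  have hV' : V = C₂ ⊔ Subgroup.zpowers y := by
    rw [hV, sup_closure_two, hC₂]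
  have hA₂U : A₂ ≤ U := by
    rw [hU']
    exact le_sup_left
  have hC₂V : C₂ ≤ V := by
    rw [hV']
    exact le_sup_left
  have G₂ : GSetup p A₂ S C₂ := gs_step G hzS hzA hcop hA₂ hC₂
  have hyz' : y * z * y⁻¹ * z⁻¹ ∈ A := G.le hyz
  have hyA₂ : y ∈ Subgroup.normalizer (A₂ : Set Γ) := norm_step' hyA hzA hyz' hA₂
  have hyC₂ : y ∈ Subgroup.normalizer (C₂ : Set Γ) := norm_step' hyC hzC hyz hC₂
  have hcopA₂ : Nat.Coprime p (Nat.card A₂) := by
    rw [hA₂]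
    exact hcop
  obtain ⟨η₂, hη₂, hη₂S, hη₂e⟩ := exists_inv_ext hAA₂ hzA hA₂ G.hS hcopA₂ G.hnorm G₂.hnorm hη hηS hηz
  obtain ⟨ζ, hζ, hcor₂, hoth⟩ := G₂.exists_cor hη₂ hη₂S
  -- `ζ` lies over `γ`
  have hCA₂ : C ≤ C₂ := hCC₂
  obtain ⟨k, hk⟩ := mult_chain G₂.le hCC₂ (isCharacter_of_isIrrCharacter hη₂) hζ
    (isCharacter_of_isIrrCharacter hγ) hoth
  have hover : Over (Subgroup.inclusion hCC₂) ζ γ := by
    intro h0
    unfold Cor at hcor
    obtain ⟨m, hm, hnd⟩ := hcor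
    rw [h0, mul_zero, zero_add] at hk
    have h1 : η₂ ∘ Subgroup.inclusion (hCC₂.trans G₂.le) = η ∘ Subgroup.inclusion G.le := by
      rw [← hη₂e]
      rfl
    rw [h1, hm] at hk
    apply hnd
    refine ⟨k, ?_⟩
    exact_mod_cast hk
  have hζe : ζ ∘ Subgroup.inclusion hCC₂ = γ := eq_of_over_cyc hCC₂ hzC hγ hγz hC₂ hζ hover
  have hnA₂ : A₂ ≤ Subgroup.normalizer (A : Set Γ) := le_normalizer_of_eq hzA hA₂
  have hnC₂ : C₂ ≤ Subgroup.normalizer (C : Set Γ) := le_normalizer_of_eq hzC hC₂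
  have e1 := ext_crit hAA₂ hA₂U hnA₂ hyA₂ hU' (norm_step hyA hzA hyz' hA₂) hη₂ hη hη₂e
  have e2 := ext_crit hCC₂ hC₂V hnC₂ hyC₂ hV' (norm_step hyC hzC hyz hC₂) hζ hγ hζe
  have hAU' : hAA₂.trans hA₂U = hAU := rfl
  have hCV' : hCC₂.trans hC₂V = hCV := rfl
  rw [hAU'] at e1
  rw [hCV'] at e2
  rw [e1, e2]
  constructor
  · intro hinv
    have h1 := exists_conj_fun hyC₂ ζ
    have hirr : IsIrrCharacter C₂ (ζ ∘ (cjEquiv hyC₂).symm) :=
      isIrrCharacter_comp_mulEquiv _ hζ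
    have h2 := cor_conj G₂.le hyC₂ hinv h1 hcor₂
    have h3 := G₂.cor_unique hη₂ hη₂S hirr hζ h2 hcor₂
    rw [h3] at h1
    exact h1
  · intro hinv
    have h1 := exists_conj_fun hyA₂ η₂
    have hirr : IsIrrCharacter A₂ (η₂ ∘ (cjEquiv hyA₂).symm) :=
      isIrrCharacter_comp_mulEquiv _ hη₂
    have h2 := cor_conj G₂.le hyC₂ h1 hinv hcor₂
    have hinv' : ∀ s ∈ S, IsConjCharOf A₂ s (η₂ ∘ (cjEquiv hyA₂).symm)
        (η₂ ∘ (cjEquiv hyA₂).symm) := by
      intro s hs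
      have hs' : y⁻¹ * s * y ∈ S := by
        have h4 := (Subgroup.mem_normalizer_iff.mp (Subgroup.inv_mem _ hyS) s).mp hs
        simpa using h4
      have h5 := cj_mul (Subgroup.inv_mem _ hyA₂) (cj_inv h1) (hη₂S _ hs')
      have h6 := cj_mul (Subgroup.mul_mem _ (gs_hnormMem G₂ hs') (Subgroup.inv_mem _ hyA₂)) h5 h1
      have h7 : y * (y⁻¹ * s * y * y⁻¹) = s := by group
      rw [h7] at h6
      exact h6
    have h3 := G₂.cor_inj hirr hη₂ hinv' hη₂S hζ h2 hcor₂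
    rw [h3] at h1
    exact h1

end Cfsg.Agent.Lib.RelMcKay.Ext
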