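import Mathlib
import Cfsg.Agent.Lib.RelMcKay.Ext
import Cfsg.Agent.Lib.RelMcKay.Count
import Cfsg.Agent.Lib.CharTriple.Above

/-!
# Extension over two generators and the commutator scalar on the central extension
-/

set_option autoImplicit false
set_option linter.style.haveILetI false
set_option linter.unusedSectionVars false

namespace Cfsg.Agent.Lib.RelMcKay.HatExt

open Cfsg Module Pointwise
open Cfsg.Agent.Lib.Char.Basic Cfsg.Agent.Lib.Char.Ortho Cfsg.Agent.Lib.Char.Complete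
open Cfsg.Agent.Lib.Char.Conj Cfsg.Agent.Lib.Char.ProjExt
open Cfsg.Agent.Lib.CharTriple.Hat Cfsg.Agent.Lib.CharTriple.Bridge Cfsg.Agent.Lib.CharTriple.Above
open Cfsg.Agent.Lib.RelMcKay.Basic Cfsg.Agent.Lib.RelMcKay.Cliff Cfsg.Agent.Lib.RelMcKay.Stab
open Cfsg.Agent.Lib.RelMcKay.Induct Cfsg.Agent.Lib.RelMcKay.Ext
open scoped ComplexConjugate

universe u

variable {Γ : Type u} [Group Γ] {N : Subgroup Γ} {hN : N.Normal} {d : ℕ}
  {X : Representation ℂ N (Fin d → ℂ)}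

theorem opH_inv_mul (g : Hat hN X) : opH hN X g⁻¹ * opH hN X g = 1 := by
  rw [← map_mul, inv_mul_cancel, map_one]

theorem opH_mul_inv (g : Hat hN X) : opH hN X g * opH hN X g⁻¹ = 1 := by
  rw [← map_mul, mul_inv_cancel, map_one]

/-- Two intertwiners differ by a scalar. -/
theorem scalar_of_intertwine (hX : X.IsIrreducible) (g : Hat hN X) (S : Module.End ℂ (Fin d → ℂ))
    (hS : ∀ n : N, S * X n = X (conjEquiv hN (pH hN X g) n) * S) :
    ∃ a : ℂ, S = a • opH hN X g := by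
  have hT : ∀ n : N, (opH hN X g⁻¹ * S) ∘ₗ X n = X n ∘ₗ (opH hN X g⁻¹ * S) := by
    intro n
    have h1 := opH_mul_X (hN := hN) (X := X) g⁻¹ (conjEquiv hN (pH hN X g) n)
    have h2 : conjEquiv hN (pH hN X g⁻¹) (conjEquiv hN (pH hN X g) n) = n := by
      apply Subtype.ext
      simp [mul_assoc]
    rw [h2] at h1
    show opH hN X g⁻¹ * S * X n = X n * (opH hN X g⁻¹ * S)
    rw [mul_assoc, hS, ← mul_assoc, h1, mul_assoc]
  obtain ⟨a, ha⟩ := schur_scalar X hX _ hT
  refine ⟨a, ?_⟩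
  have h3 : S = opH hN X g * (opH hN X g⁻¹ * S) := by
    rw [← mul_assoc, opH_mul_inv, one_mul]
  have h4 : opH hN X g⁻¹ * S = a • (1 : Module.End ℂ (Fin d → ℂ)) := ha
  rw [h3, h4, mul_smul_comm, mul_one]

theorem isConj_of_hinv {θ : N → ℂ} (hinv : ∀ g : Γ, conjOn hN g θ = θ) (x : Γ) :
    IsConjCharOf N x θ θ := by
  intro k k' hk
  have h1 := congrFun (hinv x) k
  rw [conjOn_apply] at h1
  rw [← h1]
  congr 1
  exact Subtype.ext hk

theorem le_norm_of_normal (hN : N.Normal) (x : Γ) : x ∈ Subgroup.normalizer (N : Set Γ) := by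
  rw [Subgroup.mem_normalizer_iff]
  intro n
  exact ⟨fun h => hN.conj_mem n h x, fun h => by
    have := hN.conj_mem _ h x⁻¹
    simpa [mul_assoc] using this⟩

variable [Finite Γ]

/-- **The criterion.** -/
theorem ext_iff_kap (hX : X.IsIrreducible) (hinv : ∀ g : Γ, conjOn hN g X.character = X.character)
    (g h : Hat hN X) (hh : h * g * h⁻¹ * g⁻¹ ∈ NHat hN X) {U : Subgroup Γ} (hNU : N ≤ U)
    (hU : U = N ⊔ Subgroup.closure ({pH hN X h, pH hN X g} : Set Γ)) :
    ExtA hNU X.character ↔ kap hN X hX ⟨_, hh⟩ = 1 := by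
  classical
  set t := pH hN X g with ht
  set u := pH hN X h with hu
  set f : NHat hN X := ⟨_, hh⟩ with hf
  have hn₀ : u * t * u⁻¹ * t⁻¹ ∈ N := by
    have h1 := f.2
    have h2 : pH hN X (f : Hat hN X) = u * t * u⁻¹ * t⁻¹ := by
      simp [hf, ht, hu]
    show _ ∈ N
    rw [← h2]
    exact h1
  let n₀ : N := ⟨_, hn₀⟩
  have hfX : opH hN X (f : Hat hN X) = ((kap hN X hX f : ℂˣ) : ℂ) • X n₀ := by
    have h1 := kap_spec hX f
    rw [h1]
    congr 2
  have hhg : opH hN X h * opH hN X g =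
      ((kap hN X hX f : ℂˣ) : ℂ) • (X n₀ * (opH hN X g * opH hN X h)) := by
    have h1 : h * g = (f : Hat hN X) * (g * h) := by
      simp only [hf]
      group
    calc opH hN X h * opH hN X g = opH hN X (h * g) := (map_mul _ _ _).symm
      _ = opH hN X ((f : Hat hN X) * (g * h)) := congrArg (opH hN X) h1
      _ = opH hN X (f : Hat hN X) * opH hN X (g * h) := map_mul _ _ _
      _ = _ := by rw [hfX, map_mul, smul_mul_assoc]
  have hthetairr : IsIrrCharacter N X.character := ⟨d, X, hX, rfl⟩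
  have hU' : U = (N ⊔ Subgroup.zpowers t) ⊔ Subgroup.zpowers u := by
    rw [hU, sup_closure_two]
  have htU : t ∈ U := by
    rw [hU']
    exact Subgroup.mem_sup_left (Subgroup.mem_sup_right (Subgroup.mem_zpowers t))
  have huU : u ∈ U := by
    rw [hU']
    exact Subgroup.mem_sup_right (Subgroup.mem_zpowers u)
  constructor
  · rintro ⟨ζ, hζ, hζe⟩
    obtain ⟨σ, hσ, -⟩ := Cfsg.Agent.Lib.Char.Extend.exists_rep_of_character_ext (X := X) hNU hζ
      (fun n => congrFun hζe n)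
    -- the value on a lift
    have hlift : ∀ (k : Hat hN X) (hk : pH hN X k ∈ U), ∃ a : ℂ, σ ⟨pH hN X k, hk⟩ = a • opH hN X k ∧ a ≠ 0 := by
      intro k hk
      obtain ⟨a, ha⟩ := scalar_of_intertwine hX k (σ ⟨pH hN X k, hk⟩) (by
        intro n
        rw [← hσ n, ← hσ (conjEquiv hN (pH hN X k) n), ← map_mul, ← map_mul]
        congr 1
        apply Subtype.ext
        show pH hN X k * n = pH hN X k * n * (pH hN X k)⁻¹ * pH hN X k
        group)
      refine ⟨a, ha, ?_⟩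
      rintro rfl
      have h1 : σ ⟨pH hN X k, hk⟩ * σ ⟨pH hN X k, hk⟩⁻¹ = 1 := by
        rw [← map_mul, mul_inv_cancel, map_one]
      rw [ha, zero_smul, zero_mul] at h1
      have hnt := nontrivial_of_isIrreducible hX
      have h2 : (1 : Module.End ℂ (Fin d → ℂ)) ≠ 0 := by
        intro h3
        obtain ⟨x, y, hxy⟩ := hnt
        apply hxy
        have hx := congrArg (fun T : Module.End ℂ (Fin d → ℂ) => T x) h3
        have hy := congrArg (fun T : Module.End ℂ (Fin d → ℂ) => T y) h3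
        simp only [Module.End.one_apply, LinearMap.zero_apply] at hx hy
        rw [hx, hy]
      exact h2 h1.symm
    obtain ⟨a, ha, ha0⟩ := hlift g htU
    obtain ⟨b, hb, hb0⟩ := hlift h huU
    have hcomp : σ ⟨u, huU⟩ * σ ⟨t, htU⟩ = X n₀ * (σ ⟨t, htU⟩ * σ ⟨u, huU⟩) := by
      rw [← hσ n₀, ← map_mul, ← map_mul, ← map_mul]
      congr 1
      apply Subtype.ext
      show u * t = (u * t * u⁻¹ * t⁻¹) * (t * u)
      group
    have ha' : σ ⟨t, htU⟩ = a • opH hN X g := ha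
    have hb' : σ ⟨u, huU⟩ = b • opH hN X h := hb
    rw [ha', hb', smul_mul_smul_comm, hhg, smul_mul_smul_comm, mul_smul_comm, smul_smul] at hcomp
    have hunit : IsUnit (X n₀ * (opH hN X g * opH hN X h)) := by
      have h1 : IsUnit (X n₀) := by
        refine ⟨⟨X n₀, X n₀⁻¹, ?_, ?_⟩, rfl⟩
        · rw [← map_mul, mul_inv_cancel, map_one]
        · rw [← map_mul, inv_mul_cancel, map_one]
      have h2 : IsUnit (opH hN X g * opH hN X h) := by
        rw [← map_mul]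
        exact ⟨⟨_, opH hN X (g * h)⁻¹, opH_mul_inv _, opH_inv_mul _⟩, rfl⟩
      exact h1.mul h2
    have hne : X n₀ * (opH hN X g * opH hN X h) ≠ 0 := by
      have hnt := nontrivial_of_isIrreducible hX
      haveI : Nontrivial (Module.End ℂ (Fin d → ℂ)) := by
        refine ⟨1, 0, ?_⟩
        intro h3
        obtain ⟨x, y, hxy⟩ := hnt
        apply hxy
        have hx := congrArg (fun T : Module.End ℂ (Fin d → ℂ) => T x) h3
        have hy := congrArg (fun T : Module.End ℂ (Fin d → ℂ) => T y) h3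
        simp only [Module.End.one_apply, LinearMap.zero_apply] at hx hy
        rw [hx, hy]
      exact hunit.ne_zero
    have h5 := smul_left_injective ℂ hne hcomp
    have h6 : ((kap hN X hX f : ℂˣ) : ℂ) = 1 := by
      have h7 : b * a ≠ 0 := mul_ne_zero hb0 ha0
      have h8 : (b * a) * ((kap hN X hX f : ℂˣ) : ℂ) = (b * a) * 1 := by
        rw [mul_one]
        rw [h5]
        ring
      exact mul_left_cancel₀ h7 h8
    exact Units.ext h6
  · intro hk
    obtain ⟨A₂, hA₂⟩ : ∃ A₂, A₂ = N ⊔ Subgroup.zpowers t := ⟨_, rfl⟩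
    have hNA₂ : N ≤ A₂ := by
      rw [hA₂]
      exact le_sup_left
    have hA₂U : A₂ ≤ U := by
      rw [hU', hA₂]
      exact le_sup_left
    have htA₂ : t ∈ A₂ := by
      rw [hA₂]
      exact Subgroup.mem_sup_right (Subgroup.mem_zpowers t)
    obtain ⟨η₂, hη₂, hη₂e⟩ := cyc_ext hNA₂ (le_norm_of_normal hN t) hthetairr (isConj_of_hinv hinv t) hA₂
    obtain ⟨σ, hσ, hσc⟩ := Cfsg.Agent.Lib.Char.Extend.exists_rep_of_character_ext (X := X) hNA₂
      (isCharacter_of_isIrrCharacter hη₂) (fun n => congrFun hη₂e n)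
    have huA₂ : u ∈ Subgroup.normalizer (A₂ : Set Γ) :=
      norm_step' (le_norm_of_normal hN u) (le_norm_of_normal hN t) hn₀ hA₂
    have hext := ext_crit hNA₂ hA₂U (fun x _ => le_norm_of_normal hN x) huA₂
      (by rw [hU', hA₂]) (norm_step (le_norm_of_normal hN u) (le_norm_of_normal hN t) hn₀ hA₂) hη₂ hthetairr hη₂e
    have hNU' : hNA₂.trans hA₂U = hNU := rfl
    rw [hNU'] at hext
    rw [hext]
    -- the operator of `h` intertwines `σ`
    have hconj : ∀ w (hw : w ∈ A₂), u * w * u⁻¹ ∈ A₂ := fun w hw =>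
      (Subgroup.mem_normalizer_iff.mp huA₂ w).mp hw
    obtain ⟨a, ha⟩ := scalar_of_intertwine hX g (σ ⟨t, htA₂⟩) (by
      intro n
      rw [← hσ n, ← hσ (conjEquiv hN t n), ← map_mul, ← map_mul]
      congr 1
      apply Subtype.ext
      show t * n = t * n * t⁻¹ * t
      group)
    let B : Subgroup Γ :=
      { carrier := {w | ∃ hw : w ∈ A₂, opH hN X h * σ ⟨w, hw⟩ = σ ⟨u * w * u⁻¹, hconj w hw⟩ * opH hN X h}
        one_mem' := by
          refine ⟨A₂.one_mem, ?_⟩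
          have h1 : (⟨u * 1 * u⁻¹, hconj 1 A₂.one_mem⟩ : A₂) = 1 := by
            apply Subtype.ext
            simp
          have h2 : (⟨1, A₂.one_mem⟩ : A₂) = 1 := rfl
          rw [h1, h2, map_one, mul_one, one_mul]
        mul_mem' := by
          rintro x y ⟨hx, hx'⟩ ⟨hy, hy'⟩
          refine ⟨A₂.mul_mem hx hy, ?_⟩
          have h1 : (⟨x * y, A₂.mul_mem hx hy⟩ : A₂) = ⟨x, hx⟩ * ⟨y, hy⟩ := rfl
          have h2 : (⟨u * (x * y) * u⁻¹, hconj _ (A₂.mul_mem hx hy)⟩ : A₂) =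
              ⟨u * x * u⁻¹, hconj x hx⟩ * ⟨u * y * u⁻¹, hconj y hy⟩ := by
            apply Subtype.ext
            show u * (x * y) * u⁻¹ = u * x * u⁻¹ * (u * y * u⁻¹)
            group
          rw [h1, h2, map_mul, map_mul]
          calc opH hN X h * (σ ⟨x, hx⟩ * σ ⟨y, hy⟩)
              = (opH hN X h * σ ⟨x, hx⟩) * σ ⟨y, hy⟩ := (mul_assoc _ _ _).symm
            _ = (σ ⟨u * x * u⁻¹, hconj x hx⟩ * opH hN X h) * σ ⟨y, hy⟩ := by rw [hx']
            _ = σ ⟨u * x * u⁻¹, hconj x hx⟩ * (opH hN X h * σ ⟨y, hy⟩) := mul_assoc _ _ _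
            _ = σ ⟨u * x * u⁻¹, hconj x hx⟩ * (σ ⟨u * y * u⁻¹, hconj y hy⟩ * opH hN X h) := by rw [hy']
            _ = _ := (mul_assoc _ _ _).symm
        inv_mem' := by
          rintro x ⟨hx, hx'⟩
          refine ⟨A₂.inv_mem hx, ?_⟩
          have h1 : (⟨x⁻¹, A₂.inv_mem hx⟩ : A₂) = (⟨x, hx⟩ : A₂)⁻¹ := rfl
          have h2 : (⟨u * x⁻¹ * u⁻¹, hconj _ (A₂.inv_mem hx)⟩ : A₂) =
              (⟨u * x * u⁻¹, hconj x hx⟩ : A₂)⁻¹ := by
            apply Subtype.ext
            show u * x⁻¹ * u⁻¹ = (u * x * u⁻¹)⁻¹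
            group
          rw [h1, h2]
          have h3 : σ (⟨u * x * u⁻¹, hconj x hx⟩ : A₂)⁻¹ * σ ⟨u * x * u⁻¹, hconj x hx⟩ = 1 := by
            rw [← map_mul, inv_mul_cancel, map_one]
          have h4 : σ ⟨x, hx⟩ * σ (⟨x, hx⟩ : A₂)⁻¹ = 1 := by
            rw [← map_mul, mul_inv_cancel, map_one]
          calc opH hN X h * σ (⟨x, hx⟩ : A₂)⁻¹
              = (σ (⟨u * x * u⁻¹, hconj x hx⟩ : A₂)⁻¹ * σ ⟨u * x * u⁻¹, hconj x hx⟩) *
                  opH hN X h * σ (⟨x, hx⟩ : A₂)⁻¹ := by rw [h3, one_mul]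
            _ = σ (⟨u * x * u⁻¹, hconj x hx⟩ : A₂)⁻¹ * (σ ⟨u * x * u⁻¹, hconj x hx⟩ * opH hN X h) *
                  σ (⟨x, hx⟩ : A₂)⁻¹ := by rw [mul_assoc (σ _) (σ _) (opH hN X h)]
            _ = σ (⟨u * x * u⁻¹, hconj x hx⟩ : A₂)⁻¹ * (opH hN X h * σ ⟨x, hx⟩) *
                  σ (⟨x, hx⟩ : A₂)⁻¹ := by rw [hx']
            _ = σ (⟨u * x * u⁻¹, hconj x hx⟩ : A₂)⁻¹ * opH hN X h * (σ ⟨x, hx⟩ *
                  σ (⟨x, hx⟩ : A₂)⁻¹) := by
                have key : ∀ P Q R S : Module.End ℂ (Fin d → ℂ), P * (Q * R) * S = P * Q * (R * S) := by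
                  intro P Q R S
                  simp only [mul_assoc]
                exact key _ _ _ _
            _ = σ (⟨u * x * u⁻¹, hconj x hx⟩ : A₂)⁻¹ * opH hN X h := by
                rw [h4, mul_one] }
    have hB : A₂ ≤ B := by
      rw [hA₂]
      refine sup_le ?_ ((Subgroup.zpowers_le).mpr ?_)
      · intro n hn
        refine ⟨hNA₂ hn, ?_⟩
        have h1 := hσ ⟨n, hn⟩
        have h2 := hσ (conjEquiv hN u ⟨n, hn⟩)
        have h3 : (⟨u * n * u⁻¹, hconj n (hNA₂ hn)⟩ : A₂) =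
            ⟨(conjEquiv hN u ⟨n, hn⟩ : N), hNA₂ (conjEquiv hN u ⟨n, hn⟩).2⟩ := by
          apply Subtype.ext
          simp
        rw [h3, h1, h2]
        exact opH_mul_X h ⟨n, hn⟩
      · refine ⟨htA₂, ?_⟩
        have h1 : (⟨u * t * u⁻¹, hconj t htA₂⟩ : A₂) =
            ⟨(n₀ : Γ), hNA₂ n₀.2⟩ * ⟨t, htA₂⟩ := by
          apply Subtype.ext
          show u * t * u⁻¹ = (u * t * u⁻¹ * t⁻¹) * t
          group
        rw [h1, map_mul, hσ n₀, ha, mul_smul_comm, mul_smul_comm, smul_mul_assoc, hhg, hk]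
        simp [mul_assoc]
    intro w w' hww
    have hw := (hB w.2).2
    have h1 : (⟨u * (w : Γ) * u⁻¹, hconj w w.2⟩ : A₂) = w' := Subtype.ext hww.symm
    rw [h1] at hw
    have h2 : σ w' = opH hN X h * σ ⟨w, w.2⟩ * opH hN X h⁻¹ := by
      rw [hw, mul_assoc, opH_mul_inv, mul_one]
    rw [← hσc]
    show LinearMap.trace ℂ _ (σ w') = LinearMap.trace ℂ _ (σ w)
    rw [h2, LinearMap.trace_mul_comm, ← mul_assoc, opH_inv_mul, one_mul]

end Cfsg.Agent.Lib.RelMcKay.HatExt
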