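import Mathlib
import Cfsg.Agent.Lib.RelMcKay.HatExt
import Cfsg.Agent.Lib.CharDeep.GallagherExt

/-!
# Characters over an invariant character, through the central extension
-/

set_option autoImplicit false
set_option linter.style.haveILetI false
set_option linter.unusedSectionVars false

namespace Cfsg.Agent.Lib.RelMcKay.Good

open Cfsg Module Pointwise
open Cfsg.Agent.Lib.Char.Basic Cfsg.Agent.Lib.Char.Ortho Cfsg.Agent.Lib.Char.Complete
open Cfsg.Agent.Lib.Char.Conj Cfsg.Agent.Lib.Char.ProjExt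
open Cfsg.Agent.Lib.CharTriple.Hat Cfsg.Agent.Lib.CharTriple.Bridge Cfsg.Agent.Lib.CharTriple.Above
open Cfsg.Agent.Lib.RelMcKay.Basic Cfsg.Agent.Lib.RelMcKay.Cliff Cfsg.Agent.Lib.RelMcKay.Stab
open Cfsg.Agent.Lib.RelMcKay.Induct Cfsg.Agent.Lib.RelMcKay.Ext Cfsg.Agent.Lib.RelMcKay.Count
open Cfsg.Agent.Lib.RelMcKay.HatExt
open scoped ComplexConjugate

universe u

section Values

variable {Γ : Type u} [Group Γ] [Finite Γ]

/-- An irreducible character over an invariant one restricts to a multiple. -/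
theorem exists_e {N A : Subgroup Γ} (hNA : N ≤ A) (hn : A ≤ Subgroup.normalizer (N : Set Γ))
    {θ : N → ℂ} (hθ : IsIrrCharacter N θ) (hinv : ∀ a ∈ A, IsConjCharOf N a θ θ) {χ : A → ℂ}
    (hχ : IsIrrCharacter A χ) (hover : Over (Subgroup.inclusion hNA) χ θ) :
    ∃ e : ℂ, e ≠ 0 ∧ ∀ n : N, χ (Subgroup.inclusion hNA n) = e * θ n := by
  classical
  letI : Fintype A := Fintype.ofFinite A
  letI : Fintype ↥(N.subgroupOf A) := Fintype.ofFinite _
  haveI hK := normal_of_le hNA hn
  have hne := (over_iff hNA χ θ).mp hover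
  refine ⟨_, hne, fun n => ?_⟩
  have h1 := Cfsg.Agent.Lib.CharTriple.FongCore.restrict_of_invariant (K := N.subgroupOf A) hχ
    (isIrr_ee hNA hθ) (by
      intro g
      have h2 := (cj_iff hNA hK g⁻¹ θ θ).mp (hinv _ (A.inv_mem g.2))
      simpa using h2) hne ((ee hNA).symm n)
  simp only [Function.comp, MulEquiv.apply_symm_apply] at h1
  rw [← h1]
  congr 1

/-- The converse. -/
theorem over_of_values {N A : Subgroup Γ} (hNA : N ≤ A) {θ : N → ℂ} (hθ : IsIrrCharacter N θ)
    {χ : A → ℂ} {e : ℂ} (he : e ≠ 0) (h : ∀ n : N, χ (Subgroup.inclusion hNA n) = e * θ n) :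
    Over (Subgroup.inclusion hNA) χ θ := by
  classical
  letI : Fintype N := Fintype.ofFinite N
  unfold Over
  rw [ci_eq]
  have h1 : χ ∘ Subgroup.inclusion hNA = e • θ := by
    funext n
    exact h n
  rw [h1, classInner_smul_left, classInner_self_of_isIrr hθ, mul_one]
  exact he

end Values

section Setup

variable {Γ : Type u} [Group Γ] {N : Subgroup Γ} {hN : N.Normal} {d : ℕ}
  {X : Representation ℂ N (Fin d → ℂ)}

variable (hN X) in
/-- The preimage of `N` in the preimage of `A`. -/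
noncomputable abbrev MA (A : Subgroup Γ) : Subgroup (GHat A hN X) :=
  (NHat hN X).subgroupOf (GHat A hN X)

instance MA_normal (A : Subgroup Γ) : (MA hN X A).Normal :=
  Subgroup.Normal.subgroupOf inferInstance _

/-- The linear character on `MA`. -/
noncomputable def kapA {A : Subgroup Γ} (hNA : N ≤ A) (hX : X.IsIrreducible) : MA hN X A →* ℂˣ :=
  ((kap hN X hX)⁻¹).comp
    (Subgroup.subgroupOfEquivOfLe (Subgroup.comap_mono hNA : NHat hN X ≤ GHat A hN X)).toMonoidHom

theorem kapA_apply {A : Subgroup Γ} (hNA : N ≤ A) (hX : X.IsIrreducible) (m : MA hN X A) :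
    kapA hNA hX m = (kap hN X hX ⟨m.1.1, m.2⟩)⁻¹ := rfl

theorem kapA_inv {A : Subgroup Γ} (hNA : N ≤ A) (hX : X.IsIrreducible) :
    KInv (MA hN X A) (kapA hNA hX) := by
  intro g m
  rw [kapA_apply, kapA_apply]
  congr 1
  exact kap_conj hX (g : Hat hN X) ⟨m.1.1, m.2⟩

/-- The scalar action. -/
theorem mul_of_over {Y : Type u} [Group Y] [Finite Y] {M : Subgroup Y} {κ : M →* ℂˣ} {τ : Y → ℂ}
    (hτ : IsIrrCharacter Y τ) (ho : IsOverK M κ τ) (m : M) (g : Y) :
    τ ((m : Y) * g) = κ m * τ g := by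
  classical
  letI : Fintype M := Fintype.ofFinite M
  obtain ⟨n, T, hT, rfl⟩ := hτ
  have hdeg : T.character 1 = (n : ℂ) := by
    rw [Representation.char_one]
    simp
  have hn0 : (n : ℂ) ≠ 0 := by
    have h1 := irr_one_ne_zero ⟨n, T, hT, rfl⟩
    rwa [hdeg] at h1
  have hnorm : ‖((κ m : ℂˣ) : ℂ)‖ = 1 := by
    have h1 : (κ m) ^ orderOf m = 1 := by
      rw [← map_pow, pow_orderOf_eq_one, map_one]
    have h2 : ((κ m : ℂˣ) : ℂ) ^ orderOf m = 1 := by
      rw [← Units.val_pow_eq_pow_val, h1, Units.val_one]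
    exact Cfsg.Agent.Lib.Char.Eigen.norm_eq_one_of_pow_eq_one (orderOf_pos m).ne' h2
  have h1 : ‖T.character (m : Y)‖ = (finrank ℂ (Fin n → ℂ) : ℝ) := by
    rw [ho m, norm_mul, hnorm, one_mul, hdeg, Module.finrank_fin_fun]
    simp
  obtain ⟨ω, hω⟩ := (Cfsg.Agent.Lib.Char.Eigen.norm_character_eq_iff_scalar T _).mp h1
  have h2 : ω = κ m := by
    have h3 : LinearMap.trace ℂ _ (T (m : Y)) = ((κ m : ℂˣ) : ℂ) * T.character 1 := ho m
    rw [hω, map_smul, smul_eq_mul, hdeg] at h3
    simp only [LinearMap.trace_id, Module.finrank_fin_fun, smul_eq_mul] at h3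
    exact mul_right_cancel₀ hn0 h3
  show LinearMap.trace ℂ _ (T ((m : Y) * g)) = _ * LinearMap.trace ℂ _ (T g)
  rw [map_mul, hω, h2, smul_mul_assoc, map_smul, smul_eq_mul]
  rfl

variable [Finite Γ]

/-- The restriction of `opH` to `MA` is irreducible. -/
theorem isIrr_opH {A : Subgroup Γ} (hNA : N ≤ A) (hX : X.IsIrreducible)
    (hinv : ∀ g : Γ, conjOn hN g X.character = X.character) :
    IsIrrCharacter (MA hN X A) (fun n : MA hN X A =>
      Representation.character ((opH hN X).comp (GHat A hN X).subtype :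
        Representation ℂ (GHat A hN X) (Fin d → ℂ)) n) := by
  classical
  haveI := finite_Hat (hN := hN) hX
  letI : Fintype (MA hN X A) := Fintype.ofFinite _
  have hsurj := pH_surjective hX hinv
  have hle : NHat hN X ≤ GHat A hN X := Subgroup.comap_mono hNA
  let e : MA hN X A ≃* NHat hN X := Subgroup.subgroupOfEquivOfLe hle
  let q : MA hN X A →* N := ((pH hN X).subgroupComap N).comp e.toMonoidHom
  have hq : Function.Surjective q :=
    (MonoidHom.subgroupComap_surjective_of_surjective (pH hN X) N hsurj).comp e.surjective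
  have h1 : IsIrrCharacter (MA hN X A) (X.character ∘ q) :=
    Cfsg.Agent.Lib.Char.Linear.isIrrCharacter_comp q hq ⟨d, X, hX, rfl⟩
  let ν : MA hN X A →* ℂˣ := (kap hN X hX).comp e.toMonoidHom
  have h2 := Cfsg.Agent.Lib.CharZeros.Gallagher.isIrrCharacter_mul_linear
    (Cfsg.Agent.Lib.CharDeep.LinearChar.isCharacter_of_hom ν) (by simp) h1
  convert h2 using 1
  funext n
  exact trace_opH_of_mem hN X hX (e n)

/-- `τ` is determined by `τ · opH`. -/
theorem tau_unique {A : Subgroup Γ} (hNA : N ≤ A) (hX : X.IsIrreducible)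
    (hinv : ∀ g : Γ, conjOn hN g X.character = X.character) {τ₁ τ₂ : GHat A hN X → ℂ}
    (h₁ : IsIrrCharacter _ τ₁) (h₂ : IsIrrCharacter _ τ₂)
    (ho₁ : IsOverK (MA hN X A) (kapA hNA hX) τ₁) (ho₂ : IsOverK (MA hN X A) (kapA hNA hX) τ₂)
    (he : ∀ x : GHat A hN X, τ₁ x * LinearMap.trace ℂ _ (opH hN X x) =
      τ₂ x * LinearMap.trace ℂ _ (opH hN X x)) : τ₁ = τ₂ := by
  classical
  haveI := finite_Hat (hN := hN) hX
  letI : Fintype (GHat A hN X) := Fintype.ofFinite _
  letI : Fintype (MA hN X A) := Fintype.ofFinite _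
  funext x
  let R : Representation ℂ (GHat A hN X) (Fin d → ℂ) := (opH hN X).comp (GHat A hN X).subtype
  have hRc : ∀ x, R.character x = LinearMap.trace ℂ _ (opH hN X x) := fun x => rfl
  have h1 := Cfsg.Agent.Lib.CharDeep.GallagherExt.eta_self_eq_one (MA hN X A)
    (isCharacter_of_rep R) (isIrr_opH hNA hX hinv) x
  have h2 : ∃ n : MA hN X A, R.character ((n : GHat A hN X) * x) ≠ 0 := by
    by_contra hcon
    push Not at hcon
    unfold Cfsg.Agent.Lib.CharDeep.GallagherExt.eta at h1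
    simp only [hcon, zero_mul, Finset.sum_const_zero, mul_zero] at h1
    exact zero_ne_one h1
  obtain ⟨n, hn⟩ := h2
  have h3 := he ((n : GHat A hN X) * x)
  rw [← hRc] at h3
  have h4 := mul_right_cancel₀ hn h3
  rw [mul_of_over h₁ ho₁, mul_of_over h₂ ho₂] at h4
  exact mul_left_cancel₀ (Units.ne_zero _) h4

theorem isOverK_iff {A : Subgroup Γ} (hNA : N ≤ A) (hX : X.IsIrreducible) (τ : GHat A hN X → ℂ) :
    IsOverK (MA hN X A) (kapA hNA hX) τ ↔
      ∀ n : NHat hN X, τ ⟨n, hNA n.2⟩ = (((kap hN X hX n)⁻¹ : ℂˣ) : ℂ) * τ 1 := by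
  constructor
  · intro h n
    exact h ⟨⟨n, hNA n.2⟩, n.2⟩
  · intro h m
    exact h ⟨m.1.1, m.2⟩

/-- **The bijection.** -/
theorem irr_equiv {A : Subgroup Γ} (hNA : N ≤ A) (hX : X.IsIrreducible)
    (hinv : ∀ g : Γ, conjOn hN g X.character = X.character) :
    ∃ Φ : {χ : IrrCharacter A // Over (Subgroup.inclusion hNA) (χ : A → ℂ) X.character} ≃
        {τ : IrrCharacter (GHat A hN X) //
          IsOverK (MA hN X A) (kapA hNA hX) (τ : GHat A hN X → ℂ)},
      ∀ χ (x : GHat A hN X), (χ.1 : A → ℂ) ⟨pH hN X x, x.2⟩ =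
        ((Φ χ).1 : GHat A hN X → ℂ) x * LinearMap.trace ℂ _ (opH hN X x) := by
  classical
  have hsurj := pH_surjective hX hinv
  have hθ : IsIrrCharacter N X.character := ⟨d, X, hX, rfl⟩
  have hex : ∀ χ : {χ : IrrCharacter A // Over (Subgroup.inclusion hNA) (χ : A → ℂ) X.character},
      ∃ τ : {τ : IrrCharacter (GHat A hN X) //
          IsOverK (MA hN X A) (kapA hNA hX) (τ : GHat A hN X → ℂ)},
        ∀ x : GHat A hN X, (χ.1 : A → ℂ) ⟨pH hN X x, x.2⟩ =
          (τ.1 : GHat A hN X → ℂ) x * LinearMap.trace ℂ _ (opH hN X x) := by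
    intro χ
    obtain ⟨e, he, hv⟩ := exists_e hNA (fun x _ => le_norm_of_normal hN x) hθ
      (fun a _ => isConj_of_hinv hinv a) χ.1.2 χ.2
    obtain ⟨τ, hτ, h1, h2⟩ := exists_above hNA hX hinv χ.1.2 he hv
    exact ⟨⟨⟨τ, hτ⟩, (isOverK_iff hNA hX τ).mpr h1⟩, h2⟩
  choose f hf using hex
  have hbij : Function.Bijective f := by
    constructor
    · intro a b hab
      apply Subtype.ext
      apply Subtype.ext
      funext y
      obtain ⟨x, hx⟩ := MonoidHom.subgroupComap_surjective_of_surjective (pH hN X) A hsurj y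
      have h1 := hf a x
      have h2 := hf b x
      rw [hab, ← h2] at h1
      rw [← hx]
      exact h1
    · intro τ
      have hv := (isOverK_iff hNA hX _).mp τ.2
      obtain ⟨χ, hχ, hχe⟩ := exists_descend' hNA hX hinv τ.1.2 hv
      have hτ1 : (τ.1 : GHat A hN X → ℂ) 1 ≠ 0 := irr_one_ne_zero τ.1.2
      have hover : Over (Subgroup.inclusion hNA) χ X.character := by
        apply over_of_values hNA hθ hτ1
        intro n
        obtain ⟨x, hx⟩ := MonoidHom.subgroupComap_surjective_of_surjective (pH hN X) N hsurj n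
        have h1 := Cfsg.Agent.Lib.CharTriple.Main.val_mul_trace hNA hX hv x
        have h2 := hχe ⟨x, hNA x.2⟩
        rw [← hx]
        exact h2.trans h1
      refine ⟨⟨⟨χ, hχ⟩, hover⟩, ?_⟩
      apply Subtype.ext
      apply Subtype.ext
      apply tau_unique hNA hX hinv (f _).1.2 τ.1.2 (f _).2 τ.2
      intro x
      rw [← hf ⟨⟨χ, hχ⟩, hover⟩ x]
      exact hχe x
  exact ⟨Equiv.ofBijective f hbij, hf⟩

end Setup

section Sums

open Classical in
/-- Sums along a surjective homomorphism. -/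
theorem sum_comp_surj {H G : Type*} [Group H] [Group G] [Fintype H] [Fintype G] (π : H →* G)
    (hπ : Function.Surjective π) (F : G → ℂ) :
    ∑ h : H, F (π h) = (Nat.card π.ker : ℂ) * ∑ g : G, F g := by
  have h1 : ∀ g : G, (Finset.univ.filter (fun h : H => π h = g)).card = Nat.card π.ker := by
    intro g
    have h2 := MonoidHom.card_fiber_eq_of_mem_range π (hπ g) (hπ 1)
    rw [h2, Nat.card_eq_fintype_card]
    symm
    apply Fintype.card_of_subtype
    intro x
    simp [MonoidHom.mem_ker]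
  rw [← Finset.sum_fiberwise (s := Finset.univ) (g := π), Finset.mul_sum]
  refine Finset.sum_congr rfl fun g _ => ?_
  rw [Finset.sum_congr rfl (g := fun _ => F g)]
  · rw [Finset.sum_const, h1, nsmul_eq_mul]
  · intro x hx
    rw [(Finset.mem_filter.mp hx).2]

end Sums

section F2

variable {Γ : Type u} [Group Γ] [Finite Γ]

/-- `t` is good. -/
def DGood (N A : Subgroup Γ) (θ : N → ℂ) (t : Γ) : Prop :=
  ∀ u ∈ A, u * t * u⁻¹ * t⁻¹ ∈ N → ∀ (U : Subgroup Γ) (h : N ≤ U),
    U = N ⊔ Subgroup.closure ({u, t} : Set Γ) → ExtA h θ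

open Classical in
/-- The function counted. -/
noncomputable def Psi (N A : Subgroup Γ) (θ : N → ℂ) (t u : Γ) : ℂ :=
  if u * t * u⁻¹ * t⁻¹ ∈ N ∧ DGood N A θ t then 1 else 0

variable {N : Subgroup Γ} {hN : N.Normal} {d : ℕ} {X : Representation ℂ N (Fin d → ℂ)}

set_option maxHeartbeats 4000000 in
/-- **The formula.** -/
theorem F2_gen {A : Subgroup Γ} [Fintype A] (hNA : N ≤ A) (hX : X.IsIrreducible)
    (hinv : ∀ g : Γ, conjOn hN g X.character = X.character) :
    (Nat.card {χ : IrrCharacter A // Over (Subgroup.inclusion hNA) (χ : A → ℂ) X.character} : ℂ) *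
        Nat.card A * Nat.card N = ∑ t : A, ∑ u : A, Psi N A X.character t u := by
  classical
  haveI := finite_Hat (hN := hN) hX
  letI : Fintype (GHat A hN X) := Fintype.ofFinite _
  letI : Fintype (MA hN X A) := Fintype.ofFinite _
  have hsurj := pH_surjective hX hinv
  obtain ⟨Φ, -⟩ := irr_equiv hNA hX hinv
  have hcard := Nat.card_congr Φ
  rw [hcard]
  have h1 := count_pairs (kapA_inv hNA hX)
  let π : GHat A hN X →* A := (pH hN X).subgroupComap A
  have hπ : Function.Surjective π :=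
    MonoidHom.subgroupComap_surjective_of_surjective (pH hN X) A hsurj
  have hπc : ∀ x : GHat A hN X, ((π x : A) : Γ) = pH hN X x := fun x => rfl
  -- the terms
  have hcond : ∀ g h : GHat A hN X, h * g * h⁻¹ * g⁻¹ ∈ MA hN X A ↔
      ((π h : A) : Γ) * (π g : A) * ((π h : A) : Γ)⁻¹ * ((π g : A) : Γ)⁻¹ ∈ N := by
    intro g h
    show pH hN X ((h * g * h⁻¹ * g⁻¹ : GHat A hN X) : Hat hN X) ∈ N ↔ _
    rw [hπc, hπc]
    simp
  have hgood : ∀ g : GHat A hN X, (∀ (h' : GHat A hN X) (hh : h' * g * h'⁻¹ * g⁻¹ ∈ MA hN X A),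
      kapA hNA hX ⟨_, hh⟩ = 1) ↔ DGood N A X.character (π g : A) := by
    intro g
    constructor
    · intro h u hu hc U hU he
      obtain ⟨h', hh'⟩ := hπ ⟨u, hu⟩
      have hc' : h' * g * h'⁻¹ * g⁻¹ ∈ MA hN X A := by
        rw [hcond, hh']
        exact hc
      have h2 := h h' hc'
      rw [kapA_apply, inv_eq_one] at h2
      have hu' : pH hN X (h' : Hat hN X) = u := congrArg Subtype.val hh'
      have he' : U = N ⊔ Subgroup.closure ({pH hN X (h' : Hat hN X), pH hN X (g : Hat hN X)} : Set Γ) := by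
        rw [hu']
        exact he
      exact (ext_iff_kap hX hinv (g : Hat hN X) (h' : Hat hN X) hc' hU he').mpr h2
    · intro h h' hh
      have hc := (hcond g h').mp hh
      have h2 := h (π h' : A) (π h').2 hc (N ⊔ Subgroup.closure ({((π h' : A) : Γ), ((π g : A) : Γ)} : Set Γ))
        le_sup_left rfl
      have h3 := (ext_iff_kap hX hinv (g : Hat hN X) (h' : Hat hN X) hh le_sup_left rfl).mp h2
      rw [kapA_apply, inv_eq_one]
      exact h3
  have hterm : ∀ g h : GHat A hN X, (if (h * g * h⁻¹ * g⁻¹ ∈ MA hN X A ∧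
      ∀ (h' : GHat A hN X) (hh : h' * g * h'⁻¹ * g⁻¹ ∈ MA hN X A), kapA hNA hX ⟨_, hh⟩ = 1)
        then (1 : ℂ) else 0) = Psi N A X.character (π g : A) (π h : A) := by
    intro g h
    unfold Psi
    exact if_congr (and_congr (hcond g h) (hgood g)) rfl rfl
  simp only [hterm] at h1
  obtain ⟨k, hk⟩ : ∃ k : ℕ, k = Nat.card π.ker := ⟨_, rfl⟩
  have hk0 : (k : ℂ) ≠ 0 := by
    rw [hk]
    exact Nat.cast_ne_zero.mpr Nat.card_pos.ne'
  have hsum : ∑ g : GHat A hN X, ∑ h : GHat A hN X, Psi N A X.character (π g : A) (π h : A) =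
      (k : ℂ) * (k : ℂ) * ∑ t : A, ∑ u : A, Psi N A X.character t u := by
    have h2 : ∀ g : GHat A hN X, ∑ h : GHat A hN X, Psi N A X.character (π g : A) (π h : A) =
        (k : ℂ) * ∑ u : A, Psi N A X.character (π g : A) u := by
      intro g
      rw [hk]
      exact sum_comp_surj π hπ (fun u : A => Psi N A X.character (π g : A) u)
    simp only [h2]
    rw [← Finset.mul_sum, mul_assoc]
    congr 1
    rw [hk]
    exact sum_comp_surj π hπ (fun t : A => ∑ u : A, Psi N A X.character t u)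
  have hY : (Nat.card (GHat A hN X) : ℂ) = (k : ℂ) * Nat.card A := by
    have h2 := sum_comp_surj π hπ (fun _ => (1 : ℂ))
    simp only [Finset.sum_const, Finset.card_univ, nsmul_eq_mul, mul_one] at h2
    rw [Nat.card_eq_fintype_card, Nat.card_eq_fintype_card, hk]
    exact h2
  have hr := Cfsg.Agent.Lib.CharTriple.Main.relIndex_comap_eq hX hinv hNA
  have hM : (Nat.card (MA hN X A) : ℂ) = (k : ℂ) * Nat.card N := by
    have h2 : Nat.card (MA hN X A) * (NHat hN X).relIndex (GHat A hN X) = Nat.card (GHat A hN X) :=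
      Subgroup.card_mul_index _
    have h3 : Nat.card (N.subgroupOf A) * N.relIndex A = Nat.card A := Subgroup.card_mul_index _
    have h4 : Nat.card (N.subgroupOf A) = Nat.card N :=
      Nat.card_congr (Subgroup.subgroupOfEquivOfLe hNA).toEquiv
    rw [hr] at h2
    rw [h4] at h3
    have hr0 : ((N.relIndex A : ℕ) : ℂ) ≠ 0 :=
      Nat.cast_ne_zero.mpr (Subgroup.index_ne_zero_of_finite (H := N.subgroupOf A))
    apply mul_right_cancel₀ hr0
    have h5 : ((Nat.card (MA hN X A) * N.relIndex A : ℕ) : ℂ) = Nat.card (GHat A hN X) := by rw [h2]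
    have h6 : ((Nat.card N * N.relIndex A : ℕ) : ℂ) = Nat.card A := by rw [h3]
    push_cast at h5 h6
    rw [h5, hY, ← h6]
    ring
  rw [hsum, hY, hM] at h1
  apply mul_left_cancel₀ (mul_ne_zero hk0 hk0)
  rw [← h1]
  ring

end F2

end Cfsg.Agent.Lib.RelMcKay.Good
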