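import Mathlib
import Cfsg.Agent.Lib.RelMcKay.Good

/-!
# The good pair count in an ambient group and the comparison of two layers
-/

set_option autoImplicit false
set_option linter.style.haveILetI false
set_option linter.unusedSectionVars false

namespace Cfsg.Agent.Lib.RelMcKay.GoodAmb

open Cfsg Module Pointwise
open Cfsg.Agent.Lib.Char.Basic Cfsg.Agent.Lib.Char.Ortho Cfsg.Agent.Lib.Char.Complete
open Cfsg.Agent.Lib.Char.Conj Cfsg.Agent.Lib.Char.ProjExt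
open Cfsg.Agent.Lib.RelMcKay.Basic Cfsg.Agent.Lib.RelMcKay.Cliff Cfsg.Agent.Lib.RelMcKay.Stab
open Cfsg.Agent.Lib.RelMcKay.Induct Cfsg.Agent.Lib.RelMcKay.Ext Cfsg.Agent.Lib.RelMcKay.Good
open Cfsg.Agent.Lib.Coprime.Action
open scoped ComplexConjugate

universe u

variable {Γ : Type u} [Group Γ]

omit [Group Γ] in
theorem closure_sub [Group Γ] {T N : Subgroup Γ} (hNT : N ≤ T) (u t : T) :
    N.subgroupOf T ⊔ Subgroup.closure ({u, t} : Set T) =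
      (N ⊔ Subgroup.closure ({(u : Γ), (t : Γ)} : Set Γ)).subgroupOf T := by
  have hle : N ⊔ Subgroup.closure ({(u : Γ), (t : Γ)} : Set Γ) ≤ T := by
    refine sup_le hNT ?_
    rw [Subgroup.closure_le]
    rintro a (rfl | rfl)
    · exact u.2
    · exact t.2
  apply Subgroup.map_injective T.subtype_injective
  rw [Subgroup.map_sup, MonoidHom.map_closure, Set.image_pair]
  rw [Subgroup.map_subgroupOf_eq_of_le hNT, Subgroup.map_subgroupOf_eq_of_le hle]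
  rfl

variable [Finite Γ]

/-- Extension inside and outside. -/
theorem extA_transfer {T N U : Subgroup Γ} (hNT : N ≤ T) (hUT : U ≤ T) (hNU : N ≤ U) (θ : N → ℂ)
    {U₀ : Subgroup T} (hU₀ : U₀ = U.subgroupOf T) (h₀ : N.subgroupOf T ≤ U₀) :
    ExtA h₀ (θ ∘ ee hNT) ↔ ExtA hNU θ := by
  subst hU₀
  constructor
  · rintro ⟨ζ, hζ, he⟩
    refine ⟨ζ ∘ (ee hUT).symm, isCharacter_comp_mulEquiv _ hζ, ?_⟩
    funext n
    have h1 := congrFun he ((ee hNT).symm n)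
    simp only [Function.comp, MulEquiv.apply_symm_apply] at h1 ⊢
    rw [← h1]
    congr 1
  · rintro ⟨ζ, hζ, he⟩
    refine ⟨ζ ∘ ee hUT, isCharacter_comp_mulEquiv _ hζ, ?_⟩
    funext n
    have h1 := congrFun he (ee hNT n)
    simp only [Function.comp] at h1 ⊢
    rw [← h1]
    congr 1

/-- The condition `DGood` seen from inside. -/
theorem dgood_transfer {T N : Subgroup Γ} (hNT : N ≤ T) (θ : N → ℂ) (t : T) :
    DGood (N.subgroupOf T) ⊤ (θ ∘ ee hNT) t ↔ DGood N T θ (t : Γ) := by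
  constructor
  · intro h u hu hc U hU he
    have hUT : U ≤ T := by
      rw [he]
      refine sup_le hNT ?_
      rw [Subgroup.closure_le]
      rintro a (rfl | rfl)
      · exact hu
      · exact t.2
    have hc' : (⟨u, hu⟩ : T) * t * (⟨u, hu⟩ : T)⁻¹ * t⁻¹ ∈ N.subgroupOf T := hc
    have h1 := h ⟨u, hu⟩ trivial hc' _ le_sup_left rfl
    exact (extA_transfer hNT hUT hU θ (by rw [closure_sub hNT, he]) _).mp h1
  · intro h u _ hc U hU he
    have hc' : (u : Γ) * t * (u : Γ)⁻¹ * (t : Γ)⁻¹ ∈ N := hc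
    have h1 := h u u.2 hc' _ le_sup_left rfl
    have hle : N ⊔ Subgroup.closure ({(u : Γ), (t : Γ)} : Set Γ) ≤ T := by
      refine sup_le hNT ?_
      rw [Subgroup.closure_le]
      rintro a (rfl | rfl)
      · exact u.2
      · exact t.2
    exact (extA_transfer hNT hle le_sup_left θ (by rw [he, closure_sub hNT]) hU).mpr h1

/-- Irreducible characters over `θ`, inside and outside. -/
theorem card_over_transfer {T N : Subgroup Γ} (hNT : N ≤ T) (θ : N → ℂ) :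
    Nat.card {χ : IrrCharacter (⊤ : Subgroup T) //
        Over (Subgroup.inclusion (le_top : N.subgroupOf T ≤ ⊤)) (χ : (⊤ : Subgroup T) → ℂ) (θ ∘ ee hNT)} =
      Nat.card {χ : IrrCharacter T // Over (Subgroup.inclusion hNT) (χ : T → ℂ) θ} := by
  classical
  let E : (⊤ : Subgroup T) ≃* T := Subgroup.topEquiv
  apply Nat.card_congr
  have hover : ∀ χ : T → ℂ, Over (Subgroup.inclusion (le_top : N.subgroupOf T ≤ ⊤)) (χ ∘ E) (θ ∘ ee hNT) ↔
      Over (Subgroup.inclusion hNT) χ θ := by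
    intro χ
    letI : Fintype N := Fintype.ofFinite N
    letI : Fintype ↥(N.subgroupOf T) := Fintype.ofFinite _
    unfold Over
    rw [ci_eq, ci_eq]
    have h1 : (χ ∘ E) ∘ Subgroup.inclusion (le_top : N.subgroupOf T ≤ ⊤) =
        (χ ∘ Subgroup.inclusion hNT) ∘ ee hNT := by
      funext n
      rfl
    rw [h1, classInner_comp_mulEquiv]
  refine
    { toFun := fun χ => ⟨⟨(χ.1 : (⊤ : Subgroup T) → ℂ) ∘ E.symm,
        isIrrCharacter_comp_mulEquiv _ χ.1.2⟩, ?_⟩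
      invFun := fun χ => ⟨⟨(χ.1 : T → ℂ) ∘ E, isIrrCharacter_comp_mulEquiv _ χ.1.2⟩,
        (hover _).mpr χ.2⟩
      left_inv := fun χ => ?_
      right_inv := fun χ => ?_ }
  · rw [← hover]
    have h2 : ((χ.1 : (⊤ : Subgroup T) → ℂ) ∘ E.symm) ∘ E = χ.1 := by
      funext x
      simp
    rw [h2]
    exact χ.2
  · apply Subtype.ext
    apply Subtype.ext
    funext x
    simp
  · apply Subtype.ext
    apply Subtype.ext
    funext x
    simp

/-- **The formula in an ambient group.** -/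
theorem F2_amb {T N : Subgroup Γ} [Fintype T] (hNT : N ≤ T)
    (hn : T ≤ Subgroup.normalizer (N : Set Γ)) {θ : N → ℂ} (hθ : IsIrrCharacter N θ)
    (hinv : ∀ t ∈ T, IsConjCharOf N t θ θ) :
    (Nat.card {χ : IrrCharacter T // Over (Subgroup.inclusion hNT) (χ : T → ℂ) θ} : ℂ) *
        Nat.card T * Nat.card N = ∑ t : T, ∑ u : T, Psi N T θ t u := by
  classical
  haveI hN₀ := normal_of_le hNT hn
  obtain ⟨d, X, hX, hXe⟩ := isIrr_ee hNT hθ
  have hinv₀ : ∀ g : T, conjOn hN₀ g X.character = X.character := by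
    intro g
    rw [hXe]
    have h2 := (cj_iff hNT hN₀ g⁻¹ θ θ).mp (hinv _ (T.inv_mem g.2))
    simpa using h2
  letI : Fintype (⊤ : Subgroup T) := Fintype.ofFinite _
  have h1 := F2_gen (A := (⊤ : Subgroup T)) (le_top : N.subgroupOf T ≤ ⊤) hX hinv₀
  rw [hXe] at h1
  rw [card_over_transfer hNT θ] at h1
  have h2 : Nat.card (⊤ : Subgroup T) = Nat.card T :=
    Nat.card_congr (Subgroup.topEquiv).toEquiv
  have h3 : Nat.card (N.subgroupOf T) = Nat.card N :=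
    Nat.card_congr (ee hNT).toEquiv
  rw [h2, h3] at h1
  rw [h1]
  refine Fintype.sum_equiv (Subgroup.topEquiv : (⊤ : Subgroup T) ≃* T).toEquiv _ _ fun t => ?_
  refine Fintype.sum_equiv (Subgroup.topEquiv : (⊤ : Subgroup T) ≃* T).toEquiv _ _ fun u => ?_
  unfold Psi
  refine if_congr ?_ rfl rfl
  refine and_congr Iff.rfl ?_
  exact dgood_transfer hNT θ t.1

omit [Finite Γ] in
/-- Changing generators by elements of `N`. -/
theorem sup_closure_le {N : Subgroup Γ} {a b a' b' : Γ} (ha : a' * a⁻¹ ∈ N) (hb : b' * b⁻¹ ∈ N) :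
    N ⊔ Subgroup.closure ({a', b'} : Set Γ) ≤ N ⊔ Subgroup.closure ({a, b} : Set Γ) := by
  refine sup_le le_sup_left ?_
  rw [Subgroup.closure_le]
  have hu : a ∈ N ⊔ Subgroup.closure ({a, b} : Set Γ) :=
    Subgroup.mem_sup_right (Subgroup.subset_closure (Set.mem_insert _ _))
  have hv : b ∈ N ⊔ Subgroup.closure ({a, b} : Set Γ) :=
    Subgroup.mem_sup_right (Subgroup.subset_closure (Set.mem_insert_of_mem _ rfl))
  rintro x (rfl | rfl)
  · have h1 : x = (x * a⁻¹) * a := by group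
    rw [h1]
    exact Subgroup.mul_mem _ (Subgroup.mem_sup_left ha) hu
  · have h1 : x = (x * b⁻¹) * b := by group
    rw [h1]
    exact Subgroup.mul_mem _ (Subgroup.mem_sup_left hb) hv

omit [Finite Γ] in
theorem sup_closure_eq {N : Subgroup Γ} {a b a' b' : Γ} (ha : a' * a⁻¹ ∈ N) (hb : b' * b⁻¹ ∈ N) :
    N ⊔ Subgroup.closure ({a', b'} : Set Γ) = N ⊔ Subgroup.closure ({a, b} : Set Γ) := by
  apply le_antisymm (sup_closure_le ha hb)
  apply sup_closure_le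
  · have h1 : a * a'⁻¹ = (a' * a⁻¹)⁻¹ := by group
    rw [h1]
    exact N.inv_mem ha
  · have h1 : b * b'⁻¹ = (b' * b⁻¹)⁻¹ := by group
    rw [h1]
    exact N.inv_mem hb

open Classical in
/-- The sum over a product of two subgroups. -/
theorem sum_factor {T₁ N₁ T₂ N₂ : Subgroup Γ} [Fintype T₁] [Fintype T₂] [Fintype N₁] (hT : T₂ ≤ T₁)
    (hN₁ : N₁ ≤ T₁) (hN : N₂ = N₁ ⊓ T₂) (hsup : T₁ ≤ N₁ ⊔ T₂)
    (hn : T₂ ≤ Subgroup.normalizer (N₁ : Set Γ)) (G : Γ → ℂ)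
    (hG : ∀ n ∈ N₁, ∀ t ∈ T₂, G (n * t) = G t) :
    (∑ s : T₁, G s) * Nat.card N₂ = Nat.card N₁ * ∑ t : T₂, G t := by
  let f : N₁ × T₂ → T₁ := fun p => ⟨(p.1 : Γ) * p.2, T₁.mul_mem (hN₁ p.1.2) (hT p.2.2)⟩
  have hfib : ∀ s : T₁, (Finset.univ.filter (fun p : N₁ × T₂ => f p = s)).card = Nat.card N₂ := by
    intro s
    obtain ⟨n₀, hn₀, t₀, ht₀, hs⟩ := exists_mul_of_mem_sup (K := N₁) (A := T₂) hn (hsup s.2)
    rw [← Fintype.card_subtype]
    rw [← Nat.card_eq_fintype_card]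
    apply Nat.card_congr
    refine
      { toFun := fun p => ⟨n₀⁻¹ * p.1.1, ?_⟩
        invFun := fun c => ⟨(⟨n₀ * c.1, ?_⟩, ⟨c.1⁻¹ * t₀, ?_⟩), ?_⟩
        left_inv := fun p => ?_
        right_inv := fun c => ?_ }
    · have h1 : (p.1.1 : Γ) * p.1.2 = s := congrArg Subtype.val p.2
      rw [hN]
      refine ⟨N₁.mul_mem (N₁.inv_mem hn₀) p.1.1.2, ?_⟩
      have h2 : n₀⁻¹ * (p.1.1 : Γ) = t₀ * (p.1.2 : Γ)⁻¹ := by
        rw [hs] at h1
        calc n₀⁻¹ * (p.1.1 : Γ) = n₀⁻¹ * ((p.1.1 : Γ) * p.1.2) * (p.1.2 : Γ)⁻¹ := by group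
          _ = n₀⁻¹ * (n₀ * t₀) * (p.1.2 : Γ)⁻¹ := by rw [h1]
          _ = t₀ * (p.1.2 : Γ)⁻¹ := by group
      show n₀⁻¹ * (p.1.1 : Γ) ∈ T₂
      rw [h2]
      exact T₂.mul_mem ht₀ (T₂.inv_mem p.1.2.2)
    · have hc : (c.1 : Γ) ∈ N₁ := (hN.le c.2).1
      exact N₁.mul_mem hn₀ hc
    · have hc : (c.1 : Γ) ∈ T₂ := (hN.le c.2).2
      exact T₂.mul_mem (T₂.inv_mem hc) ht₀
    · apply Subtype.ext
      show n₀ * (c.1 : Γ) * ((c.1 : Γ)⁻¹ * t₀) = s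
      rw [hs]
      group
    · have h1 : (p.1.1 : Γ) * p.1.2 = s := congrArg Subtype.val p.2
      apply Subtype.ext
      apply Prod.ext
      · apply Subtype.ext
        show n₀ * (n₀⁻¹ * (p.1.1 : Γ)) = p.1.1
        group
      · apply Subtype.ext
        show (n₀⁻¹ * (p.1.1 : Γ))⁻¹ * t₀ = p.1.2
        rw [hs] at h1
        have h2 : t₀ = n₀⁻¹ * ((p.1.1 : Γ) * p.1.2) := by
          rw [h1]
          group
        rw [h2]
        group
    · apply Subtype.ext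
      show n₀⁻¹ * (n₀ * (c.1 : Γ)) = c.1
      group
  have h1 : ∑ p : N₁ × T₂, G (f p) = (Nat.card N₂ : ℂ) * ∑ s : T₁, G s := by
    rw [← Finset.sum_fiberwise (s := Finset.univ) (g := f), Finset.mul_sum]
    refine Finset.sum_congr rfl fun s _ => ?_
    rw [Finset.sum_congr rfl (g := fun _ => G s)]
    · rw [Finset.sum_const, hfib, nsmul_eq_mul]
    · intro x hx
      rw [(Finset.mem_filter.mp hx).2]
  have h2 : ∑ p : N₁ × T₂, G (f p) = (Nat.card N₁ : ℂ) * ∑ t : T₂, G t := by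
    rw [Fintype.sum_prod_type]
    have h3 : ∀ x : N₁, ∑ y : T₂, G (f (x, y)) = ∑ t : T₂, G t := by
      intro x
      refine Finset.sum_congr rfl fun y _ => ?_
      exact hG x x.2 y y.2
    simp only [h3, Finset.sum_const, Finset.card_univ, nsmul_eq_mul, Nat.card_eq_fintype_card]
  rw [mul_comm, ← h1, h2]

theorem psi_left {T₁ N₁ : Subgroup Γ} (hn₁ : T₁ ≤ Subgroup.normalizer (N₁ : Set Γ)) (θ : N₁ → ℂ)
    {s u n : Γ} (hs : s ∈ T₁) (hu : u ∈ T₁) (hn : n ∈ N₁) :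
    Psi N₁ T₁ θ s (n * u) = Psi N₁ T₁ θ s u := by
  classical
  unfold Psi
  refine if_congr ?_ rfl rfl
  refine and_congr ?_ Iff.rfl
  have hw : u * s * u⁻¹ ∈ T₁ := T₁.mul_mem (T₁.mul_mem hu hs) (T₁.inv_mem hu)
  have h1 := (Subgroup.mem_normalizer_iff.mp (hn₁ hw) n⁻¹).mp (N₁.inv_mem hn)
  have h2 : n * u * s * (n * u)⁻¹ * s⁻¹ =
      n * ((u * s * u⁻¹) * n⁻¹ * (u * s * u⁻¹)⁻¹) * (u * s * u⁻¹ * s⁻¹) := by group
  rw [h2]
  constructor
  · intro h3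
    have h4 := N₁.mul_mem (N₁.inv_mem (N₁.mul_mem hn h1)) h3
    simpa [mul_assoc] using h4
  · intro h3
    exact N₁.mul_mem (N₁.mul_mem hn h1) h3

theorem dgood_left {T₁ N₁ : Subgroup Γ} (hn₁ : T₁ ≤ Subgroup.normalizer (N₁ : Set Γ)) (θ : N₁ → ℂ)
    {t n : Γ} (ht : t ∈ T₁) (hn : n ∈ N₁) (hnT : N₁ ≤ T₁) :
    DGood N₁ T₁ θ (n * t) ↔ DGood N₁ T₁ θ t := by
  have hcomm : ∀ u ∈ T₁, (u * (n * t) * u⁻¹ * (n * t)⁻¹ ∈ N₁ ↔ u * t * u⁻¹ * t⁻¹ ∈ N₁) := by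
    intro u hu
    have h1 := (Subgroup.mem_normalizer_iff.mp (hn₁ hu) n).mp hn
    have h2 : u * (n * t) * u⁻¹ * (n * t)⁻¹ = (u * n * u⁻¹) * (u * t * u⁻¹ * t⁻¹) * n⁻¹ := by group
    rw [h2]
    constructor
    · intro h3
      have h4 := N₁.mul_mem (N₁.mul_mem (N₁.inv_mem h1) h3) hn
      simpa [mul_assoc] using h4
    · intro h3
      exact N₁.mul_mem (N₁.mul_mem h1 h3) (N₁.inv_mem hn)
  have hcl : ∀ u : Γ, N₁ ⊔ Subgroup.closure ({u, n * t} : Set Γ) =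
      N₁ ⊔ Subgroup.closure ({u, t} : Set Γ) := by
    intro u
    apply sup_closure_eq
    · simp
    · simpa using hn
  constructor
  · intro h u hu hc U hU he
    exact h u hu ((hcomm u hu).mpr hc) U hU (by rw [he, hcl])
  · intro h u hu hc U hU he
    exact h u hu ((hcomm u hu).mp hc) U hU (by rw [he, hcl])

/-- **The comparison of two layers.** -/
theorem gc_compare {T₁ N₁ T₂ N₂ : Subgroup Γ} (h₁ : N₁ ≤ T₁)
    (hn₁ : T₁ ≤ Subgroup.normalizer (N₁ : Set Γ)) (h₂ : N₂ ≤ T₂)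
    (hn₂ : T₂ ≤ Subgroup.normalizer (N₂ : Set Γ)) (hT : T₂ ≤ T₁) (hN : N₂ = N₁ ⊓ T₂)
    (hsup : T₁ ≤ N₁ ⊔ T₂) {θ₁ : N₁ → ℂ} {θ₂ : N₂ → ℂ} (hθ₁ : IsIrrCharacter N₁ θ₁)
    (hθ₂ : IsIrrCharacter N₂ θ₂) (hinv₁ : ∀ t ∈ T₁, IsConjCharOf N₁ t θ₁ θ₁)
    (hinv₂ : ∀ t ∈ T₂, IsConjCharOf N₂ t θ₂ θ₂)
    (hext : ∀ x ∈ T₂, ∀ y ∈ T₂, x * y * x⁻¹ * y⁻¹ ∈ N₂ → ∀ (U V : Subgroup Γ) (hU : N₁ ≤ U)
      (hV : N₂ ≤ V), U = N₁ ⊔ Subgroup.closure ({x, y} : Set Γ) →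
        V = N₂ ⊔ Subgroup.closure ({x, y} : Set Γ) → (ExtA hU θ₁ ↔ ExtA hV θ₂)) :
    Nat.card {χ : IrrCharacter T₁ // Over (Subgroup.inclusion h₁) (χ : T₁ → ℂ) θ₁} =
      Nat.card {χ : IrrCharacter T₂ // Over (Subgroup.inclusion h₂) (χ : T₂ → ℂ) θ₂} := by
  classical
  letI : Fintype T₁ := Fintype.ofFinite _
  letI : Fintype T₂ := Fintype.ofFinite _
  letI : Fintype N₁ := Fintype.ofFinite _
  have e₁ := F2_amb h₁ hn₁ hθ₁ hinv₁
  have e₂ := F2_amb h₂ hn₂ hθ₂ hinv₂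
  have hnT₂ : T₂ ≤ Subgroup.normalizer (N₁ : Set Γ) := hT.trans hn₁
  have hcommN : ∀ u ∈ T₂, ∀ t ∈ T₂, (u * t * u⁻¹ * t⁻¹ ∈ N₁ ↔ u * t * u⁻¹ * t⁻¹ ∈ N₂) := by
    intro u hu t ht
    rw [hN]
    constructor
    · intro h
      exact ⟨h, T₂.mul_mem (T₂.mul_mem (T₂.mul_mem hu ht) (T₂.inv_mem hu)) (T₂.inv_mem ht)⟩
    · intro h
      exact h.1
  -- the two good conditions agree
  have hgood : ∀ t ∈ T₂, (DGood N₁ T₁ θ₁ t ↔ DGood N₂ T₂ θ₂ t) := by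
    intro t ht
    constructor
    · intro h u hu hc V hV he
      have hc' := (hcommN u hu t ht).mpr hc
      have h3 := h u (hT hu) hc' _ le_sup_left rfl
      exact (hext u hu t ht hc _ V le_sup_left hV rfl he).mp h3
    · intro h v hv hc U hU he
      obtain ⟨n, hn, u, hu, rfl⟩ := exists_mul_of_mem_sup (K := N₁) (A := T₂) hnT₂ (hsup hv)
      have hcomm : u * t * u⁻¹ * t⁻¹ ∈ N₁ := by
        have h1 := (Subgroup.mem_normalizer_iff.mp (hn₁ (hT ht)) n).mp hn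
        have h2 : u * t * u⁻¹ * t⁻¹ = n⁻¹ * (n * u * t * (n * u)⁻¹ * t⁻¹) * (t * n * t⁻¹) := by group
        rw [h2]
        exact N₁.mul_mem (N₁.mul_mem (N₁.inv_mem hn) hc) h1
      have hc₂ := (hcommN u hu t ht).mp hcomm
      have h3 := h u hu hc₂ _ le_sup_left rfl
      refine (hext u hu t ht hc₂ U _ hU le_sup_left ?_ rfl).mpr h3
      rw [he]
      apply sup_closure_eq
      · simpa using hn
      · simp
  have hpsi : ∀ t ∈ T₂, ∀ u ∈ T₂, Psi N₁ T₁ θ₁ t u = Psi N₂ T₂ θ₂ t u := by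
    intro t ht u hu
    unfold Psi
    exact if_congr (and_congr (hcommN u hu t ht) (hgood t ht)) rfl rfl
  -- the sums
  have hsum : (∑ t : T₁, ∑ u : T₁, Psi N₁ T₁ θ₁ t u) * (Nat.card N₂ * Nat.card N₂) =
      (Nat.card N₁ * Nat.card N₁) * ∑ t : T₂, ∑ u : T₂, Psi N₂ T₂ θ₂ t u := by
    have h3 : ∀ s : T₁, (∑ v : T₁, Psi N₁ T₁ θ₁ s v) * Nat.card N₂ =
        Nat.card N₁ * ∑ u : T₂, Psi N₁ T₁ θ₁ s u := fun s =>
      sum_factor hT h₁ hN hsup hnT₂ (fun v => Psi N₁ T₁ θ₁ s v)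
        (fun n hn t ht => psi_left hn₁ θ₁ s.2 (hT ht) hn)
    have h4 := sum_factor hT h₁ hN hsup hnT₂ (fun s => ∑ u : T₂, Psi N₁ T₁ θ₁ s u) (by
      intro n hn t ht
      refine Finset.sum_congr rfl fun u _ => ?_
      unfold Psi
      refine if_congr ?_ rfl rfl
      rw [dgood_left hn₁ θ₁ (hT ht) hn h₁]
      refine and_congr ?_ Iff.rfl
      have h1 := (Subgroup.mem_normalizer_iff.mp (hn₁ (hT u.2)) n).mp hn
      have h2 : (u : Γ) * (n * t) * (u : Γ)⁻¹ * (n * t)⁻¹ =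
          ((u : Γ) * n * (u : Γ)⁻¹) * ((u : Γ) * t * (u : Γ)⁻¹ * t⁻¹) * n⁻¹ := by group
      rw [h2]
      constructor
      · intro h3
        have h5 := N₁.mul_mem (N₁.mul_mem (N₁.inv_mem h1) h3) hn
        simpa [mul_assoc] using h5
      · intro h3
        exact N₁.mul_mem (N₁.mul_mem h1 h3) (N₁.inv_mem hn))
    calc (∑ t : T₁, ∑ u : T₁, Psi N₁ T₁ θ₁ t u) * (Nat.card N₂ * Nat.card N₂)
        = (∑ t : T₁, (∑ u : T₁, Psi N₁ T₁ θ₁ t u) * Nat.card N₂) * Nat.card N₂ := by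
          rw [Finset.sum_mul, Finset.sum_mul]
          refine Finset.sum_congr rfl fun t _ => ?_
          ring
      _ = (∑ t : T₁, Nat.card N₁ * ∑ u : T₂, Psi N₁ T₁ θ₁ t u) * Nat.card N₂ := by
          simp only [h3]
      _ = Nat.card N₁ * ((∑ t : T₁, ∑ u : T₂, Psi N₁ T₁ θ₁ t u) * Nat.card N₂) := by
          rw [← Finset.mul_sum]
          ring
      _ = Nat.card N₁ * (Nat.card N₁ * ∑ t : T₂, ∑ u : T₂, Psi N₁ T₁ θ₁ t u) := by
          rw [h4]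
      _ = _ := by
          rw [← mul_assoc]
          congr 1
          refine Finset.sum_congr rfl fun t _ => ?_
          refine Finset.sum_congr rfl fun u _ => ?_
          exact hpsi t t.2 u u.2
  have hcardT := sum_factor hT h₁ hN hsup hnT₂ (fun _ => (1 : ℂ)) (fun _ _ _ _ => rfl)
  simp only [Finset.sum_const, Finset.card_univ, nsmul_eq_mul, mul_one] at hcardT
  rw [← Nat.card_eq_fintype_card, ← Nat.card_eq_fintype_card] at hcardT
  rw [← e₁, ← e₂] at hsum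
  have hN₁0 : (Nat.card N₁ : ℂ) ≠ 0 := Nat.cast_ne_zero.mpr Nat.card_pos.ne'
  have hN₂0 : (Nat.card N₂ : ℂ) ≠ 0 := Nat.cast_ne_zero.mpr Nat.card_pos.ne'
  have hT₂0 : (Nat.card T₂ : ℂ) ≠ 0 := Nat.cast_ne_zero.mpr Nat.card_pos.ne'
  have hfin : (Nat.card {χ : IrrCharacter T₁ // Over (Subgroup.inclusion h₁) (χ : T₁ → ℂ) θ₁} : ℂ) =
      Nat.card {χ : IrrCharacter T₂ // Over (Subgroup.inclusion h₂) (χ : T₂ → ℂ) θ₂} := by
    have h5 : (Nat.card T₁ : ℂ) * Nat.card N₂ = Nat.card N₁ * Nat.card T₂ := hcardT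
    generalize (Nat.card {χ : IrrCharacter T₁ // Over (Subgroup.inclusion h₁) (χ : T₁ → ℂ) θ₁} : ℂ) = c₁ at *
    generalize (Nat.card {χ : IrrCharacter T₂ // Over (Subgroup.inclusion h₂) (χ : T₂ → ℂ) θ₂} : ℂ) = c₂ at *
    have h6 : c₁ * ((Nat.card N₁ : ℂ) * Nat.card T₂ * Nat.card N₁ * Nat.card N₂) =
        c₂ * ((Nat.card N₁ : ℂ) * Nat.card T₂ * Nat.card N₁ * Nat.card N₂) := by
      calc c₁ * ((Nat.card N₁ : ℂ) * Nat.card T₂ * Nat.card N₁ * Nat.card N₂)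
          = c₁ * (((Nat.card T₁ : ℂ) * Nat.card N₂) * Nat.card N₁ * Nat.card N₂) := by rw [h5]
        _ = c₁ * Nat.card T₁ * Nat.card N₁ * (Nat.card N₂ * Nat.card N₂) := by ring
        _ = _ := by rw [hsum]; ring
    exact mul_right_cancel₀ (mul_ne_zero (mul_ne_zero (mul_ne_zero hN₁0 hT₂0) hN₁0) hN₂0) h6
  exact_mod_cast hfin

end Cfsg.Agent.Lib.RelMcKay.GoodAmb
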