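import Mathlib
import Cfsg.Agent.Lib.RelMcKay.GoodAmb

/-!
# Extending over a product when the restriction stays irreducible
-/

set_option autoImplicit false
set_option linter.style.haveILetI false
set_option linter.unusedSectionVars false

namespace Cfsg.Agent.Lib.RelMcKay.RB

open Cfsg Module Pointwise
open Cfsg.Agent.Lib.Char.Basic Cfsg.Agent.Lib.Char.Ortho Cfsg.Agent.Lib.Char.Complete
open Cfsg.Agent.Lib.Char.Conj Cfsg.Agent.Lib.Char.ProjExt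
open Cfsg.Agent.Lib.RelMcKay.Basic Cfsg.Agent.Lib.RelMcKay.Cliff Cfsg.Agent.Lib.RelMcKay.Stab
open Cfsg.Agent.Lib.RelMcKay.Induct Cfsg.Agent.Lib.RelMcKay.Ext Cfsg.Agent.Lib.RelMcKay.Good
open Cfsg.Agent.Lib.RelMcKay.GoodAmb
open Cfsg.Agent.Lib.Coprime.Action
open scoped ComplexConjugate

universe u

/-- The core of the construction. -/
theorem rb_core {U₀ : Type u} [Group U₀] [Finite U₀] {N V : Subgroup U₀} (hN : N.Normal)
    (hsup : ∀ x : U₀, ∃ n ∈ N, ∃ v ∈ V, x = n * v) {d : ℕ} {X : Representation ℂ N (Fin d → ℂ)}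
    (hinv : ∀ g : U₀, conjOn hN g X.character = X.character)
    (hX₂ : Representation.IsIrreducible (X.comp (Subgroup.inclusion (inf_le_left : N ⊓ V ≤ N)) :
      Representation ℂ ↥(N ⊓ V) (Fin d → ℂ)))
    {σ : Representation ℂ V (Fin d → ℂ)}
    (hσ : ∀ m : ↥(N ⊓ V), σ ⟨m, m.2.2⟩ = X ⟨m, m.2.1⟩) :
    ∃ ρ : Representation ℂ U₀ (Fin d → ℂ), ∀ n : N, ρ n = X n := by
  classical
  have hint : ∀ (v : V) (n : N), σ v * X n = X (conjEquiv hN (v : U₀) n) * σ v := by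
    intro v n
    obtain ⟨q, hq⟩ := pr_surjective hinv (v : U₀)
    have hq' : opOf hN X q⁻¹ * opOf hN X q = 1 := by
      rw [← map_mul, inv_mul_cancel, map_one]
    have hq'' : opOf hN X q * opOf hN X q⁻¹ = 1 := by
      rw [← map_mul, mul_inv_cancel, map_one]
    have hT : ∀ m : ↥(N ⊓ V), (opOf hN X q⁻¹ * σ v) ∘ₗ
        (X.comp (Subgroup.inclusion (inf_le_left : N ⊓ V ≤ N)) : Representation ℂ ↥(N ⊓ V) _) m =
        (X.comp (Subgroup.inclusion (inf_le_left : N ⊓ V ≤ N)) : Representation ℂ ↥(N ⊓ V) _) m ∘ₗ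
          (opOf hN X q⁻¹ * σ v) := by
      intro m
      show opOf hN X q⁻¹ * σ v * X ⟨m, m.2.1⟩ = X ⟨m, m.2.1⟩ * (opOf hN X q⁻¹ * σ v)
      let m' : N := ⟨(m : U₀), m.2.1⟩
      have hm₂ : (v : U₀) * m * (v : U₀)⁻¹ ∈ V := V.mul_mem (V.mul_mem v.2 m.2.2) (V.inv_mem v.2)
      let mc : ↥(N ⊓ V) := ⟨(v : U₀) * m * (v : U₀)⁻¹, hN.conj_mem m m.2.1 v, hm₂⟩
      have h1 : σ v * σ ⟨m, m.2.2⟩ = σ ⟨mc, mc.2.2⟩ * σ v := by
        rw [← map_mul, ← map_mul]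
        congr 1
        apply Subtype.ext
        show (v : U₀) * m = (v : U₀) * m * (v : U₀)⁻¹ * v
        group
      rw [hσ m, hσ mc] at h1
      have h2 := opOf_mul_X (hN := hN) (X := X) q⁻¹ ⟨mc, mc.2.1⟩
      have h3 : conjEquiv hN (pr hN X q⁻¹) ⟨mc, mc.2.1⟩ = m' := by
        apply Subtype.ext
        simp only [map_inv, hq, coe_conjEquiv]
        show (v : U₀)⁻¹ * ((v : U₀) * m * (v : U₀)⁻¹) * (v : U₀)⁻¹⁻¹ = m
        group
      rw [h3] at h2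
      calc opOf hN X q⁻¹ * σ v * X ⟨m, m.2.1⟩ = opOf hN X q⁻¹ * (σ v * X ⟨m, m.2.1⟩) := mul_assoc _ _ _
        _ = opOf hN X q⁻¹ * (X ⟨mc, mc.2.1⟩ * σ v) := by rw [h1]
        _ = (opOf hN X q⁻¹ * X ⟨mc, mc.2.1⟩) * σ v := (mul_assoc _ _ _).symm
        _ = (X m' * opOf hN X q⁻¹) * σ v := by rw [h2]
        _ = X ⟨m, m.2.1⟩ * (opOf hN X q⁻¹ * σ v) := mul_assoc _ _ _
    obtain ⟨c, hc⟩ := schur_scalar _ hX₂ _ hT
    have hc' : opOf hN X q⁻¹ * σ v = c • (1 : Module.End ℂ (Fin d → ℂ)) := hc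
    have h4 : σ v = c • opOf hN X q := by
      calc σ v = opOf hN X q * (opOf hN X q⁻¹ * σ v) := by rw [← mul_assoc, hq'', one_mul]
        _ = c • opOf hN X q := by rw [hc', mul_smul_comm, mul_one]
    have h5 := opOf_mul_X (hN := hN) (X := X) q n
    rw [hq] at h5
    rw [h4, smul_mul_assoc, h5, mul_smul_comm]
  have hunit : ∀ v : V, σ v * σ v⁻¹ = 1 ∧ σ v⁻¹ * σ v = 1 := by
    intro v
    constructor
    · rw [← map_mul, mul_inv_cancel, map_one]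
    · rw [← map_mul, inv_mul_cancel, map_one]
  let j : V →* Gam hN X :=
    { toFun := fun v => ⟨((v : U₀), ⟨σ v, σ v⁻¹, (hunit v).1, (hunit v).2⟩), hint v⟩
      map_one' := by
        apply Gam_ext
        · rfl
        · show σ 1 = 1
          exact map_one _
      map_mul' := fun a b => by
        apply Gam_ext
        · rfl
        · show σ (a * b) = σ a * σ b
          exact map_mul _ _ _ }
  have hjpr : ∀ v : V, pr hN X (j v) = v := fun v => rfl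
  have hjop : ∀ v : V, opOf hN X (j v) = σ v := fun v => rfl
  haveI hnorm : (iota hN X).range.Normal := iota_range_normal
  let H : Subgroup (Gam hN X) := j.range ⊔ (iota hN X).range
  have hdecomp : ∀ p ∈ H, ∃ (n : N) (v : V), p = j v * iota hN X n := by
    intro p hp
    have hp' : p ∈ ((j.range ⊔ (iota hN X).range : Subgroup (Gam hN X)) : Set (Gam hN X)) := hp
    rw [Subgroup.mul_normal] at hp'
    obtain ⟨a, ⟨v, rfl⟩, b, ⟨n, rfl⟩, rfl⟩ := hp'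
    exact ⟨n, v, rfl⟩
  obtain ⟨ρ, hρ⟩ := exists_ext_of_section H (fun n => Subgroup.mem_sup_right ⟨n, rfl⟩)
    (by
      intro p hp hp1
      obtain ⟨n, v, rfl⟩ := hdecomp p hp
      have h1 : (v : U₀) * n = 1 := by
        have h2 := hp1
        rw [map_mul, hjpr, pr_iota] at h2
        exact h2
      have hvN : (v : U₀) ∈ N := by
        have h2 : (v : U₀) = (n : U₀)⁻¹ := eq_inv_of_mul_eq_one_left h1
        rw [h2]
        exact N.inv_mem n.2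
      have hnV : (n : U₀) ∈ V := by
        have h2 : (n : U₀) = (v : U₀)⁻¹ := eq_inv_of_mul_eq_one_right h1
        rw [h2]
        exact V.inv_mem v.2
      apply Gam_ext
      · rw [map_one]
        exact hp1
      · rw [map_mul, hjop, opOf_iota, map_one]
        have h2 := hσ ⟨v, hvN, v.2⟩
        have h3 : (⟨((⟨v, hvN, v.2⟩ : ↥(N ⊓ V)) : U₀), v.2⟩ : V) = v := rfl
        rw [h3] at h2
        rw [h2, ← map_mul]
        have h4 : (⟨((⟨v, hvN, v.2⟩ : ↥(N ⊓ V)) : U₀), hvN⟩ : N) * n = 1 := Subtype.ext h1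
        rw [h4, map_one])
    (by
      intro g
      obtain ⟨n, hn, v, hv, rfl⟩ := hsup g
      refine ⟨iota hN X ⟨n, hn⟩ * j ⟨v, hv⟩, ?_, ?_⟩
      · exact H.mul_mem (Subgroup.mem_sup_right ⟨_, rfl⟩) (Subgroup.mem_sup_left ⟨_, rfl⟩)
      · rw [map_mul, hjpr, pr_iota])
  exact ⟨ρ, hρ⟩

/-- **Extending over a product.** -/
theorem rb_ext {Γ : Type u} [Group Γ] [Finite Γ] {N₁ N₂ U V : Subgroup Γ} (hN₁U : N₁ ≤ U)
    (hN₂V : N₂ ≤ V) (hVU : V ≤ U) (hN : N₂ = N₁ ⊓ V) (hsup : U ≤ N₁ ⊔ V)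
    (hn : U ≤ Subgroup.normalizer (N₁ : Set Γ)) {θ₁ : N₁ → ℂ} {θ₂ : N₂ → ℂ}
    (hθ₁ : IsIrrCharacter N₁ θ₁) (hθ₂ : IsIrrCharacter N₂ θ₂) (hN₂N₁ : N₂ ≤ N₁)
    (he : θ₁ ∘ Subgroup.inclusion hN₂N₁ = θ₂) (hinv : ∀ u ∈ U, IsConjCharOf N₁ u θ₁ θ₁) :
    ExtA hN₁U θ₁ ↔ ExtA hN₂V θ₂ := by
  classical
  constructor
  · rintro ⟨ζ, hζ, hζe⟩
    refine ⟨ζ ∘ Subgroup.inclusion hVU, isCharacter_comp _ hζ, ?_⟩
    rw [← he, ← hζe]
    rfl
  · rintro ⟨ζ, hζ, hζe⟩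
    haveI hN₀ := normal_of_le hN₁U hn
    obtain ⟨d, X, hX, hXe⟩ := isIrr_ee hN₁U hθ₁
    have hinv₀ : ∀ g : U, conjOn hN₀ g X.character = X.character := by
      intro g
      rw [hXe]
      have h2 := (cj_iff hN₁U hN₀ g⁻¹ θ₁ θ₁).mp (hinv _ (U.inv_mem g.2))
      simpa using h2
    let V₀ : Subgroup U := V.subgroupOf U
    let N₀ : Subgroup U := N₁.subgroupOf U
    have hmem₂ : ∀ m : ↥(N₀ ⊓ V₀), ((m : U) : Γ) ∈ N₂ := by
      intro m
      rw [hN]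
      exact ⟨m.2.1, m.2.2⟩
    let ii : ↥(N₀ ⊓ V₀) ≃* N₂ :=
      { toFun := fun m => ⟨((m : U) : Γ), hmem₂ m⟩
        invFun := fun m => ⟨⟨m, hN₁U (hN₂N₁ m.2)⟩, hN₂N₁ m.2, hN₂V m.2⟩
        left_inv := fun m => rfl
        right_inv := fun m => rfl
        map_mul' := fun a b => rfl }
    let X₂ : Representation ℂ ↥(N₀ ⊓ V₀) (Fin d → ℂ) :=
      X.comp (Subgroup.inclusion (inf_le_left : N₀ ⊓ V₀ ≤ N₀))
    have hX₂c : X₂.character = θ₂ ∘ ii := by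
      funext m
      show X.character _ = _
      rw [hXe, ← he]
      rfl
    have hX₂irr : X₂.IsIrreducible := by
      apply Cfsg.Agent.Lib.Char.Extend.isIrreducible_of_isIrrCharacter
      rw [hX₂c]
      exact isIrrCharacter_comp_mulEquiv ii hθ₂
    have hζ₀ : IsCharacter V₀ (ζ ∘ ee hVU) := isCharacter_comp_mulEquiv _ hζ
    have hle : N₀ ⊓ V₀ ≤ V₀ := inf_le_right
    obtain ⟨σ, hσ, -⟩ := Cfsg.Agent.Lib.Char.Extend.exists_rep_of_character_ext (X := X₂) hle hζ₀ (by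
      intro n
      rw [hX₂c, ← hζe]
      rfl)
    obtain ⟨ρ, hρ⟩ := rb_core hN₀ (by
      intro x
      obtain ⟨n, hn', v, hv, hx⟩ := exists_mul_of_mem_sup (K := N₁) (A := V)
        (hVU.trans hn) (hsup x.2)
      exact ⟨⟨n, hN₁U hn'⟩, hn', ⟨v, hVU hv⟩, hv, Subtype.ext hx⟩) hinv₀ hX₂irr hσ
    refine ⟨ρ.character, isCharacter_of_rep ρ, ?_⟩
    funext n
    have h1 := hρ ((ee hN₁U).symm n)
    show LinearMap.trace ℂ _ (ρ (Subgroup.inclusion hN₁U n)) = _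
    have h2 : ((((ee hN₁U).symm n : ↥(N₁.subgroupOf U))) : U) = Subgroup.inclusion hN₁U n := rfl
    rw [← h2, h1]
    have h3 := congrFun hXe ((ee hN₁U).symm n)
    simp only [Function.comp, MulEquiv.apply_symm_apply] at h3
    exact h3

/-- **The comparison when the restriction stays irreducible.** -/
theorem rb_compare {Γ : Type u} [Group Γ] [Finite Γ] {T₁ N₁ T₂ N₂ : Subgroup Γ} (h₁ : N₁ ≤ T₁)
    (hn₁ : T₁ ≤ Subgroup.normalizer (N₁ : Set Γ)) (h₂ : N₂ ≤ T₂)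
    (hn₂ : T₂ ≤ Subgroup.normalizer (N₂ : Set Γ)) (hT : T₂ ≤ T₁) (hN : N₂ = N₁ ⊓ T₂)
    (hsup : T₁ ≤ N₁ ⊔ T₂) (hN₂N₁ : N₂ ≤ N₁) {θ₁ : N₁ → ℂ} {θ₂ : N₂ → ℂ}
    (hθ₁ : IsIrrCharacter N₁ θ₁)
    (hθ₂ : IsIrrCharacter N₂ θ₂) (he : θ₁ ∘ Subgroup.inclusion hN₂N₁ = θ₂)
    (hinv₁ : ∀ t ∈ T₁, IsConjCharOf N₁ t θ₁ θ₁)
    (hinv₂ : ∀ t ∈ T₂, IsConjCharOf N₂ t θ₂ θ₂) :
    Nat.card {χ : IrrCharacter T₁ // Over (Subgroup.inclusion h₁) (χ : T₁ → ℂ) θ₁} =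
      Nat.card {χ : IrrCharacter T₂ // Over (Subgroup.inclusion h₂) (χ : T₂ → ℂ) θ₂} := by
  apply gc_compare h₁ hn₁ h₂ hn₂ hT hN hsup hθ₁ hθ₂ hinv₁ hinv₂
  intro x hx y hy _ U V hU hV hUe hVe
  have hxy : Subgroup.closure ({x, y} : Set Γ) ≤ T₂ := by
    rw [Subgroup.closure_le]
    rintro a (rfl | rfl)
    · exact hx
    · exact hy
  have hVT₂ : V ≤ T₂ := by
    rw [hVe]
    exact sup_le h₂ hxy
  have hUT₁ : U ≤ T₁ := by
    rw [hUe]
    exact sup_le h₁ (hxy.trans hT)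
  have hVU : V ≤ U := by
    rw [hVe, hUe]
    exact sup_le (hN₂N₁.trans le_sup_left) le_sup_right
  have hinf : N₂ = N₁ ⊓ V := by
    apply le_antisymm
    · exact le_inf hN₂N₁ hV
    · rw [hN]
      exact inf_le_inf_left _ hVT₂
  have hsup' : U ≤ N₁ ⊔ V := by
    rw [hUe, hVe]
    exact sup_le le_sup_left (le_sup_of_le_right le_sup_right)
  exact rb_ext hU hV hVU hinf hsup' (hUT₁.trans hn₁) hθ₁ hθ₂ hN₂N₁ he (fun u hu => hinv₁ u (hUT₁ hu))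

end Cfsg.Agent.Lib.RelMcKay.RB
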