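import Mathlib
import Cfsg.Agent.Lib.RelMcKay.RB
import Cfsg.Agent.Lib.CharDeep.Det
import Cfsg.Agent.Lib.OddChar.Inertia
import Cfsg.Agent.Lib.Char.DegDvd

/-!
# Characters of degree prime to `p` of `A ⋊ S` as pairs
-/

set_option autoImplicit false
set_option linter.style.haveILetI false
set_option linter.unusedSectionVars false

namespace Cfsg.Agent.Lib.RelMcKay.Pair

open Cfsg Module Pointwise
open Cfsg.Agent.Lib.Char.Basic Cfsg.Agent.Lib.Char.Ortho Cfsg.Agent.Lib.Char.Complete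
open Cfsg.Agent.Lib.Char.Conj Cfsg.Agent.Lib.Char.Degree
open Cfsg.Agent.Lib.RelMcKay.Basic Cfsg.Agent.Lib.RelMcKay.Cliff Cfsg.Agent.Lib.RelMcKay.Stab
open Cfsg.Agent.Lib.RelMcKay.Induct Cfsg.Agent.Lib.RelMcKay.Ext
open Cfsg.Agent.Lib.Coprime.Action Cfsg.Agent.Lib.Coprime.SchurZassenhaus
open Cfsg.Agent.Lib.CharDeep.Det
open scoped ComplexConjugate

universe u

section Root

variable {S : Type u} [Group S] [Finite S] {p : ℕ} [hp : Fact p.Prime]

/-- The exponent of the group of linear characters. -/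
theorem hom_pow_card (γ : S →* ℂˣ) : γ ^ Nat.card S = 1 := by
  ext s
  show ((γ ^ Nat.card S) s : ℂˣ).val = 1
  rw [MonoidHom.pow_apply, ← map_pow, pow_card_eq_one', map_one, Units.val_one]

/-- Roots of linear characters of `p`-groups. -/
theorem pow_root (hS : IsPGroup p S) {d : ℕ} (hd : ¬ p ∣ d) :
    ∃ a : ℤ, ∀ γ : S →* ℂˣ, (γ ^ a) ^ d = γ ∧ (γ ^ d) ^ a = γ := by
  obtain ⟨n, hn⟩ := IsPGroup.iff_card.mp hS
  have hcop : Nat.Coprime d (Nat.card S) := by
    rw [hn]
    exact Nat.Coprime.pow_right n ((Nat.Prime.coprime_iff_not_dvd hp.out).mpr hd).symm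
  have hb := Nat.gcd_eq_gcd_ab d (Nat.card S)
  rw [hcop] at hb
  refine ⟨Nat.gcdA d (Nat.card S), fun γ => ?_⟩
  have h1 : ∀ s : S, (γ s) ^ ((d : ℤ) * Nat.gcdA d (Nat.card S)) = γ s := by
    intro s
    have h2 : (d : ℤ) * Nat.gcdA d (Nat.card S) =
        1 - (Nat.card S : ℤ) * Nat.gcdB d (Nat.card S) := by
      push_cast at hb
      linarith
    have h3 : (γ s) ^ (Nat.card S) = 1 := by
      rw [← map_pow, pow_card_eq_one', map_one]
    rw [h2, zpow_sub, zpow_one, zpow_mul, zpow_natCast, h3, one_zpow, inv_one, mul_one]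
  constructor
  · ext s
    rw [MonoidHom.pow_apply, MonoidHom.zpow_apply]
    congr 1
    rw [← zpow_natCast, ← zpow_mul, mul_comm]
    exact h1 s
  · ext s
    rw [MonoidHom.zpow_apply, MonoidHom.pow_apply]
    congr 1
    rw [← zpow_natCast, ← zpow_mul]
    exact h1 s

theorem exists_root (hS : IsPGroup p S) {d : ℕ} (hd : ¬ p ∣ d) (δ : S →* ℂˣ) :
    ∃ γ : S →* ℂˣ, γ ^ d = δ := by
  obtain ⟨a, ha⟩ := pow_root hS hd
  exact ⟨δ ^ a, (ha δ).1⟩

theorem root_inj (hS : IsPGroup p S) {d : ℕ} (hd : ¬ p ∣ d) {γ₁ γ₂ : S →* ℂˣ}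
    (h : γ₁ ^ d = γ₂ ^ d) : γ₁ = γ₂ := by
  obtain ⟨a, ha⟩ := pow_root hS hd
  rw [← (ha γ₁).2, h, (ha γ₂).2]

end Root

/-- A character with a constituent of the same degree is that constituent. -/
theorem eq_of_deg_eq {K : Type u} [Group K] [Fintype K] {ψ η : K → ℂ} (hψ : IsCharacter K ψ)
    (hη : IsIrrCharacter K η) (hne : classInner ψ η ≠ 0) (hdeg : ψ 1 = η 1) : ψ = η := by
  classical
  haveI := finite_irrCharacter (G := K)
  letI : Fintype (IrrCharacter K) := Fintype.ofFinite _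
  have h1 := classFunction_eq_sum (isClassFunction_of_isCharacter hψ)
  have hm : ∀ ι : IrrCharacter K, ∃ m : ℕ, classInner ψ (ι : K → ℂ) = m := fun ι =>
    exists_nat_classInner hψ (isCharacter_of_isIrrCharacter ι.2)
  choose m hm using hm
  have hd : ∀ ι : IrrCharacter K, (ι : K → ℂ) 1 = charDegree (ι : K → ℂ) := fun ι =>
    (charDegree_natCast (isCharacter_of_isIrrCharacter ι.2)).symm
  have hd0 : ∀ ι : IrrCharacter K, charDegree (ι : K → ℂ) ≠ 0 := by
    intro ι h0
    apply irr_one_ne_zero ι.2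
    rw [hd, h0]
    simp
  let i₀ : IrrCharacter K := ⟨η, hη⟩
  have hsum : ∑ ι : IrrCharacter K, m ι * charDegree (ι : K → ℂ) = charDegree η := by
    have h2 := congrFun h1 1
    simp only [Finset.sum_apply, Pi.smul_apply, smul_eq_mul, hm, hd] at h2
    have h3 : (ψ 1 : ℂ) = charDegree η := by
      rw [hdeg]
      exact (charDegree_natCast (isCharacter_of_isIrrCharacter hη)).symm
    rw [h3] at h2
    exact_mod_cast h2.symm
  have hm0 : m i₀ ≠ 0 := by
    intro h0
    apply hne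
    have := hm i₀
    rw [h0] at this
    simpa using this
  rw [← Finset.add_sum_erase _ _ (Finset.mem_univ i₀)] at hsum
  have hdη : charDegree (i₀ : K → ℂ) = charDegree η := rfl
  have hm1 : m i₀ = 1 := by
    rw [hdη] at hsum
    have h4 : m i₀ * charDegree η ≤ charDegree η := by omega
    have h5 : 0 < charDegree η := Nat.pos_of_ne_zero (hd0 i₀)
    have h6 : m i₀ ≤ 1 := by
      by_contra hc
      push Not at hc
      nlinarith
    omega
  have hrest : ∑ ι ∈ Finset.univ.erase i₀, m ι * charDegree (ι : K → ℂ) = 0 := by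
    rw [hm1, hdη] at hsum
    omega
  rw [Finset.sum_eq_zero_iff] at hrest
  rw [h1, ← Finset.add_sum_erase _ _ (Finset.mem_univ i₀), Finset.sum_eq_zero, add_zero, hm, hm1]
  · funext g
    simp [i₀]
  · intro ι hι
    have h7 := hrest ι hι
    have h8 : m ι = 0 := by
      rcases Nat.mul_eq_zero.mp h7 with h | h
      · exact h
      · exact absurd h (hd0 ι)
    rw [hm, h8]
    simp

variable {Γ : Type u} [Group Γ]

/-- The setup. -/
structure PSetup (p : ℕ) (A S W : Subgroup Γ) : Prop where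
  hW : W = A ⊔ S
  hn : S ≤ Subgroup.normalizer (A : Set Γ)
  hS : IsPGroup p S
  hA : Nat.Coprime p (Nat.card A)

namespace PSetup

variable {p : ℕ} {A S W : Subgroup Γ} (P : PSetup p A S W)

include P

theorem leA : A ≤ W := by
  rw [P.hW]
  exact le_sup_left

theorem leS : S ≤ W := by
  rw [P.hW]
  exact le_sup_right

theorem normal : W ≤ Subgroup.normalizer (A : Set Γ) := by
  rw [P.hW]
  exact sup_le Subgroup.le_normalizer P.hn

variable [Finite Γ] [hp : Fact p.Prime]

theorem coprime_card : Nat.Coprime (Nat.card A) (Nat.card S) := by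
  obtain ⟨n, hn⟩ := IsPGroup.iff_card.mp P.hS
  rw [hn]
  exact Nat.Coprime.pow_right n P.hA.symm

theorem disj : A ⊓ S = ⊥ := disjoint_of_coprime_card P.coprime_card

theorem relIndex_eq : A.relIndex W = Nat.card S := by
  have h1 := card_sup_of_le_normalizer P.hn P.disj
  rw [← P.hW] at h1
  have h2 : Nat.card (A.subgroupOf W) * A.relIndex W = Nat.card W := Subgroup.card_mul_index _
  have h3 : Nat.card (A.subgroupOf W) = Nat.card A := Nat.card_congr (ee P.leA).toEquiv
  rw [h3, ← h1] at h2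
  exact Nat.eq_of_mul_eq_mul_left Nat.card_pos h2

/-- Restriction to `A` is irreducible. -/
theorem restrict_irr {ξ : W → ℂ} (hξ : IsIrrCharacter W ξ) (hd : ¬ p ∣ charDegree ξ) :
    IsIrrCharacter A (ξ ∘ Subgroup.inclusion P.leA) := by
  classical
  letI : Fintype W := Fintype.ofFinite W
  letI : Fintype A := Fintype.ofFinite A
  letI : Fintype ↥(A.subgroupOf W) := Fintype.ofFinite _
  obtain ⟨η, hη, hov⟩ := exists_over P.leA hξ
  have hN := normal_of_le P.leA P.normal
  obtain ⟨e, t, h1, h2⟩ := Cfsg.Agent.Lib.Char.DegDvd.dvd_index_of_constituent hN (isIrr_ee P.leA hη) hξ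
    ((over_iff P.leA ξ η).mp hov)
  have hindex : (A.subgroupOf W).index = Nat.card S := P.relIndex_eq
  rw [hindex] at h2
  obtain ⟨n, hn⟩ := IsPGroup.iff_card.mp P.hS
  rw [hn] at h2
  obtain ⟨j, -, hj⟩ := (Nat.dvd_prime_pow hp.out).mp h2
  have hη1 : (η ∘ ee P.leA) 1 = η 1 := by
    simp
  have hdeg : charDegree ξ = e * t * charDegree η := by
    have h3 := charDegree_natCast (isCharacter_of_isIrrCharacter hξ)
    have h4 := charDegree_natCast (isCharacter_of_isIrrCharacter hη)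
    rw [h1, hη1, ← h4] at h3
    exact_mod_cast h3
  have hj0 : j = 0 := by
    by_contra hne
    apply hd
    rw [hdeg, hj]
    exact Dvd.dvd.mul_right (dvd_pow_self p hne) _
  rw [hj0, pow_zero] at hj
  have hdeg' : ξ 1 = η 1 := by
    rw [h1, hη1, hj]
    simp
  have hc : IsCharacter A (ξ ∘ Subgroup.inclusion P.leA) :=
    isCharacter_comp _ (isCharacter_of_isIrrCharacter hξ)
  have he : ξ ∘ Subgroup.inclusion P.leA = η := by
    apply eq_of_deg_eq hc hη
    · have h5 := hov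
      unfold Over at h5
      rwa [ci_eq] at h5
    · simpa using hdeg'
  rw [he]
  exact hη

/-- Restriction to `A` is invariant. -/
theorem restrict_inv {ξ : W → ℂ} (hξ : IsClassFunction W ξ) {x : Γ} (hx : x ∈ W) :
    IsConjCharOf A x (ξ ∘ Subgroup.inclusion P.leA) (ξ ∘ Subgroup.inclusion P.leA) := by
  intro k k' hk
  have h1 := hξ (Subgroup.inclusion P.leA k) ⟨x, hx⟩
  simp only [Function.comp]
  rw [← h1]
  congr 1
  apply Subtype.ext
  exact hk

/-- The extension. -/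
theorem exists_ext {η : A → ℂ} (hη : IsIrrCharacter A η) (hinv : ∀ s ∈ S, IsConjCharOf A s η η) :
    ∃ ξ : W → ℂ, IsIrrCharacter W ξ ∧ ξ ∘ Subgroup.inclusion P.leA = η := by
  classical
  letI : Fintype W := Fintype.ofFinite W
  haveI hN := normal_of_le P.leA P.normal
  have hle : W ≤ stabSub A η := by
    rw [P.hW]
    exact sup_le (le_stabSub (isClassFunction_of_isIrrCharacter hη)) (fun s hs => ⟨P.hn hs, hinv s hs⟩)
  have hinv' : ∀ c : W, conjOn hN c (η ∘ ee P.leA) = η ∘ ee P.leA := by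
    intro g
    have h1 := (cj_iff P.leA hN g⁻¹ η η).mp (hle (W.inv_mem g.2)).2
    simpa using h1
  have hcop : Nat.Coprime (Nat.card (A.subgroupOf W)) (A.subgroupOf W).index := by
    have h3 : Nat.card (A.subgroupOf W) = Nat.card A := Nat.card_congr (ee P.leA).toEquiv
    have h4 : (A.subgroupOf W).index = Nat.card S := P.relIndex_eq
    rw [h3, h4]
    exact P.coprime_card
  obtain ⟨χ, hχ, hχe⟩ := Cfsg.Agent.Lib.OddChar.Inertia.exists_ext_of_coprime hN
    (isIrr_ee P.leA hη) hinv' hcop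
  refine ⟨χ, hχ, ?_⟩
  funext a
  have h2 := hχe ((ee P.leA).symm a)
  simp only [Function.comp, MulEquiv.apply_symm_apply] at h2 ⊢
  exact h2

/-- The retraction onto `S`. -/
theorem exists_retr : ∃ r : W →* S, (∀ s : S, r (Subgroup.inclusion P.leS s) = s) ∧
    ∀ a : A, r (Subgroup.inclusion P.leA a) = 1 := by
  classical
  haveI hN := normal_of_le P.leA P.normal
  let q : S →* W ⧸ A.subgroupOf W :=
    (QuotientGroup.mk' (A.subgroupOf W)).comp (Subgroup.inclusion P.leS)
  have hbij : Function.Bijective q := by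
    constructor
    · rw [injective_iff_map_eq_one]
      intro s hs
      have h1 : (Subgroup.inclusion P.leS s) ∈ A.subgroupOf W := (QuotientGroup.eq_one_iff _).mp hs
      have h2 : (s : Γ) ∈ A ⊓ S := ⟨h1, s.2⟩
      rw [P.disj, Subgroup.mem_bot] at h2
      exact Subtype.ext h2
    · intro z
      obtain ⟨w, rfl⟩ := QuotientGroup.mk_surjective z
      have hw : (w : Γ) ∈ A ⊔ S := by
        rw [← P.hW]
        exact w.2
      obtain ⟨a, ha, s, hs, he⟩ := exists_mul_of_mem_sup (K := A) (A := S) P.hn hw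
      refine ⟨⟨s, hs⟩, ?_⟩
      show (((⟨s, P.leS hs⟩ : W)) : W ⧸ A.subgroupOf W) = (w : W ⧸ A.subgroupOf W)
      rw [QuotientGroup.eq]
      show (s : Γ)⁻¹ * w ∈ A
      rw [he]
      have h3 := (Subgroup.mem_normalizer_iff.mp (Subgroup.inv_mem _ (P.hn hs)) a).mp ha
      have h4 : s⁻¹ * (a * s) = s⁻¹ * a * s⁻¹⁻¹ := by group
      rw [h4]
      exact h3
  let e : S ≃* W ⧸ A.subgroupOf W := MulEquiv.ofBijective q hbij
  refine ⟨e.symm.toMonoidHom.comp (QuotientGroup.mk' (A.subgroupOf W)), fun s => ?_, fun a => ?_⟩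
  · show e.symm (q s) = s
    exact e.symm_apply_apply s
  · show e.symm ((Subgroup.inclusion P.leA a : W) : W ⧸ A.subgroupOf W) = 1
    have h1 : ((Subgroup.inclusion P.leA a : W) : W ⧸ A.subgroupOf W) = 1 :=
      (QuotientGroup.eq_one_iff _).mpr a.2
    rw [h1, map_one]

/-- **Existence of the character with a given pair.** -/
theorem exists_pair {η : A → ℂ} (hη : IsIrrCharacter A η) (hinv : ∀ s ∈ S, IsConjCharOf A s η η)
    (hd : ¬ p ∣ charDegree η) (β : S →* ℂˣ) :
    ∃ ξ : W → ℂ, IsIrrCharacter W ξ ∧ ξ ∘ Subgroup.inclusion P.leA = η ∧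
      ∀ s : S, detChar (ξ ∘ Subgroup.inclusion P.leS) s = ((β s : ℂˣ) : ℂ) ^ charDegree η := by
  classical
  letI : Fintype W := Fintype.ofFinite W
  obtain ⟨ξ₀, hξ₀, he₀⟩ := P.exists_ext hη hinv
  obtain ⟨r, hr₁, hr₂⟩ := P.exists_retr
  have hc₀ : IsCharacter S (ξ₀ ∘ Subgroup.inclusion P.leS) :=
    isCharacter_comp _ (isCharacter_of_isIrrCharacter hξ₀)
  have hdeg₀ : (ξ₀ ∘ Subgroup.inclusion P.leS) 1 = charDegree η := by
    rw [charDegree_natCast (isCharacter_of_isIrrCharacter hη), ← he₀]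
    simp
  obtain ⟨γ, hγ⟩ := exists_root P.hS hd ((β ^ charDegree η) * (detHom hc₀)⁻¹)
  let ν : W →* ℂˣ := γ.comp r
  have hνA : ∀ a : A, ν (Subgroup.inclusion P.leA a) = 1 := fun a => by
    show γ (r _) = 1
    rw [hr₂, map_one]
  have hνS : ∀ s : S, ν (Subgroup.inclusion P.leS s) = γ s := fun s => by
    show γ (r _) = _
    rw [hr₁]
  refine ⟨fun g => (ν g : ℂ) * ξ₀ g,
    Cfsg.Agent.Lib.CharZeros.Gallagher.isIrrCharacter_mul_linear
      (Cfsg.Agent.Lib.CharDeep.LinearChar.isCharacter_of_hom ν) (by simp) hξ₀, ?_, fun s => ?_⟩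
  · funext a
    simp only [Function.comp]
    rw [hνA, Units.val_one, one_mul]
    exact congrFun he₀ a
  · have h1 := detChar_hom_mul (ν.comp (Subgroup.inclusion P.leS)) hc₀ _ hdeg₀ s
    have h2 : (fun g : S => (((ν.comp (Subgroup.inclusion P.leS)) g : ℂˣ) : ℂ) *
        (ξ₀ ∘ Subgroup.inclusion P.leS) g) =
        (fun g => (ν g : ℂ) * ξ₀ g) ∘ Subgroup.inclusion P.leS := rfl
    rw [h2] at h1
    rw [h1]
    have h3 : (((ν.comp (Subgroup.inclusion P.leS)) s : ℂˣ) : ℂ) = (γ s : ℂˣ) := by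
      show ((ν (Subgroup.inclusion P.leS s) : ℂˣ) : ℂ) = _
      rw [hνS]
    rw [h3, ← coe_detHom hc₀]
    have h4 := congrArg (fun f : S →* ℂˣ => ((f s : ℂˣ) : ℂ)) hγ
    simp only [MonoidHom.mul_apply, MonoidHom.pow_apply, MonoidHom.inv_apply, Units.val_mul,
      Units.val_pow_eq_pow_val, Units.val_inv_eq_inv_val] at h4
    rw [h4]
    have h5 : ((detHom hc₀ s : ℂˣ) : ℂ) ≠ 0 := Units.ne_zero _
    field_simp

/-- **Uniqueness of the character with a given pair.** -/
theorem unique_pair {η : A → ℂ} (hη : IsIrrCharacter A η) (hd : ¬ p ∣ charDegree η) {ξ₁ ξ₂ : W → ℂ}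
    (h₁ : IsIrrCharacter W ξ₁) (h₂ : IsIrrCharacter W ξ₂)
    (e₁ : ξ₁ ∘ Subgroup.inclusion P.leA = η) (e₂ : ξ₂ ∘ Subgroup.inclusion P.leA = η)
    (hdet : ∀ s : S, detChar (ξ₁ ∘ Subgroup.inclusion P.leS) s =
      detChar (ξ₂ ∘ Subgroup.inclusion P.leS) s) : ξ₁ = ξ₂ := by
  classical
  obtain ⟨ν, hν₁, hν⟩ := ext_diff P.leA P.normal (isCharacter_of_isIrrCharacter h₁)
    (isCharacter_of_isIrrCharacter h₂) hη e₁ e₂
  have hc₁ : IsCharacter S (ξ₁ ∘ Subgroup.inclusion P.leS) :=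
    isCharacter_comp _ (isCharacter_of_isIrrCharacter h₁)
  have hdeg₁ : (ξ₁ ∘ Subgroup.inclusion P.leS) 1 = charDegree η := by
    rw [charDegree_natCast (isCharacter_of_isIrrCharacter hη), ← e₁]
    simp
  -- `ν` is trivial on `S`
  have hνS : (ν.comp (Subgroup.inclusion P.leS)) = 1 := by
    apply root_inj P.hS hd
    ext s
    rw [MonoidHom.pow_apply, MonoidHom.pow_apply, MonoidHom.one_apply, one_pow, Units.val_one]
    have h1 := detChar_hom_mul (ν.comp (Subgroup.inclusion P.leS)) hc₁ _ hdeg₁ s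
    have h2 : (fun g : S => (((ν.comp (Subgroup.inclusion P.leS)) g : ℂˣ) : ℂ) *
        (ξ₁ ∘ Subgroup.inclusion P.leS) g) = ξ₂ ∘ Subgroup.inclusion P.leS := by
      funext g
      simp only [Function.comp, MonoidHom.comp_apply]
      rw [hν, mul_comm]
    rw [h2, ← hdet s] at h1
    have h3 : detChar (ξ₁ ∘ Subgroup.inclusion P.leS) s ≠ 0 := by
      rw [← coe_detHom hc₁]
      exact Units.ne_zero _
    have h4 : (((ν.comp (Subgroup.inclusion P.leS)) s : ℂˣ) : ℂ) ^ charDegree η = 1 := by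
      apply mul_right_cancel₀ h3
      rw [one_mul]
      exact h1.symm
    rw [Units.val_pow_eq_pow_val]
    exact h4
  have hνtop : ∀ w : W, ν w = 1 := by
    intro w
    have hw : (w : Γ) ∈ A ⊔ S := by
      rw [← P.hW]
      exact w.2
    obtain ⟨a, ha, s, hs, he⟩ := exists_mul_of_mem_sup (K := A) (A := S) P.hn hw
    have h1 : w = Subgroup.inclusion P.leA ⟨a, ha⟩ * Subgroup.inclusion P.leS ⟨s, hs⟩ :=
      Subtype.ext he
    rw [h1, map_mul, hν₁]
    have h2 := DFunLike.congr_fun hνS ⟨s, hs⟩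
    rw [one_mul]
    exact h2
  funext g
  rw [hν, hνtop]
  simp

end PSetup

end Cfsg.Agent.Lib.RelMcKay.Pair
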