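import Mathlib
import Cfsg.Agent.Lib.RelMcKay.Pair
import Cfsg.Agent.Lib.RelMcKay.Glaub

/-!
# The correspondence of characters of degree prime to `p` between `A S` and `C_A(S) S`
-/

set_option autoImplicit false
set_option linter.style.haveILetI false
set_option linter.unusedSectionVars false

namespace Cfsg.Agent.Lib.RelMcKay.Corr

open Cfsg Module Pointwise
open Cfsg.Agent.Lib.Char.Basic Cfsg.Agent.Lib.Char.Ortho Cfsg.Agent.Lib.Char.Complete
open Cfsg.Agent.Lib.Char.Conj Cfsg.Agent.Lib.Char.Degree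
open Cfsg.Agent.Lib.RelMcKay.Basic Cfsg.Agent.Lib.RelMcKay.Cliff Cfsg.Agent.Lib.RelMcKay.Stab
open Cfsg.Agent.Lib.RelMcKay.Induct Cfsg.Agent.Lib.RelMcKay.Glaub Cfsg.Agent.Lib.RelMcKay.Pair
open Cfsg.Agent.Lib.CharDeep.Det
open scoped ComplexConjugate

universe u

section Central

/-- The central character. -/
theorem exists_central_hom {K M : Type u} [Group K] [Finite K] [Group M] (j : M →* K)
    (hc : ∀ m g, j m * g = g * j m) {χ : K → ℂ} (hχ : IsIrrCharacter K χ) :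
    ∃ ω : M →* ℂˣ, (∀ m g, χ (j m * g) = ω m * χ g) ∧
      ∀ m, detChar χ (j m) = ((ω m : ℂˣ) : ℂ) ^ charDegree χ := by
  classical
  have hdeg : ∀ (n : ℕ) (ρ : Representation ℂ K (Fin n → ℂ)), charDegree ρ.character = n := by
    intro n ρ
    have h1 : IsCharacter K ρ.character := ⟨n, ρ, rfl⟩
    have h2 := charDegree_natCast h1
    rw [deg_eq] at h2
    exact_mod_cast h2
  obtain ⟨n, ρ, hρ, rfl⟩ := hχ
  have hsc : ∀ a : M, ∃ c : ℂ, ρ (j a) = c • LinearMap.id := by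
    intro a
    refine Cfsg.Agent.Lib.Char.Complete.schur_scalar ρ hρ _ ?_
    intro g
    rw [← Module.End.mul_eq_comp, ← Module.End.mul_eq_comp, ← map_mul, ← map_mul, hc a g]
  choose f hf using hsc
  haveI hnt : Nontrivial (Fin n → ℂ) := nontrivial_of_isIrreducible hρ
  have hid : (LinearMap.id : Module.End ℂ (Fin n → ℂ)) ≠ 0 := by
    obtain ⟨v, hv⟩ := exists_ne (0 : Fin n → ℂ)
    intro h
    exact hv (by simpa using congrArg (fun T => T v) h)
  have hcancel : ∀ c c' : ℂ, c • (LinearMap.id : Module.End ℂ (Fin n → ℂ)) =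
      c' • LinearMap.id → c = c' := fun c c' h => smul_left_injective ℂ hid h
  have hmul : ∀ a b : M, f (a * b) = f a * f b := by
    intro a b
    apply hcancel
    rw [← hf, map_mul, map_mul, hf, hf, mul_smul, Module.End.mul_eq_comp]
    ext v i
    simp
  have hone : f 1 = 1 := by
    apply hcancel
    rw [← hf, map_one, map_one, one_smul]
    rfl
  let F : M →* ℂ := { toFun := f, map_one' := hone, map_mul' := hmul }
  refine ⟨F.toHomUnits, fun m g => ?_, fun m => ?_⟩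
  · have h1 : ((F.toHomUnits m : ℂˣ) : ℂ) = f m := rfl
    rw [h1]
    show LinearMap.trace ℂ _ (ρ (j m * g)) = f m * LinearMap.trace ℂ _ (ρ g)
    rw [map_mul, hf, smul_mul_assoc, map_smul, smul_eq_mul]
    rfl
  · have h1 : ((F.toHomUnits m : ℂˣ) : ℂ) = f m := rfl
    rw [h1, detChar_character, hf, hdeg, LinearMap.det_smul, Module.finrank_fin_fun, LinearMap.det_id,
      mul_one]

theorem conj_unit {K : Type*} [Group K] [Finite K] (κ : K →* ℂˣ) (m : K) :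
    conj ((κ m : ℂˣ) : ℂ) = (((κ m)⁻¹ : ℂˣ) : ℂ) := by
  have h1 : (κ m) ^ orderOf m = 1 := by
    rw [← map_pow, pow_orderOf_eq_one, map_one]
  have h2 : ((κ m : ℂˣ) : ℂ) ^ orderOf m = 1 := by
    rw [← Units.val_pow_eq_pow_val, h1, Units.val_one]
  have hnorm : ‖((κ m : ℂˣ) : ℂ)‖ = 1 :=
    Cfsg.Agent.Lib.Char.Eigen.norm_eq_one_of_pow_eq_one (orderOf_pos m).ne' h2
  rw [Units.val_inv_eq_inv_val, Complex.inv_def, Complex.normSq_eq_norm_sq, hnorm]
  simp

/-- Comparing central characters through a nonzero inner product. -/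
theorem eq_of_inner_ne {K : Type*} [Group K] [Fintype K] {f g : K → ℂ} (a : K) {u v : ℂ}
    (hf : ∀ c, f (a * c) = u * f c) (hg : ∀ c, g (a * c) = v * g c) (hv : conj v * v = 1)
    (hne : classInner f g ≠ 0) : u = v := by
  classical
  have h1 : classInner f g = u * conj v * classInner f g := by
    unfold classInner
    have h2 : ∑ c : K, f c * conj (g c) = u * conj v * ∑ c : K, f c * conj (g c) := by
      calc ∑ c : K, f c * conj (g c) = ∑ c : K, f (a * c) * conj (g (a * c)) :=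
            (Equiv.sum_comp (Equiv.mulLeft a) (fun c => f c * conj (g c))).symm
        _ = u * conj v * ∑ c : K, f c * conj (g c) := by
            rw [Finset.mul_sum]
            refine Finset.sum_congr rfl fun c _ => ?_
            rw [hf, hg, map_mul]
            ring
    rw [mul_left_comm, ← h2]
  have h3 : u * conj v = 1 := by
    have h4 : (u * conj v - 1) * classInner f g = 0 := by
      rw [sub_mul, one_mul, ← h1, sub_self]
    rcases mul_eq_zero.mp h4 with h5 | h5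
    · exact sub_eq_zero.mp h5
    · exact absurd h5 hne
  calc u = u * (conj v * v) := by rw [hv, mul_one]
    _ = (u * conj v) * v := by ring
    _ = v := by rw [h3, one_mul]

/-- Elements of `p`-power order with equal powers. -/
theorem eq_of_pow_eq {x y : ℂˣ} {n d : ℕ} (hn : Nat.Coprime d n) (hx : x ^ n = 1) (hy : y ^ n = 1)
    (h : x ^ d = y ^ d) : x = y := by
  have h1 : (x * y⁻¹) ^ n = 1 := by
    rw [mul_pow, hx, inv_pow, hy, inv_one, one_mul]
  have h2 : (x * y⁻¹) ^ d = 1 := by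
    rw [mul_pow, h, inv_pow, mul_inv_cancel]
  have h3 := pow_gcd_eq_one.mpr ⟨h2, h1⟩
  rw [hn, pow_one] at h3
  exact mul_inv_eq_one.mp h3

end Central

variable {Γ : Type u} [Group Γ]

theorem deg_res {K L : Subgroup Γ} (h : K ≤ L) (ξ : L → ℂ) :
    charDegree (ξ ∘ Subgroup.inclusion h) = charDegree ξ := by
  unfold charDegree
  simp

theorem cj_restrict {K₀ K₁ : Subgroup Γ} (h : K₀ ≤ K₁) {x : Γ} {θ θ' : K₁ → ℂ}
    (hc : IsConjCharOf K₁ x θ θ') :
    IsConjCharOf K₀ x (θ ∘ Subgroup.inclusion h) (θ' ∘ Subgroup.inclusion h) :=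
  fun k k' hk => hc (Subgroup.inclusion h k) (Subgroup.inclusion h k') hk

variable {p : ℕ} {A S C W W' : Subgroup Γ}

theorem cen_inv [Finite Γ] (G : GSetup p A S C) (γ : C → ℂ) : ∀ s ∈ S, IsConjCharOf C s γ γ := by
  intro s hs k k' hk
  have h0 : ∀ x ∈ C, x ∈ Subgroup.centralizer (S : Set Γ) := by
    rw [G.hC]
    exact fun x hx => hx.2
  have h1 : (k : Γ) ∈ Subgroup.centralizer (S : Set Γ) := h0 _ k.2
  have h3 : s * k = k * s := (Subgroup.mem_centralizer_iff.mp h1 s hs)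
  have h4 : k' = k := by
    apply Subtype.ext
    rw [hk, h3]
    group
  rw [h4]

/-- The setup for the centralizer. -/
theorem psetup_cen [Finite Γ] (G : GSetup p A S C) (hW' : W' = C ⊔ S) : PSetup p C S W' := by
  refine ⟨hW', ?_, G.hS, ?_⟩
  · intro s hs
    rw [Subgroup.mem_normalizer_iff]
    intro c
    constructor
    · intro hc
      have h1 : (c : Γ) ∈ Subgroup.centralizer (S : Set Γ) := by
        rw [G.hC] at hc
        exact hc.2
      have h3 : s * c = c * s := (Subgroup.mem_centralizer_iff.mp h1 s hs)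
      rw [h3]
      simpa using hc
    · intro hc
      have h1 : (s * c * s⁻¹ : Γ) ∈ Subgroup.centralizer (S : Set Γ) := by
        rw [G.hC] at hc
        exact hc.2
      have h3 := (Subgroup.mem_centralizer_iff.mp h1 s hs)
      have h4 : s * c * s⁻¹ = c := by
        have h5 : s * (s * c * s⁻¹) = s * c * s⁻¹ * s := h3
        have h6 : s * (s * c * s⁻¹) = s * c := by
          rw [h5]
          group
        exact mul_left_cancel h6
      rwa [h4] at hc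
  · have hle : Nat.card C ∣ Nat.card A := Subgroup.card_dvd_of_le G.le
    exact Nat.Coprime.coprime_dvd_right hle G.hcop

section Main

variable [Finite Γ] [hp : Fact p.Prime]

/-- The degree modulo `p`. -/
theorem cor_deg (G : GSetup p A S C) {η : A → ℂ} {γ : C → ℂ} (hη : IsIrrCharacter A η)
    (hinv : ∀ s ∈ S, IsConjCharOf A s η η) (hγ : IsIrrCharacter C γ) (hc : Cor p G.le η γ) :
    p ∣ charDegree η ↔ p ∣ charDegree γ := by
  classical
  obtain ⟨γ₀, hγ₀, hc₀, hoth⟩ := G.exists_cor hη hinv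
  have he := G.cor_unique hη hinv hγ hγ₀ hc hc₀
  subst he
  obtain ⟨m, hm, hnd⟩ := hc
  let δ : (⊥ : Subgroup Γ) → ℂ := fun _ => 1
  have hδ : IsCharacter (⊥ : Subgroup Γ) δ := by
    have h1 := Cfsg.Agent.Lib.CharDeep.LinearChar.isCharacter_of_hom (1 : (⊥ : Subgroup Γ) →* ℂˣ)
    have h2 : (fun g : (⊥ : Subgroup Γ) => (((1 : (⊥ : Subgroup Γ) →* ℂˣ) g : ℂˣ) : ℂ)) = δ := by
      funext g
      simp [δ]
    rwa [h2] at h1
  obtain ⟨k, hk⟩ := mult_chain (p := p) G.le (bot_le : (⊥ : Subgroup Γ) ≤ C)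
    (isCharacter_of_isIrrCharacter hη) hγ hδ hoth
  have v : ∀ (B : Subgroup Γ) (hB : (⊥ : Subgroup Γ) ≤ B) (f : B → ℂ),
      ci (f ∘ Subgroup.inclusion hB) δ = f 1 := by
    intro B hB f
    letI : Fintype (⊥ : Subgroup Γ) := Fintype.ofFinite _
    rw [ci_eq]
    unfold classInner
    rw [Fintype.sum_unique, Subgroup.card_bot]
    have h1 : (default : ↥(⊥ : Subgroup Γ)) = 1 := Subsingleton.elim _ _
    simp [δ, h1]
  rw [v, v, hm] at hk
  have h1 : ((charDegree η : ℕ) : ℂ) = η 1 := charDegree_natCast (isCharacter_of_isIrrCharacter hη)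
  have h2 : ((charDegree γ : ℕ) : ℂ) = γ 1 := charDegree_natCast (isCharacter_of_isIrrCharacter hγ)
  have h3 : η 1 = η (1 : A) := rfl
  have hint : (charDegree η : ℤ) = m * charDegree γ + p * k := by
    have h4 : ((charDegree η : ℕ) : ℂ) = (m : ℂ) * ((charDegree γ : ℕ) : ℂ) + (p : ℂ) * (k : ℂ) := by
      rw [h1, h2]
      exact hk
    exact_mod_cast h4
  have hp' : Prime (p : ℤ) := Nat.prime_iff_prime_int.mp hp.out
  constructor
  · intro hd
    have h5 : (p : ℤ) ∣ m * charDegree γ := by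
      have h6 : (p : ℤ) ∣ (charDegree η : ℤ) := by exact_mod_cast hd
      rw [hint] at h6
      exact (Int.dvd_add_left (dvd_mul_right _ _)).mp h6
    rcases hp'.dvd_or_dvd h5 with h7 | h7
    · exact absurd h7 hnd
    · exact_mod_cast h7
  · intro hd
    have h6 : (p : ℤ) ∣ (charDegree γ : ℤ) := by exact_mod_cast hd
    have h7 : (p : ℤ) ∣ (charDegree η : ℤ) := by
      rw [hint]
      exact dvd_add (Dvd.dvd.mul_left h6 _) (dvd_mul_right _ _)
    exact_mod_cast h7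

/-- The relation. -/
def Rel (P : PSetup p A S W) (P' : PSetup p C S W') (G : GSetup p A S C) (ξ : W → ℂ) (ξ' : W' → ℂ) :
    Prop :=
  Cor p G.le (ξ ∘ Subgroup.inclusion P.leA) (ξ' ∘ Subgroup.inclusion P'.leA) ∧
    ∃ β : S →* ℂˣ,
      (∀ s, detChar (ξ ∘ Subgroup.inclusion P.leS) s = ((β s : ℂˣ) : ℂ) ^ charDegree ξ) ∧
      (∀ s, detChar (ξ' ∘ Subgroup.inclusion P'.leS) s = ((β s : ℂˣ) : ℂ) ^ charDegree ξ')

variable (P : PSetup p A S W) (P' : PSetup p C S W') (G : GSetup p A S C)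

theorem rel_exists_right {ξ : W → ℂ} (hξ : IsIrrCharacter W ξ) (hd : ¬ p ∣ charDegree ξ) :
    ∃ ξ' : W' → ℂ, IsIrrCharacter W' ξ' ∧ ¬ p ∣ charDegree ξ' ∧ Rel P P' G ξ ξ' := by
  classical
  have hη := P.restrict_irr hξ hd
  have hinv : ∀ s ∈ S, IsConjCharOf A s (ξ ∘ Subgroup.inclusion P.leA) (ξ ∘ Subgroup.inclusion P.leA) :=
    fun s hs => P.restrict_inv (isClassFunction_of_isIrrCharacter hξ) (P.leS hs)
  obtain ⟨γ, hγ, hc, -⟩ := G.exists_cor hη hinv
  have hdη : ¬ p ∣ charDegree (ξ ∘ Subgroup.inclusion P.leA) := by rwa [deg_res]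
  have hdγ : ¬ p ∣ charDegree γ := by rwa [← cor_deg G hη hinv hγ hc]
  have hSc : IsCharacter S (ξ ∘ Subgroup.inclusion P.leS) :=
    isCharacter_comp _ (isCharacter_of_isIrrCharacter hξ)
  obtain ⟨β, hβ⟩ := exists_root P.hS hd (detHom hSc)
  obtain ⟨ξ', hξ', he, hdet⟩ := P'.exists_pair hγ (cen_inv G γ) hdγ β
  have hdeg : charDegree ξ' = charDegree γ := by
    rw [← he, deg_res]
  refine ⟨ξ', hξ', by rwa [hdeg], ?_, β, fun s => ?_, fun s => ?_⟩
  · rw [he]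
    exact hc
  · rw [← coe_detHom hSc, ← hβ, MonoidHom.pow_apply, Units.val_pow_eq_pow_val]
  · rw [hdeg]
    exact hdet s

theorem rel_exists_left {ξ' : W' → ℂ} (hξ' : IsIrrCharacter W' ξ') (hd : ¬ p ∣ charDegree ξ') :
    ∃ ξ : W → ℂ, IsIrrCharacter W ξ ∧ ¬ p ∣ charDegree ξ ∧ Rel P P' G ξ ξ' := by
  classical
  have hγ := P'.restrict_irr hξ' hd
  obtain ⟨η, hη, hinv, hc⟩ := G.exists_of_cor hγ
  have hdγ : ¬ p ∣ charDegree (ξ' ∘ Subgroup.inclusion P'.leA) := by rwa [deg_res]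
  have hdη : ¬ p ∣ charDegree η := by rwa [cor_deg G hη hinv hγ hc]
  have hSc : IsCharacter S (ξ' ∘ Subgroup.inclusion P'.leS) :=
    isCharacter_comp _ (isCharacter_of_isIrrCharacter hξ')
  obtain ⟨β, hβ⟩ := exists_root P.hS hd (detHom hSc)
  obtain ⟨ξ, hξ, he, hdet⟩ := P.exists_pair hη hinv hdη β
  have hdeg : charDegree ξ = charDegree η := by
    rw [← he, deg_res]
  refine ⟨ξ, hξ, by rwa [hdeg], ?_, β, fun s => ?_, fun s => ?_⟩
  · rw [he]
    exact hc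
  · rw [hdeg]
    exact hdet s
  · rw [← coe_detHom hSc, ← hβ, MonoidHom.pow_apply, Units.val_pow_eq_pow_val]

/-- Two linear characters with equal values of a power. -/
theorem hom_eq_of_pow {β₁ β₂ : S →* ℂˣ} (hS : IsPGroup p S) {d : ℕ} (hd : ¬ p ∣ d)
    (h : ∀ s, ((β₁ s : ℂˣ) : ℂ) ^ d = ((β₂ s : ℂˣ) : ℂ) ^ d) : β₁ = β₂ := by
  apply root_inj hS hd
  ext s
  rw [MonoidHom.pow_apply, MonoidHom.pow_apply, Units.val_pow_eq_pow_val, Units.val_pow_eq_pow_val]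
  exact h s

theorem rel_unique_right {ξ : W → ℂ} (hξ : IsIrrCharacter W ξ) (hd : ¬ p ∣ charDegree ξ)
    {ξ₁ ξ₂ : W' → ℂ} (h₁ : IsIrrCharacter W' ξ₁) (h₂ : IsIrrCharacter W' ξ₂)
    (hd₁ : ¬ p ∣ charDegree ξ₁) (hd₂ : ¬ p ∣ charDegree ξ₂)
    (r₁ : Rel P P' G ξ ξ₁) (r₂ : Rel P P' G ξ ξ₂) : ξ₁ = ξ₂ := by
  have hη := P.restrict_irr hξ hd
  have hinv : ∀ s ∈ S, IsConjCharOf A s (ξ ∘ Subgroup.inclusion P.leA) (ξ ∘ Subgroup.inclusion P.leA) :=
    fun s hs => P.restrict_inv (isClassFunction_of_isIrrCharacter hξ) (P.leS hs)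
  obtain ⟨c₁, β₁, e₁, e₁'⟩ := r₁
  obtain ⟨c₂, β₂, e₂, e₂'⟩ := r₂
  have hγ := G.cor_unique hη hinv (P'.restrict_irr h₁ hd₁) (P'.restrict_irr h₂ hd₂) c₁ c₂
  have hβ : β₁ = β₂ := hom_eq_of_pow P.hS hd (fun s => by rw [← e₁, ← e₂])
  have hdeg : charDegree ξ₁ = charDegree ξ₂ := by
    rw [← deg_res P'.leA ξ₁, hγ, deg_res]
  refine P'.unique_pair (P'.restrict_irr h₁ hd₁) (by rwa [deg_res]) h₁ h₂ rfl hγ.symm fun s => ?_
  rw [e₁', e₂', hβ, hdeg]

theorem rel_unique_left {ξ' : W' → ℂ} (hξ' : IsIrrCharacter W' ξ') (hd' : ¬ p ∣ charDegree ξ')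
    {ξ₁ ξ₂ : W → ℂ} (h₁ : IsIrrCharacter W ξ₁) (h₂ : IsIrrCharacter W ξ₂)
    (hd₁ : ¬ p ∣ charDegree ξ₁) (hd₂ : ¬ p ∣ charDegree ξ₂)
    (r₁ : Rel P P' G ξ₁ ξ') (r₂ : Rel P P' G ξ₂ ξ') : ξ₁ = ξ₂ := by
  have hinv : ∀ (ξ : W → ℂ), IsIrrCharacter W ξ → ∀ s ∈ S,
      IsConjCharOf A s (ξ ∘ Subgroup.inclusion P.leA) (ξ ∘ Subgroup.inclusion P.leA) :=
    fun ξ hξ s hs => P.restrict_inv (isClassFunction_of_isIrrCharacter hξ) (P.leS hs)
  obtain ⟨c₁, β₁, e₁, e₁'⟩ := r₁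
  obtain ⟨c₂, β₂, e₂, e₂'⟩ := r₂
  have hη := G.cor_inj (P.restrict_irr h₁ hd₁) (P.restrict_irr h₂ hd₂) (hinv _ h₁) (hinv _ h₂)
    (P'.restrict_irr hξ' hd') c₁ c₂
  have hβ : β₁ = β₂ := hom_eq_of_pow P.hS hd' (fun s => by rw [← e₁', ← e₂'])
  have hdeg : charDegree ξ₁ = charDegree ξ₂ := by
    rw [← deg_res P.leA ξ₁, hη, deg_res]
  refine P.unique_pair (P.restrict_irr h₁ hd₁) (by rwa [deg_res]) h₁ h₂ rfl hη.symm fun s => ?_
  rw [e₁, e₂, hβ, hdeg]

/-- Conjugation. -/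
theorem rel_conj {x : Γ} (hxC : x ∈ Subgroup.normalizer (C : Set Γ))
    (hxS : x ∈ Subgroup.normalizer (S : Set Γ)) {ξ ξ₁ : W → ℂ} {ξ' ξ₁' : W' → ℂ}
    (hξ : IsIrrCharacter W ξ) (hξ' : IsIrrCharacter W' ξ')
    (hc : IsConjCharOf W x ξ ξ₁) (hc' : IsConjCharOf W' x ξ' ξ₁')
    (r : Rel P P' G ξ ξ') : Rel P P' G ξ₁ ξ₁' := by
  classical
  obtain ⟨c, β, e, e'⟩ := r
  have hone : ξ₁ 1 = ξ 1 := hc 1 1 (by simp)
  have hone' : ξ₁' 1 = ξ' 1 := hc' 1 1 (by simp)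
  have hdeg : charDegree ξ₁ = charDegree ξ := by
    unfold charDegree
    rw [hone]
  have hdeg' : charDegree ξ₁' = charDegree ξ' := by
    unfold charDegree
    rw [hone']
  refine ⟨cor_conj G.le hxC (cj_restrict _ hc) (cj_restrict _ hc') c,
    β.comp (cjEquiv hxS).symm.toMonoidHom, fun s => ?_, fun s => ?_⟩
  · have hSc : IsCharacter S (ξ ∘ Subgroup.inclusion P.leS) :=
      isCharacter_comp _ (isCharacter_of_isIrrCharacter hξ)
    have h1 : (ξ₁ ∘ Subgroup.inclusion P.leS) = (ξ ∘ Subgroup.inclusion P.leS) ∘ (cjEquiv hxS).symm := by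
      funext t
      have := hc (Subgroup.inclusion P.leS ((cjEquiv hxS).symm t)) (Subgroup.inclusion P.leS t) (by
        have h2 := congrArg Subtype.val ((cjEquiv hxS).apply_symm_apply t)
        exact h2.symm)
      exact this
    have h3 : detChar ((ξ ∘ Subgroup.inclusion P.leS) ∘ (cjEquiv hxS).symm) s =
        detChar (ξ ∘ Subgroup.inclusion P.leS) ((cjEquiv hxS).symm s) :=
      detChar_comp (cjEquiv hxS).symm.toMonoidHom hSc s
    rw [h1, h3, e, hdeg]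
    rfl
  · have hSc : IsCharacter S (ξ' ∘ Subgroup.inclusion P'.leS) :=
      isCharacter_comp _ (isCharacter_of_isIrrCharacter hξ')
    have h1 : (ξ₁' ∘ Subgroup.inclusion P'.leS) =
        (ξ' ∘ Subgroup.inclusion P'.leS) ∘ (cjEquiv hxS).symm := by
      funext t
      have := hc' (Subgroup.inclusion P'.leS ((cjEquiv hxS).symm t)) (Subgroup.inclusion P'.leS t) (by
        have h2 := congrArg Subtype.val ((cjEquiv hxS).apply_symm_apply t)
        exact h2.symm)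
      exact this
    have h3 : detChar ((ξ' ∘ Subgroup.inclusion P'.leS) ∘ (cjEquiv hxS).symm) s =
        detChar (ξ' ∘ Subgroup.inclusion P'.leS) ((cjEquiv hxS).symm s) :=
      detChar_comp (cjEquiv hxS).symm.toMonoidHom hSc s
    rw [h1, h3, e', hdeg']
    rfl

/-- Central characters along the relation. -/
theorem rel_omega {Z : Subgroup Γ} (hZW : Z ≤ W) (hZW' : Z ≤ W')
    (hZc : ∀ z ∈ Z, ∀ g ∈ W, z * g = g * z) (hZc' : ∀ z ∈ Z, ∀ g ∈ W', z * g = g * z)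
    (hsplit : ∀ z ∈ Z, ∃ a ∈ Z ⊓ C, ∃ q ∈ Z ⊓ S, z = a * q)
    {ξ : W → ℂ} {ξ' : W' → ℂ} (hξ : IsIrrCharacter W ξ) (hξ' : IsIrrCharacter W' ξ')
    (hd : ¬ p ∣ charDegree ξ) (hd' : ¬ p ∣ charDegree ξ') (r : Rel P P' G ξ ξ')
    {ω ω' : Z →* ℂˣ}
    (hω : ∀ m g, ξ (Subgroup.inclusion hZW m * g) = ω m * ξ g)
    (hωd : ∀ m, detChar ξ (Subgroup.inclusion hZW m) = ((ω m : ℂˣ) : ℂ) ^ charDegree ξ)
    (hω' : ∀ m g, ξ' (Subgroup.inclusion hZW' m * g) = ω' m * ξ' g)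
    (hωd' : ∀ m, detChar ξ' (Subgroup.inclusion hZW' m) = ((ω' m : ℂˣ) : ℂ) ^ charDegree ξ') :
    ω = ω' := by
  classical
  letI : Fintype C := Fintype.ofFinite C
  obtain ⟨⟨m, hm, hnd⟩, β, e, e'⟩ := r
  have hcop : ∀ {d : ℕ}, ¬ p ∣ d → Nat.Coprime d (Nat.card S) := by
    intro d hd
    obtain ⟨n, hn⟩ := IsPGroup.iff_card.mp P.hS
    rw [hn]
    exact Nat.Coprime.pow_right n ((Nat.Prime.coprime_iff_not_dvd hp.out).mpr hd).symm
  -- the part in `C`
  have h1 : ∀ z : Z, (z : Γ) ∈ C → ω z = ω' z := by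
    intro a ha
    have hne : classInner ((ξ ∘ Subgroup.inclusion P.leA) ∘ Subgroup.inclusion G.le)
        (ξ' ∘ Subgroup.inclusion P'.leA) ≠ 0 := by
      rw [ci_eq] at hm
      rw [hm]
      intro h0
      have h2 : m = 0 := by exact_mod_cast h0
      exact hnd (by rw [h2]; exact dvd_zero _)
    have h3 : ((ω a : ℂˣ) : ℂ) = ((ω' a : ℂˣ) : ℂ) := by
      refine eq_of_inner_ne (⟨a, ha⟩ : C) (fun c => ?_) (fun c => ?_) ?_ hne
      · exact hω a (Subgroup.inclusion P.leA (Subgroup.inclusion G.le c))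
      · exact hω' a (Subgroup.inclusion P'.leA c)
      · rw [conj_unit, ← Units.val_mul, inv_mul_cancel, Units.val_one]
    exact Units.ext h3
  -- the part in `S`
  have h2 : ∀ z : Z, ∀ hz : (z : Γ) ∈ S, ω z = β ⟨z, hz⟩ ∧ ω' z = β ⟨z, hz⟩ := by
    intro q hq
    have hzS : q ^ Nat.card S = 1 := by
      apply Subtype.ext
      have h3 : (⟨q, hq⟩ : S) ^ Nat.card S = 1 := pow_card_eq_one'
      have h4 : ((⟨q, hq⟩ : S) ^ Nat.card S : S).1 = 1 := by
        rw [h3]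
        rfl
      rw [SubgroupClass.coe_pow] at h4
      rw [SubgroupClass.coe_pow]
      exact h4
    have hβ1 : (β ⟨q, hq⟩) ^ Nat.card S = 1 := by
      rw [← map_pow, pow_card_eq_one', map_one]
    have hω1 : (ω q) ^ Nat.card S = 1 := by
      rw [← map_pow, hzS, map_one]
    have hω1' : (ω' q) ^ Nat.card S = 1 := by
      rw [← map_pow, hzS, map_one]
    constructor
    · apply eq_of_pow_eq (hcop hd) hω1 hβ1
      apply Units.ext
      rw [Units.val_pow_eq_pow_val, Units.val_pow_eq_pow_val, ← hωd, ← e]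
      exact (detChar_comp (Subgroup.inclusion P.leS) (isCharacter_of_isIrrCharacter hξ) ⟨q, hq⟩).symm
    · apply eq_of_pow_eq (hcop hd') hω1' hβ1
      apply Units.ext
      rw [Units.val_pow_eq_pow_val, Units.val_pow_eq_pow_val, ← hωd', ← e']
      exact (detChar_comp (Subgroup.inclusion P'.leS) (isCharacter_of_isIrrCharacter hξ') ⟨q, hq⟩).symm
  ext z
  obtain ⟨a, ha, q, hq, hz⟩ := hsplit z z.2
  have hz' : z = (⟨a, ha.1⟩ : Z) * (⟨q, hq.1⟩ : Z) := Subtype.ext hz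
  rw [hz', map_mul, map_mul, h1 ⟨a, ha.1⟩ ha.2, (h2 ⟨q, hq.1⟩ hq.2).1, (h2 ⟨q, hq.1⟩ hq.2).2]

/-- Over a central subgroup. -/
theorem rel_over {Z : Subgroup Γ} (hZW : Z ≤ W) (hZW' : Z ≤ W')
    (hZc : ∀ z ∈ Z, ∀ g ∈ W, z * g = g * z) (hZc' : ∀ z ∈ Z, ∀ g ∈ W', z * g = g * z)
    (hsplit : ∀ z ∈ Z, ∃ a ∈ Z ⊓ C, ∃ q ∈ Z ⊓ S, z = a * q)
    {ξ : W → ℂ} {ξ' : W' → ℂ} (hξ : IsIrrCharacter W ξ) (hξ' : IsIrrCharacter W' ξ')
    (hd : ¬ p ∣ charDegree ξ) (hd' : ¬ p ∣ charDegree ξ') (r : Rel P P' G ξ ξ') (lam : Z → ℂ) :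
    Over (Subgroup.inclusion hZW) ξ lam ↔ Over (Subgroup.inclusion hZW') ξ' lam := by
  classical
  letI : Fintype Z := Fintype.ofFinite Z
  obtain ⟨ω, hω, hωd⟩ := exists_central_hom (Subgroup.inclusion hZW)
    (fun m g => Subtype.ext (hZc m m.2 g g.2)) hξ
  obtain ⟨ω', hω', hωd'⟩ := exists_central_hom (Subgroup.inclusion hZW')
    (fun m g => Subtype.ext (hZc' m m.2 g g.2)) hξ'
  have he := rel_omega P P' G hZW hZW' hZc hZc' hsplit hξ hξ' hd hd' r hω hωd hω' hωd'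
  subst he
  have key : ∀ {T : Subgroup Γ} (hZT : Z ≤ T) (f : T → ℂ),
      f 1 ≠ 0 → (∀ m g, f (Subgroup.inclusion hZT m * g) = ω m * f g) →
      (Over (Subgroup.inclusion hZT) f lam ↔ classInner (fun z : Z => ((ω z : ℂˣ) : ℂ)) lam ≠ 0) := by
    intro T hZT f h1 h2
    have h3 : f ∘ Subgroup.inclusion hZT = f 1 • (fun z : Z => ((ω z : ℂˣ) : ℂ)) := by
      funext z
      have h4 := h2 z 1
      rw [mul_one] at h4
      rw [Function.comp, h4, Pi.smul_apply, smul_eq_mul, mul_comm]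
    unfold Over
    rw [ci_eq, h3, classInner_smul_left]
    constructor
    · exact right_ne_zero_of_mul
    · exact mul_ne_zero h1
  rw [key hZW ξ (irr_one_ne_zero hξ) hω, key hZW' ξ' (irr_one_ne_zero hξ') hω']

end Main

end Cfsg.Agent.Lib.RelMcKay.Corr
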