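import Mathlib
import Cfsg.Agent.Lib.RelMcKay.CycImage
import Cfsg.Agent.Lib.RelMcKay.Induct

/-!
# Choosing an invariant section of a `p`-group on which a unimodular word acts trivially
-/

set_option autoImplicit false
set_option linter.style.haveILetI false
set_option linter.unusedSectionVars false

namespace Cfsg.Agent.Lib.RelMcKay.Reduce

open Cfsg.Agent.Lib.RelMcKay.Induct

universe u

variable {Γ : Type u} [Group Γ]

theorem mem_norm_of_forall' [Finite Γ] {A : Subgroup Γ} {y : Γ} (h : ∀ g ∈ A, y * g * y⁻¹ ∈ A) :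
    y ∈ Subgroup.normalizer (A : Set Γ) := by
  have hpow : ∀ n : ℕ, ∀ g ∈ A, y ^ n * g * (y ^ n)⁻¹ ∈ A := by
    intro n
    induction n with
    | zero =>
      intro g hg
      simpa using hg
    | succ n ih =>
      intro g hg
      have h1 := ih _ (h g hg)
      have h2 : y ^ (n + 1) * g * (y ^ (n + 1))⁻¹ = y ^ n * (y * g * y⁻¹) * (y ^ n)⁻¹ := by
        rw [pow_succ]
        group
      rw [h2]
      exact h1
  rw [Subgroup.mem_normalizer_iff]
  intro g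
  refine ⟨h g, fun hg => ?_⟩
  have h1 := hpow (orderOf y - 1) _ hg
  have h2 : y ^ (orderOf y - 1) = y⁻¹ := by
    rw [eq_inv_iff_mul_eq_one, ← pow_succ, Nat.sub_add_cancel (orderOf_pos y), pow_orderOf_eq_one]
  rw [h2] at h1
  simpa [mul_assoc] using h1

theorem map_cj (S S₀ : Subgroup Γ)
    (g : ↥(Subgroup.normalizer (S : Set Γ) ⊓ Subgroup.normalizer (S₀ : Set Γ))) :
    (S₀.subgroupOf S).map ((cjEquiv g.2.1 : S ≃* S) : S →* S) = S₀.subgroupOf S := by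
  ext w
  rw [Subgroup.mem_map]
  constructor
  · rintro ⟨w₀, hw₀, rfl⟩
    have h1 := (Subgroup.mem_normalizer_iff.mp g.2.2 _).mp hw₀
    exact h1
  · intro hw
    refine ⟨(cjEquiv g.2.1).symm w, ?_, MulEquiv.apply_symm_apply _ _⟩
    have h1 := (Subgroup.mem_normalizer_iff.mp (Subgroup.inv_mem _ g.2.2) (w : Γ)).mp hw
    have h2 : (g : Γ)⁻¹ * (w : Γ) * (g : Γ)⁻¹⁻¹ = (g : Γ)⁻¹ * w * g := by simp
    rw [h2] at h1
    exact h1

/-- The conjugation action on a section. -/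
noncomputable def actQ (S S₀ : Subgroup Γ) [hN : (S₀.subgroupOf S).Normal] :
    ↥(Subgroup.normalizer (S : Set Γ) ⊓ Subgroup.normalizer (S₀ : Set Γ)) →*
      MulAut (S ⧸ S₀.subgroupOf S) where
  toFun g := QuotientGroup.congr (S₀.subgroupOf S) (S₀.subgroupOf S) (cjEquiv g.2.1) (map_cj S S₀ g)
  map_one' := by
    ext q
    obtain ⟨w, rfl⟩ := QuotientGroup.mk_surjective q
    show ((cjEquiv _ w : S) : S ⧸ S₀.subgroupOf S) = (w : S ⧸ S₀.subgroupOf S)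
    congr 1
    apply Subtype.ext
    show ((1 : ↥(Subgroup.normalizer (S : Set Γ) ⊓ Subgroup.normalizer (S₀ : Set Γ))) : Γ) * w *
      ((1 : ↥(Subgroup.normalizer (S : Set Γ) ⊓ Subgroup.normalizer (S₀ : Set Γ))) : Γ)⁻¹ = w
    simp
  map_mul' a b := by
    ext q
    obtain ⟨w, rfl⟩ := QuotientGroup.mk_surjective q
    show ((cjEquiv _ w : S) : S ⧸ S₀.subgroupOf S) = ((cjEquiv _ (cjEquiv _ w) : S) : S ⧸ S₀.subgroupOf S)
    congr 1
    apply Subtype.ext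
    show ((a * b : ↥(Subgroup.normalizer (S : Set Γ) ⊓ Subgroup.normalizer (S₀ : Set Γ))) : Γ) * w *
      ((a * b : ↥(Subgroup.normalizer (S : Set Γ) ⊓ Subgroup.normalizer (S₀ : Set Γ))) : Γ)⁻¹ =
      (a : Γ) * ((b : Γ) * w * (b : Γ)⁻¹) * (a : Γ)⁻¹
    simp [mul_assoc]

theorem actQ_mk {S S₀ : Subgroup Γ} [hN : (S₀.subgroupOf S).Normal]
    (g : ↥(Subgroup.normalizer (S : Set Γ) ⊓ Subgroup.normalizer (S₀ : Set Γ))) (w : S) :
    actQ S S₀ g (w : S ⧸ S₀.subgroupOf S) =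
      ((cjEquiv g.2.1 w : S) : S ⧸ S₀.subgroupOf S) := rfl

/-- **The reduction.** -/
theorem exists_reduction [Finite Γ] {p : ℕ} [hp : Fact p.Prime] {S : Subgroup Γ}
    (hS : IsPGroup p S) (hne : S ≠ ⊥) {x y : Γ} (hxS : x ∈ Subgroup.normalizer (S : Set Γ))
    (hyS : y ∈ Subgroup.normalizer (S : Set Γ))
    (hcomm : ∀ s ∈ S, (x * y * x⁻¹ * y⁻¹) * s = s * (x * y * x⁻¹ * y⁻¹)) :
    ∃ (S₀ : Subgroup Γ) (s t u v : ℤ), S₀ ≤ S ∧ S₀ ≠ S ∧ S ≤ Subgroup.normalizer (S₀ : Set Γ) ∧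
      x ∈ Subgroup.normalizer (S₀ : Set Γ) ∧ y ∈ Subgroup.normalizer (S₀ : Set Γ) ∧
      u * t - v * s = 1 ∧
      ∀ g ∈ S, (x ^ s * y ^ t) * g * (x ^ s * y ^ t)⁻¹ * g⁻¹ ∈ S₀ := by
  classical
  -- the family
  let F : Set (Subgroup Γ) := {T | T ≤ S ∧ T ≠ S ∧ S ≤ Subgroup.normalizer (T : Set Γ) ∧
    x ∈ Subgroup.normalizer (T : Set Γ) ∧ y ∈ Subgroup.normalizer (T : Set Γ)}
  have hbotn : ∀ g : Γ, g ∈ Subgroup.normalizer ((⊥ : Subgroup Γ) : Set Γ) := by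
    intro g
    apply mem_norm_of_forall'
    intro a ha
    rw [Subgroup.mem_bot] at ha ⊢
    rw [ha]
    group
  have hbot : (⊥ : Subgroup Γ) ∈ F :=
    ⟨bot_le, hne.symm, fun g _ => hbotn g, hbotn x, hbotn y⟩
  obtain ⟨S₀, hS₀⟩ := F.toFinite.exists_maximal ⟨⊥, hbot⟩
  obtain ⟨hS₀S, hS₀ne, hS₀n, hxS₀, hyS₀⟩ := hS₀.prop
  haveI hN : (S₀.subgroupOf S).Normal := (Subgroup.normal_subgroupOf_iff_le_normalizer hS₀S).mpr hS₀n
  let Q := S ⧸ S₀.subgroupOf S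
  let H := Subgroup.normalizer (S : Set Γ) ⊓ Subgroup.normalizer (S₀ : Set Γ)
  let xH : H := ⟨x, hxS, hxS₀⟩
  let yH : H := ⟨y, hyS, hyS₀⟩
  let ρ := actQ S S₀
  have hρ : ∀ (g : H) (w : S), ρ g (w : S ⧸ S₀.subgroupOf S) =
      ((cjEquiv g.2.1 w : S) : S ⧸ S₀.subgroupOf S) := fun g w => actQ_mk g w
  -- invariant normal subgroups of `Q`
  have hirr : ∀ W : Subgroup Q, W.Normal → (∀ w ∈ W, ρ xH w ∈ W) → (∀ w ∈ W, ρ yH w ∈ W) →
      W = ⊥ ∨ W = ⊤ := by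
    intro W hWn hWx hWy
    let T : Subgroup Γ := (W.comap (QuotientGroup.mk' (S₀.subgroupOf S))).map S.subtype
    have hTS : T ≤ S := Subgroup.map_subtype_le _
    have hmemT : ∀ w : S, (w : Γ) ∈ T ↔ (w : Q) ∈ W := by
      intro w
      constructor
      · rintro ⟨w', hw', he⟩
        have : w' = w := Subtype.ext he
        rw [← this]
        exact hw'
      · intro h
        exact ⟨w, h, rfl⟩
    have hS₀T : S₀ ≤ T := by
      intro a ha
      have h1 : (⟨a, hS₀S ha⟩ : S) ∈ S₀.subgroupOf S := ha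
      rw [show a = ((⟨a, hS₀S ha⟩ : S) : Γ) from rfl, hmemT]
      have h2 : ((⟨a, hS₀S ha⟩ : S) : Q) = 1 := (QuotientGroup.eq_one_iff _).mpr h1
      rw [h2]
      exact W.one_mem
    have hinvT : ∀ g : H, (∀ w ∈ W, ρ g w ∈ W) → (g : Γ) ∈ Subgroup.normalizer (T : Set Γ) := by
      intro g hg
      apply mem_norm_of_forall'
      intro a ha
      obtain ⟨w, hw, rfl⟩ := ha
      have h1 : ((cjEquiv g.2.1 w : S) : Γ) ∈ T := by
        rw [hmemT, ← hρ]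
        exact hg _ hw
      exact h1
    have hTn : S ≤ Subgroup.normalizer (T : Set Γ) := by
      intro s hs
      apply mem_norm_of_forall'
      intro a ha
      obtain ⟨w, hw, rfl⟩ := ha
      have h1 : (⟨s, hs⟩ : S) * w * (⟨s, hs⟩ : S)⁻¹ ∈ W.comap (QuotientGroup.mk' (S₀.subgroupOf S)) :=
        (Subgroup.Normal.comap hWn _).conj_mem w hw _
      exact ⟨_, h1, rfl⟩
    by_cases hTeq : T = S
    · right
      rw [eq_top_iff]
      intro q _
      obtain ⟨w, rfl⟩ := QuotientGroup.mk_surjective q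
      have h1 : (w : Γ) ∈ T := by
        rw [hTeq]
        exact w.2
      exact (hmemT w).mp h1
    · left
      have hT : T ∈ F := ⟨hTS, hTeq, hTn, hinvT xH hWx, hinvT yH hWy⟩
      have h2 : T ≤ S₀ := hS₀.le_of_ge hT hS₀T
      rw [eq_bot_iff]
      intro q hq
      obtain ⟨w, rfl⟩ := QuotientGroup.mk_surjective q
      have h3 : (w : Γ) ∈ T := (hmemT w).mpr hq
      have h4 : w ∈ S₀.subgroupOf S := h2 h3
      rw [Subgroup.mem_bot]
      exact (QuotientGroup.eq_one_iff _).mpr h4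
  -- `Q` is a non trivial `p`-group
  have hQp : IsPGroup p Q := hS.to_quotient _
  haveI hQnt : Nontrivial Q := by
    rw [QuotientGroup.nontrivial_iff]
    intro h
    apply hS₀ne
    apply le_antisymm hS₀S
    intro a ha
    have h1 : (⟨a, ha⟩ : S) ∈ S₀.subgroupOf S := by
      rw [h]
      trivial
    exact h1
  -- `Q` is abelian
  have hcen : ∀ (g : H), ∀ w ∈ Subgroup.center Q, ρ g w ∈ Subgroup.center Q := by
    intro g w hw
    rw [Subgroup.mem_center_iff] at hw ⊢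
    intro q
    obtain ⟨q', rfl⟩ := (ρ g).surjective q
    rw [← map_mul, ← map_mul, hw]
  have hQcomm : ∀ a b : Q, a * b = b * a := by
    rcases hirr (Subgroup.center Q) inferInstance (hcen xH) (hcen yH) with h1 | h1
    · exfalso
      have h2 := hQp.center_nontrivial
      obtain ⟨a, b, hab⟩ := h2
      apply hab
      have ha : (a : Q) ∈ (⊥ : Subgroup Q) := by
        rw [← h1]
        exact a.2
      have hb : (b : Q) ∈ (⊥ : Subgroup Q) := by
        rw [← h1]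
        exact b.2
      rw [Subgroup.mem_bot] at ha hb
      apply Subtype.ext
      rw [ha, hb]
    · intro a b
      have h2 : b ∈ Subgroup.center Q := by
        rw [h1]
        trivial
      exact (Subgroup.mem_center_iff.mp h2 a)
  letI cQ : CommGroup Q := { (inferInstance : Group Q) with mul_comm := hQcomm }
  have hab : ρ xH * ρ yH = ρ yH * ρ xH := by
    ext q
    obtain ⟨w, rfl⟩ := QuotientGroup.mk_surjective q
    show ((cjEquiv _ (cjEquiv _ w) : S) : S ⧸ S₀.subgroupOf S) =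
      ((cjEquiv _ (cjEquiv _ w) : S) : S ⧸ S₀.subgroupOf S)
    congr 1
    apply Subtype.ext
    show x * (y * (w : Γ) * y⁻¹) * x⁻¹ = y * (x * (w : Γ) * x⁻¹) * y⁻¹
    have h1 : y * (x * (w : Γ) * x⁻¹) * y⁻¹ ∈ S := by
      have h2 := (Subgroup.mem_normalizer_iff.mp hxS _).mp w.2
      exact (Subgroup.mem_normalizer_iff.mp hyS _).mp h2
    have h3 := hcomm _ h1
    calc x * (y * (w : Γ) * y⁻¹) * x⁻¹ =
        (x * y * x⁻¹ * y⁻¹) * (y * (x * (w : Γ) * x⁻¹) * y⁻¹) * (x * y * x⁻¹ * y⁻¹)⁻¹ := by group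
      _ = y * (x * (w : Γ) * x⁻¹) * y⁻¹ := by rw [h3]; group
  have hirr' : ∀ W : Subgroup Q, (∀ w ∈ W, ρ xH w ∈ W) → (∀ w ∈ W, ρ yH w ∈ W) →
      W = ⊥ ∨ W = ⊤ := by
    intro W h1 h2
    apply hirr W _ h1 h2
    constructor
    intro n hn g
    rw [hQcomm g, mul_inv_cancel_right]
    exact hn
  obtain ⟨s, t, u, v, huv, hst⟩ := Cfsg.Agent.Lib.RelMcKay.CycImage.cyc_image (V := Q) (ρ xH) (ρ yH)
    hab hirr'
  refine ⟨S₀, s, t, u, v, hS₀S, hS₀ne, hS₀n, hxS₀, hyS₀, huv, ?_⟩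
  intro g hg
  have h1 : ρ (xH ^ s * yH ^ t) = 1 := by
    rw [map_mul, map_zpow, map_zpow]
    exact hst
  have h2 := hρ (xH ^ s * yH ^ t) ⟨g, hg⟩
  rw [h1] at h2
  have h3 : ((⟨g, hg⟩ : S) : S ⧸ S₀.subgroupOf S) =
      ((cjEquiv (xH ^ s * yH ^ t).2.1 ⟨g, hg⟩ : S) : S ⧸ S₀.subgroupOf S) := h2
  rw [QuotientGroup.eq] at h3
  have h4 : g⁻¹ * ((x ^ s * y ^ t) * g * (x ^ s * y ^ t)⁻¹) ∈ S₀ := h3
  have h5 := (Subgroup.mem_normalizer_iff.mp (hS₀n hg) _).mp h4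
  have h6 : g * (g⁻¹ * ((x ^ s * y ^ t) * g * (x ^ s * y ^ t)⁻¹)) * g⁻¹ =
      (x ^ s * y ^ t) * g * (x ^ s * y ^ t)⁻¹ * g⁻¹ := by group
  rw [h6] at h5
  exact h5

end Cfsg.Agent.Lib.RelMcKay.Reduce
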