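import Mathlib
import Cfsg.Agent.Lib.RelMcKay.Ext
import Cfsg.Agent.Lib.RelMcKay.Reduce

/-!
# Extension over a two generator section, compared through the Glauberman correspondence
-/

set_option autoImplicit false
set_option linter.style.haveILetI false
set_option linter.unusedSectionVars false

namespace Cfsg.Agent.Lib.RelMcKay.ExtMain

open Cfsg Module Pointwise
open Cfsg.Agent.Lib.Char.Basic Cfsg.Agent.Lib.Char.Ortho Cfsg.Agent.Lib.Char.Complete
open Cfsg.Agent.Lib.Char.Conj Cfsg.Agent.Lib.Char.Clifford Cfsg.Agent.Lib.Char.CliffordCorr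
open Cfsg.Agent.Lib.Char.Degree
open Cfsg.Agent.Lib.RelMcKay.Basic Cfsg.Agent.Lib.RelMcKay.Cliff Cfsg.Agent.Lib.RelMcKay.Stab
open Cfsg.Agent.Lib.RelMcKay.Induct Cfsg.Agent.Lib.RelMcKay.Glaub
open Cfsg.Agent.Lib.RelMcKay.Ext Cfsg.Agent.Lib.RelMcKay.Reduce
open Cfsg.Agent.Lib.Coprime.Action
open scoped ComplexConjugate

universe u

variable {Γ : Type u} [Group Γ] [Finite Γ]

omit [Finite Γ] in
/-- Words in two commuting elements. -/
theorem comm_word {Q : Type*} [Group Q] {a b : Q} (h : Commute a b) (i j k l m n : ℤ) :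
    (a ^ i * b ^ j) ^ m * (a ^ k * b ^ l) ^ n = a ^ (i * m + k * n) * b ^ (j * m + l * n) := by
  have h1 : Commute (a ^ i) (b ^ j) := h.zpow_zpow i j
  have h2 : Commute (a ^ k) (b ^ l) := h.zpow_zpow k l
  rw [h1.mul_zpow, h2.mul_zpow, ← zpow_mul, ← zpow_mul, ← zpow_mul, ← zpow_mul]
  have h3 : Commute (b ^ (j * m)) (a ^ (k * n)) := (h.zpow_zpow (k * n) (j * m)).symm
  rw [h3.mul_mul_mul_comm, ← zpow_add, ← zpow_add]

omit [Finite Γ] in
/-- Recovering the generators modulo `C`. -/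
theorem word_mod {C : Subgroup Γ} {x y : Γ} (hx : x ∈ Subgroup.normalizer (C : Set Γ))
    (hy : y ∈ Subgroup.normalizer (C : Set Γ)) (hxy : x * y * x⁻¹ * y⁻¹ ∈ C) (i j k l m n : ℤ) :
    ((x ^ i * y ^ j) ^ m * (x ^ k * y ^ l) ^ n)⁻¹ * (x ^ (i * m + k * n) * y ^ (j * m + l * n)) ∈ C := by
  let N := Subgroup.normalizer (C : Set Γ)
  let X : N := ⟨x, hx⟩
  let Y : N := ⟨y, hy⟩
  haveI hC : (C.subgroupOf N).Normal := Subgroup.normal_in_normalizer
  let π := QuotientGroup.mk' (C.subgroupOf N)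
  have hcomm : Commute (π X) (π Y) := by
    show π X * π Y = π Y * π X
    rw [← map_mul, ← map_mul]
    apply (QuotientGroup.eq (s := C.subgroupOf N)).mpr
    show (x * y)⁻¹ * (y * x) ∈ C
    have h1 : (x * y)⁻¹ ∈ N := N.inv_mem (N.mul_mem hx hy)
    have h2 := (Subgroup.mem_normalizer_iff.mp h1 _).mp (C.inv_mem hxy)
    have h3 : (x * y)⁻¹ * (x * y * x⁻¹ * y⁻¹)⁻¹ * (x * y)⁻¹⁻¹ = (x * y)⁻¹ * (y * x) := by group
    rw [h3] at h2
    exact h2
  have h1 := comm_word hcomm i j k l m n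
  simp only [← map_zpow, ← map_mul] at h1
  have h2 := (QuotientGroup.eq (s := C.subgroupOf N)).mp h1
  exact h2

omit [Finite Γ] in
theorem closure_unimod {C D : Subgroup Γ} (hCD : C ≤ D) {x y : Γ}
    (hx : x ∈ Subgroup.normalizer (C : Set Γ)) (hy : y ∈ Subgroup.normalizer (C : Set Γ))
    (hxy : x * y * x⁻¹ * y⁻¹ ∈ C) {s t u v : ℤ} (huv : u * t - v * s = 1) :
    D ⊔ Subgroup.closure ({x ^ u * y ^ v, x ^ s * y ^ t} : Set Γ) =
      D ⊔ Subgroup.closure ({x, y} : Set Γ) := by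
  have hxm : x ∈ Subgroup.closure ({x, y} : Set Γ) := Subgroup.subset_closure (Set.mem_insert _ _)
  have hym : y ∈ Subgroup.closure ({x, y} : Set Γ) :=
    Subgroup.subset_closure (Set.mem_insert_of_mem _ rfl)
  apply le_antisymm
  · apply sup_le_sup_left
    rw [Subgroup.closure_le]
    rintro a (rfl | rfl)
    · exact Subgroup.mul_mem _ (Subgroup.zpow_mem _ hxm _) (Subgroup.zpow_mem _ hym _)
    · exact Subgroup.mul_mem _ (Subgroup.zpow_mem _ hxm _) (Subgroup.zpow_mem _ hym _)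
  · refine sup_le le_sup_left ?_
    rw [Subgroup.closure_le]
    set w := x ^ u * y ^ v with hw
    set z := x ^ s * y ^ t with hz
    have hwm : w ∈ Subgroup.closure ({w, z} : Set Γ) := Subgroup.subset_closure (Set.mem_insert _ _)
    have hzm : z ∈ Subgroup.closure ({w, z} : Set Γ) :=
      Subgroup.subset_closure (Set.mem_insert_of_mem _ rfl)
    have key : ∀ (m n : ℤ) (g : Γ), g = x ^ (u * m + s * n) * y ^ (v * m + t * n) →
        g ∈ D ⊔ Subgroup.closure ({w, z} : Set Γ) := by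
      intro m n g hg
      have h1 := word_mod hx hy hxy u v s t m n
      rw [← hg] at h1
      have h2 : g = (w ^ m * z ^ n) * ((w ^ m * z ^ n)⁻¹ * g) := by group
      rw [h2]
      refine Subgroup.mul_mem _ (Subgroup.mem_sup_right ?_) (Subgroup.mem_sup_left (hCD h1))
      exact Subgroup.mul_mem _ (Subgroup.zpow_mem _ hwm _) (Subgroup.zpow_mem _ hzm _)
    rintro a (rfl | rfl)
    · apply key t (-v)
      have e1 : u * t + s * -v = 1 := by linarith
      have e2 : v * t + t * -v = 0 := by ring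
      rw [e1, e2]
      simp
    · apply key (-s) u
      have e1 : u * -s + s * u = 0 := by ring
      have e2 : v * -s + t * u = 1 := by linarith
      rw [e1, e2]
      simp

omit [Finite Γ] in
/-- The centralizer in `A` of `S` is normalized. -/
theorem norm_cent {A S : Subgroup Γ} {x : Γ} (hxA : x ∈ Subgroup.normalizer (A : Set Γ))
    (hxS : x ∈ Subgroup.normalizer (S : Set Γ)) :
    x ∈ Subgroup.normalizer ((A ⊓ Subgroup.centralizer (S : Set Γ) : Subgroup Γ) : Set Γ) := by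
  have key : ∀ {g : Γ}, g ∈ Subgroup.normalizer (A : Set Γ) → g ∈ Subgroup.normalizer (S : Set Γ) →
      ∀ a ∈ A ⊓ Subgroup.centralizer (S : Set Γ),
        g * a * g⁻¹ ∈ A ⊓ Subgroup.centralizer (S : Set Γ) := by
    rintro g hgA hgS a ⟨ha, hac⟩
    have hac' : a ∈ Subgroup.centralizer (S : Set Γ) := hac
    refine ⟨(Subgroup.mem_normalizer_iff.mp hgA a).mp ha, Subgroup.mem_centralizer_iff.mpr ?_⟩
    intro s hs
    have hs' : g⁻¹ * s * g ∈ S := by
      have h4 := (Subgroup.mem_normalizer_iff.mp (Subgroup.inv_mem _ hgS) s).mp hs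
      simpa using h4
    have h1 := Subgroup.mem_centralizer_iff.mp hac' _ hs'
    calc s * (g * a * g⁻¹) = g * ((g⁻¹ * s * g) * a) * g⁻¹ := by group
      _ = g * (a * (g⁻¹ * s * g)) * g⁻¹ := by rw [h1]
      _ = g * a * g⁻¹ * s := by group
  rw [Subgroup.mem_normalizer_iff]
  intro a
  refine ⟨key hxA hxS a, fun h => ?_⟩
  have h1 := key (Subgroup.inv_mem _ hxA) (Subgroup.inv_mem _ hxS) _ h
  simpa [mul_assoc] using h1

/-- Correspondents are invariant. -/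
theorem cor_inv {p : ℕ} [hp : Fact p.Prime] {A S C : Subgroup Γ} (G : GSetup p A S C) {x : Γ}
    (hxC : x ∈ Subgroup.normalizer (C : Set Γ)) {η : A → ℂ} {γ : C → ℂ} (hη : IsIrrCharacter A η)
    (hγ : IsIrrCharacter C γ) (hηS : ∀ s ∈ S, IsConjCharOf A s η η) (hηx : IsConjCharOf A x η η)
    (hcor : Cor p G.le η γ) : IsConjCharOf C x γ γ := by
  have h1 := exists_conj_fun hxC γ
  have hirr : IsIrrCharacter C (γ ∘ (cjEquiv hxC).symm) := isIrrCharacter_comp_mulEquiv _ hγ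
  have h2 := cor_conj G.le hxC hηx h1 hcor
  have h3 := G.cor_unique hη hηS hirr hγ h2 hcor
  rw [h3] at h1
  exact h1

theorem ci_eq_of_irr_ne {A : Subgroup Γ} {η γ : A → ℂ} (hη : IsIrrCharacter A η)
    (hγ : IsIrrCharacter A γ) (hne : η ≠ γ) : ci η γ = 0 := by
  classical
  letI : Fintype A := Fintype.ofFinite A
  rw [ci_eq]
  exact classInner_eq_zero_of_isIrr_of_ne hη hγ hne

/-- The chain of correspondents. -/
theorem cor_chain {p : ℕ} [hp : Fact p.Prime] {A A₀ C : Subgroup Γ} (h₀ : A₀ ≤ A) (h₁ : C ≤ A₀)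
    {η : A → ℂ} {η₀ : A₀ → ℂ} {γ : C → ℂ} (hη : IsCharacter A η) (hη₀ : IsIrrCharacter A₀ η₀)
    (hγ : IsCharacter C γ)
    (hoth : ∀ β' : A₀ → ℂ, IsIrrCharacter A₀ β' → β' ≠ η₀ →
      ∃ k : ℤ, ci (η ∘ Subgroup.inclusion h₀) β' = (p : ℂ) * k)
    (hcor₀ : Cor p h₀ η η₀)
    (hcor : Cor p (h₁.trans h₀) η γ) : Cor p h₁ η₀ γ := by
  classical
  letI : Fintype C := Fintype.ofFinite C
  obtain ⟨k, hk⟩ := mult_chain h₀ h₁ hη hη₀ hγ hoth
  obtain ⟨m, hm, hnd⟩ := hcor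
  obtain ⟨m₀, hm₀, -⟩ := hcor₀
  obtain ⟨n, hn⟩ := exists_nat_classInner
    (isCharacter_comp (Subgroup.inclusion h₁) (isCharacter_of_isIrrCharacter hη₀)) hγ
  refine ⟨n, ?_, ?_⟩
  · rw [ci_eq, hn]
    simp
  · intro hd
    apply hnd
    rw [hm, hm₀, ci_eq, hn] at hk
    have h2 : m = m₀ * (n : ℤ) + p * k := by
      have : (m : ℂ) = ((m₀ * (n : ℤ) + p * k : ℤ) : ℂ) := by
        push_cast
        exact hk
      exact_mod_cast this
    rw [h2]
    exact dvd_add (Dvd.dvd.mul_left hd _) (dvd_mul_right _ _)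

set_option maxHeartbeats 4000000 in
/-- **The comparison of extensions.** -/
theorem ext_main {p : ℕ} [hp : Fact p.Prime] : ∀ (n : ℕ) (A S C : Subgroup Γ) (G : GSetup p A S C)
    (x y : Γ) (η : A → ℂ) (γ : C → ℂ), Nat.card S = n →
    x ∈ Subgroup.normalizer (S : Set Γ) → y ∈ Subgroup.normalizer (S : Set Γ) →
    x ∈ Subgroup.normalizer (A : Set Γ) → y ∈ Subgroup.normalizer (A : Set Γ) →
    x * y * x⁻¹ * y⁻¹ ∈ C →
    Nat.Coprime p (Nat.card (A ⊔ Subgroup.closure ({x, y} : Set Γ) : Subgroup Γ)) →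
    IsIrrCharacter A η → IsIrrCharacter C γ → (∀ s ∈ S, IsConjCharOf A s η η) →
    IsConjCharOf A x η η → IsConjCharOf A y η η → Cor p G.le η γ →
    ∀ (U V : Subgroup Γ) (hAU : A ≤ U) (hCV : C ≤ V),
      U = A ⊔ Subgroup.closure ({x, y} : Set Γ) → V = C ⊔ Subgroup.closure ({x, y} : Set Γ) →
      (ExtA hAU η ↔ ExtA hCV γ) := by
  classical
  intro n
  induction n using Nat.strong_induction_on with
  | _ n ih =>
  intro A S C G x y η γ hcard hxS hyS hxA hyA hxy hcop hη hγ hηS hηx hηy hcor U V hAU hCV hU hV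
  by_cases htriv : A ≤ Subgroup.centralizer (S : Set Γ)
  · -- the action is trivial
    have hCA : C = A := by
      rw [G.hC]
      exact inf_eq_left.mpr htriv
    subst hCA
    have hUV : U = V := by rw [hU, hV]
    subst hUV
    have hid : η ∘ Subgroup.inclusion G.le = η := by
      funext a
      rfl
    have hγη : η = γ := by
      by_contra hne
      obtain ⟨m, hm, hnd⟩ := hcor
      rw [hid, ci_eq_of_irr_ne hη hγ hne] at hm
      apply hnd
      have h0 : m = 0 := by exact_mod_cast hm.symm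
      rw [h0]
      exact dvd_zero _
    rw [hγη]
  -- the general case
  have hSne : S ≠ ⊥ := by
    rintro rfl
    apply htriv
    intro a _
    rw [Subgroup.mem_centralizer_iff]
    intro s hs
    have hs' : s = 1 := hs
    rw [hs']
    simp
  have hCS : ∀ c ∈ C, ∀ s ∈ S, c * s = s * c := by
    intro c hc s hs
    rw [G.hC] at hc
    have h1 : c ∈ Subgroup.centralizer (S : Set Γ) := hc.2
    exact (Subgroup.mem_centralizer_iff.mp h1 s hs).symm
  have hcomm : ∀ s ∈ S, (x * y * x⁻¹ * y⁻¹) * s = s * (x * y * x⁻¹ * y⁻¹) := hCS _ hxy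
  obtain ⟨S₀, s, t, u, v, hS₀S, hS₀ne, hS₀n, hxS₀, hyS₀, huv, hfix⟩ :=
    exists_reduction G.hS hSne hxS hyS hcomm
  set z := x ^ s * y ^ t with hz
  set w := x ^ u * y ^ v with hw
  set H := Subgroup.closure ({x, y} : Set Γ) with hH
  have hxH : x ∈ H := Subgroup.subset_closure (Set.mem_insert _ _)
  have hyH : y ∈ H := Subgroup.subset_closure (Set.mem_insert_of_mem _ rfl)
  have hzH : z ∈ H := Subgroup.mul_mem _ (Subgroup.zpow_mem _ hxH _) (Subgroup.zpow_mem _ hyH _)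
  have hwH : w ∈ H := Subgroup.mul_mem _ (Subgroup.zpow_mem _ hxH _) (Subgroup.zpow_mem _ hyH _)
  have hle : ∀ W : Subgroup Γ, x ∈ W → y ∈ W → H ≤ W := by
    intro W h1 h2
    rw [hH, Subgroup.closure_le]
    rintro a (rfl | rfl)
    · exact h1
    · exact h2
  -- subgroups
  have hS₀p : IsPGroup p S₀ := G.hS.to_le hS₀S
  have hcA : Nat.Coprime p (Nat.card A) := G.hcop
  set A₀ := A ⊓ Subgroup.centralizer (S₀ : Set Γ) with hA₀
  set S₁ := S ⊓ Subgroup.centralizer ((Subgroup.zpowers z : Subgroup Γ) : Set Γ) with hS₁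
  have hA₀A : A₀ ≤ A := inf_le_left
  have hS₁S : S₁ ≤ S := inf_le_left
  have hCA₀ : C ≤ A₀ := by
    intro c hc
    refine ⟨G.le hc, ?_⟩
    have h1 : c ∈ Subgroup.centralizer (S : Set Γ) := by
      rw [G.hC] at hc
      exact hc.2
    exact Subgroup.centralizer_le (fun a ha => hS₀S ha) h1
  have hcopA₀ : Nat.Coprime p (Nat.card A₀) :=
    Nat.Coprime.coprime_dvd_right (Subgroup.card_dvd_of_le hA₀A) hcA
  have hcopH : ∀ W : Subgroup Γ, W ≤ A ⊔ H → Nat.Coprime p (Nat.card W) := fun W hW =>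
    Nat.Coprime.coprime_dvd_right (Subgroup.card_dvd_of_le hW) hcop
  -- normalizing
  have hSA : ∀ g ∈ S, g ∈ Subgroup.normalizer (A : Set Γ) := fun g hg => le_norm_of_forall G.hnorm hg
  have hSS : ∀ g ∈ S, g ∈ Subgroup.normalizer (S : Set Γ) := fun g hg => Subgroup.le_normalizer hg
  have hSA₀ : ∀ g ∈ S, g ∈ Subgroup.normalizer (A₀ : Set Γ) := fun g hg => norm_cent (hSA g hg) (hS₀n hg)
  have hHA : H ≤ Subgroup.normalizer (A : Set Γ) := hle _ hxA hyA
  have hHS : H ≤ Subgroup.normalizer (S : Set Γ) := hle _ hxS hyS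
  have hHS₀ : H ≤ Subgroup.normalizer (S₀ : Set Γ) := hle _ hxS₀ hyS₀
  have hHA₀ : H ≤ Subgroup.normalizer (A₀ : Set Γ) := fun g hg => norm_cent (hHA hg) (hHS₀ hg)
  have hHC : H ≤ Subgroup.normalizer (C : Set Γ) := by
    intro g hg
    rw [G.hC]
    exact norm_cent (hHA hg) (hHS hg)
  have hxC := hHC hxH
  have hyC := hHC hyH
  have hHcomm := comm_mod_two hxC hyC hxy
  -- the setups
  have G₀ : GSetup p A S₀ A₀ := ⟨fun g hg => G.hnorm g (hS₀S hg), rfl, hS₀p, hcA⟩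
  have G' : GSetup p A₀ S C := by
    refine ⟨fun g hg a ha => (Subgroup.mem_normalizer_iff.mp (hSA₀ g hg) a).mp ha, ?_, G.hS, hcopA₀⟩
    apply le_antisymm
    · refine le_inf hCA₀ ?_
      rw [G.hC]
      exact inf_le_right
    · rw [G.hC]
      exact inf_le_inf_right _ hA₀A
  -- the factorization
  have hzS : z ∈ Subgroup.normalizer (S : Set Γ) := hHS hzH
  have hzS₀ : z ∈ Subgroup.normalizer (S₀ : Set Γ) := hHS₀ hzH
  let Tz : Subgroup Γ :=
    { carrier := {a | a ∈ Subgroup.normalizer (S : Set Γ) ∧ a ∈ Subgroup.normalizer (S₀ : Set Γ) ∧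
        ∀ k ∈ S, a * k * a⁻¹ * k⁻¹ ∈ S₀}
      one_mem' := ⟨Subgroup.one_mem _, Subgroup.one_mem _, fun k _ => by simp⟩
      mul_mem' := by
        rintro a b ⟨ha₁, ha₂, ha₃⟩ ⟨hb₁, hb₂, hb₃⟩
        refine ⟨Subgroup.mul_mem _ ha₁ hb₁, Subgroup.mul_mem _ ha₂ hb₂, fun k hk => ?_⟩
        have h1 := (Subgroup.mem_normalizer_iff.mp hb₁ k).mp hk
        have h2 := ha₃ _ h1
        have h3 := hb₃ k hk
        have h4 : a * b * k * (a * b)⁻¹ * k⁻¹ =
            (a * (b * k * b⁻¹) * a⁻¹ * (b * k * b⁻¹)⁻¹) * (b * k * b⁻¹ * k⁻¹) := by group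
        rw [h4]
        exact S₀.mul_mem h2 h3
      inv_mem' := by
        rintro a ⟨ha₁, ha₂, ha₃⟩
        refine ⟨Subgroup.inv_mem _ ha₁, Subgroup.inv_mem _ ha₂, fun k hk => ?_⟩
        have h1 := (Subgroup.mem_normalizer_iff.mp (Subgroup.inv_mem _ ha₁) k).mp hk
        have h2 := ha₃ _ h1
        have h4 : a⁻¹ * k * a⁻¹⁻¹ * k⁻¹ =
            (a⁻¹ * k * a⁻¹⁻¹) * k⁻¹ := rfl
        have h5 : a * (a⁻¹ * k * a⁻¹⁻¹) * a⁻¹ * (a⁻¹ * k * a⁻¹⁻¹)⁻¹ = k * (a⁻¹ * k⁻¹ * a⁻¹⁻¹) := by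
          group
        rw [h5] at h2
        have h8 := S₀.inv_mem h2
        have h9 : (k * (a⁻¹ * k⁻¹ * a⁻¹⁻¹))⁻¹ = a⁻¹ * k * a⁻¹⁻¹ * k⁻¹ := by group
        rw [h9] at h8
        exact h8 }
  have hzT : Subgroup.zpowers z ≤ Tz := Subgroup.zpowers_le.mpr ⟨hzS, hzS₀, hfix⟩
  have hsolv : Group.IsSolvable S ∨ Group.IsSolvable (Subgroup.zpowers z) := by
    left
    haveI := G.hS.isNilpotent
    exact IsNilpotent.to_isSolvable
  have hcopz : Nat.Coprime p (Nat.card (Subgroup.zpowers z)) := by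
    apply hcopH
    rw [Subgroup.zpowers_le]
    exact Subgroup.mem_sup_right hzH
  have hcopz' : (Nat.card (Subgroup.zpowers z)).Coprime (Nat.card S) := by
    obtain ⟨k, hk⟩ := IsPGroup.iff_card.mp G.hS
    rw [hk]
    exact (hcopz.symm).pow_right k
  have hfact : ∀ k ∈ S, ∃ c ∈ S₁, ∃ e ∈ S₀, k = c * e := by
    intro k hk
    obtain ⟨c, hc, he⟩ := exists_fixed_of_fixed_mod (A := Subgroup.zpowers z) (K := S) S₀
      (Subgroup.zpowers_le.mpr hzS) hcopz' hsolv.symm hS₀S hS₀n (Subgroup.zpowers_le.mpr hzS₀) hk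
      (fun a ha => (hzT ha).2.2 k hk)
    refine ⟨c, hc, (k⁻¹ * c)⁻¹, S₀.inv_mem he, by group⟩
  -- the last setup
  have G₁ : GSetup p A₀ S₁ C := by
    refine ⟨fun g hg => G'.hnorm g (hS₁S hg), ?_, G.hS.to_le hS₁S, hcopA₀⟩
    apply le_antisymm
    · refine le_inf hCA₀ ?_
      intro c hc
      rw [Subgroup.mem_centralizer_iff]
      intro g hg
      exact (hCS c hc g (hS₁S hg)).symm
    · rintro g ⟨hg, hgc⟩
      have hg₀ : g ∈ A₀ := hg
      have hgc' : g ∈ Subgroup.centralizer (S₁ : Set Γ) := hgc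
      rw [G.hC]
      refine ⟨hA₀A hg₀, ?_⟩
      show g ∈ Subgroup.centralizer (S : Set Γ)
      rw [Subgroup.mem_centralizer_iff]
      intro k hk
      obtain ⟨c, hc, e, he, rfl⟩ := hfact k hk
      have h1 := Subgroup.mem_centralizer_iff.mp hgc' c hc
      have h2 := Subgroup.mem_centralizer_iff.mp (show g ∈ Subgroup.centralizer (S₀ : Set Γ) from hg₀.2) e he
      calc c * e * g = c * (e * g) := by group
        _ = c * (g * e) := by rw [h2]
        _ = (c * g) * e := by group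
        _ = (g * c) * e := by rw [h1]
        _ = g * (c * e) := by group
  -- the correspondents
  have hηS₀ : ∀ g ∈ S₀, IsConjCharOf A g η η := fun g hg => hηS g (hS₀S hg)
  obtain ⟨η₀, hη₀, hcor₀, hoth₀⟩ := G₀.exists_cor hη hηS₀
  have hinvη₀ : ∀ g, g ∈ Subgroup.normalizer (A₀ : Set Γ) → IsConjCharOf A g η η →
      IsConjCharOf A₀ g η₀ η₀ := fun g hg h => cor_inv G₀ hg hη hη₀ hηS₀ h hcor₀
  have hη₀S : ∀ g ∈ S, IsConjCharOf A₀ g η₀ η₀ := fun g hg => hinvη₀ g (hSA₀ g hg) (hηS g hg)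
  have hHη₀ : H ≤ stabSub A₀ η₀ := hle _ ⟨hHA₀ hxH, hinvη₀ x (hHA₀ hxH) hηx⟩
    ⟨hHA₀ hyH, hinvη₀ y (hHA₀ hyH) hηy⟩
  have hHγ : H ≤ stabSub C γ := hle _ ⟨hxC, cor_inv G hxC hη hγ hηS hηx hcor⟩
    ⟨hyC, cor_inv G hyC hη hγ hηS hηy hcor⟩
  have hcor₁ : Cor p hCA₀ η₀ γ := cor_chain hA₀A hCA₀ (isCharacter_of_isIrrCharacter hη) hη₀
    (isCharacter_of_isIrrCharacter hγ) hoth₀ hcor₀ hcor
  have hcardlt : Nat.card S₀ < n := by
    rw [← hcard]
    apply lt_of_le_of_ne (Subgroup.card_le_of_le hS₀S)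
    intro he
    exact hS₀ne (Subgroup.eq_of_le_of_card_ge hS₀S he.ge)
  have e1 := ih _ hcardlt A S₀ A₀ G₀ x y η η₀ rfl hxS₀ hyS₀ hxA hyA (hCA₀ hxy) hcop hη hη₀ hηS₀ hηx hηy
    hcor₀ U (A₀ ⊔ H) hAU le_sup_left hU rfl
  have hzS₁ : ∀ g ∈ S₁, z * g = g * z := fun g hg =>
    Subgroup.mem_centralizer_iff.mp (show g ∈ Subgroup.centralizer
      ((Subgroup.zpowers z : Subgroup Γ) : Set Γ) from hg.2) z (Subgroup.mem_zpowers z)
  have hwS₁ : w ∈ Subgroup.normalizer (S₁ : Set Γ) := by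
    apply mem_norm_of_forall
    intro g hg
    have h1 : w * g * w⁻¹ ∈ S := (Subgroup.mem_normalizer_iff.mp (hHS hwH) g).mp (hS₁S hg)
    refine ⟨h1, ?_⟩
    have hc := hHcomm z hzH w hwH
    have h2 := hzS₁ g hg
    have h3 : z * (w * g * w⁻¹) = (w * g * w⁻¹) * z := by
      calc z * (w * g * w⁻¹)
          = (z * w * z⁻¹ * w⁻¹) * (w * (z * g) * z⁻¹ * w⁻¹) * (z * w * z⁻¹ * w⁻¹)⁻¹ * z := by group
        _ = (z * w * z⁻¹ * w⁻¹) * (w * g * w⁻¹) * (z * w * z⁻¹ * w⁻¹)⁻¹ * z := by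
            rw [h2]
            group
        _ = (w * g * w⁻¹) * (z * w * z⁻¹ * w⁻¹) * (z * w * z⁻¹ * w⁻¹)⁻¹ * z := by
            rw [hCS _ hc _ h1]
        _ = (w * g * w⁻¹) * z := by group
    show w * g * w⁻¹ ∈ Subgroup.centralizer ((Subgroup.zpowers z : Subgroup Γ) : Set Γ)
    rw [Subgroup.mem_centralizer_iff]
    rintro _ ⟨i, rfl⟩
    exact (Commute.zpow_left h3 i).eq
  have hcop₂ : Nat.Coprime p (Nat.card (A₀ ⊔ Subgroup.zpowers z : Subgroup Γ)) := by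
    apply hcopH
    exact sup_le (hA₀A.trans le_sup_left) (Subgroup.zpowers_le.mpr (Subgroup.mem_sup_right hzH))
  have e2 := one_step G₁ (y := w) (z := z) hzS₁ hwS₁ (hHA₀ hwH) (hHA₀ hzH) (hHC hwH) (hHC hzH)
    (hHcomm w hwH z hzH) hcop₂ hη₀ hγ (fun g hg => hη₀S g (hS₁S hg)) (hHη₀ hzH).2 (hHγ hzH).2 hcor₁
    (U := A₀ ⊔ H) (V := V) le_sup_left hCV (closure_unimod hCA₀ hxC hyC hxy huv).symm
    (hV.trans (closure_unimod le_rfl hxC hyC hxy huv).symm)
  exact e1.trans e2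

end Cfsg.Agent.Lib.RelMcKay.ExtMain
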