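import Mathlib
import Cfsg.Agent.Lib.RelMcKay.Induct

/-!
# The main induction for the relative McKay count, reduction to the key case
-/

set_option autoImplicit false
set_option linter.style.haveILetI false
set_option linter.unusedSectionVars false

namespace Cfsg.Agent.Lib.RelMcKay.Induct2

open Cfsg Module Pointwise
open Cfsg.Agent.Lib.Char.Basic Cfsg.Agent.Lib.Char.Ortho Cfsg.Agent.Lib.Char.Complete
open Cfsg.Agent.Lib.Char.Conj Cfsg.Agent.Lib.Char.Clifford Cfsg.Agent.Lib.Char.CliffordCorr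
open Cfsg.Agent.Lib.Char.Degree
open Cfsg.Agent.Lib.RelMcKay.Basic Cfsg.Agent.Lib.RelMcKay.Cliff Cfsg.Agent.Lib.RelMcKay.Stab
open Cfsg.Agent.Lib.RelMcKay.Induct
open Cfsg.Agent.Lib.Coprime.Action Cfsg.Agent.Lib.Coprime.SchurZassenhaus
open Cfsg.Agent.Lib.Core.PSolvable
open scoped ComplexConjugate

universe u

variable {Γ : Type u} [Group Γ] [Finite Γ]

/-- The key case of the theorem. -/
def KeyStmt (p : ℕ) (Γ : Type u) [Group Γ] [Finite Γ] : Prop :=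
  ∀ (Y K₀ K₁ S : Subgroup Γ) (h₀ : K₀ ≤ K₁) (h₁ : K₁ ≤ Y),
    Y ≤ Subgroup.normalizer (K₀ : Set Γ) → Y ≤ Subgroup.normalizer (K₁ : Set Γ) →
    S ≤ Y → IsPGroup p S → ¬ p ∣ S.relIndex Y →
    Y ≤ Subgroup.normalizer ((K₁ ⊔ S : Subgroup Γ) : Set Γ) → ¬ p ∣ K₀.relIndex K₁ →
    ∀ (θ : K₀ → ℂ), IsIrrCharacter K₀ θ → (∀ y ∈ Y, IsConjCharOf K₀ y θ θ) →
    ∀ (hk : K₀ ≤ Y ⊓ Subgroup.normalizer ((K₀ ⊔ S : Subgroup Γ) : Set Γ)),
    Cnt p Y K₀ (h₀.trans h₁) θ =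
      Cnt p (Y ⊓ Subgroup.normalizer ((K₀ ⊔ S : Subgroup Γ) : Set Γ)) K₀ hk θ

/-- The Clifford correspondence for the count. -/
theorem Cnt_stab {p : ℕ} [Fact p.Prime] {Y K T : Subgroup Γ} (h : K ≤ Y)
    (hn : Y ≤ Subgroup.normalizer (K : Set Γ)) {θ : K → ℂ} (hθ : IsIrrCharacter K θ)
    (hT : T = Y ⊓ stabSub K θ) (hKT : K ≤ T) (hcop : ¬ p ∣ T.relIndex Y) :
    Cnt p Y K h θ = Cnt p T K hKT θ := by
  obtain ⟨f, hf⟩ := clifford_equiv h hn hθ hT hKT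
  have hdeg : ∀ ψ, charDegree (((f ψ).1 : IrrCharacter Y) : Y → ℂ) =
      T.relIndex Y * charDegree ((ψ.1 : IrrCharacter T) : T → ℂ) := by
    intro ψ
    have h1 := charDegree_natCast (isCharacter_of_isIrrCharacter (f ψ).1.2)
    have h2 := charDegree_natCast (isCharacter_of_isIrrCharacter ψ.1.2)
    have h3 := hf ψ
    rw [← h1, ← h2] at h3
    exact_mod_cast h3
  have hiff : ∀ ψ, ¬ p ∣ charDegree (((f ψ).1 : IrrCharacter Y) : Y → ℂ) ↔
      ¬ p ∣ charDegree ((ψ.1 : IrrCharacter T) : T → ℂ) := by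
    intro ψ
    rw [hdeg, (Fact.out : p.Prime).dvd_mul]
    tauto
  unfold Cnt
  symm
  apply Nat.card_congr
  refine ⟨fun c => ⟨(f ⟨c.1, c.2.2⟩).1, (hiff _).mpr c.2.1, (f ⟨c.1, c.2.2⟩).2⟩,
    fun c => ⟨(f.symm ⟨c.1, c.2.2⟩).1, (hiff _).mp (by simpa using c.2.1),
      (f.symm ⟨c.1, c.2.2⟩).2⟩, ?_, ?_⟩
  · intro c
    simp
  · intro c
    simp

/-- A nontrivial normal section. -/
theorem exists_section {p : ℕ} [Fact p.Prime] (hsolv : IsPSolvable p Γ) {Y K : Subgroup Γ}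
    (h : K ≤ Y) (hn : Y ≤ Subgroup.normalizer (K : Set Γ)) (hne : K ≠ Y) :
    ∃ K₁ : Subgroup Γ, K ≤ K₁ ∧ K₁ ≤ Y ∧ K ≠ K₁ ∧ Y ≤ Subgroup.normalizer (K₁ : Set Γ) ∧
      IsPOrCoprime p (K.relIndex K₁) := by
  classical
  haveI hK₀ : (K.subgroupOf Y).Normal := normal_of_le h hn
  let Q := Y ⧸ K.subgroupOf Y
  haveI : Nontrivial Q := by
    rw [QuotientGroup.nontrivial_iff]
    intro htop
    apply hne
    apply le_antisymm h
    intro y hy
    have : (⟨y, hy⟩ : Y) ∈ K.subgroupOf Y := by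
      rw [htop]
      trivial
    exact this
  have hQ : IsPSolvable p Q := isPSolvable_of_surjective (QuotientGroup.mk' (K.subgroupOf Y))
    (QuotientGroup.mk'_surjective _) (isPSolvable_subgroup Y hsolv)
  obtain ⟨Nb, hNb, hNb1, hNbc⟩ := isPSolvable_exists_normal hQ
  let K₁' : Subgroup Y := Nb.comap (QuotientGroup.mk' (K.subgroupOf Y))
  haveI hK₁' : K₁'.Normal := hNb.comap _
  have hK₀ : K.subgroupOf Y ≤ K₁' := by
    intro y hy
    show (QuotientGroup.mk' (K.subgroupOf Y)) y ∈ Nb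
    have h1 : (QuotientGroup.mk' (K.subgroupOf Y)) y = 1 := (QuotientGroup.eq_one_iff y).mpr hy
    rw [h1]
    exact Nb.one_mem
  have hKmap : (K.subgroupOf Y).map Y.subtype = K := Subgroup.map_subgroupOf_eq_of_le h
  have hrel : K.relIndex (K₁'.map Y.subtype) = Nat.card Nb := by
    conv_lhs => rw [← hKmap]
    rw [Subgroup.relIndex_map_map_of_injective _ _ Y.subtype_injective]
    have h1 : K.subgroupOf Y = (⊥ : Subgroup Q).comap (QuotientGroup.mk' (K.subgroupOf Y)) := by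
      ext y
      rw [Subgroup.mem_comap, Subgroup.mem_bot]
      exact (QuotientGroup.eq_one_iff y).symm
    have h2 : K₁'.map (QuotientGroup.mk' (K.subgroupOf Y)) = Nb :=
      Subgroup.map_comap_eq_self_of_surjective (QuotientGroup.mk'_surjective _) Nb
    have h3 := congrArg (fun A : Subgroup Y => A.relIndex K₁') h1
    rw [h3, Subgroup.relIndex_comap, h2, Subgroup.relIndex_bot_left]
  refine ⟨K₁'.map Y.subtype, ?_, Subgroup.map_subtype_le _, ?_, ?_, ?_⟩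
  · intro k hk
    exact ⟨⟨k, h hk⟩, hK₀ hk, rfl⟩
  · intro he
    apply hNb1
    rw [← he, Subgroup.relIndex_self] at hrel
    exact (Subgroup.card_eq_one.mp hrel.symm)
  · intro y hy
    rw [Subgroup.mem_normalizer_iff]
    intro x
    constructor
    · rintro ⟨a, ha, rfl⟩
      exact ⟨⟨y, hy⟩ * a * ⟨y, hy⟩⁻¹, hK₁'.conj_mem a ha _, rfl⟩
    · rintro ⟨a, ha, hax⟩
      have hxY : x ∈ Y := by
        have h1 : y * x * y⁻¹ ∈ Y := hax ▸ a.2
        have h2 := Y.mul_mem (Y.mul_mem (Y.inv_mem hy) h1) hy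
        simpa [mul_assoc] using h2
      refine ⟨⟨x, hxY⟩, ?_, rfl⟩
      have h1 := hK₁'.conj_mem a ha (⟨y, hy⟩ : Y)⁻¹
      have h2 : (⟨x, hxY⟩ : Y) = (⟨y, hy⟩ : Y)⁻¹ * a * (⟨y, hy⟩ : Y)⁻¹⁻¹ := by
        apply Subtype.ext
        show x = y⁻¹ * (a : Γ) * y⁻¹⁻¹
        have h3 : (a : Γ) = y * x * y⁻¹ := hax
        rw [h3]
        group
      rw [SetLike.mem_coe, h2]
      exact h1
  · rw [hrel]
    exact hNbc

/-- A normal section which is a `p`-group lies in `K S`. -/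
theorem le_sup_of_pgroup {p : ℕ} [hp : Fact p.Prime] {Y K K₁ S : Subgroup Γ} (h₀ : K ≤ K₁)
    (h₁ : K₁ ≤ Y) (hn₁ : Y ≤ Subgroup.normalizer (K₁ : Set Γ)) (hSY : S ≤ Y) (hSp : IsPGroup p S)
    (hSi : ¬ p ∣ S.relIndex Y) {m : ℕ} (hm : K.relIndex K₁ = p ^ m) : K₁ ≤ K ⊔ S := by
  have hKS : K ⊔ S ≤ K₁ ⊔ S := sup_le_sup_right h₀ S
  have hQY : K₁ ⊔ S ≤ Y := sup_le h₁ hSY
  -- the index of `K₁` in `K₁ S`
  have hr1 : ∃ a, K₁.relIndex (K₁ ⊔ S) = p ^ a := by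
    have hKY : (K₁.subgroupOf Y).Normal := normal_of_le h₁ hn₁
    have e1 : (K₁.subgroupOf Y).relIndex ((S.subgroupOf Y) ⊔ (K₁.subgroupOf Y)) =
        (K₁.subgroupOf Y).relIndex (S.subgroupOf Y) := Subgroup.relIndex_sup_right _ _
    have m1 : (K₁.subgroupOf Y).map Y.subtype = K₁ := Subgroup.map_subgroupOf_eq_of_le h₁
    have m2 : (S.subgroupOf Y).map Y.subtype = S := Subgroup.map_subgroupOf_eq_of_le hSY
    rw [← Subgroup.relIndex_map_map_of_injective _ _ Y.subtype_injective,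
      ← Subgroup.relIndex_map_map_of_injective (K₁.subgroupOf Y) (S.subgroupOf Y) Y.subtype_injective,
      Subgroup.map_sup, m1, m2, sup_comm] at e1
    rw [e1]
    have h2 : K₁.relIndex S ∣ Nat.card S := Subgroup.relIndex_dvd_card _ _
    obtain ⟨n, hn⟩ := IsPGroup.iff_card.mp hSp
    rw [hn] at h2
    obtain ⟨a, -, ha⟩ := (Nat.dvd_prime_pow hp.out).mp h2
    exact ⟨a, ha⟩
  obtain ⟨a, ha⟩ := hr1
  have e2 := Subgroup.relIndex_mul_relIndex K K₁ (K₁ ⊔ S) h₀ le_sup_left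
  have e3 := Subgroup.relIndex_mul_relIndex K (K ⊔ S) (K₁ ⊔ S) le_sup_left hKS
  have hd1 : (K ⊔ S).relIndex (K₁ ⊔ S) ∣ p ^ (m + a) := by
    rw [pow_add, ← hm, ← ha, e2, ← e3]
    exact Dvd.intro_left _ rfl
  obtain ⟨b, -, hb⟩ := (Nat.dvd_prime_pow hp.out).mp hd1
  have e4 := Subgroup.relIndex_mul_relIndex S (K ⊔ S) Y le_sup_right (hKS.trans hQY)
  have e5 := Subgroup.relIndex_mul_relIndex (K ⊔ S) (K₁ ⊔ S) Y hKS hQY
  have hb0 : b = 0 := by
    by_contra hne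
    apply hSi
    rw [← e4, ← e5, hb]
    exact Dvd.dvd.mul_left (Dvd.dvd.mul_right (dvd_pow_self p hne) _) _
  rw [hb0, pow_zero] at hb
  have h3 := Subgroup.relIndex_eq_one.mp hb
  exact le_sup_left.trans h3

/-- The main induction. -/
theorem relMcKay_of_key {p : ℕ} [hp : Fact p.Prime] (hsolv : IsPSolvable p Γ) (hkey : KeyStmt p Γ) :
    ∀ (n : ℕ) (Y K S : Subgroup Γ) (h : K ≤ Y), Y ≤ Subgroup.normalizer (K : Set Γ) →
    S ≤ Y → IsPGroup p S → ¬ p ∣ S.relIndex Y →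
    ∀ (θ : K → ℂ), IsIrrCharacter K θ → (∀ s ∈ S, IsConjCharOf K s θ θ) →
    ∀ (hk : K ≤ Y ⊓ Subgroup.normalizer ((K ⊔ S : Subgroup Γ) : Set Γ)), K.relIndex Y = n →
    Cnt p Y K h θ = Cnt p (Y ⊓ Subgroup.normalizer ((K ⊔ S : Subgroup Γ) : Set Γ)) K hk θ := by
  intro n
  induction n using Nat.strong_induction_on with
  | _ n ih =>
  intro Y K S h hn hSY hSp hSi θ hθ hinv hk hnY
  have hpos : ∀ (A B : Subgroup Γ), 0 < A.relIndex B := fun A B =>
    Nat.pos_of_ne_zero (Subgroup.index_ne_zero_of_finite (H := A.subgroupOf B))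
  -- smaller relative index
  have hlt : ∀ (W : Subgroup Γ), K ≤ W → W ≤ Y → W ≠ Y → K.relIndex W < n := by
    intro W hKW hWY hne
    have e1 := Subgroup.relIndex_mul_relIndex K W Y hKW hWY
    have e2 : W.relIndex Y ≠ 1 := fun h1 => hne (le_antisymm hWY (Subgroup.relIndex_eq_one.mp h1))
    rw [← hnY, ← e1]
    have e3 := hpos K W
    have e4 := hpos W Y
    nlinarith [Nat.lt_of_le_of_ne e4 (Ne.symm e2)]
  have hclass := isClassFunction_of_isIrrCharacter hθ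
  have hcop : ∀ (W W' : Subgroup Γ), S ≤ W → W ≤ W' → W' ≤ Y → ¬ p ∣ W.relIndex W' := by
    intro W W' hSW hWW' hW'Y hd
    apply hSi
    rw [← Subgroup.relIndex_mul_relIndex S W Y hSW (hWW'.trans hW'Y),
      ← Subgroup.relIndex_mul_relIndex W W' Y hWW' hW'Y]
    exact Dvd.dvd.mul_left (Dvd.dvd.mul_right hd _) _
  by_cases hall : ∀ y ∈ Y, IsConjCharOf K y θ θ
  · -- the invariant case
    by_cases htriv : Y ≤ Subgroup.normalizer ((K ⊔ S : Subgroup Γ) : Set Γ)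
    · exact Cnt_congr (inf_eq_left.mpr htriv).symm _ _ _
    have hne : K ≠ Y := by
      rintro rfl
      apply htriv
      have : K ⊔ S = K := sup_eq_left.mpr hSY
      rw [this]
      exact hn
    obtain ⟨K₁, h₀, h₁, hne₁, hn₁, hsec⟩ := exists_section hsolv h hn hne
    have hk₁ : K₁ ≤ Y ⊓ Subgroup.normalizer ((K₁ ⊔ S : Subgroup Γ) : Set Γ) :=
      le_inf h₁ (le_trans le_sup_left Subgroup.le_normalizer)
    have hlt₁ : K₁.relIndex Y < n := by
      have e1 := Subgroup.relIndex_mul_relIndex K K₁ Y h₀ h₁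
      have e2 : K.relIndex K₁ ≠ 1 := fun h1 =>
        hne₁ (le_antisymm h₀ (Subgroup.relIndex_eq_one.mp h1))
      rw [← hnY, ← e1]
      have e3 := hpos K K₁
      have e4 := hpos K₁ Y
      nlinarith [Nat.lt_of_le_of_ne e3 (Ne.symm e2)]
    have hsum := sum_step h₀ h₁ hn hn₁ hSY hSp hSi hθ hall hk₁
      (fun θ₁ hθ₁ hinv₁ => ih _ hlt₁ Y K₁ S h₁ hn₁ hSY hSp hSi θ₁ hθ₁ hinv₁ hk₁ rfl)
    rcases hsec with ⟨m, hm⟩ | hcop'
    · have hle := le_sup_of_pgroup h₀ h₁ hn₁ hSY hSp hSi hm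
      have he : K₁ ⊔ S = K ⊔ S :=
        le_antisymm (sup_le hle le_sup_right) (sup_le_sup_right h₀ S)
      refine hsum.trans ?_
      apply Cnt_congr
      rw [he]
    · have hcop'' : ¬ p ∣ K.relIndex K₁ := by
        intro hd
        have := Nat.dvd_gcd hd dvd_rfl
        rw [hcop'] at this
        exact hp.out.one_lt.ne' (Nat.dvd_one.mp this)
      by_cases hY₂ : Y ≤ Subgroup.normalizer ((K₁ ⊔ S : Subgroup Γ) : Set Γ)
      · exact hkey Y K K₁ S h₀ h₁ hn hn₁ hSY hSp hSi hY₂ hcop'' θ hθ hall hk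
      · set Y₂ := Y ⊓ Subgroup.normalizer ((K₁ ⊔ S : Subgroup Γ) : Set Γ) with hY₂def
        have hY₂Y : Y₂ ≤ Y := inf_le_left
        have hY₂ne : Y₂ ≠ Y := fun he => hY₂ (inf_eq_left.mp he)
        have hKY₂ : K ≤ Y₂ := h₀.trans hk₁
        have hSY₂ : S ≤ Y₂ := le_inf hSY (le_trans le_sup_right Subgroup.le_normalizer)
        have hkk : K ≤ Y₂ ⊓ Subgroup.normalizer ((K ⊔ S : Subgroup Γ) : Set Γ) :=
          le_inf hKY₂ (le_trans le_sup_left Subgroup.le_normalizer)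
        have hrec := ih _ (hlt Y₂ hKY₂ hY₂Y hY₂ne) Y₂ K S hKY₂ (hY₂Y.trans hn) hSY₂ hSp
          (hcop S Y₂ le_rfl hSY₂ hY₂Y) θ hθ hinv hkk rfl
        refine hsum.trans (hrec.trans ?_)
        apply Cnt_congr
        apply le_antisymm
        · exact inf_le_inf_right _ hY₂Y
        · rintro x ⟨hxY, hxN⟩
          refine ⟨⟨hxY, ?_⟩, hxN⟩
          have h2 : K₁ ⊔ S = K₁ ⊔ (K ⊔ S) := by
            rw [← sup_assoc, sup_eq_left.mpr h₀]
          rw [h2]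
          exact normalizer_sup_mem (hn₁ hxY) hxN
  · -- the inertia group is smaller
    set T := Y ⊓ stabSub K θ with hT
    have hKT : K ≤ T := le_inf h (le_stabSub hclass)
    have hTY : T ≤ Y := inf_le_left
    have hST : S ≤ T := fun s hs => ⟨hSY hs, hn (hSY hs), hinv s hs⟩
    have hTne : T ≠ Y := by
      intro he
      apply hall
      intro y hy
      rw [← he] at hy
      exact hy.2.2
    have hkT : K ≤ T ⊓ Subgroup.normalizer ((K ⊔ S : Subgroup Γ) : Set Γ) :=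
      le_inf hKT (le_trans le_sup_left Subgroup.le_normalizer)
    have hrec := ih _ (hlt T hKT hTY hTne) T K S hKT (hTY.trans hn) hST hSp
      (hcop S T le_rfl hST hTY) θ hθ hinv hkT rfl
    have e1 := Cnt_stab h hn hθ hT hKT (hcop T Y hST hTY le_rfl)
    set Y₃ := Y ⊓ Subgroup.normalizer ((K ⊔ S : Subgroup Γ) : Set Γ) with hY₃
    have hY₃Y : Y₃ ≤ Y := inf_le_left
    set T₃ := T ⊓ Subgroup.normalizer ((K ⊔ S : Subgroup Γ) : Set Γ) with hT₃
    have hT₃eq : T₃ = Y₃ ⊓ stabSub K θ := by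
      rw [hT₃, hT, hY₃]
      exact inf_right_comm _ _ _
    have hST₃ : S ≤ T₃ := le_inf hST (le_trans le_sup_right Subgroup.le_normalizer)
    have e2 := Cnt_stab hk (hY₃Y.trans hn) hθ hT₃eq hkT
      (hcop T₃ Y₃ hST₃ (by rw [hT₃eq]; exact inf_le_left) hY₃Y)
    rw [e1, hrec, e2]

end Cfsg.Agent.Lib.RelMcKay.Induct2
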