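import Mathlib
import Cfsg.Agent.Lib.RelMcKay.Corr
import Cfsg.Agent.Lib.RelMcKay.ExtMain
import Cfsg.Agent.Lib.RelMcKay.RB
import Cfsg.Agent.Lib.CharTriple.Central
import Cfsg.Agent.Lib.Signal.Basic

/-!
# The groups of the central case
-/

set_option autoImplicit false
set_option linter.style.haveILetI false
set_option linter.unusedSectionVars false

namespace Cfsg.Agent.Lib.RelMcKay.KeyGroup

open Cfsg Module Pointwise
open Cfsg.Agent.Lib.RelMcKay.Basic Cfsg.Agent.Lib.RelMcKay.Cliff Cfsg.Agent.Lib.RelMcKay.Stab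
open Cfsg.Agent.Lib.RelMcKay.Induct Cfsg.Agent.Lib.RelMcKay.Glaub Cfsg.Agent.Lib.RelMcKay.Pair
open Cfsg.Agent.Lib.RelMcKay.Corr Cfsg.Agent.Lib.RelMcKay.ExtMain
open Cfsg.Agent.Lib.Coprime.Action Cfsg.Agent.Lib.Coprime.SchurZassenhaus

universe u

variable {Γ : Type u} [Group Γ]

theorem cen_norm {S : Subgroup Γ} {x : Γ} (hx : x ∈ Subgroup.centralizer (S : Set Γ)) :
    x ∈ Subgroup.normalizer (S : Set Γ) := by
  rw [Subgroup.mem_normalizer_iff]
  intro h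
  constructor
  · intro hh
    have h3 : h * x = x * h := Subgroup.mem_centralizer_iff.mp hx h hh
    have h4 : x * h * x⁻¹ = h := by
      rw [← h3]
      group
    rwa [h4]
  · intro hh
    have h3 := Subgroup.mem_centralizer_iff.mp hx _ hh
    have h4 : x * h * x⁻¹ = h := by
      have h5 : x * h * x⁻¹ * x = x * (x * h * x⁻¹) := h3
      have h6 : x * h * x⁻¹ * x = x * h := by group
      rw [h6] at h5
      exact (mul_left_cancel h5).symm
    rwa [h4] at hh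

/-- The data of the central case. -/
structure KD (p : ℕ) (Y Z S A C W W' N H : Subgroup Γ) : Prop where
  hZc : ∀ z ∈ Z, ∀ y ∈ Y, z * y = y * z
  hZY : Z ≤ Y
  hSY : S ≤ Y
  hSp : IsPGroup p S
  hSi : ¬ p ∣ S.relIndex Y
  hAY : A ≤ Y
  hnA : Y ≤ Subgroup.normalizer (A : Set Γ)
  hAp : Nat.Coprime p (Nat.card A)
  hsplit : ∀ z ∈ Z, ∃ a ∈ A, ∃ q ∈ Z ⊓ S, z = a * q
  hYW : Y ≤ Subgroup.normalizer ((A ⊔ S : Subgroup Γ) : Set Γ)
  hC : C = A ⊓ Subgroup.centralizer (S : Set Γ)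
  hW : W = A ⊔ S
  hW' : W' = C ⊔ S
  hN : N = Y ⊓ Subgroup.normalizer (S : Set Γ)
  hHN : H ≤ N
  hHp : Nat.Coprime p (Nat.card H)
  hHc : ∀ n ∈ N, ∃ s ∈ S, ∃ h ∈ H, n = s * h

namespace KD

variable {p : ℕ} {Y Z S A C W W' N H : Subgroup Γ} (D : KD p Y Z S A C W W' N H)

include D

theorem leSNA : S ≤ Subgroup.normalizer (A : Set Γ) := D.hSY.trans D.hnA

theorem leCA : C ≤ A := by
  rw [D.hC]
  exact inf_le_left

theorem leCc : C ≤ Subgroup.centralizer (S : Set Γ) := by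
  rw [D.hC]
  exact inf_le_right

theorem leAW : A ≤ W := by
  rw [D.hW]
  exact le_sup_left

theorem leSW : S ≤ W := by
  rw [D.hW]
  exact le_sup_right

theorem leCW' : C ≤ W' := by
  rw [D.hW']
  exact le_sup_left

theorem leSW' : S ≤ W' := by
  rw [D.hW']
  exact le_sup_right

theorem leWY : W ≤ Y := by
  rw [D.hW]
  exact sup_le D.hAY D.hSY

theorem nW : Y ≤ Subgroup.normalizer (W : Set Γ) := by
  rw [D.hW]
  exact D.hYW

theorem leNY : N ≤ Y := by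
  rw [D.hN]
  exact inf_le_left

theorem nS : N ≤ Subgroup.normalizer (S : Set Γ) := by
  rw [D.hN]
  exact inf_le_right

theorem leSN : S ≤ N := by
  rw [D.hN]
  exact le_inf D.hSY Subgroup.le_normalizer

theorem leCN : C ≤ N := by
  rw [D.hN]
  exact le_inf (D.leCA.trans D.hAY) (fun c hc => cen_norm (D.leCc hc))

theorem leW'N : W' ≤ N := by
  rw [D.hW']
  exact sup_le D.leCN D.leSN

theorem nC : N ≤ Subgroup.normalizer (C : Set Γ) := by
  intro n hn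
  rw [D.hC]
  exact norm_cent (D.hnA (D.leNY hn)) (D.nS hn)

theorem nW' : N ≤ Subgroup.normalizer (W' : Set Γ) := by
  intro n hn
  rw [D.hW']
  exact normalizer_sup_mem (D.nC hn) (D.nS hn)

theorem memW {x : Γ} (hx : x ∈ W) : ∃ a ∈ A, ∃ s ∈ S, x = a * s := by
  refine exists_mul_of_mem_sup (K := A) (A := S) D.leSNA ?_
  rwa [← D.hW]

theorem memW' {x : Γ} (hx : x ∈ W') : ∃ a ∈ C, ∃ s ∈ S, x = a * s := by
  have hc : S ≤ Subgroup.normalizer (C : Set Γ) := fun s hs => D.nC (D.leSN hs)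
  refine exists_mul_of_mem_sup (K := C) (A := S) hc ?_
  rwa [← D.hW']

end KD

section Fin

variable [Finite Γ] {p : ℕ} {Y Z S A C W W' N H : Subgroup Γ} (D : KD p Y Z S A C W W' N H)

namespace KD

include D

theorem G : GSetup p A S C :=
  ⟨fun _ hs g hg => (Subgroup.mem_normalizer_iff.mp (D.leSNA hs) g).mp hg, D.hC, D.hSp, D.hAp⟩

theorem P : PSetup p A S W := ⟨D.hW, D.leSNA, D.hSp, D.hAp⟩

theorem P' : PSetup p C S W' := psetup_cen D.G D.hW'

variable [hp : Fact p.Prime]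

theorem disj : A ⊓ S = ⊥ := D.P.disj

/-- A normalizing element of `A` centralizes `S`. -/
theorem mem_C_of_norm {a : Γ} (ha : a ∈ A) (han : a ∈ Subgroup.normalizer (S : Set Γ)) : a ∈ C := by
  rw [D.hC]
  refine ⟨ha, Subgroup.mem_centralizer_iff.mpr fun s hs => ?_⟩
  have h1 : a * s * a⁻¹ * s⁻¹ ∈ S :=
    S.mul_mem ((Subgroup.mem_normalizer_iff.mp han s).mp hs) (S.inv_mem hs)
  have h2 : a * s * a⁻¹ * s⁻¹ ∈ A := by
    have h3 : s * a⁻¹ * s⁻¹ ∈ A :=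
      (Subgroup.mem_normalizer_iff.mp (D.leSNA hs) a⁻¹).mp (A.inv_mem ha)
    have h4 : a * s * a⁻¹ * s⁻¹ = a * (s * a⁻¹ * s⁻¹) := by group
    rw [h4]
    exact A.mul_mem ha h3
  have h5 : a * s * a⁻¹ * s⁻¹ ∈ A ⊓ S := ⟨h2, h1⟩
  rw [D.disj, Subgroup.mem_bot] at h5
  have h6 : a * s = s * a := by
    have h7 : a * s * a⁻¹ = s := by
      have h8 := congrArg (· * s) h5
      simpa using h8
    have h8 := congrArg (· * a) h7
    simpa using h8
  exact h6.symm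

/-- The Frattini argument. -/
theorem fr : ∀ y ∈ Y, ∃ a ∈ A, ∃ n ∈ N, y = a * n := by
  intro y hy
  have hW : IsSylowIn p S (A ⊔ S) := by
    refine ⟨le_sup_right, D.hSp, fun h => D.hSi ?_⟩
    have h1 := Subgroup.relIndex_mul_relIndex S (A ⊔ S) Y le_sup_right (sup_le D.hAY D.hSY)
    rw [← h1]
    exact Dvd.dvd.mul_right h _
  obtain ⟨k, hk, hke⟩ := hW.exists_conj (hW.conj_of_mem_normalizer (D.hYW hy))
  obtain ⟨a, ha, s, hs, rfl⟩ := exists_mul_of_mem_sup (K := A) (A := S) D.leSNA hk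
  rw [conj_mul_smul, conj_smul_self_of_mem_normalizer (Subgroup.le_normalizer hs)] at hke
  refine ⟨a, ha, a⁻¹ * y, ?_, by group⟩
  rw [D.hN]
  refine ⟨Y.mul_mem (Y.inv_mem (D.hAY ha)) hy, mem_normalizer_of_conj_smul_eq ?_⟩
  rw [conj_mul_smul, ← hke, ← conj_mul_smul]
  simp

theorem coprime_HS : Nat.Coprime (Nat.card H) (Nat.card S) := by
  obtain ⟨n, hn⟩ := IsPGroup.iff_card.mp D.hSp
  rw [hn]
  exact Nat.Coprime.pow_right n D.hHp.symm

theorem inf_HS {x : Γ} (h₁ : x ∈ H) (h₂ : x ∈ S) : x = 1 := by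
  have h3 : x ∈ H ⊓ S := ⟨h₁, h₂⟩
  rw [disjoint_of_coprime_card D.coprime_HS, Subgroup.mem_bot] at h3
  exact h3

/-- `C` lies in the complement. -/
theorem leCH : C ≤ H := by
  intro c hc
  obtain ⟨s, hs, h, hh, he⟩ := D.hHc c (D.leCN hc)
  have hcomm : Commute s⁻¹ c := by
    have h1 : s⁻¹ * c = c * s⁻¹ :=
      Subgroup.mem_centralizer_iff.mp (D.leCc hc) s⁻¹ (S.inv_mem hs)
    exact h1
  have h2 : h = s⁻¹ * c := by
    rw [he]
    group
  have h3 : (s⁻¹) ^ Nat.card H * c ^ Nat.card H = 1 := by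
    rw [← hcomm.mul_pow, ← h2]
    have h4 : (⟨h, hh⟩ : H) ^ Nat.card H = 1 := pow_card_eq_one'
    have h5 : ((⟨h, hh⟩ : H) ^ Nat.card H : H).1 = 1 := by
      rw [h4]
      rfl
    rw [SubgroupClass.coe_pow] at h5
    exact h5
  have h4 : (s⁻¹) ^ Nat.card H ∈ A ⊓ S := by
    constructor
    · have h5 : (s⁻¹) ^ Nat.card H = (c ^ Nat.card H)⁻¹ := eq_inv_of_mul_eq_one_left h3
      rw [h5]
      exact A.inv_mem (A.pow_mem (D.leCA hc) _)
    · exact S.pow_mem (S.inv_mem hs) _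
  rw [D.disj, Subgroup.mem_bot] at h4
  have h5 : s⁻¹ = 1 := by
    have h6 : (⟨s⁻¹, S.inv_mem hs⟩ : S) ^ Nat.card S = 1 := pow_card_eq_one'
    have h7 : ((⟨s⁻¹, S.inv_mem hs⟩ : S) ^ Nat.card S : S).1 = 1 := by
      rw [h6]
      rfl
    rw [SubgroupClass.coe_pow] at h7
    have h8 := pow_gcd_eq_one.mpr ⟨h4, h7⟩
    rw [D.coprime_HS, pow_one] at h8
    exact h8
  have h6 : s = 1 := inv_eq_one.mp h5
  rw [h2, h5, one_mul] at hh
  exact hh

theorem inf_A_H : C = A ⊓ H := by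
  apply le_antisymm
  · exact le_inf D.leCA D.leCH
  · rintro x ⟨hx, hxH⟩
    exact D.mem_C_of_norm hx (D.nS (D.hHN hxH))

theorem inf_W'_H {x : Γ} (hx : x ∈ W') (hxH : x ∈ H) : x ∈ C := by
  obtain ⟨c, hc, s, hs, rfl⟩ := D.memW' hx
  have h1 : s ∈ H := by
    have h2 := H.mul_mem (H.inv_mem (D.leCH hc)) hxH
    simpa using h2
  rw [D.inf_HS h1 hs, mul_one]
  exact hc

theorem inf_W_H {x : Γ} (hx : x ∈ W) (hxH : x ∈ H) : x ∈ C := by
  obtain ⟨a, ha, s, hs, rfl⟩ := D.memW hx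
  have h1 : a ∈ Subgroup.normalizer (S : Set Γ) := by
    have h2 : a = a * s * s⁻¹ := by group
    rw [h2]
    exact Subgroup.mul_mem _ (D.nS (D.hHN hxH)) (Subgroup.inv_mem _ (Subgroup.le_normalizer hs))
  have haC := D.mem_C_of_norm ha h1
  have h3 : s ∈ H := by
    have h2 := H.mul_mem (H.inv_mem (D.leCH haC)) hxH
    simpa using h2
  rw [D.inf_HS h3 hs, mul_one]
  exact haC

/-- The central elements split. -/
theorem splitZ : ∀ z ∈ Z, ∃ a ∈ Z ⊓ C, ∃ q ∈ Z ⊓ S, z = a * q := by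
  intro z hz
  obtain ⟨a, ha, q, hq, he⟩ := D.hsplit z hz
  have haZ : a ∈ Z := by
    have h1 : a = z * q⁻¹ := by
      rw [he]
      group
    rw [h1]
    exact Z.mul_mem hz (Z.inv_mem hq.1)
  refine ⟨a, ⟨haZ, ?_⟩, q, hq, he⟩
  rw [D.hC]
  refine ⟨ha, Subgroup.mem_centralizer_iff.mpr fun s hs => ?_⟩
  exact (D.hZc a haZ s (D.hSY hs)).symm

theorem ZW : Z ≤ W := by
  intro z hz
  obtain ⟨a, ha, q, hq, rfl⟩ := D.hsplit z hz
  exact W.mul_mem (D.leAW ha) (D.leSW hq.2)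

theorem ZW' : Z ≤ W' := by
  intro z hz
  obtain ⟨a, ha, q, hq, rfl⟩ := D.splitZ z hz
  exact W'.mul_mem (D.leCW' ha.2) (D.leSW' hq.2)

theorem ZN : Z ≤ N := D.ZW'.trans D.leW'N

theorem hZcW : ∀ z ∈ Z, ∀ g ∈ W, z * g = g * z := fun z hz g hg => D.hZc z hz g (D.leWY hg)

theorem hZcW' : ∀ z ∈ Z, ∀ g ∈ W', z * g = g * z :=
  fun z hz g hg => D.hZc z hz g (D.leNY (D.leW'N hg))

theorem idxW : ¬ p ∣ W.relIndex Y := by
  intro h
  apply D.hSi
  rw [← Subgroup.relIndex_mul_relIndex S W Y D.leSW D.leWY]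
  exact Dvd.dvd.mul_left h _

theorem idxSN : ¬ p ∣ S.relIndex N := by
  intro h
  apply D.hSi
  rw [← Subgroup.relIndex_mul_relIndex S N Y D.leSN D.leNY]
  exact Dvd.dvd.mul_right h _

theorem idxW' : ¬ p ∣ W'.relIndex N := by
  intro h
  apply D.idxSN
  rw [← Subgroup.relIndex_mul_relIndex S W' N D.leSW' D.leW'N]
  exact Dvd.dvd.mul_left h _

theorem coprime_sup {T : Subgroup Γ} (hT : T ≤ H) : Nat.Coprime p (Nat.card (A ⊔ T : Subgroup Γ)) := by
  have h1 : T ≤ Subgroup.normalizer (A : Set Γ) := hT.trans (D.hHN.trans (D.leNY.trans D.hnA))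
  have h2 := Cfsg.Agent.Lib.Signal.Basic.card_sup_dvd_of_le_normalizer h1
  have h3 : Nat.card T ∣ Nat.card H := Subgroup.card_dvd_of_le hT
  exact Nat.Coprime.coprime_dvd_right h2 (Nat.Coprime.mul_right D.hAp
    (Nat.Coprime.coprime_dvd_right h3 D.hHp))

end KD

end Fin

section Exist

variable [Finite Γ] {p : ℕ} [hp : Fact p.Prime]

/-- The complement. -/
theorem exists_compl {N S : Subgroup Γ} (hSN : S ≤ N) (hn : N ≤ Subgroup.normalizer (S : Set Γ))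
    (hS : IsPGroup p S) (hi : ¬ p ∣ S.relIndex N) :
    ∃ H : Subgroup Γ, H ≤ N ∧ Nat.Coprime p (Nat.card H) ∧ ∀ n ∈ N, ∃ s ∈ S, ∃ h ∈ H, n = s * h := by
  haveI hN : (S.subgroupOf N).Normal := normal_of_le hSN hn
  have hc : Nat.card (S.subgroupOf N) = Nat.card S :=
    Nat.card_congr (Subgroup.subgroupOfEquivOfLe hSN).toEquiv
  have hcop : Nat.Coprime (Nat.card (S.subgroupOf N)) (S.subgroupOf N).index := by
    rw [hc]
    obtain ⟨k, hk⟩ := IsPGroup.iff_card.mp hS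
    rw [hk]
    exact Nat.Coprime.pow_left k ((Nat.Prime.coprime_iff_not_dvd hp.out).mpr hi)
  obtain ⟨H₀, hH₀⟩ := Subgroup.exists_right_complement'_of_coprime hcop
  refine ⟨H₀.map N.subtype, Subgroup.map_subtype_le _, ?_, fun n hn' => ?_⟩
  · rw [Subgroup.card_map_of_injective N.subtype_injective, ← hH₀.symm.index_eq_card]
    exact (Nat.Prime.coprime_iff_not_dvd hp.out).mpr hi
  · obtain ⟨⟨s, h⟩, hsh⟩ := hH₀.2 ⟨n, hn'⟩
    refine ⟨s.1.1, s.2, h.1.1, ⟨h.1, h.2, rfl⟩, ?_⟩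
    exact (congrArg Subtype.val hsh).symm

/-- The central factorization. -/
theorem exists_A {Y K Z S : Subgroup Γ} (hZK : Z ≤ K) (hKY : K ≤ Y)
    (hZc : ∀ z ∈ Z, ∀ y ∈ Y, z * y = y * z) (hYK : Y ≤ Subgroup.normalizer (K : Set Γ))
    (hSY : S ≤ Y) (hSp : IsPGroup p S) (hSi : ¬ p ∣ S.relIndex Y) (hZi : ¬ p ∣ Z.relIndex K) :
    ∃ A : Subgroup Γ, A ≤ K ∧ Y ≤ Subgroup.normalizer (A : Set Γ) ∧ Nat.Coprime p (Nat.card A) ∧
      ∀ k ∈ K, ∃ a ∈ A, ∃ q ∈ Z ⊓ S, k = a * q := by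
  classical
  -- the Sylow subgroup of `Z` lies in `S`
  obtain ⟨Q₀⟩ : Nonempty (Sylow p Z) := inferInstance
  have hQ := isSylowIn_map Q₀
  set Q := (Q₀ : Subgroup Z).map Z.subtype with hQdef
  have hQS : Q ≤ S := by
    refine le_of_normal_of_isSylowIn (M := Y) ⟨hSY, hSp, hSi⟩ (hQ.1.trans (hZK.trans hKY)) hQ.2.1 ?_
    intro y hy
    rw [Subgroup.mem_normalizer_iff]
    intro q
    have hcent : ∀ q ∈ Q, y * q * y⁻¹ = q := by
      intro q hq
      rw [← hZc q (hQ.1 hq) y hy]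
      group
    constructor
    · intro hq
      rwa [hcent q hq]
    · intro hq
      have h1 : y * q * y⁻¹ ∈ Z := hQ.1 hq
      have h3 : (y * q * y⁻¹) * y = y * (y * q * y⁻¹) := hZc _ h1 y hy
      have h4 : (y * q * y⁻¹) * y = y * q := by group
      rw [h4] at h3
      have h3 : q = y * q * y⁻¹ := mul_left_cancel h3
      rwa [h3]
  have h1 : ¬ p ∣ (Z ⊓ S).relIndex Z := by
    intro h
    apply hQ.2.2
    exact h.trans (Subgroup.relIndex_dvd_of_le_left Z (le_inf hQ.1 hQS))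
  have h2 : ¬ p ∣ (Z ⊓ S).relIndex K := by
    rw [← Subgroup.relIndex_mul_relIndex (Z ⊓ S) Z K inf_le_left hZK, hp.out.dvd_mul]
    tauto
  -- in the ambient group
  haveI hG : (K.subgroupOf Y).Normal := normal_of_le hKY hYK
  have hZG : (Z ⊓ S).subgroupOf Y ≤ K.subgroupOf Y := fun x hx => hZK hx.1
  obtain ⟨P, Q', hPn, hPK, hQ'Z, -, hfact, -, -, hpr⟩ := Cfsg.Agent.Lib.CharTriple.Central.central_split_in
    (K.subgroupOf Y) ((Z ⊓ S).subgroupOf Y) hZG (fun z hz x => Subtype.ext (hZc _ hz.1 x x.2))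
  have hidx : ((Z ⊓ S).subgroupOf Y).relIndex (K.subgroupOf Y) = (Z ⊓ S).relIndex K :=
    Subgroup.relIndex_subgroupOf hKY
  refine ⟨P.map Y.subtype, ?_, ?_, ?_, ?_⟩
  · rintro _ ⟨x, hx, rfl⟩
    exact hPK hx
  · intro y hy
    rw [Subgroup.mem_normalizer_iff]
    intro h
    have key : ∀ {u v : Γ} (hv : v ∈ Y), u ∈ P.map Y.subtype → v * u * v⁻¹ ∈ P.map Y.subtype := by
      rintro u v hv ⟨x, hx, rfl⟩
      exact ⟨⟨v, hv⟩ * x * ⟨v, hv⟩⁻¹, hPn.conj_mem x hx _, rfl⟩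
    constructor
    · exact key hy
    · intro h1
      have h2 := key (Y.inv_mem hy) h1
      have h3 : y⁻¹ * (y * h * y⁻¹) * y⁻¹⁻¹ = h := by group
      rwa [h3] at h2
  · rw [Subgroup.card_map_of_injective Y.subtype_injective]
    refine (Nat.Prime.coprime_iff_not_dvd hp.out).mpr fun h => h2 ?_
    rw [← hidx]
    exact hpr p hp.out h
  · intro k hk
    obtain ⟨a, ha, q, hq, he⟩ := hfact ⟨k, hKY hk⟩ hk
    exact ⟨a, ⟨a, ha, rfl⟩, q, hQ'Z hq, congrArg Subtype.val he⟩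

end Exist

end Cfsg.Agent.Lib.RelMcKay.KeyGroup
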