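import Mathlib
import Cfsg.Agent.Lib.RelMcKay.KeyGroup

/-!
# The central case of the key comparison
-/

set_option autoImplicit false
set_option linter.style.haveILetI false
set_option linter.unusedSectionVars false

namespace Cfsg.Agent.Lib.RelMcKay.KeyCount

open Cfsg Module Pointwise
open Cfsg.Agent.Lib.Char.Basic Cfsg.Agent.Lib.Char.Ortho Cfsg.Agent.Lib.Char.Complete
open Cfsg.Agent.Lib.Char.Conj Cfsg.Agent.Lib.Char.Degree
open Cfsg.Agent.Lib.RelMcKay.Basic Cfsg.Agent.Lib.RelMcKay.Cliff Cfsg.Agent.Lib.RelMcKay.Stab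
open Cfsg.Agent.Lib.RelMcKay.Induct Cfsg.Agent.Lib.RelMcKay.Glaub Cfsg.Agent.Lib.RelMcKay.Pair
open Cfsg.Agent.Lib.RelMcKay.Corr Cfsg.Agent.Lib.RelMcKay.ExtMain
open Cfsg.Agent.Lib.RelMcKay.GoodAmb Cfsg.Agent.Lib.RelMcKay.RB
open Cfsg.Agent.Lib.RelMcKay.KeyGroup
open Cfsg.Agent.Lib.Coprime.Action Cfsg.Agent.Lib.Coprime.SchurZassenhaus

universe u

variable {Γ : Type u} [Group Γ] [Finite Γ] {p : ℕ} [hp : Fact p.Prime]

section Gen

/-- A relation which is a bijection gives an equivalence. -/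
theorem equiv_of_rel {X X' : Type*} (R : X → X' → Prop) (h1 : ∀ x, ∃ y, R x y)
    (h2 : ∀ y, ∃ x, R x y) (h3 : ∀ x y₁ y₂, R x y₁ → R x y₂ → y₁ = y₂)
    (h4 : ∀ x₁ x₂ y, R x₁ y → R x₂ y → x₁ = x₂) : ∃ Φ : X ≃ X', ∀ x, R x (Φ x) := by
  choose f hf using h1
  have hb : Function.Bijective f := by
    constructor
    · intro a b hab
      exact h4 a b (f a) (hf a) (hab ▸ hf b)
    · intro y
      obtain ⟨x, hx⟩ := h2 y
      exact ⟨x, h3 x _ _ (hf x) hx⟩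
  exact ⟨Equiv.ofBijective f hb, hf⟩

/-- The degree of a character over a constituent on a normal subgroup. -/
theorem deg_of_over {K Y : Subgroup Γ} (h : K ≤ Y) (hn : Y ≤ Subgroup.normalizer (K : Set Γ))
    {χ : Y → ℂ} {θ : K → ℂ} (hχ : IsIrrCharacter Y χ) (hθ : IsIrrCharacter K θ)
    (ho : Over (Subgroup.inclusion h) χ θ) :
    ∃ k, k ∣ K.relIndex Y ∧ charDegree χ = k * charDegree θ := by
  classical
  letI : Fintype Y := Fintype.ofFinite Y
  letI : Fintype ↥(K.subgroupOf Y) := Fintype.ofFinite _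
  have hN := normal_of_le h hn
  have ho' := (over_iff h χ θ).mp ho
  obtain ⟨e, t, h1, h2⟩ := Cfsg.Agent.Lib.Char.DegDvd.dvd_index_of_constituent hN (isIrr_ee h hθ) hχ ho'
  refine ⟨e * t, h2, ?_⟩
  have h3 := charDegree_natCast (isCharacter_of_isIrrCharacter hχ)
  have h4 := charDegree_natCast (isCharacter_of_isIrrCharacter hθ)
  have h5 : (θ ∘ ee h) 1 = θ 1 := by simp
  rw [h1, h5, ← h4] at h3
  exact_mod_cast h3

/-- A constituent of degree prime to `p`. -/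
theorem exists_mid {Y W Z : Subgroup Γ} (hWY : W ≤ Y) (hnW : Y ≤ Subgroup.normalizer (W : Set Γ))
    (hZW : Z ≤ W) (hZY : Z ≤ Y) {χ : Y → ℂ} (hχ : IsIrrCharacter Y χ) (hd : ¬ p ∣ charDegree χ)
    {lam : Z → ℂ} (ho : Over (Subgroup.inclusion hZY) χ lam) :
    ∃ ξ : W → ℂ, IsIrrCharacter W ξ ∧ ¬ p ∣ charDegree ξ ∧ Over (Subgroup.inclusion hZW) ξ lam ∧
      Over (Subgroup.inclusion hWY) χ ξ := by
  obtain ⟨ξ, hξ, h1, h2⟩ := exists_over_between hWY hZW (isCharacter_of_isIrrCharacter hχ) ho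
  refine ⟨ξ, hξ, fun h => hd ?_, h2, h1⟩
  obtain ⟨k, -, hk⟩ := deg_of_over hWY hnW hχ hξ h1
  rw [hk]
  exact Dvd.dvd.mul_left h _

/-- Over a character of degree prime to `p` everything is of degree prime to `p`. -/
theorem card_sub {Y W Z : Subgroup Γ} (hWY : W ≤ Y) (hnW : Y ≤ Subgroup.normalizer (W : Set Γ))
    (hZW : Z ≤ W) (hZY : Z ≤ Y) (hi : ¬ p ∣ W.relIndex Y) {lam : Z → ℂ}
    (hlam : IsCharacter Z lam) {ξ : W → ℂ} (hξ : IsIrrCharacter W ξ) (hd : ¬ p ∣ charDegree ξ)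
    (ho : Over (Subgroup.inclusion hZW) ξ lam) :
    Nat.card {c : {χ : IrrCharacter Y // ¬ p ∣ charDegree (χ : Y → ℂ) ∧
        Over (Subgroup.inclusion hZY) (χ : Y → ℂ) lam} //
      Over (Subgroup.inclusion hWY) (c.1 : Y → ℂ) ξ} =
    Nat.card {χ : IrrCharacter Y // Over (Subgroup.inclusion hWY) (χ : Y → ℂ) ξ} := by
  apply Nat.card_congr
  refine ⟨fun c => ⟨c.1.1, c.2⟩, fun χ => ⟨⟨χ.1, ?_, ?_⟩, χ.2⟩, fun c => rfl, fun c => rfl⟩
  · obtain ⟨k, hk, he⟩ := deg_of_over hWY hnW χ.1.2 hξ χ.2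
    rw [he, hp.out.dvd_mul]
    rintro (h | h)
    · exact hi (h.trans hk)
    · exact hd h
  · exact over_trans hWY hZW (isCharacter_of_isIrrCharacter χ.1.2) hξ hlam χ.2 ho

end Gen

variable {Y Z S A C W W' N H : Subgroup Γ} (D : KD p Y Z S A C W W' N H)

include D in
/-- Conjugation along the relation. -/
theorem conj_transfer {n : Γ} (hn : n ∈ N) {ξ₁ ξ₂ : W → ℂ} {ξ₁' ξ₂' : W' → ℂ}
    (h₁ : IsIrrCharacter W ξ₁) (h₂ : IsIrrCharacter W ξ₂)
    (h₁' : IsIrrCharacter W' ξ₁') (h₂' : IsIrrCharacter W' ξ₂')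
    (d₁ : ¬ p ∣ charDegree ξ₁) (d₂ : ¬ p ∣ charDegree ξ₂)
    (d₁' : ¬ p ∣ charDegree ξ₁') (d₂' : ¬ p ∣ charDegree ξ₂')
    (r₁ : Rel D.P D.P' D.G ξ₁ ξ₁') (r₂ : Rel D.P D.P' D.G ξ₂ ξ₂') :
    IsConjCharOf W n ξ₁ ξ₂ ↔ IsConjCharOf W' n ξ₁' ξ₂' := by
  constructor
  · intro hc
    have hc' := exists_conj_fun (D.nW' hn) ξ₁'
    have hi : IsIrrCharacter W' (ξ₁' ∘ (cjEquiv (D.nW' hn)).symm) :=
      isIrrCharacter_comp_mulEquiv _ h₁'
    have hdeg : charDegree (ξ₁' ∘ (cjEquiv (D.nW' hn)).symm) = charDegree ξ₁' := by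
      unfold charDegree
      simp
    have r := rel_conj D.P D.P' D.G (D.nC hn) (D.nS hn) h₁ h₁' hc hc' r₁
    have he := rel_unique_right D.P D.P' D.G h₂ d₂ hi h₂' (by rwa [hdeg]) d₂' r r₂
    rw [← he]
    exact hc'
  · intro hc'
    have hc := exists_conj_fun (D.nW (D.leNY hn)) ξ₁
    have hi : IsIrrCharacter W (ξ₁ ∘ (cjEquiv (D.nW (D.leNY hn))).symm) :=
      isIrrCharacter_comp_mulEquiv _ h₁
    have hdeg : charDegree (ξ₁ ∘ (cjEquiv (D.nW (D.leNY hn))).symm) = charDegree ξ₁ := by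
      unfold charDegree
      simp
    have r := rel_conj D.P D.P' D.G (D.nC hn) (D.nS hn) h₁ h₁' hc hc' r₁
    have he := rel_unique_left D.P D.P' D.G h₂' d₂' hi h₂ (by rwa [hdeg]) d₂ r r₂
    rw [← he]
    exact hc

/-- The chain of comparisons. -/
theorem chain {ξ : W → ℂ} {ξ' : W' → ℂ} (hξ : IsIrrCharacter W ξ) (hξ' : IsIrrCharacter W' ξ')
    (hd : ¬ p ∣ charDegree ξ) (hd' : ¬ p ∣ charDegree ξ') (r : Rel D.P D.P' D.G ξ ξ')
    (hst : ∀ n ∈ N, IsConjCharOf W n ξ ξ ↔ IsConjCharOf W' n ξ' ξ') :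
    Nat.card {χ : IrrCharacter Y // Over (Subgroup.inclusion D.leWY) (χ : Y → ℂ) ξ} =
      Nat.card {χ : IrrCharacter N // Over (Subgroup.inclusion D.leW'N) (χ : N → ℂ) ξ'} := by
  classical
  have hξcl := isClassFunction_of_isIrrCharacter hξ
  have hξ'cl := isClassFunction_of_isIrrCharacter hξ'
  set T := Y ⊓ stabSub W ξ with hT
  set T' := N ⊓ stabSub W' ξ' with hT'
  set TH := H ⊓ stabSub W ξ with hTH
  have hWst : W ≤ stabSub W ξ := le_stabSub hξcl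
  have hW'st : W' ≤ stabSub W' ξ' := le_stabSub hξ'cl
  have hWT : W ≤ T := le_inf D.leWY hWst
  have hW'T' : W' ≤ T' := le_inf D.leW'N hW'st
  obtain ⟨f, -⟩ := clifford_equiv D.leWY D.nW hξ hT hWT
  obtain ⟨f', -⟩ := clifford_equiv D.leW'N D.nW' hξ' hT' hW'T'
  rw [← Nat.card_congr f, ← Nat.card_congr f']
  have hηi : IsIrrCharacter A (ξ ∘ Subgroup.inclusion D.P.leA) := D.P.restrict_irr hξ hd
  have hγi : IsIrrCharacter C (ξ' ∘ Subgroup.inclusion D.P'.leA) := D.P'.restrict_irr hξ' hd'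
  have hTHH : TH ≤ H := inf_le_left
  have hTHN : TH ≤ N := hTHH.trans D.hHN
  have hTHst' : ∀ t ∈ TH, IsConjCharOf W' t ξ' ξ' := fun t ht => (hst t (hTHN ht)).mp ht.2.2
  have hCTH : C ≤ TH := le_inf D.leCH (D.leCA.trans (D.leAW.trans hWst))
  have hTHnA : TH ≤ Subgroup.normalizer (A : Set Γ) := hTHN.trans (D.leNY.trans D.hnA)
  have hTHnC : TH ≤ Subgroup.normalizer (C : Set Γ) := hTHN.trans D.nC
  have hU : A ≤ A ⊔ TH := le_sup_left
  have hUnA : A ⊔ TH ≤ Subgroup.normalizer (A : Set Γ) := sup_le Subgroup.le_normalizer hTHnA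
  have hUT : A ⊔ TH ≤ T := sup_le (D.leAW.trans hWT) (le_inf (hTHN.trans D.leNY) inf_le_right)
  have hTHT' : TH ≤ T' := fun t ht => ⟨hTHN ht, D.nW' (hTHN ht), hTHst' t ht⟩
  have hinvU : ∀ t ∈ A ⊔ TH, IsConjCharOf A t (ξ ∘ Subgroup.inclusion D.P.leA)
      (ξ ∘ Subgroup.inclusion D.P.leA) := fun t ht => cj_restrict _ (hUT ht).2.2
  have hinvTH : ∀ t ∈ TH, IsConjCharOf C t (ξ' ∘ Subgroup.inclusion D.P'.leA)
      (ξ' ∘ Subgroup.inclusion D.P'.leA) := fun t ht => cj_restrict _ (hTHst' t ht)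
  have hηS : ∀ s ∈ S, IsConjCharOf A s (ξ ∘ Subgroup.inclusion D.P.leA)
      (ξ ∘ Subgroup.inclusion D.P.leA) := fun s hs => D.P.restrict_inv hξcl (D.leSW hs)
  calc _ = Nat.card {χ : IrrCharacter ↥(A ⊔ TH) //
        Over (Subgroup.inclusion hU) (χ : ↥(A ⊔ TH) → ℂ) (ξ ∘ Subgroup.inclusion D.P.leA)} := by
        refine rb_compare hWT (inf_le_left.trans D.nW) hU hUnA hUT ?_ ?_ D.leAW hξ hηi rfl
          (fun t ht => ht.2.2) hinvU
        · apply le_antisymm (le_inf D.leAW hU)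
          rintro x ⟨hxW, hxU⟩
          obtain ⟨a, ha, t, ht, rfl⟩ := exists_mul_of_mem_sup (K := A) (A := TH) hTHnA hxU
          have h1 : t ∈ W := by
            have h2 := W.mul_mem (W.inv_mem (D.leAW ha)) hxW
            simpa using h2
          exact A.mul_mem ha (D.leCA (D.inf_W_H h1 (hTHH ht)))
        · intro t ht
          obtain ⟨a, ha, n, hn, rfl⟩ := D.fr t ht.1
          have h1 : n ∈ T := by
            have h2 := T.mul_mem (T.inv_mem (hWT (D.leAW ha))) ht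
            simpa using h2
          obtain ⟨s, hs, h, hh, rfl⟩ := D.hHc n hn
          have h3 : h ∈ T := by
            have h2 := T.mul_mem (T.inv_mem (hWT (D.leSW hs))) h1
            simpa using h2
          have h4 : h ∈ TH := ⟨hh, h3.2⟩
          have h5 : (a * (s * h) : Γ) = a * s * h := by group
          rw [h5]
          refine Subgroup.mul_mem _ (Subgroup.mul_mem _ ?_ ?_) ?_
          · exact Subgroup.mem_sup_left (D.leAW ha)
          · exact Subgroup.mem_sup_left (D.leSW hs)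
          · exact Subgroup.mem_sup_right (Subgroup.mem_sup_right h4)
    _ = Nat.card {χ : IrrCharacter TH //
        Over (Subgroup.inclusion hCTH) (χ : TH → ℂ) (ξ' ∘ Subgroup.inclusion D.P'.leA)} := by
        refine gc_compare hU hUnA hCTH hTHnC le_sup_right ?_ le_rfl hηi hγi hinvU hinvTH ?_
        · apply le_antisymm (le_inf D.leCA hCTH)
          rintro x ⟨hx, hxT⟩
          exact D.mem_C_of_norm hx (D.nS (hTHN hxT))
        · intro x hx y hy hxy U V hU' hV' hUe hVe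
          have hcl : Subgroup.closure ({x, y} : Set Γ) ≤ H := by
            rw [Subgroup.closure_le]
            rintro a (rfl | rfl)
            · exact hTHH hx
            · exact hTHH hy
          exact ext_main _ A S C D.G x y _ _ rfl (D.nS (hTHN hx)) (D.nS (hTHN hy)) (hTHnA hx)
            (hTHnA hy) hxy (D.coprime_sup hcl) hηi hγi hηS (hinvU x (Subgroup.mem_sup_right hx))
            (hinvU y (Subgroup.mem_sup_right hy)) r.1 U V hU' hV' hUe hVe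
    _ = _ := by
        symm
        refine rb_compare hW'T' (inf_le_left.trans D.nW') hCTH hTHnC hTHT' ?_ ?_ D.leCW' hξ' hγi rfl
          (fun t ht => ht.2.2) hinvTH
        · apply le_antisymm (le_inf D.leCW' hCTH)
          rintro x ⟨hx, hxT⟩
          exact D.inf_W'_H hx (hTHH hxT)
        · intro t ht
          obtain ⟨s, hs, h, hh, rfl⟩ := D.hHc t ht.1
          have h1 : h ∈ T' := by
            have h2 := T'.mul_mem (T'.inv_mem (hW'T' (D.leSW' hs))) ht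
            simpa using h2
          have h2 : h ∈ TH := by
            refine ⟨hh, D.nW (D.leNY (D.hHN hh)), ?_⟩
            exact (hst h (D.hHN hh)).mpr h1.2.2
          exact Subgroup.mul_mem _ (Subgroup.mem_sup_left (D.leSW' hs)) (Subgroup.mem_sup_right h2)

/-- The main count. -/
theorem count_main {lam : Z → ℂ} (hlam : IsCharacter Z lam) :
    Nat.card {χ : IrrCharacter Y // ¬ p ∣ charDegree (χ : Y → ℂ) ∧
      Over (Subgroup.inclusion D.hZY) (χ : Y → ℂ) lam} =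
    Nat.card {χ : IrrCharacter N // ¬ p ∣ charDegree (χ : N → ℂ) ∧
      Over (Subgroup.inclusion D.ZN) (χ : N → ℂ) lam} := by
  classical
  haveI := finite_irrCharacter (G := W)
  haveI := finite_irrCharacter (G := W')
  haveI := finite_irrCharacter (G := Y)
  haveI := finite_irrCharacter (G := N)
  let X := {ξ : IrrCharacter W // ¬ p ∣ charDegree (ξ : W → ℂ) ∧
    Over (Subgroup.inclusion D.ZW) (ξ : W → ℂ) lam}
  let X' := {ξ : IrrCharacter W' // ¬ p ∣ charDegree (ξ : W' → ℂ) ∧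
    Over (Subgroup.inclusion D.ZW') (ξ : W' → ℂ) lam}
  let R₀ : X → X' → Prop := fun x y => Rel D.P D.P' D.G (x.1 : W → ℂ) (y.1 : W' → ℂ)
  have hover : ∀ {ξ : W → ℂ} {ξ' : W' → ℂ}, IsIrrCharacter W ξ → IsIrrCharacter W' ξ' →
      ¬ p ∣ charDegree ξ → ¬ p ∣ charDegree ξ' → Rel D.P D.P' D.G ξ ξ' →
      (Over (Subgroup.inclusion D.ZW) ξ lam ↔ Over (Subgroup.inclusion D.ZW') ξ' lam) :=
    fun h₁ h₂ d₁ d₂ r => rel_over D.P D.P' D.G D.ZW D.ZW' D.hZcW D.hZcW' D.splitZ h₁ h₂ d₁ d₂ r lam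
  obtain ⟨Φ, hΦ⟩ : ∃ Φ : X ≃ X', ∀ x, R₀ x (Φ x) := by
    apply equiv_of_rel
    · intro x
      obtain ⟨ξ', h1, h2, h3⟩ := rel_exists_right D.P D.P' D.G x.1.2 x.2.1
      exact ⟨⟨⟨ξ', h1⟩, h2, (hover x.1.2 h1 x.2.1 h2 h3).mp x.2.2⟩, h3⟩
    · intro y
      obtain ⟨ξ, h1, h2, h3⟩ := rel_exists_left D.P D.P' D.G y.1.2 y.2.1
      exact ⟨⟨⟨ξ, h1⟩, h2, (hover h1 y.1.2 h2 y.2.1 h3).mpr y.2.2⟩, h3⟩
    · intro x y₁ y₂ h₁ h₂
      apply Subtype.ext
      apply Subtype.ext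
      exact rel_unique_right D.P D.P' D.G x.1.2 x.2.1 y₁.1.2 y₂.1.2 y₁.2.1 y₂.2.1 h₁ h₂
    · intro x₁ x₂ y h₁ h₂
      apply Subtype.ext
      apply Subtype.ext
      exact rel_unique_left D.P D.P' D.G y.1.2 y.2.1 x₁.1.2 x₂.1.2 x₁.2.1 x₂.2.1 h₁ h₂
  refine compare_card (X := X) (X' := X')
    (fun c x => Over (Subgroup.inclusion D.leWY) (c.1 : Y → ℂ) (x.1 : W → ℂ))
    (fun c x => Over (Subgroup.inclusion D.leW'N) (c.1 : N → ℂ) (x.1 : W' → ℂ))
    (fun x y => ∃ t ∈ Y, IsConjCharOf W t (x.1 : W → ℂ) (y.1 : W → ℂ))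
    (fun x y => ∃ t ∈ N, IsConjCharOf W' t (x.1 : W' → ℂ) (y.1 : W' → ℂ)) Φ ?_ ?_ ?_ ?_ ?_ ?_
  · intro c
    obtain ⟨ξ, h1, h2, h3, h4⟩ := exists_mid D.leWY D.nW D.ZW D.hZY c.1.2 c.2.1 c.2.2
    exact ⟨⟨⟨ξ, h1⟩, h2, h3⟩, h4⟩
  · intro c
    obtain ⟨ξ, h1, h2, h3, h4⟩ := exists_mid D.leW'N D.nW' D.ZW' D.ZN c.1.2 c.2.1 c.2.2
    exact ⟨⟨⟨ξ, h1⟩, h2, h3⟩, h4⟩
  · intro c x₀ x h₀
    exact over_iff_conj D.leWY D.nW c.1.2 x₀.1.2 x.1.2 h₀
  · intro c x₀ x h₀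
    exact over_iff_conj D.leW'N D.nW' c.1.2 x₀.1.2 x.1.2 h₀
  · intro x y
    constructor
    · rintro ⟨t, ht, hc⟩
      obtain ⟨a, ha, n, hn, rfl⟩ := D.fr t ht
      refine ⟨n, hn, ?_⟩
      have h1 : IsConjCharOf W a⁻¹ (y.1 : W → ℂ) (y.1 : W → ℂ) :=
        (le_stabSub (isClassFunction_of_isIrrCharacter y.1.2) (W.inv_mem (D.leAW ha))).2
      have h2 := cj_mul (D.nW ht) hc h1
      have h3 : a⁻¹ * (a * n) = n := by group
      rw [h3] at h2
      exact (conj_transfer D hn x.1.2 y.1.2 (Φ x).1.2 (Φ y).1.2 x.2.1 y.2.1 (Φ x).2.1 (Φ y).2.1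
        (hΦ x) (hΦ y)).mp h2
    · rintro ⟨n, hn, hc⟩
      refine ⟨n, D.leNY hn, ?_⟩
      exact (conj_transfer D hn x.1.2 y.1.2 (Φ x).1.2 (Φ y).1.2 x.2.1 y.2.1 (Φ x).2.1 (Φ y).2.1
        (hΦ x) (hΦ y)).mpr hc
  · intro x
    rw [card_sub D.leWY D.nW D.ZW D.hZY D.idxW hlam x.1.2 x.2.1 x.2.2,
      card_sub D.leW'N D.nW' D.ZW' D.ZN D.idxW' hlam (Φ x).1.2 (Φ x).2.1 (Φ x).2.2]
    exact chain D x.1.2 (Φ x).1.2 x.2.1 (Φ x).2.1 (hΦ x) (fun n hn =>
      conj_transfer D hn x.1.2 x.1.2 (Φ x).1.2 (Φ x).1.2 x.2.1 x.2.1 (Φ x).2.1 (Φ x).2.1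
        (hΦ x) (hΦ x))

/-- **The central case.** -/
theorem key_central {Y K Z S : Subgroup Γ} (hZK : Z ≤ K) (hKY : K ≤ Y)
    (hZc : ∀ z ∈ Z, ∀ y ∈ Y, z * y = y * z) (hYK : Y ≤ Subgroup.normalizer (K : Set Γ))
    (hSY : S ≤ Y) (hSp : IsPGroup p S) (hSi : ¬ p ∣ S.relIndex Y)
    (hYP : Y ≤ Subgroup.normalizer ((K ⊔ S : Subgroup Γ) : Set Γ)) (hZi : ¬ p ∣ Z.relIndex K)
    {lam : Z → ℂ} (hlam : IsCharacter Z lam)
    (hk : Z ≤ Y ⊓ Subgroup.normalizer ((Z ⊔ S : Subgroup Γ) : Set Γ)) :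
    Cnt p Y Z (hZK.trans hKY) lam =
      Cnt p (Y ⊓ Subgroup.normalizer ((Z ⊔ S : Subgroup Γ) : Set Γ)) Z hk lam := by
  classical
  obtain ⟨A, hAK, hnA, hAp, hfact⟩ := exists_A hZK hKY hZc hYK hSY hSp hSi hZi
  have hWK : A ⊔ S = K ⊔ S := by
    apply le_antisymm
    · exact sup_le_sup_right hAK _
    · refine sup_le (fun k hk => ?_) le_sup_right
      obtain ⟨a, ha, q, hq, rfl⟩ := hfact k hk
      exact Subgroup.mul_mem _ (Subgroup.mem_sup_left ha) (Subgroup.mem_sup_right hq.2)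
  have hYW : Y ≤ Subgroup.normalizer ((A ⊔ S : Subgroup Γ) : Set Γ) := by
    rw [hWK]
    exact hYP
  have hcen : ∀ z ∈ Z, ∀ {T : Subgroup Γ}, T ≤ Y → z ∈ Subgroup.normalizer (T : Set Γ) := by
    intro z hz T hT
    apply cen_norm
    exact Subgroup.mem_centralizer_iff.mpr fun t ht => (hZc z hz t (hT ht)).symm
  have hcenZ : ∀ y ∈ Y, y ∈ Subgroup.normalizer (Z : Set Γ) := by
    intro y hy
    apply cen_norm
    exact Subgroup.mem_centralizer_iff.mpr fun z hz => hZc z hz y hy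
  have hNe : Y ⊓ Subgroup.normalizer ((Z ⊔ S : Subgroup Γ) : Set Γ) =
      Y ⊓ Subgroup.normalizer (S : Set Γ) := by
    apply le_antisymm
    · rintro n ⟨hn, hn'⟩
      refine ⟨hn, ?_⟩
      have hZSY : Z ⊔ S ≤ Y := sup_le (hZK.trans hKY) hSY
      have hsyl : IsSylowIn p S (Z ⊔ S) := by
        refine ⟨le_sup_right, hSp, fun h => hSi ?_⟩
        rw [← Subgroup.relIndex_mul_relIndex S (Z ⊔ S) Y le_sup_right hZSY]
        exact Dvd.dvd.mul_right h _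
      obtain ⟨k, hk', hke⟩ := hsyl.exists_conj (hsyl.conj_of_mem_normalizer hn')
      have hSn : S ≤ Subgroup.normalizer (Z : Set Γ) := fun s hs => hcenZ s (hSY hs)
      obtain ⟨z, hz, s, hs, rfl⟩ := exists_mul_of_mem_sup (K := Z) (A := S) hSn hk'
      rw [conj_mul_smul, conj_smul_self_of_mem_normalizer (Subgroup.le_normalizer hs),
        conj_smul_self_of_mem_normalizer (hcen z hz hSY)] at hke
      exact mem_normalizer_of_conj_smul_eq hke.symm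
    · rintro n ⟨hn, hn'⟩
      exact ⟨hn, normalizer_sup_mem (hcenZ n hn) hn'⟩
  set N₀ := Y ⊓ Subgroup.normalizer (S : Set Γ) with hN₀
  have hSN₀ : S ≤ N₀ := le_inf hSY Subgroup.le_normalizer
  have hN₀Y : N₀ ≤ Y := inf_le_left
  have hN₀n : N₀ ≤ Subgroup.normalizer (S : Set Γ) := inf_le_right
  have hidx : ¬ p ∣ S.relIndex N₀ := by
    intro h
    apply hSi
    rw [← Subgroup.relIndex_mul_relIndex S N₀ Y hSN₀ hN₀Y]
    exact Dvd.dvd.mul_right h _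
  obtain ⟨H, hHN, hHp, hHc⟩ := exists_compl hSN₀ hN₀n hSp hidx
  have D : KD p Y Z S A (A ⊓ Subgroup.centralizer (S : Set Γ)) (A ⊔ S)
      ((A ⊓ Subgroup.centralizer (S : Set Γ)) ⊔ S) N₀ H :=
    { hZc := hZc
      hZY := hZK.trans hKY
      hSY := hSY
      hSp := hSp
      hSi := hSi
      hAY := hAK.trans hKY
      hnA := hnA
      hAp := hAp
      hsplit := fun z hz => hfact z (hZK hz)
      hYW := hYW
      hC := rfl
      hW := rfl
      hW' := rfl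
      hN := rfl
      hHN := hHN
      hHp := hHp
      hHc := hHc }
  have h1 := count_main D hlam
  have h2 : Cnt p (Y ⊓ Subgroup.normalizer ((Z ⊔ S : Subgroup Γ) : Set Γ)) Z hk lam =
      Cnt p N₀ Z D.ZN lam := Cnt_congr hNe _ _ _
  rw [h2]
  exact h1

end Cfsg.Agent.Lib.RelMcKay.KeyCount
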