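import Mathlib
import Cfsg.Agent.Lib.RelMcKay.KeyCount
import Cfsg.Agent.Lib.RelMcKay.Count

/-!
# From a central quotient to an invariant linear character of a normal subgroup
-/

set_option autoImplicit false
set_option linter.style.haveILetI false
set_option linter.unusedSectionVars false

namespace Cfsg.Agent.Lib.RelMcKay.KeyHat

open Cfsg Module Pointwise
open Cfsg.Agent.Lib.Char.Basic Cfsg.Agent.Lib.Char.Ortho Cfsg.Agent.Lib.Char.Complete
open Cfsg.Agent.Lib.Char.Conj Cfsg.Agent.Lib.Char.Degree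
open Cfsg.Agent.Lib.RelMcKay.Basic Cfsg.Agent.Lib.RelMcKay.Cliff
open Cfsg.Agent.Lib.RelMcKay.Induct Cfsg.Agent.Lib.RelMcKay.Count
open Cfsg.Agent.Lib.RelMcKay.KeyGroup Cfsg.Agent.Lib.RelMcKay.KeyCount

universe u

section Abs

variable {G G' : Type u} [Group G] [Group G'] [Finite G] [Finite G'] {p : ℕ} [hp : Fact p.Prime]

/-- The count over a linear character. -/
noncomputable def CntK (p : ℕ) (M B : Subgroup G) (hMB : M ≤ B) (κ : M →* ℂˣ) : ℕ :=
  Nat.card {τ : IrrCharacter B // ¬ p ∣ charDegree (τ : B → ℂ) ∧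
    IsOverK (M.subgroupOf B) (κ.comp (Subgroup.subgroupOfEquivOfLe hMB).toMonoidHom) (τ : B → ℂ)}

theorem CntK_congr {M B B' : Subgroup G} (e : B = B') (h : M ≤ B) (h' : M ≤ B') (κ : M →* ℂˣ) :
    CntK p M B h κ = CntK p M B' h' κ := by
  subst e
  rfl

/-- The count descends through a central quotient. -/
theorem card_descend (q : G →* G') {M : Subgroup G} (hker : q.ker ≤ M) (κ : M →* ℂˣ)
    (hZc : ∀ z ∈ M.map q, ∀ g : G', z * g = g * z) (lam : M.map q →* ℂˣ)
    (hlam : ∀ (m : M) (hm : q m ∈ M.map q), lam ⟨q m, hm⟩ = κ m)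
    {B : Subgroup G} (hMB : M ≤ B) {B' : Subgroup G'} (hB' : B' = B.map q)
    (hZB' : M.map q ≤ B') :
    CntK p M B hMB κ = Cnt p B' (M.map q) hZB' (fun z => ((lam z : ℂˣ) : ℂ)) := by
  classical
  subst hB'
  letI : Fintype (M.map q : Subgroup G') := Fintype.ofFinite _
  have hlamirr : IsIrrCharacter (M.map q) (fun z => ((lam z : ℂˣ) : ℂ)) :=
    Cfsg.Agent.Lib.Char.Linear.isIrrCharacter_of_hom lam
  let qB : B →* B.map q := q.subgroupMap B
  have hqB : Function.Surjective qB := q.subgroupMap_surjective B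
  have hdeg : ∀ φ : ↥(B.map q) → ℂ, charDegree (φ ∘ qB) = charDegree φ := by
    intro φ
    unfold charDegree
    simp
  have hval : ∀ (m : M) (hm : (m : G) ∈ B) (hz : q m ∈ M.map q),
      qB ⟨m, hm⟩ = Subgroup.inclusion hZB' ⟨q m, hz⟩ := fun m hm hz => rfl
  have hκ1 : ∀ m : M, q m = 1 → κ m = 1 := by
    intro m hm
    have hz : q m ∈ M.map q := ⟨m, m.2, rfl⟩
    rw [← hlam m hz]
    have h1 : (⟨q m, hz⟩ : M.map q) = 1 := Subtype.ext hm
    rw [h1, map_one]
  -- the map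
  let Ψ : {φ : IrrCharacter (B.map q) // ¬ p ∣ charDegree (φ : ↥(B.map q) → ℂ) ∧
      Over (Subgroup.inclusion hZB') (φ : ↥(B.map q) → ℂ)
        (fun z => ((lam z : ℂˣ) : ℂ))} →
      {τ : IrrCharacter B // ¬ p ∣ charDegree (τ : B → ℂ) ∧
        IsOverK (M.subgroupOf B) (κ.comp (Subgroup.subgroupOfEquivOfLe hMB).toMonoidHom)
          (τ : B → ℂ)} := fun φ =>
    ⟨⟨(φ.1 : ↥(B.map q) → ℂ) ∘ qB,
      Cfsg.Agent.Lib.Char.Linear.isIrrCharacter_comp qB hqB φ.1.2⟩, by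
        show ¬ p ∣ charDegree ((φ.1 : ↥(B.map q) → ℂ) ∘ qB)
        rw [hdeg]
        exact φ.2.1, by
        intro m
        have hov : ci ((φ.1 : ↥(B.map q) → ℂ) ∘ Subgroup.inclusion hZB')
            (fun z => ((lam z : ℂˣ) : ℂ)) ≠ 0 := φ.2.2
        rw [ci_eq] at hov
        have hz : q m.1.1 ∈ M.map q := ⟨m.1.1, m.2, rfl⟩
        have h1 := Cfsg.Agent.Lib.CharTriple.Central.central_value (Subgroup.inclusion hZB')
          (fun a h => Subtype.ext (hZc a a.2 h)) φ.1.2 lam hov ⟨q m.1.1, hz⟩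
        have h2 := hlam ⟨m.1.1, m.2⟩ hz
        show (φ.1 : ↥(B.map q) → ℂ) (qB m.1) =
          ((κ ⟨m.1.1, m.2⟩ : ℂˣ) : ℂ) * (φ.1 : ↥(B.map q) → ℂ) (qB 1)
        rw [map_one, ← h2]
        exact h1⟩
  have hΨ : Function.Bijective Ψ := by
    constructor
    · intro a b hab
      apply Subtype.ext
      apply Subtype.ext
      have h1 : (a.1 : ↥(B.map q) → ℂ) ∘ qB = (b.1 : ↥(B.map q) → ℂ) ∘ qB :=
        congrArg (fun x => ((x.1 : IrrCharacter B) : B → ℂ)) hab
      exact hqB.injective_comp_right h1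
    · intro τ
      have hker' : ∀ k ∈ qB.ker, (τ.1 : B → ℂ) k = (τ.1 : B → ℂ) 1 := by
        intro k hk
        have hk1 : q k = 1 := congrArg Subtype.val (MonoidHom.mem_ker.mp hk)
        have hkM : (k : G) ∈ M := hker hk1
        have h1 := τ.2.2 ⟨k, hkM⟩
        have h2 : κ ⟨k, hkM⟩ = 1 := hκ1 _ hk1
        have h3 : ((κ.comp (Subgroup.subgroupOfEquivOfLe hMB).toMonoidHom) ⟨k, hkM⟩ : ℂˣ) = 1 := h2
        rw [h3] at h1
        simpa using h1
      obtain ⟨φ, hφ, hτφ⟩ := Cfsg.Agent.Lib.Char.Linear.isIrrCharacter_descend qB hqB τ.1.2 hker'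
      have hd : ¬ p ∣ charDegree φ := by
        have h1 := τ.2.1
        rw [hτφ, hdeg] at h1
        exact h1
      have hov : Over (Subgroup.inclusion hZB') φ (fun z => ((lam z : ℂˣ) : ℂ)) := by
        refine Cfsg.Agent.Lib.RelMcKay.Good.over_of_values hZB' hlamirr (irr_one_ne_zero hφ) ?_
        rintro ⟨z, m, hm, rfl⟩
        have h1 := τ.2.2 ⟨⟨m, hMB hm⟩, hm⟩
        have h2 := hlam ⟨m, hm⟩ ⟨m, hm, rfl⟩
        rw [hτφ] at h1
        have h3 : φ (qB 1) = φ 1 := by rw [map_one]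
        have h4 : φ (Subgroup.inclusion hZB' ⟨q m, ⟨m, hm, rfl⟩⟩) =
            ((κ ⟨m, hm⟩ : ℂˣ) : ℂ) * φ (qB 1) := h1
        rw [h4, h3, ← h2, mul_comm]
      refine ⟨⟨⟨φ, hφ⟩, hd, hov⟩, ?_⟩
      apply Subtype.ext
      apply Subtype.ext
      exact hτφ.symm
  exact (Nat.card_congr (Equiv.ofBijective Ψ hΨ)).symm

/-- Existence of the central quotient. -/
theorem exists_quot {G : Type u} [Group G] [Finite G] (M : Subgroup G) [hM : M.Normal] (κ : M →* ℂˣ)
    (hκ : KInv M κ) :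
    ∃ (G' : Type u) (_ : Group G') (_ : Finite G') (q : G →* G'), Function.Surjective q ∧
      q.ker ≤ M ∧ (∀ m : M, q m = 1 → κ m = 1) ∧ ∀ m : M, κ m = 1 → q m = 1 := by
  let U : Subgroup G := κ.ker.map M.subtype
  haveI hU : U.Normal := by
    constructor
    rintro _ ⟨m, hm, rfl⟩ g
    refine ⟨⟨g * m * g⁻¹, hM.conj_mem m m.2 g⟩, ?_, rfl⟩
    show κ _ = 1
    rw [hκ g m]
    exact hm
  refine ⟨G ⧸ U, inferInstance, inferInstance, QuotientGroup.mk' U,
    QuotientGroup.mk'_surjective U, ?_, fun m hm => ?_, fun m hm => ?_⟩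
  · rw [QuotientGroup.ker_mk']
    exact Subgroup.map_subtype_le _
  · have h1 : (m : G) ∈ U := (QuotientGroup.eq_one_iff _).mp hm
    obtain ⟨m', hm', he⟩ := h1
    have h2 : m' = m := Subtype.ext he
    rw [← h2]
    exact hm'
  · have h1 : (m : G) ∈ U := ⟨m, hm, rfl⟩
    exact (QuotientGroup.eq_one_iff _).mpr h1

/-- The theorem for an invariant linear character. -/
theorem key_abs {G : Type u} [Group G] [Finite G] (M : Subgroup G) [hM : M.Normal] (κ : M →* ℂˣ)
    (hκ : KInv M κ) {K₁ S : Subgroup G} (hMK : M ≤ K₁) (hKn : K₁.Normal) (hSp : IsPGroup p S)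
    (hSi : ¬ p ∣ S.index) (hPn : (K₁ ⊔ S).Normal) (hMi : ¬ p ∣ M.relIndex K₁)
    {B₁ B₂ : Subgroup G} (hB₁ : B₁ = ⊤) (hB₂ : B₂ = Subgroup.normalizer ((M ⊔ S : Subgroup G) : Set G))
    (hM₁ : M ≤ B₁) (hM₂ : M ≤ B₂) :
    CntK p M B₁ hM₁ κ = CntK p M B₂ hM₂ κ := by
  classical
  obtain ⟨G', _, _, q, hq, hker, h1, h2⟩ := exists_quot M κ hκ
  -- the central subgroup
  have hZc : ∀ z ∈ M.map q, ∀ g : G', z * g = g * z := by
    rintro _ ⟨m, hm, rfl⟩ g
    obtain ⟨x, rfl⟩ := hq g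
    have h3 : κ ⟨x * m * x⁻¹, hM.conj_mem m hm x⟩ = κ ⟨m, hm⟩ := hκ x ⟨m, hm⟩
    let n : M := ⟨m, hm⟩⁻¹ * ⟨x * m * x⁻¹, hM.conj_mem m hm x⟩
    have h4 : κ n = 1 := by
      simp only [n, map_mul, map_inv, h3, inv_mul_cancel]
    have h5 := h2 n h4
    have h6 : ((n : M) : G) = m⁻¹ * (x * m * x⁻¹) := rfl
    rw [h6, map_mul, map_inv, map_mul, map_mul, map_inv] at h5
    have h7 : q m * q x = q x * q m := by
      have h8 := congrArg (fun t => q m * t * q x) h5
      simp only [mul_one] at h8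
      have h9 : q m * ((q m)⁻¹ * (q x * q m * (q x)⁻¹)) * q x = q x * q m := by group
      rw [h9] at h8
      exact h8.symm
    rw [← map_mul, ← map_mul] at h7 ⊢
    exact h7
  -- the linear character
  let qM : M →* M.map q := q.subgroupMap M
  have hqM : Function.Surjective qM := q.subgroupMap_surjective M
  have hkerM : qM.ker ≤ κ.ker := by
    intro m hm
    exact h1 m (congrArg Subtype.val (MonoidHom.mem_ker.mp hm))
  let lam : M.map q →* ℂˣ := (qM.liftOfSurjective hqM) ⟨κ, hkerM⟩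
  have hlam : ∀ (m : M) (hm : q m ∈ M.map q), lam ⟨q m, hm⟩ = κ m := by
    intro m hm
    exact qM.liftOfRightInverse_comp_apply _ _ ⟨κ, hkerM⟩ m
  have hlamc : IsCharacter (M.map q) (fun z => ((lam z : ℂˣ) : ℂ)) :=
    isCharacter_of_isIrrCharacter (Cfsg.Agent.Lib.Char.Linear.isIrrCharacter_of_hom lam)
  -- the hypotheses of the central case
  have hn : ∀ (X : Subgroup G), X.Normal → (⊤ : Subgroup G') ≤ Subgroup.normalizer ((X.map q : Subgroup G') : Set G') := by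
    intro X hX y _
    haveI : (X.map q).Normal := hX.map q hq
    rw [Subgroup.normalizer_eq_top_iff.mpr this]
    trivial
  have hZ1 : M.map q ≤ K₁.map q := Subgroup.map_mono hMK
  have hSi' : ¬ p ∣ (S.map q).relIndex ⊤ := by
    rw [Subgroup.relIndex_top_right]
    exact fun h => hSi (h.trans (Subgroup.index_map_dvd S hq))
  have hPn' : (⊤ : Subgroup G') ≤ Subgroup.normalizer ((K₁.map q ⊔ S.map q : Subgroup G') : Set G') := by
    rw [← Subgroup.map_sup]
    exact hn _ hPn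
  have hZi : ¬ p ∣ (M.map q).relIndex (K₁.map q) := by
    rw [Subgroup.relIndex_map_map, sup_eq_left.mpr hker, sup_eq_left.mpr (hker.trans hMK)]
    exact hMi
  have hZY : ∀ z ∈ M.map q, ∀ y ∈ (⊤ : Subgroup G'), z * y = y * z := fun z hz y _ => hZc z hz y
  have hk : M.map q ≤ ⊤ ⊓ Subgroup.normalizer ((M.map q ⊔ S.map q : Subgroup G') : Set G') := by
    intro z hz
    refine ⟨trivial, cen_norm ?_⟩
    exact Subgroup.mem_centralizer_iff.mpr fun t _ => (hZc z hz t).symm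
  have hmain := key_central hZ1 (le_top : K₁.map q ≤ ⊤) hZY (hn _ hKn) (le_top : S.map q ≤ ⊤)
    (hSp.map q) hSi' hPn' hZi hlamc hk
  -- the identification
  have hB₁' : (⊤ : Subgroup G') = B₁.map q := by
    rw [hB₁, Subgroup.map_top_of_surjective _ hq]
  have hB₂' : ⊤ ⊓ Subgroup.normalizer ((M.map q ⊔ S.map q : Subgroup G') : Set G') = B₂.map q := by
    rw [top_inf_eq, ← Subgroup.map_sup, hB₂]
    have hker' : q.ker ≤ M ⊔ S := hker.trans le_sup_left
    have h3 := Subgroup.comap_normalizer_eq_of_surjective ((M ⊔ S).map q) hq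
    rw [Subgroup.comap_map_eq_self hker'] at h3
    rw [← h3, Subgroup.map_comap_eq_self_of_surjective hq]
  rw [card_descend q hker κ hZc lam hlam hM₁ hB₁' (hZ1.trans le_top),
    card_descend q hker κ hZc lam hlam hM₂ hB₂' hk]
  exact hmain

end Abs

end Cfsg.Agent.Lib.RelMcKay.KeyHat
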