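import Mathlib
import Cfsg.Agent.Lib.RelMcKay.KeyHat
import Cfsg.Agent.Lib.RelMcKay.Good
import Cfsg.Agent.Lib.RelMcKay.Induct2

/-!
# The key comparison
-/

set_option autoImplicit false
set_option linter.style.haveILetI false
set_option linter.unusedSectionVars false

namespace Cfsg.Agent.Lib.RelMcKay.KeyTop

open Cfsg Module Pointwise
open Cfsg.Agent.Lib.Char.Basic Cfsg.Agent.Lib.Char.Ortho Cfsg.Agent.Lib.Char.Complete
open Cfsg.Agent.Lib.Char.Conj Cfsg.Agent.Lib.Char.Degree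
open Cfsg.Agent.Lib.RelMcKay.Basic Cfsg.Agent.Lib.RelMcKay.Cliff
open Cfsg.Agent.Lib.RelMcKay.Induct Cfsg.Agent.Lib.RelMcKay.Induct2 Cfsg.Agent.Lib.RelMcKay.Count
open Cfsg.Agent.Lib.RelMcKay.KeyGroup Cfsg.Agent.Lib.RelMcKay.KeyCount
open Cfsg.Agent.Lib.RelMcKay.KeyHat Cfsg.Agent.Lib.RelMcKay.Good
open Cfsg.Agent.Lib.CharTriple.Hat Cfsg.Agent.Lib.CharTriple.Bridge
open Cfsg.Agent.Lib.Coprime.Action

universe u

variable {Γ : Type u} [Group Γ] [Finite Γ] {N : Subgroup Γ} {hN : N.Normal} {d : ℕ}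
  {X : Representation ℂ N (Fin d → ℂ)} {p : ℕ} [hp : Fact p.Prime]

/-- The conversion to the central extension. -/
theorem cnt_eq_hat {A : Subgroup Γ} (hNA : N ≤ A) (hX : X.IsIrreducible)
    (hinv : ∀ g : Γ, conjOn hN g X.character = X.character) (hd : ¬ p ∣ d) :
    Cnt p A N hNA X.character =
      CntK p (NHat hN X) (GHat A hN X) (Subgroup.comap_mono hNA) ((kap hN X hX)⁻¹) := by
  classical
  obtain ⟨Φ, hΦ⟩ := irr_equiv hNA hX hinv
  have hdeg : ∀ χ, charDegree ((χ.1 : IrrCharacter A) : A → ℂ) =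
      charDegree (((Φ χ).1 : IrrCharacter (GHat A hN X)) : GHat A hN X → ℂ) * d := by
    intro χ
    have h1 := hΦ χ 1
    have h2 : (⟨pH hN X ((1 : GHat A hN X) : Hat hN X), (1 : GHat A hN X).2⟩ : A) = 1 := by
      apply Subtype.ext
      simp
    rw [h2] at h1
    have h3 : LinearMap.trace ℂ (Fin d → ℂ) (opH hN X ((1 : GHat A hN X) : Hat hN X)) = d := by
      have h4 : opH hN X ((1 : GHat A hN X) : Hat hN X) = 1 := by
        rw [Subgroup.coe_one, map_one]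
      rw [h4]
      simp
    rw [h3] at h1
    have h5 := charDegree_natCast (isCharacter_of_isIrrCharacter χ.1.2)
    have h6 := charDegree_natCast (isCharacter_of_isIrrCharacter (Φ χ).1.2)
    rw [← h5, ← h6] at h1
    exact_mod_cast h1
  have hiff : ∀ χ, ¬ p ∣ charDegree ((χ.1 : IrrCharacter A) : A → ℂ) ↔
      ¬ p ∣ charDegree (((Φ χ).1 : IrrCharacter (GHat A hN X)) : GHat A hN X → ℂ) := by
    intro χ
    rw [hdeg, hp.out.dvd_mul]
    tauto
  unfold Cnt CntK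
  apply Nat.card_congr
  refine ⟨fun c => ⟨(Φ ⟨c.1, c.2.2⟩).1, (hiff _).mp c.2.1, (Φ ⟨c.1, c.2.2⟩).2⟩,
    fun c => ⟨(Φ.symm ⟨c.1, c.2.2⟩).1, (hiff _).mpr (by simpa using c.2.1),
      (Φ.symm ⟨c.1, c.2.2⟩).2⟩, ?_, ?_⟩
  · intro c
    apply Subtype.ext
    have h : Φ.symm (Φ ⟨c.1, c.2.2⟩) = ⟨c.1, c.2.2⟩ := Φ.symm_apply_apply _
    have h2 := congrArg Subtype.val h
    exact h2
  · intro c
    apply Subtype.ext
    have h : Φ (Φ.symm ⟨c.1, c.2.2⟩) = ⟨c.1, c.2.2⟩ := Φ.apply_symm_apply _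
    have h2 := congrArg Subtype.val h
    exact h2

/-- The count vanishes when the degree is divisible by `p`. -/
theorem cnt_zero {A : Subgroup Γ} (hNA : N ≤ A) (hn : A ≤ Subgroup.normalizer (N : Set Γ))
    (hX : X.IsIrreducible) (hd : p ∣ d) : Cnt p A N hNA X.character = 0 := by
  classical
  have hθ : IsIrrCharacter N X.character := ⟨d, X, hX, rfl⟩
  have hdX : charDegree X.character = d := by
    have h1 : IsCharacter N X.character := ⟨d, X, rfl⟩
    have h2 := charDegree_natCast h1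
    rw [Cfsg.Agent.Lib.CharDeep.Det.deg_eq] at h2
    exact_mod_cast h2
  haveI := finite_irrCharacter (G := A)
  unfold Cnt
  rw [Nat.card_eq_zero]
  left
  constructor
  rintro ⟨χ, h1, h2⟩
  obtain ⟨k, -, hk⟩ := deg_of_over hNA hn χ.2 hθ h2
  apply h1
  rw [hk, hdX]
  exact Dvd.dvd.mul_left hd _

/-- A `p`-power index and a `p'`-index. -/
theorem sup_eq_of_index {G : Type*} [Group G] [Finite G] {M Q P : Subgroup G} (hMP : M ≤ P) (hQP : Q ≤ P)
    (h₁ : ∃ j, M.relIndex P = p ^ j) (h₂ : ¬ p ∣ Q.relIndex P) : M ⊔ Q = P := by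
  obtain ⟨j, hj⟩ := h₁
  have h3 : (M ⊔ Q).relIndex P ∣ M.relIndex P := Subgroup.relIndex_dvd_of_le_left P le_sup_left
  have h4 : (M ⊔ Q).relIndex P ∣ Q.relIndex P := Subgroup.relIndex_dvd_of_le_left P le_sup_right
  rw [hj] at h3
  obtain ⟨i, -, hi⟩ := (Nat.dvd_prime_pow hp.out).mp h3
  have hi0 : i = 0 := by
    by_contra hne
    apply h₂
    refine dvd_trans ?_ h4
    rw [hi]
    exact dvd_pow_self p hne
  rw [hi0, pow_zero] at hi
  apply le_antisymm (sup_le hMP hQP)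
  exact Subgroup.relIndex_eq_one.mp hi

/-- **The key comparison for a normal subgroup.** -/
theorem key_top (hX : X.IsIrreducible) (hinv : ∀ g : Γ, conjOn hN g X.character = X.character)
    {K₁ S : Subgroup Γ} (hNK : N ≤ K₁) (hKn : K₁.Normal) (hSp : IsPGroup p S) (hSi : ¬ p ∣ S.index)
    (hPn : (K₁ ⊔ S).Normal) (hMi : ¬ p ∣ N.relIndex K₁)
    (hk : N ≤ Subgroup.normalizer ((N ⊔ S : Subgroup Γ) : Set Γ)) :
    Cnt p ⊤ N le_top X.character =
      Cnt p (Subgroup.normalizer ((N ⊔ S : Subgroup Γ) : Set Γ)) N hk X.character := by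
  classical
  haveI := hN
  have hnN : ∀ A : Subgroup Γ, A ≤ Subgroup.normalizer (N : Set Γ) := by
    intro A x _
    rw [Subgroup.normalizer_eq_top_iff.mpr hN]
    trivial
  by_cases hd : p ∣ d
  · rw [cnt_zero le_top (hnN _) hX hd, cnt_zero hk (hnN _) hX hd]
  rw [cnt_eq_hat le_top hX hinv hd, cnt_eq_hat hk hX hinv hd]
  haveI := finite_Hat (hN := hN) hX
  have hsurj := pH_surjective hX hinv
  -- the Sylow subgroup
  set Phat : Subgroup (Hat hN X) := (N ⊔ S).comap (pH hN X) with hPhat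
  obtain ⟨Q₀⟩ : Nonempty (Sylow p Phat) := inferInstance
  have hQ := isSylowIn_map Q₀
  set Q := (Q₀ : Subgroup Phat).map Phat.subtype with hQdef
  have hMPle : NHat hN X ≤ Phat := Subgroup.comap_mono le_sup_left
  have hrel : (NHat hN X).relIndex Phat = N.relIndex (N ⊔ S) :=
    Cfsg.Agent.Lib.CharTriple.Main.relIndex_comap_eq hX hinv le_sup_left
  have hpow : ∃ j, (NHat hN X).relIndex Phat = p ^ j := by
    rw [hrel, Subgroup.relIndex_sup_left]
    obtain ⟨n, hn⟩ := IsPGroup.iff_card.mp hSp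
    have h1 : N.relIndex S ∣ Nat.card S := Subgroup.relIndex_dvd_card N S
    rw [hn] at h1
    obtain ⟨i, -, hi⟩ := (Nat.dvd_prime_pow hp.out).mp h1
    exact ⟨i, hi⟩
  have hMQ : NHat hN X ⊔ Q = Phat := sup_eq_of_index hMPle hQ.1 hpow hQ.2.2
  have hQi : ¬ p ∣ Q.index := by
    rw [← Subgroup.relIndex_mul_index hQ.1, hp.out.dvd_mul]
    rintro (h | h)
    · exact hQ.2.2 h
    · rw [hPhat, Subgroup.index_comap_of_surjective _ hsurj] at h
      exact hSi (h.trans (Subgroup.index_dvd_of_le le_sup_right))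
  have hKS : K₁.comap (pH hN X) ⊔ Q = (K₁ ⊔ S).comap (pH hN X) := by
    apply le_antisymm
    · refine sup_le (Subgroup.comap_mono le_sup_left) (hQ.1.trans (Subgroup.comap_mono ?_))
      exact sup_le (hNK.trans le_sup_left) le_sup_right
    · intro x hx
      have hSn : S ≤ Subgroup.normalizer (K₁ : Set Γ) := by
        intro s _
        rw [Subgroup.normalizer_eq_top_iff.mpr hKn]
        trivial
      obtain ⟨k, hk', s, hs, he⟩ := exists_mul_of_mem_sup (K := K₁) (A := S) hSn hx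
      obtain ⟨y, hy⟩ := hsurj s
      have hyP : y ∈ Phat := by
        show pH hN X y ∈ N ⊔ S
        rw [hy]
        exact Subgroup.mem_sup_right hs
      have h1 : x * y⁻¹ ∈ K₁.comap (pH hN X) := by
        show pH hN X (x * y⁻¹) ∈ K₁
        rw [map_mul, map_inv, hy, he]
        simpa using hk'
      have h2 : x = x * y⁻¹ * y := by group
      rw [h2]
      refine Subgroup.mul_mem _ (Subgroup.mem_sup_left h1) ?_
      rw [← hMQ] at hyP
      have hle : NHat hN X ⊔ Q ≤ K₁.comap (pH hN X) ⊔ Q :=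
        sup_le ((Subgroup.comap_mono hNK).trans le_sup_left) le_sup_right
      exact hle hyP
  have hκ : KInv (NHat hN X) ((kap hN X hX)⁻¹) := by
    intro g m
    rw [MonoidHom.inv_apply, MonoidHom.inv_apply]
    congr 1
    exact kap_conj hX g m
  refine key_abs (NHat hN X) ((kap hN X hX)⁻¹) hκ (K₁ := K₁.comap (pH hN X)) (S := Q)
    (Subgroup.comap_mono hNK) (hKn.comap _) hQ.2.1 hQi ?_ ?_ (Subgroup.comap_top _) ?_ _ _
  · rw [hKS]
    exact hPn.comap _
  · rw [Cfsg.Agent.Lib.CharTriple.Main.relIndex_comap_eq hX hinv hNK]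
    exact hMi
  · rw [hMQ]
    exact Subgroup.comap_normalizer_eq_of_surjective (N ⊔ S) hsurj

/-- Transfer to the ambient group. -/
theorem Cnt_subgroupOf {Y Q K : Subgroup Γ} (hQY : Q ≤ Y) (hKQ : K ≤ Q) {Q' K' : Subgroup Y}
    (hQ' : Q' = Q.subgroupOf Y) (hK' : K' = K.subgroupOf Y) (h' : K' ≤ Q') (θ : K → ℂ) {θ' : K' → ℂ}
    (hθ' : ∀ (k : K') (hk : ((k : Y) : Γ) ∈ K), θ' k = θ ⟨k, hk⟩) :
    Cnt p Q K hKQ θ = Cnt p Q' K' h' θ' := by
  classical
  subst hQ' hK'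
  letI : Fintype K := Fintype.ofFinite K
  letI : Fintype ↥(K.subgroupOf Y) := Fintype.ofFinite _
  have hθe : θ' = θ ∘ ee (hKQ.trans hQY) := by
    funext k
    exact hθ' k k.2
  let eQ := ee hQY
  have hover : ∀ χ : Q → ℂ, Over (Subgroup.inclusion hKQ) χ θ ↔
      Over (Subgroup.inclusion h') (χ ∘ eQ) θ' := by
    intro χ
    unfold Over
    rw [ci_eq, ci_eq, hθe]
    have h1 : (χ ∘ eQ) ∘ Subgroup.inclusion h' =
        (χ ∘ Subgroup.inclusion hKQ) ∘ ee (hKQ.trans hQY) := by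
      funext k
      rfl
    rw [h1, classInner_comp_mulEquiv]
  have hdeg : ∀ χ : Q → ℂ, charDegree (χ ∘ eQ) = charDegree χ := by
    intro χ
    unfold charDegree
    simp
  unfold Cnt
  apply Nat.card_congr
  refine ⟨fun c => ⟨⟨c.1.1 ∘ eQ, isIrrCharacter_comp_mulEquiv eQ c.1.2⟩, ?_, ?_⟩,
    fun c => ⟨⟨c.1.1 ∘ eQ.symm, isIrrCharacter_comp_mulEquiv eQ.symm c.1.2⟩, ?_, ?_⟩, ?_, ?_⟩
  · show ¬ p ∣ charDegree (c.1.1 ∘ eQ)
    rw [hdeg]
    exact c.2.1
  · exact (hover _).mp c.2.2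
  · show ¬ p ∣ charDegree (c.1.1 ∘ eQ.symm)
    rw [← hdeg]
    have h1 : c.1.1 ∘ eQ.symm ∘ eQ = c.1.1 := by
      funext x
      simp
    show ¬ p ∣ charDegree (c.1.1 ∘ eQ.symm ∘ eQ)
    rw [h1]
    exact c.2.1
  · rw [hover]
    have h1 : c.1.1 ∘ eQ.symm ∘ eQ = c.1.1 := by
      funext x
      simp
    show Over _ (c.1.1 ∘ eQ.symm ∘ eQ) θ'
    rw [h1]
    exact c.2.2
  · intro c
    apply Subtype.ext
    apply Subtype.ext
    funext x
    simp
  · intro c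
    apply Subtype.ext
    apply Subtype.ext
    funext x
    simp

/-- **The key statement.** -/
theorem keyStmt : KeyStmt p Γ := by
  classical
  intro Y K₀ K₁ S h₀ h₁ hnK₀ hnK₁ hSY hSp hSi hnP hi θ hθ hinv hk
  have hK₀Y : K₀ ≤ Y := h₀.trans h₁
  have hNn : (K₀.subgroupOf Y).Normal := normal_of_le hK₀Y hnK₀
  obtain ⟨d, X, hX, hXe⟩ := isIrr_ee hK₀Y hθ
  have hinv' : ∀ g : Y, conjOn hNn g X.character = X.character := by
    rw [hXe]
    intro g
    have h2 := (cj_iff hK₀Y hNn g⁻¹ θ θ).mp (hinv _ (Y.inv_mem g.2))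
    simpa using h2
  have hsup : (K₁.subgroupOf Y ⊔ S.subgroupOf Y) = (K₁ ⊔ S).subgroupOf Y :=
    (Subgroup.subgroupOf_sup h₁ hSY).symm
  have hsup₀ : (K₀.subgroupOf Y ⊔ S.subgroupOf Y) = (K₀ ⊔ S).subgroupOf Y :=
    (Subgroup.subgroupOf_sup hK₀Y hSY).symm
  have hPn : (K₁.subgroupOf Y ⊔ S.subgroupOf Y).Normal := by
    rw [hsup]
    exact normal_of_le (sup_le h₁ hSY) hnP
  have hKn : (K₁.subgroupOf Y).Normal := normal_of_le h₁ hnK₁
  have hSp' : IsPGroup p (S.subgroupOf Y) := hSp.comap_subtype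
  have hMi : ¬ p ∣ (K₀.subgroupOf Y).relIndex (K₁.subgroupOf Y) := by
    rw [Subgroup.relIndex_subgroupOf h₁]
    exact hi
  have hk' : K₀.subgroupOf Y ≤
      Subgroup.normalizer ((K₀.subgroupOf Y ⊔ S.subgroupOf Y : Subgroup Y) : Set Y) := by
    rw [hsup₀, ← Subgroup.subgroupOf_normalizer_eq (sup_le hK₀Y hSY)]
    intro x hx
    exact (hk hx).2
  have hle₀ : K₀.subgroupOf Y ≤ K₁.subgroupOf Y := fun x hx => h₀ hx
  have hmain := key_top (hN := hNn) hX hinv' hle₀ hKn hSp' hSi hPn hMi hk'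
  have e₁ : Cnt p Y K₀ (h₀.trans h₁) θ = Cnt p ⊤ (K₀.subgroupOf Y) le_top X.character := by
    refine Cnt_subgroupOf le_rfl (h₀.trans h₁) (Subgroup.subgroupOf_self Y).symm rfl le_top θ ?_
    intro k hk₀
    rw [hXe]
    rfl
  have e₂ : Cnt p (Y ⊓ Subgroup.normalizer ((K₀ ⊔ S : Subgroup Γ) : Set Γ)) K₀ hk θ =
      Cnt p (Subgroup.normalizer ((K₀.subgroupOf Y ⊔ S.subgroupOf Y : Subgroup Y) : Set Y))
        (K₀.subgroupOf Y) hk' X.character := by
    refine Cnt_subgroupOf inf_le_left hk ?_ rfl hk' θ ?_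
    · rw [hsup₀, ← Subgroup.subgroupOf_normalizer_eq (sup_le hK₀Y hSY)]
      ext x
      exact ⟨fun h => ⟨x.2, h⟩, fun h => h.2⟩
    · intro k hk₀
      rw [hXe]
      rfl
  rw [e₁, e₂]
  exact hmain

end Cfsg.Agent.Lib.RelMcKay.KeyTop
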